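import Cfsg.Agent.Lib.Her.Quad

/-!
# S4841, step 2: an element of order three acting non-trivially on a `2`-group gives a weakly closed `Q_t`
-/

set_option autoImplicit false
set_option linter.unusedSectionVars false
set_option linter.unusedSimpArgs false

namespace Her

open Cfsg GT FT GW Subgroup MulAction
open scoped Pointwise commutatorElement

universe u

variable {L V : Type u} [Group L] [Finite L] [AddCommGroup V] [Finite V] [DistribMulAction L V]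

namespace Wk
variable (h : Wk L V)
include h

theorem Nn_comm {x y : L} (e : x * y = y * x) : Nn V x * Nn V y = Nn V y * Nn V x :=
  add_left_cancel (a := Nn V x + Nn V y) (by rw [← h.Nn_mul', e, h.Nn_mul', add_comm (Nn V x)])

/-- two elements of order three that agree on a vector fixed by `a` and `a'` -/
theorem agree {ρ r a a' : L} (hρ : orderOf ρ = 3) (hr : orderOf r = 3) (ha : (ρ * a) ^ 3 = 1) (ha' : (r * a') ^ 3 = 1)
    (n : ∀ v ∈ Wv V a, ρ • v ∈ Wv V a) (n' : ∀ v ∈ Wv V a', r • v ∈ Wv V a') {v : V} (h0 : v ≠ 0) (hv : v ∈ Wv V a)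
    (hv' : v ∈ Wv V a') (e : ρ • v = r • v) : Nn V a * Nn V a' = 0 := by
  let U : AddSubgroup V := Wv V a ⊓ Wv V a' ⊓ Wv V (ρ⁻¹ * r)
  have hU : ∀ v, v ∈ U ↔ (v ∈ Wv V a ∧ v ∈ Wv V a') ∧ ρ • v = r • v := fun v => by
    simp only [U, AddSubgroup.mem_inf, mem_Wv, mul_smul, inv_smul_eq_iff, eq_comm (a := r • v)]
  have hE := h.isPGroup_Cn (W := U) fun e' => h0 (AddSubgroup.mem_bot.1 (e' ▸ (hU v).2 ⟨⟨hv, hv'⟩, e⟩))
  have h1 : ∀ v ∈ U, ρ • v ∈ U := fun v hv => by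
    obtain ⟨⟨h1, h2⟩, h3⟩ := (hU v).1 hv
    refine (hU _).2 ⟨⟨n v h1, h3 ▸ n' v h2⟩, ?_⟩
    have h4 : ρ • ρ • v = ρ • v + v := DFunLike.congr_fun (h.rho hρ) v
    have h5 : r • r • v = r • v + v := DFunLike.congr_fun (h.rho hr) v
    rw [h4, h3, h5]
  have hn : ρ ∈ 𝐍(Cn L U) := by
    refine mem_normalizer_fintype fun x hx v hv => ?_
    have h3 : ρ⁻¹ = ρ * ρ := inv_eq_of_mul_eq_one_right (by rw [← pow_three, ← hρ, pow_orderOf_eq_one])
    rw [mul_smul, mul_smul, hx _ (by rw [h3, mul_smul]; exact h1 _ (h1 _ hv)), smul_inv_smul]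
  obtain ⟨S, hS⟩ := h.exists_S hρ hE hn
  have h2 : ρ⁻¹ * r ∈ Cn L U := fun v hv => hv.2
  have h3 : a' ∈ Cn L U := fun v hv => hv.1.2
  have h4 := (hS a').1 ((mul_mem_cancel_left ((hS _).2 ⟨h2, by
    rw [mul_inv_cancel_left, ← hr, pow_orderOf_eq_one]⟩)).1 ((hS _).2 ⟨mul_mem h2 h3, by
    rwa [mul_assoc, mul_inv_cancel_left]⟩))
  exact h.pair_Nn hρ hE hn (fun v hv => hv.1.1) ha h4.1 h4.2

theorem wc_of {ρ a : L} (hρ : orderOf ρ = 3) (ha : Inv a) (h3 : Nn V a * en V ρ = en V ρ * en V ρ * Nn V a) :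
    4 ≤ Nat.card (Qv V a) ∧ WC (Qv V a) := by
  have h2 := h.add_self
  have nW : ∀ {ρ a : L}, Nn V a * en V ρ = en V ρ * en V ρ * Nn V a → ∀ v ∈ Wv V a, ρ • v ∈ Wv V a :=
    fun {ρ a} e v hv => h.mem_Wv_iff.2 ((DFunLike.congr_fun e v).trans (by
      rw [mul_app, h.mem_Wv_iff.1 hv, map_zero]))
  have m1 : ρ * a * ρ⁻¹ ∈ Qv V a := (mem_normalizer_iff.1 ((h.mem_norm_Qv ha).2 (nW h3)) _).1 (self_mem_Qv a)
  have hr := h.rho hρ
  have n1 := h.Nn_rho hρ h3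
  rw [hr] at n1
  constructor
  · obtain ⟨k, hk⟩ := (h.isPGroup_Qv ha).exists_card_eq
    have h4 : 2 < Nat.card (Qv V a) := by
      rw [← SetLike.coe_sort_coe, Nat.card_coe_set_eq, Set.two_lt_ncard]
      refine ⟨1, one_mem _, a, self_mem_Qv a, _, m1, ha.ne.symm, fun e => ha.ne (by simpa using e.symm), fun e => ?_⟩
      rw [← e, add_mul, one_mul, eq_comm, add_eq_right, (isUnit_en ρ).mul_right_eq_zero, h.Nn_eq_zero] at n1
      exact ha.ne n1
    rw [hk] at h4 ⊢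
    exact Nat.pow_le_pow_right two_pos (show 2 ≤ k by
      by_contra h5
      have := Nat.pow_le_pow_right two_pos (show k ≤ 1 by omega)
      omega)
  intro g hg
  rw [conj_Qv] at hg ⊢
  have ha' := ha.conj g
  have hρ' : orderOf (g * ρ * g⁻¹) = 3 := by rw [FT.orderOf_conj', hρ]
  have h3' : Nn V (g * a * g⁻¹) * en V (g * ρ * g⁻¹) =
      en V (g * ρ * g⁻¹) * en V (g * ρ * g⁻¹) * Nn V (g * a * g⁻¹) := by
    have e : en V g⁻¹ * en V g = 1 := by rw [← map_mul, inv_mul_cancel, map_one]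
    rw [h.Nn_conj]
    simp only [map_mul, mul_assoc, mul_of_eq e, mul_of_eq h3, one_mul]
  generalize g * a * g⁻¹ = a' at *
  generalize g * ρ * g⁻¹ = ρ' at *
  have m2 : ρ' * a' * ρ'⁻¹ ∈ Qv V a' := (mem_normalizer_iff.1 ((h.mem_norm_Qv ha').2 (nW h3')) _).1 (self_mem_Qv a')
  have hr' := h.rho hρ'
  have n2 := h.Nn_rho hρ' h3'
  rw [hr'] at n2
  refine (h.Qv_eq ha' ((h.mem_Qv_iff_Nn ha').2 ?_) ha.ne).symm
  have c0 := h.Nn_comm (hg (self_mem_Qv a') a (self_mem_Qv a))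
  have c1 := h.Nn_comm (hg (self_mem_Qv a') _ m1)
  have c2 := h.Nn_comm (hg m2 a (self_mem_Qv a))
  have c3 := h.Nn_comm (hg m2 _ m1)
  rw [n1] at c1 c3
  rw [n2] at c2 c3
  simp only [add_mul, mul_add, one_mul, mul_assoc, ← c0, add_left_inj] at c1 c2
  simp only [add_mul, mul_add, one_mul, mul_assoc, ← c0, ← c1, c2] at c3
  have c4 : en V ρ * (en V ρ' * (Nn V a * Nn V a')) = en V ρ' * (en V ρ * (Nn V a * Nn V a')) := by
    rw [← add_left_inj, ← add_left_inj, ← add_left_inj, add_assoc (_ + _), c3]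
    abel
  by_contra h0
  obtain ⟨v, hv⟩ := DFunLike.ne_iff.1 h0
  have w1 : (Nn V a * Nn V a') v ∈ Wv V a := h.Nn_mem ha.sq _
  have w2 : (Nn V a * Nn V a') v ∈ Wv V a' := c0 ▸ h.Nn_mem ha'.sq _
  have w3 : ρ • (Nn V a * Nn V a') v ∈ Wv V a' := by
    have := h.Nn_mem ha'.sq ((en V ρ * Nn V a) v)
    rwa [← mul_app, ← c1] at this
  have w4 : ρ' • (Nn V a * Nn V a') v ∈ Wv V a := by
    have := h.Nn_mem ha.sq ((en V ρ' * Nn V a') v)
    rwa [← mul_app, c2] at this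
  have c5 : ρ • ρ' • (Nn V a * Nn V a') v = ρ' • ρ • (Nn V a * Nn V a') v := DFunLike.congr_fun c4 v
  generalize (Nn V a * Nn V a') v = u at *
  have r1 : ∀ v : V, ρ • ρ • v = ρ • v + v := fun v => DFunLike.congr_fun hr v
  have r2 : ∀ v : V, ρ' • ρ' • v = ρ' • v + v := fun v => DFunLike.congr_fun hr' v
  by_cases e : ρ • u = ρ'⁻¹ • u
  · refine h0 (h.agree hρ (by rwa [orderOf_inv]) (h.cube_of hρ ha.sq h3) ?_ (nW h3) (fun v hv => ?_) hv w1 w2 e)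
    · rw [← inv_eq_of_mul_eq_one_right ha'.sq, ← mul_inv_rev, inv_pow, inv_eq_one,
        show a' * ρ' = ρ'⁻¹ * (ρ' * a') * ρ'⁻¹⁻¹ by group, conj_pow, h.cube_of hρ' ha'.sq h3']
      group
    · rw [show ρ'⁻¹ • v = ρ' • v + v from DFunLike.congr_fun (h.rho_inv hρ') v]
      exact add_mem (nW h3' v hv) hv
  · rw [show ρ'⁻¹ • u = ρ' • u + u from DFunLike.congr_fun (h.rho_inv hρ') u, ← add_eq_zero_iff' h.exp] at e
    refine h0 (h.agree hρ hρ' (h.cube_of hρ ha.sq h3) (h.cube_of hρ' ha'.sq h3') (nW h3) (nW h3') e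
      (add_mem (nW h3 u w1) (add_mem w4 w1)) (add_mem w3 (add_mem (nW h3' u w2) w2)) ?_)
    rw [smul_add, smul_add, smul_add, smul_add, r1, r2, c5, ← add_eq_zero_iff' h.exp]
    abel_nf
    simp only [two_smul, h.exp, add_zero, two_zsmul]

/-- step 2 -/
theorem a4 (hA : ¬ NoA4 L) : ∃ t : L, Inv t ∧ 4 ≤ Nat.card (Qv V t) ∧ WC (Qv V t) := by
  simp only [NoA4, not_forall] at hA
  obtain ⟨ρ, hρ, E, hE, hn, hc⟩ := hA
  obtain ⟨a, ha, h1⟩ := (⁅E, zpowers ρ⁆).bot_or_exists_ne_one.resolve_left fun e =>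
    hc (commutator_eq_bot_iff_le_centralizer.1 ((commutator_comm _ _).trans e) (mem_zpowers ρ))
  obtain ⟨h2, -, h3⟩ := h.f1 hρ hE hn ha h1
  exact ⟨a, h2, h.wc_of hρ h2 h3⟩

end Wk

end Her
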