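import Mathlib.Tactic
import Mathlib.Data.Nat.Prime.Basic

/-!
# The numerical analysis for transitive groups in the class `𝓗`
-/

set_option autoImplicit false

namespace Her

theorem num_bound {p q e m N D a : ℕ} (hq : 1 < q) (he : e ∣ 2) (h1 : 2 * m ∣ q - 1)
    (hD : 1 ≤ D) (h2 : e * m * N = (q ^ D - 1) * p ^ a) :
    q ^ (D - 1) * p ^ a ≤ N ∧ 2 * (q ^ D - 1) ∣ e * (q - 1) * N ∧ 2 * m < q := by
  obtain ⟨q, rfl⟩ := Nat.exists_eq_add_of_le' hq.le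
  obtain ⟨D, rfl⟩ := Nat.exists_eq_add_of_le' hD
  have h3 := Nat.le_of_dvd (by omega) h1
  obtain ⟨t, ht⟩ := h1
  have h4 := Nat.le_of_dvd two_pos he
  simp only [Nat.add_sub_cancel] at ht h3 ⊢
  refine ⟨Nat.le_of_mul_le_mul_left (c := q) ?_ (by omega), ⟨t * p ^ a, ?_⟩, by omega⟩
  · have h5 : q * (q + 1) ^ D ≤ (q + 1) ^ (D + 1) - 1 := by
      have := Nat.one_le_pow D (q + 1) q.succ_pos
      rw [pow_succ, mul_comm, Nat.mul_succ]
      omega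
    calc _ ≤ ((q + 1) ^ (D + 1) - 1) * p ^ a := by rw [← mul_assoc]; gcongr
      _ = e * m * N := h2.symm
      _ ≤ _ := by gcongr; nlinarith
  · generalize (q + 1) ^ (D + 1) - 1 = x at h2
    rw [ht]
    linear_combination 2 * t * h2

theorem num_cube (k : ℕ) : (2 * k + 24) ^ 3 < 3 ^ (k + 10) := by
  induction k with
  | zero => norm_num
  | succ k ih =>
    rw [add_right_comm, pow_succ 3]
    nlinarith [Nat.zero_le (k ^ 3), Nat.zero_le (k ^ 2)]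

set_option synthInstance.maxSize 100000 in
set_option synthInstance.maxHeartbeats 2000000 in
theorem num_psl_fin : ∀ r ∈ [5, 7, 11, 13, 17, 19], ∀ e ∈ [1, 2], ∀ D < 10, ∀ q < 121,
    (r - 1) / 2 ≤ D ∧ 1 < q ∧ 2 * (q ^ D - 1) ∣ e * (q - 1) * (r * (r ^ 2 - 1)) → ∀ p < 121, ∀ c < 5,
      q = p ^ c ∧ p ∉ [2, 4, 9, 39, 119, r] → ∀ m < 61, 2 * m ∣ q - 1 ∧
        m.gcd (r * (r ^ 2 - 1)) = 1 → ∀ a < 9, e * m * (r * (r ^ 2 - 1)) = (q ^ D - 1) * p ^ a →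
    (r = 5 ∧ p = 3 ∧ e = 2 ∧ m = 1) ∨ e = 1 ∧ ((r = 13 ∧ p = 3 ∧ m = 1) ∨ (r = 5 ∧ p = 11 ∧ m = 1) ∨
      (r = 5 ∧ p = 29 ∧ m = 7) ∨ (r = 5 ∧ p = 59 ∧ m = 29)) := by
  decide +kernel

theorem num_psl {p r e m q c D a : ℕ} (hp : p.Prime) (hp2 : p ≠ 2) (hr : r.Prime) (h5 : 5 ≤ r)
    (hrp : r ≠ p) (he : e ∣ 2) (hm : m.Coprime (r * (r ^ 2 - 1))) (hq : q = p ^ c)
    (h1 : 2 * m ∣ q - 1) (hD : (r - 1) / 2 ≤ D)
    (h2 : e * m * (r * (r ^ 2 - 1)) = (q ^ D - 1) * p ^ a) :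
    (r = 5 ∧ p = 3 ∧ e = 2 ∧ m = 1) ∨ e = 1 ∧ ((r = 13 ∧ p = 3 ∧ m = 1) ∨ (r = 5 ∧ p = 11 ∧ m = 1) ∨
      (r = 5 ∧ p = 29 ∧ m = 7) ∨ (r = 5 ∧ p = 59 ∧ m = 29)) := by
  have h3 : 3 ≤ p := by have := hp.two_le; omega
  have h4 : 24 ≤ r ^ 2 - 1 := Nat.le_sub_one_of_lt (by nlinarith)
  have h6 : 120 ≤ r * (r ^ 2 - 1) := Nat.mul_le_mul h5 h4
  have hc : c ≠ 0 := by
    rintro rfl
    have h7 : e ≠ 0 := by rintro rfl; simp at he
    simp only [hq, pow_zero, one_pow, Nat.sub_self, zero_mul, mul_eq_zero (a := e * m),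
      mul_eq_zero (a := e)] at h2
    rcases h2 with (h | rfl) | h
    exacts [h7 h, by rw [Nat.coprime_zero_left] at hm; omega, by omega]
  have h7 : p ≤ q := hq ▸ Nat.le_self_pow hc p
  obtain ⟨h8, h9, h10⟩ := num_bound (by omega) he h1 (by omega) h2
  have h11 : ∀ {x k n : ℕ}, 3 ≤ x → x ^ k < 3 ^ n → k < n := fun hx h =>
    (Nat.pow_lt_pow_iff_right (by norm_num)).1 ((Nat.pow_le_pow_left hx _).trans_lt h)
  have h12 := (Nat.le_mul_of_pos_right _ (pow_pos hp.pos a)).trans h8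
  have h13 : r < 23 := by
    by_contra! h
    have h14 := num_cube ((r - 23) / 2)
    have h15 : r * (r ^ 2 - 1) ≤ (2 * ((r - 23) / 2) + 24) ^ 3 :=
      (Nat.mul_le_mul_left r (Nat.sub_le _ 1)).trans (by
        rw [← pow_succ']; exact Nat.pow_le_pow_left (by omega) 3)
    have := h11 (h3.trans h7) (h12.trans_lt (h15.trans_lt h14))
    omega
  have h14 : r ∈ [5, 7, 11, 13, 17, 19] := by interval_cases r <;> first | decide | norm_num at hr
  have h15 : r * (r ^ 2 - 1) ≤ 6840 := by revert h14; clear * -; revert r; decide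
  have h16 : q < 121 := by
    rcases h5.eq_or_lt with rfl | h
    · exact ((Nat.le_self_pow (by omega) q).trans h12).trans_lt (by norm_num)
    · have := (Nat.pow_le_pow_right (by omega) (show 2 ≤ D - 1 by
        obtain ⟨k, rfl⟩ := hr.odd_of_ne_two (by omega); omega)).trans h12
      nlinarith
  refine num_psl_fin r h14 e ?_ D ?_ q h16 ⟨hD, by omega, h9⟩ p (by omega) c
    (h11 h3 (hq ▸ h16.trans (by norm_num))) ⟨hq, ?_⟩ m (by omega) ⟨h1, hm⟩ a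
    (h11 h3 (((Nat.le_mul_of_pos_left _ (pow_pos (by omega) _)).trans (h8.trans h15)).trans_lt
      (by norm_num))) h2
  · simpa using (Nat.dvd_prime Nat.prime_two).1 he
  · have := h11 (n := 9) (h3.trans h7) ((h12.trans h15).trans_lt (by norm_num))
    omega
  · simp only [List.mem_cons, List.not_mem_nil, or_false]
    rintro (rfl | rfl | rfl | rfl | rfl | rfl) <;> contradiction

set_option synthInstance.maxSize 2000 in
theorem num_a7_fin : ∀ e ∈ [1, 2], ∀ c < 8, ∀ D < 9, 2 ≤ D → 0 < c →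
    2 * ((3 ^ c) ^ D - 1) ∣ e * (3 ^ c - 1) * 5040 → ∀ m ≤ 3 ^ c, 2 * m ∣ 3 ^ c - 1 →
      m.gcd 5040 = 1 → ∀ a < 8, e * m * 5040 ≠ ((3 ^ c) ^ D - 1) * 3 ^ a := by
  decide +kernel

theorem num_a7 {e m q c D a : ℕ} (he : e ∣ 2) (hm : m.Coprime 5040) (hq : q = 3 ^ c)
    (h1 : 2 * m ∣ q - 1) (hD : 2 ≤ D) (h2 : e * m * 5040 = (q ^ D - 1) * 3 ^ a) : False := by
  subst hq
  have hc : c ≠ 0 := by
    rintro rfl
    have h7 : e ≠ 0 := by rintro rfl; simp at he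
    have h8 : m ≠ 0 := by rintro rfl; simp at hm
    simp [h7, h8] at h2
  obtain ⟨h8, h9, h10⟩ := num_bound (Nat.one_lt_pow hc (by norm_num)) he h1 (by omega) h2
  rw [← pow_mul, ← pow_add] at h8
  have h11 : c * (D - 1) + a < 8 :=
    (Nat.pow_lt_pow_iff_right (by norm_num)).1 (h8.trans_lt (by norm_num : 5040 < 3 ^ 8))
  have h12 := Nat.le_mul_of_pos_right c (show 0 < D - 1 by omega)
  have h13 := Nat.le_mul_of_pos_left (D - 1) (Nat.pos_of_ne_zero hc)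
  exact num_a7_fin e (by simpa using (Nat.dvd_prime Nat.prime_two).1 he) c (by omega) D (by omega) hD
    (by omega) h9 m (by omega) h1 hm a (by omega) h2

end Her
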