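import Cfsg.Agent.Lib.Her.Odd
import Cfsg.Agent.Lib.Her.Num
import Cfsg.Agent.Lib.GW.DA

/-!
# The class `𝓗`: the double cover of `A₇` does not occur
-/

set_option autoImplicit false
set_option linter.unusedSectionVars false

namespace Her

open Cfsg GT FT GW Subgroup Equiv
open scoped Pointwise commutatorElement

variable {p : ℕ} [hp : Fact p.Prime] {H V : Type*} [Group H] [Finite H] [AddCommGroup V] [Finite V]
  [DistribMulAction H V] {Q : Type*} [Group Q] {f : H →* Q} {z : H} {L : Subgroup H}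

theorem St.comap_cent (S : St f z L) : (𝐂(L.map f)).comap f = 𝐂(L) := by
  refine le_antisymm ?_ (map_le_iff_le_comap.1 S.map_cent_le)
  have h1 : ⁅(𝐂(L.map f)).comap f, L⁆ ≤ center H := by
    refine le_trans ?_ (cov_ker_le S.cov)
    rw [← Subgroup.map_eq_bot_iff, map_commutator, commutator_eq_bot_iff_le_centralizer]
    exact map_comap_le _ _
  have h2 : ⁅⁅(𝐂(L.map f)).comap f, L⁆, L⁆ = ⊥ :=
    commutator_eq_bot_iff_le_centralizer.2 (h1.trans (center_le_centralizer _))
  rw [← commutator_eq_bot_iff_le_centralizer, Subgroup.commutator_comm, ← S.perf]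
  refine commutator_commutator_eq_bot_of_rotate ?_ ?_
  · rwa [Subgroup.commutator_comm L, S.perf]
  · rwa [S.perf]

theorem St.index_dvd_two (S : St f z L) (e : L.map f ≃* alternatingGroup (Fin 7)) : (L ⊔ 𝐂(L)).index ∣ 2 := by
  have := S.normal_map
  let ψ := MulEquiv.ofBijective _ ⟨DA.conjNormal_injective, DA.exists_perm⟩
  let ι : Q →* Perm (Fin 7) :=
    ψ.symm.toMonoidHom.comp ((MulAut.congr e).toMonoidHom.comp MulAut.conjNormal)
  have h1 : ∀ l : L.map f, ι l = e l := fun l => ψ.symm_apply_eq.2 (MulEquiv.ext fun x => by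
    change e (MulAut.conjNormal (l : Q) (e.symm x)) = MulAut.conjNormal _ x
    rw [MulAut.conjNormal_val, MulAut.conjNormal_val]; simp)
  have h2 : ∀ g, ι g = 1 → g ∈ 𝐂(L.map f) := fun g hg l hl => by
    have := congrArg Subtype.val (MulEquiv.congr_fun ((MulAut.congr e).map_eq_one_iff.1
      (ψ.symm.map_eq_one_iff.1 hg)) ⟨l, hl⟩)
    rw [MulAut.conjNormal_apply] at this
    exact (mul_inv_eq_iff_eq_mul.1 this).symm
  have h3 : (alternatingGroup (Fin 7)).comap (ι.comp f) ≤ L ⊔ 𝐂(L) := fun g hg => by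
    obtain ⟨l, hl, e'⟩ := (e.symm ⟨_, hg⟩).2
    have h4 : l⁻¹ * g ∈ 𝐂(L) := S.comap_cent ▸ h2 _ (by
      rw [map_mul, map_mul, map_inv, map_inv, e', h1, e.apply_symm_apply]; exact inv_mul_cancel _)
    simpa using mul_mem (mem_sup_left hl) (mem_sup_right h4 : _ ∈ L ⊔ 𝐂(L))
  refine (index_dvd_of_le h3).trans ?_
  rw [index_comap, ← alternatingGroup.index_eq_two (α := Fin 7)]
  exact relIndex_dvd_index_of_normal _ _

theorem Hc.not_a7 (h : Hc p H V) (tr : Tr H V) (hp2 : p ≠ 2) {Q : Type*} [Group Q] {f : H →* Q} {z : H}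
    {L : Subgroup H} (S : St f z L) (e : L.map f ≃* alternatingGroup (Fin 7)) : False := by
  have : Finite Q := Finite.of_surjective f S.cov.surj
  have : Fact (Nat.Prime 3) := ⟨Nat.prime_three⟩
  obtain rfl : p = 3 := by_contra fun h3 => by
    let a : alternatingGroup (Fin 7) := ⟨swap 0 1 * swap 1 2, Perm.mem_alternatingGroup.2 (by decide)⟩
    let b : alternatingGroup (Fin 7) := ⟨swap 3 4 * swap 4 5, Perm.mem_alternatingGroup.2 (by decide)⟩
    have ha : a ≠ 1 := by decide
    have ha3 : a ^ 3 = 1 := by decide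
    have hE := ((elemN_one_zpowers (mem_top a) ha ha3).sup_zpowers (mem_top b)
      (by rw [centralizer_zpowers]; exact mem_cent1.2 (by decide)) (by decide) fun hb => absurd
        (mem_zpowers_three (orderOf_eq_prime ha3 ha) hb) (by decide)).map_of_injective
      (f := (L.map f).subtype.comp e.symm.toMonoidHom) ((subtype_injective _).comp e.symm.injective)
    obtain ⟨P', hP', hle⟩ := exists_isSylowIn_ge hE.isPGroup (H := L.map f) (by
      rintro _ ⟨x, -, rfl⟩; exact (e.symm x).2)
    obtain ⟨P, hP, rfl⟩ := hP'.exists_map_eq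
    have := h.cyclic_of_isPGroup (by decide) (Ne.symm h3) hP.isPGroup
    have := isCyclic_of_surjective _ (f.subgroupMap_surjective P)
    exact hE.not_cyclic le_rfl (Subgroup.isCyclic_of_le hle)
  obtain ⟨-, -, m, q, c, D, a, -, h1, h2, h3, h4, h5, -⟩ := h.core tr hp2 S (S.index_dvd_two e)
  rw [S.card_map S.mem, Nat.card_congr e.toEquiv, DA.card_alt] at h1 h5
  exact num_a7 (S.index_dvd_two e) h1 h2 h3 h4 h5

end Her
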