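import Cfsg.Agent.Lib.Her.St
import Cfsg.Agent.Lib.GW.CaseIG

/-!
# S4841, step 0: involutions act freely, the quadratic groups `Q_t`
-/

set_option autoImplicit false
set_option linter.unusedSectionVars false

namespace Her

open Cfsg GT FT GW Subgroup MulAction
open scoped Pointwise commutatorElement

universe u

theorem dvd_ncard_of_fib {α β : Type*} [Finite α] (f : α → β) {S : Set α} {n : ℕ}
    (h : ∀ x ∈ S, n ∣ {y | y ∈ S ∧ f y = f x}.ncard) : n ∣ S.ncard := by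
  classical
  rw [Set.ncard_eq_toFinset_card S, Finset.card_eq_sum_card_image f]
  refine Finset.dvd_sum fun b hb => ?_
  obtain ⟨x, hx, rfl⟩ := Finset.mem_image.1 hb
  refine (h x (by simpa using hx)).trans (dvd_of_eq ?_)
  rw [← Set.ncard_coe_finset]
  congr 1
  ext y
  simp

theorem ncard_eq_of_fib {α β : Type*} [Finite α] (f : α → β) {S : Set α} {n : ℕ}
    (h : ∀ x ∈ S, {y | y ∈ S ∧ f y = f x}.ncard = n) : S.ncard = (f '' S).ncard * n := by
  classical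
  rw [Set.ncard_eq_toFinset_card S, Finset.card_eq_sum_card_image f, Finset.sum_const_nat (m := n), ← Set.ncard_coe_finset]
  · simp
  · intro b hb
    obtain ⟨x, hx, rfl⟩ := Finset.mem_image.1 hb
    rw [← h x (by simpa using hx), ← Set.ncard_coe_finset]
    congr 1
    ext y
    simp

theorem dvd_ncard_of_stab {L X : Type*} [Group L] [MulAction L X] [Finite X] (N : Subgroup L) {S : Set X} {n : ℕ}
    (hS : ∀ g ∈ N, ∀ v ∈ S, g • v ∈ S) (h : ∀ v ∈ S, n ∣ (stabilizer L v).relIndex N) : n ∣ S.ncard :=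
  dvd_ncard_of_fib (orbit N) fun v hv => by
    convert h v hv
    refine Eq.trans (congrArg _ (Set.ext fun y => ?_)) (index_stabilizer N v).symm
    exact ⟨fun e => orbit_eq_iff.1 e.2, fun e => ⟨let ⟨g, e⟩ := e; e ▸ hS g g.2 v hv, orbit_eq_iff.2 e⟩⟩

theorem ncard_ne_zero {V : Type*} [AddCommGroup V] [Finite V] (U : AddSubgroup V) :
    {v | v ∈ U ∧ v ≠ 0}.ncard = Nat.card U - 1 := Set.ncard_sdiff_singleton_of_mem (s := (U : Set V)) U.zero_mem

theorem card_ker_mul {V : Type*} [AddCommGroup V] (f : V →+ V) : Nat.card f.ker * Nat.card f.range = Nat.card V := by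
  rw [← AddSubgroup.index_ker, AddSubgroup.card_mul_index]

theorem card_mul_le {V : Type*} [AddCommGroup V] [Finite V] {A B : AddSubgroup V} (h : A ⊓ B = ⊥) :
    Nat.card A * Nat.card B ≤ Nat.card V := by
  rw [← Nat.card_prod]
  exact Nat.card_le_card_of_injective _ (AddSubgroup.add_injective_of_disjoint (disjoint_iff.2 h))

variable {L V : Type u} [Group L] [Finite L] [AddCommGroup V] [Finite V] [DistribMulAction L V]

theorem smul_mem_Wv {g t : L} {v : V} : g • v ∈ Wv V (g * t * g⁻¹) ↔ v ∈ Wv V t := by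
  rw [mem_Wv, mem_Wv, mul_smul, inv_smul_smul, mul_smul, smul_left_cancel_iff]

theorem conj_Qv (g t : L) : MulAut.conj g • Qv V t = Qv V (g * t * g⁻¹) := Subgroup.ext fun x => by
  rw [mem_conj_smul]
  refine ⟨fun h v hv => ?_, fun h v hv => ?_⟩
  · have := h (g⁻¹ • v) (smul_mem_Wv.1 (by rwa [smul_inv_smul]))
    rwa [mul_smul, smul_inv_smul, mul_smul, smul_left_cancel_iff] at this
  · rw [mul_smul, mul_smul, h _ (smul_mem_Wv.2 hv), inv_smul_smul]

theorem cent1_le_norm_Qv (t : L) : 𝐂[t] ≤ 𝐍(Qv V t) := fun g hg =>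
  conj_smul_eq_iff_mem_normalizer.1 (by rw [conj_Qv, mem_cent1.1 hg, mul_inv_cancel_right])

theorem card_Wv_conj (g t : L) : Nat.card (Wv V (g * t * g⁻¹)) = Nat.card (Wv V t) :=
  (Nat.card_congr ((MulAction.toPerm g).subtypeEquiv fun _ => smul_mem_Wv.symm)).symm

theorem stab_smul (g : L) (v : V) : stabilizer L (g • v) = MulAut.conj g • stabilizer L v :=
  stabilizer_smul_eq_stabilizer_map_conj g v

/-- the action on an invariant subgroup -/
@[reducible] def actOn (N : Subgroup L) (U : AddSubgroup V) (hU : ∀ n ∈ N, ∀ u ∈ U, n • u ∈ U) :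
    DistribMulAction N U where
  smul n u := ⟨n.1 • u.1, hU _ n.2 _ u.2⟩
  one_smul u := Subtype.ext (one_smul L u.1)
  mul_smul a b u := Subtype.ext (mul_smul a.1 b.1 u.1)
  smul_zero a := Subtype.ext (smul_zero a.1)
  smul_add a u v := Subtype.ext (smul_add a.1 u.1 v.1)

/-- restriction of the action of `N` to an invariant subgroup, made faithful -/
theorem exists_restrict (N : Subgroup L) (U : AddSubgroup V) (hU : ∀ n ∈ N, ∀ u ∈ U, n • u ∈ U) :
    ∃ (Γ : Type u) (_ : Group Γ) (_ : Finite Γ) (_ : DistribMulAction Γ U) (π : N →* Γ), Function.Surjective π ∧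
      (∀ (n : N) (u : U), ((π n • u : U) : V) = (n : L) • (u : V)) ∧ (∀ g : Γ, (∀ u : U, g • u = u) → g = 1) ∧
      π.ker = (Cn L U).subgroupOf N := by
  let _ := actOn N U hU
  have : Finite (AddMonoid.End U) := DFunLike.finite _
  refine ⟨(en U (L := N)).toHomUnits.range, inferInstance, inferInstance, inferInstance,
    MonoidHom.rangeRestrict _, MonoidHom.rangeRestrict_surjective _, fun _ _ => rfl,
    fun g h => Subtype.ext (Units.ext (AddMonoidHom.ext h)), Subgroup.ext fun n => ⟨fun h v hv => ?_, fun h => ?_⟩⟩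
  · exact congrArg (fun x => (x.1.1 ⟨v, hv⟩ : V)) (MonoidHom.mem_ker.1 h)
  · exact Subtype.ext (Units.ext (AddMonoidHom.ext fun v => Subtype.ext (h v v.2)))

theorem add_eq_zero_iff' (exp : ∀ v : V, v + v = 0) {a b : V} : a + b = 0 ↔ a = b :=
  ⟨fun h => add_right_cancel (h.trans (exp b).symm), fun h => h ▸ exp a⟩

theorem ker_Nn (exp : ∀ v : V, v + v = 0) (g : L) : AddMonoidHom.ker (Nn V g) = Wv V g :=
  AddSubgroup.ext fun _ => add_eq_zero_iff' exp

theorem card_Wv_mul (exp : ∀ v : V, v + v = 0) (g : L) :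
    Nat.card (Wv V g) * Nat.card (AddMonoidHom.range (Nn V g)) = Nat.card V := ker_Nn exp g ▸ card_ker_mul _

theorem range_le {t : L} (ht : t * t = 1) : AddMonoidHom.range (Nn V t) ≤ Wv V t := by
  rintro _ ⟨v, rfl⟩
  change t • (t • v + v) = t • v + v
  rw [smul_add, smul_smul, ht, one_smul, add_comm]

theorem eq_zero_of_odd (two : ∀ v : V, v ≠ 0 → IsPGroup 2 (stabilizer L v)) {y : L} (ho : ¬ 2 ∣ orderOf y)
    (h1 : y ≠ 1) {v : V} (hv : y • v = v) : v = 0 :=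
  by_contra fun h => h1 ((isPElt_of_mem (two v h) hv).eq_one_of_isPRegular ho)

theorem Wk.of (faith : ∀ g : L, (∀ v : V, g • v = v) → g = 1)
    (two : ∀ v : V, v ≠ 0 → IsPGroup 2 (MulAction.stabilizer L v)) (exp : ∀ v : V, v + v = 0) (nt : Nontrivial V)
    (oc : OC L) (o2 : Op 2 (⊤ : Subgroup L) = ⊥) : Wk L V := by
  refine ⟨faith, two, exp, nt, oc, fun t ht v hv => ?_⟩
  obtain ⟨y, h1, h2, h3⟩ := exists_odd_inverted (pow_two t ▸ ht.sq) (by rw [← Op_top, o2]; exact ht.ne)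
  have h4 := card_mul_le (A := Wv V t) (B := Wv V (y * t * y⁻¹)) (eq_bot_iff.2 fun w hw => ?_)
  · rw [card_Wv_conj, ← card_Wv_mul exp t] at h4
    exact (AddSubgroup.eq_of_le_of_card_ge (range_le ht.sq) (Nat.le_of_mul_le_mul_left h4 Nat.card_pos)).ge hv
  · have h5 : y * t * y⁻¹ = y * y * t := by rw [← h3, mul_assoc y t, ← mul_assoc t, ← mul_assoc t, ht.sq, one_mul,
      ht.inv, mul_assoc]
    have h6 := mem_Wv.1 hw.2
    rw [h5, mul_smul, mem_Wv.1 hw.1] at h6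
    exact eq_zero_of_odd two h2 h1 (zpowers_le (H := stabilizer L w).2 h6 (P4.mem_zpowers_sq (not_two_dvd.1 h2)))

theorem Hc.Op_eq_bot {p : ℕ} [Fact p.Prime] (h : Hc p L V) : Op p (⊤ : Subgroup L) = ⊥ :=
  (eq_bot_iff_forall _).2 fun g hg => h.faith g fun v => (eq_or_ne v 0).elim (fun e => e ▸ smul_zero g) fun e =>
    (h.syl v e).le_of_normalizes (isPGroup_Op p _) le_top (le_top.trans (le_norm_piCoreOf _ _)) hg

theorem Hc.wk (h : Hc 2 L V) (oc : OC L) : Wk L V :=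
  Wk.of h.faith (fun v hv => (h.syl v hv).isPGroup) (fun v => two_nsmul v ▸ h.exp v) h.nt oc h.Op_eq_bot

theorem Hc.normal {p : ℕ} [Fact p.Prime] (h : Hc p L V) (N : Subgroup L) [N.Normal] : Hc p N V := h.sub N

/-- all orbits on non-zero vectors have the same length; their number divides `|C_V(R)| - 1` -/
theorem Hc.exists_e {p : ℕ} [Fact p.Prime] (h : Hc p L V) : ∃ e, (∀ T : Subgroup L, IsSylowIn p T ⊤ →
    T.index * e + 1 = Nat.card V) ∧ ∀ R : Subgroup L, IsPGroup p R → e ∣ Nat.card (Fx V R) - 1 := by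
  obtain ⟨v, hv⟩ := h.exists_ne
  have h1 : ∀ R : Subgroup L, Nat.card (Fx V R) - 1 = (stabilizer L '' {w | w ∈ Fx V R ∧ w ≠ 0}).ncard *
      {w : V | w ≠ 0 ∧ stabilizer L w = stabilizer L v}.ncard := fun R => by
    rw [← ncard_ne_zero]
    refine ncard_eq_of_fib _ fun w hw => ?_
    obtain ⟨g, -, e⟩ := (h.syl v hv).exists_conj_eq (h.syl w hw.2)
    rw [← Set.ncard_image_of_injective {w : V | w ≠ 0 ∧ stabilizer L w = stabilizer L v} (MulAction.injective g)]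
    refine congrArg _ (Set.ext fun y => ⟨fun hy => ⟨g⁻¹ • y, ⟨(smul_ne_zero_iff_ne _).2 hy.1.2, ?_⟩, smul_inv_smul g y⟩,
      ?_⟩)
    · rw [stab_smul, hy.2, ← e, conj_inv_smul_conj_smul]
    · rintro ⟨z, hz, rfl⟩
      have h2 : stabilizer L (g • z) = stabilizer L w := by rw [stab_smul, hz.2, e]
      exact ⟨⟨fun r hr => h2.ge (hw.1 r hr), (smul_ne_zero_iff_ne _).2 hz.1⟩, h2⟩
  obtain ⟨e, he⟩ := dvd_ncard_of_stab 𝐍(stabilizer L v) (n := (stabilizer L v).relIndex 𝐍(stabilizer L v)) (S := {w : V | w ≠ 0 ∧ stabilizer L w = stabilizer L v})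
    (fun g hg w hw => ⟨(smul_ne_zero_iff_ne _).2 hw.1, by rw [stab_smul, hw.2, conj_smul_eq_iff_mem_normalizer.2 hg]⟩)
    fun w hw => hw.2 ▸ dvd_rfl
  refine ⟨e, fun T hT => ?_, fun R _ => by rw [h1, he, ← mul_assoc]; exact Dvd.intro_left _ rfl⟩
  obtain ⟨g, -, rfl⟩ := (h.syl v hv).exists_conj_eq hT
  have h2 := h1 ⊥
  rw [he, show Fx V (⊥ : Subgroup L) = ⊤ from eq_top_iff.2 fun w _ g hg => by rw [mem_bot.1 hg, one_smul],
    show stabilizer L '' _ = Cj ⊤ (stabilizer L v) from Set.ext fun X => ⟨?_, ?_⟩, ncard_Cj, relIndex_top_right,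
    ← mul_assoc, mul_comm (index _), relIndex_mul_index le_normalizer, AddSubgroup.card_top] at h2
  · rw [index_conj_smul, ← h2, Nat.sub_add_cancel Nat.card_pos]
  · rintro ⟨w, hw, rfl⟩
    exact (h.syl v hv).exists_conj_eq (h.syl w hw.2)
  · rintro ⟨g, -, rfl⟩
    exact ⟨g • v, ⟨trivial, (smul_ne_zero_iff_ne _).2 hv⟩, stab_smul g v⟩

namespace Wk
variable (h : Wk L V)
include h

theorem sub (X : Subgroup L) : Wk X V :=
  ⟨fun g hg => Subtype.ext (h.faith g hg), fun v hv => (h.two v hv).comap_subtype, h.exp, h.nt, fun K hK =>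
    have := h.oc (K.map X.subtype) (by rwa [card_map_of_injective X.subtype_injective])
    isCyclic_of_injective (K.equivMapOfInjective _ X.subtype_injective).toMonoidHom (MulEquiv.injective _),
    fun t ht => h.free t ⟨fun e => ht.ne (Subtype.ext e), congrArg Subtype.val ht.sq⟩⟩

theorem fpf {y : L} (ho : Odd (orderOf y)) (h1 : y ≠ 1) {v : V} (hv : y • v = v) : v = 0 :=
  eq_zero_of_odd h.two (not_two_dvd.2 ho) h1 hv

theorem dvd {B : Subgroup L} (ho : Odd (Nat.card B)) {U : AddSubgroup V}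
    (hU : ∀ n ∈ B, ∀ u ∈ U, n • u ∈ U) : Nat.card B ∣ Nat.card U - 1 := by
  rw [← ncard_ne_zero]
  refine dvd_ncard_of_stab B (fun g hg v hv => ⟨hU g hg v hv.1, (smul_ne_zero_iff_ne _).2 hv.2⟩) fun v hv => ?_
  rw [← card_inf_mul_relIndex (stabilizer L v) B, (eq_bot_iff_forall (stabilizer L v ⊓ B)).2 fun y hy =>
    by_contra fun e => hv.2 (h.fpf (ho.of_dvd_nat (orderOf_dvd_natCard B hy.2)) e hy.1), card_bot, one_mul]

theorem add_self (a : AddMonoid.End V) : a + a = 0 := AddMonoidHom.ext fun v => h.exp (a v)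

theorem two_eq : (2 : AddMonoid.End V) = 0 := one_add_one_eq_two.symm.trans (h.add_self 1)

theorem en_inj : Function.Injective (en V : L → AddMonoid.End V) :=
  (injective_iff_map_eq_one _).2 fun g e => h.faith g (DFunLike.congr_fun e)

theorem mem_Wv_iff {g : L} {v : V} : v ∈ Wv V g ↔ Nn V g v = 0 := (add_eq_zero_iff' h.exp).symm

theorem isUnit_Nn {y : L} (ho : Odd (orderOf y)) (h1 : y ≠ 1) : IsUnit (Nn V y) :=
  have : Finite (AddMonoid.End V) := DFunLike.finite _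
  IsLeftRegular.isUnit_of_finite fun _ _ e => AddMonoidHom.ext fun v =>
    (injective_iff_map_eq_zero (Nn V y)).2 (fun _ e => h.fpf ho h1 (h.mem_Wv_iff.2 e)) (DFunLike.congr_fun e v)

theorem rho {ρ : L} (hρ : orderOf ρ = 3) : en V ρ * en V ρ = en V ρ + 1 := by
  have h1 : en V ρ * (en V ρ * en V ρ) = 1 := by
    rw [← map_mul, ← map_mul, ← pow_three, ← hρ, pow_orderOf_eq_one, map_one]
  refine (h.isUnit_Nn (y := ρ) (by rw [hρ]; decide) (by rintro rfl; simp at hρ)).mul_left_cancel ?_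
  rw [Nn, add_mul, add_mul, mul_add, h1, one_mul, mul_one, one_mul, add_assoc, ← add_assoc (en V ρ), h.add_self,
    zero_add, add_comm]

theorem Nn_mem {t : L} (ht : t * t = 1) (v : V) : Nn V t v ∈ Wv V t := range_le ht ⟨v, rfl⟩

theorem range_eq {t : L} (ht : Inv t) : AddMonoidHom.range (Nn V t) = Wv V t :=
  le_antisymm (range_le ht.sq) (h.free t ht)

theorem card_W {t : L} (ht : Inv t) : Nat.card (Wv V t) ^ 2 = Nat.card V := by
  rw [← card_Wv_mul h.exp t, h.range_eq ht, pow_two]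

theorem card_W_eq {t s : L} (ht : Inv t) (hs : Inv s) : Nat.card (Wv V t) = Nat.card (Wv V s) :=
  Nat.pow_left_injective two_ne_zero ((h.card_W ht).trans (h.card_W hs).symm)

theorem isPGroup_Cn {W : AddSubgroup V} (h0 : W ≠ ⊥) : IsPGroup 2 (Cn L W) :=
  let ⟨v, hv⟩ := AddSubgroup.ne_bot_iff_exists_ne_zero.1 h0
  (h.two v fun e => hv (Subtype.ext e)).to_le fun _ hg => hg v v.2

theorem exists_fixed {T : Subgroup L} (hT : IsPGroup 2 T) {U : AddSubgroup V} (hU : ∀ n ∈ T, ∀ u ∈ U, n • u ∈ U)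
    (h0 : U ≠ ⊥) : ∃ u ∈ U, u ≠ 0 ∧ u ∈ Fx V T := Her.exists_fixed (fun v => (two_nsmul v).trans (h.exp v)) hT hU h0

theorem W_ne_bot {t : L} (ht : IsPElt 2 t) : Wv V t ≠ ⊥ := fun e =>
  have := h.nt
  let ⟨_, _, h1, h2⟩ := h.exists_fixed ht.isPGroup_zpowers (U := ⊤) (fun _ _ _ _ => trivial) top_ne_bot
  h1 (e.le (h2 t (mem_zpowers t)))

theorem isPGroup_Qv {t : L} (ht : Inv t) : IsPGroup 2 (Qv V t) := h.isPGroup_Cn (h.W_ne_bot ht.isPElt)

theorem Wv_eq' {t s : L} (ht : Inv t) (hs : s ∈ Qv V t) (h1 : Inv s) : Wv V s = Wv V t :=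
  (AddSubgroup.eq_of_le_of_card_ge hs (h.card_W_eq h1 ht).le).symm

theorem Nn_mem' {t x : L} (ht : Inv t) (hx : x ∈ Qv V t) (v : V) : Nn V x v ∈ Wv V t := by
  rcases eq_or_ne x 1 with rfl | h1
  · rw [Nn_apply, one_smul, h.exp]
    exact zero_mem _
  obtain ⟨s, hs, h2⟩ := DX.exists_inv (dvd_card_of_isPGroup_of_ne_bot ((h.isPGroup_Qv ht).to_le (zpowers_le.2 hx))
    (zpowers_ne_bot.2 h1))
  have h3 : Wv V t ≤ AddMonoidHom.range (Nn V x) := by
    rw [← h.Wv_eq' ht (zpowers_le.2 hx hs) h2, ← h.range_eq h2]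
    obtain ⟨k, rfl⟩ := mem_powers_iff_mem_zpowers.2 hs
    rintro _ ⟨w, rfl⟩
    clear h2 hs
    change ∃ u, x • u + u = x ^ k • w + w
    induction k with
    | zero => exact ⟨0, by simp [h.exp]⟩
    | succ k ih =>
      obtain ⟨u, hu⟩ := ih
      exact ⟨x ^ k • w + u, by rw [smul_add, add_add_add_comm, hu, pow_succ', mul_smul, add_assoc, ← add_assoc (x ^ k • w),
        h.exp, zero_add]⟩
  refine (AddSubgroup.eq_of_le_of_card_ge h3 (Nat.le_of_mul_le_mul_left ?_ (Nat.card_pos (α := Wv V t)))).ge ⟨v, rfl⟩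
  rw [← pow_two, h.card_W ht, ← card_Wv_mul h.exp x]
  exact Nat.mul_le_mul_right _ (AddSubgroup.card_le_of_le hx)

theorem sq_of_mem {t x : L} (ht : Inv t) (hx : x ∈ Qv V t) : x * x = 1 := h.faith _ fun v => by
  have := hx _ (h.Nn_mem' ht hx v)
  rw [Nn_apply, smul_add, add_comm, smul_smul] at this
  exact add_left_cancel this

theorem Qv_le_cent {t : L} (ht : Inv t) : Qv V t ≤ 𝐂(Qv V t) :=
  InvBy.le_cent (s := 1) fun _ hx => by simpa using mul_eq_one_iff_eq_inv.1 (h.sq_of_mem ht hx)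

theorem Wv_eq {t s : L} (ht : Inv t) (hs : s ∈ Qv V t) (h1 : s ≠ 1) : Wv V s = Wv V t :=
  h.Wv_eq' ht hs ⟨h1, h.sq_of_mem ht hs⟩

theorem Qv_eq {t s : L} (ht : Inv t) (hs : s ∈ Qv V t) (h1 : s ≠ 1) : Qv V s = Qv V t := by
  rw [Qv, h.Wv_eq ht hs h1, Qv]

theorem mem_Qv_iff_Nn {t s : L} (ht : Inv t) : s ∈ Qv V t ↔ Nn V s * Nn V t = 0 :=
  ⟨fun e => AddMonoidHom.ext fun v => h.mem_Wv_iff.1 (e _ (h.Nn_mem ht.sq v)), fun e _ hv =>
    let ⟨w, hw⟩ := h.free t ht _ hv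
    hw ▸ h.mem_Wv_iff.2 (DFunLike.congr_fun e w)⟩

theorem Nn_mul' (s s' : L) : Nn V (s * s') = Nn V s + Nn V s' + Nn V s * Nn V s' := by
  have := h.two_eq
  simp only [Nn, map_mul]
  linear_combination (norm := noncomm_ring) -(en V s + en V s' + 1) * this

theorem Nn_mul {t s s' : L} (ht : Inv t) (hs : s ∈ Qv V t) (hs' : s' ∈ Qv V t) :
    Nn V s * Nn V s' = 0 ∧ Nn V (s * s') = Nn V s + Nn V s' :=
  have : Nn V s * Nn V s' = 0 := AddMonoidHom.ext fun v => h.mem_Wv_iff.1 (hs _ (h.Nn_mem' ht hs' v))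
  ⟨this, by rw [h.Nn_mul', this, add_zero]⟩

theorem mem_norm_Qv {t g : L} (ht : Inv t) : g ∈ 𝐍(Qv V t) ↔ ∀ v ∈ Wv V t, g • v ∈ Wv V t :=
  ⟨fun e _ hv => (h.Wv_eq ht (conj_mem_of_mem_normalizer e (self_mem_Qv t)) (ht.conj g).ne).le (smul_mem_Wv.2 hv),
    fun e => conj_smul_eq_iff_mem_normalizer.1 (by
      rw [conj_Qv, h.Qv_eq (ht.conj g) (s := t) (fun v hv => ?_) ht.ne]
      exact smul_inv_smul g v ▸ e _ (smul_mem_Wv.1 (by rwa [smul_inv_smul])))⟩

theorem inf_eq_bot {t s : L} (ht : Inv t) (hs : Inv s) (hne : Qv V s ≠ Qv V t) : Qv V s ⊓ Qv V t = ⊥ :=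
  (eq_bot_iff_forall _).2 fun _ hx => by_contra fun e => hne ((h.Qv_eq hs hx.1 e).symm.trans (h.Qv_eq ht hx.2 e))

/-- the TI-lemma -/
theorem ti {t s : L} (ht : Inv t) (hs : Inv s) (hn : Qv V s ≤ 𝐍(Qv V t)) (hne : Qv V s ≠ Qv V t)
    (hc : Nat.card (Qv V t) ≤ Nat.card (Qv V s)) : Qv V s ≤ 𝐂(Qv V t) := by
  have h1 : ∀ a ∈ Qv V s, a ≠ 1 → Qv V t ⊓ 𝐂[a] ≤ 𝐂(Qv V s) := fun a ha e =>
    commute_of_normal_of_disjoint' (le_normalizer_inf hn
      (((h.Qv_le_cent hs).trans (cent_le_cent1 ha)).trans le_normalizer)) (inf_le_right.trans (h.Qv_eq hs ha e ▸ cent1_le_norm_Qv a))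
      ((disjoint_iff.2 (h.inf_eq_bot ht hs hne)).symm.mono_left inf_le_left)
  refine le_cent_comm.1 fun y hy => by_contra fun h2 => ?_
  refine (card_lt_of_lt (inf_lt_left.2 fun e => h2 (e hy) : Qv V t ⊓ 𝐂(Qv V s) < _)).not_ge (hc.trans
    (Nat.card_le_card_of_injective (fun a : Qv V s => (⟨y * (a * y * a⁻¹), ?_⟩ : ↥(Qv V t ⊓ 𝐂(Qv V s)))) fun a b e => ?_))
  · have h3 := conj_mem_of_mem_normalizer (hn a.2) hy
    refine ⟨mul_mem hy h3, ?_⟩
    rcases eq_or_ne a.1 1 with e | e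
    · simp [e, h.sq_of_mem ht hy]
    refine h1 a a.2 e ⟨mul_mem hy h3, mem_cent1.2 (mul_inv_eq_iff_eq_mul.1 ?_).symm⟩
    rw [← conj_mul, coe_inv, Inv.conj_conj ⟨e, h.sq_of_mem hs a.2⟩]
    exact mem_centralizer_iff.1 (h.Qv_le_cent ht hy) _ h3
  · by_contra h3
    refine h2 (h1 _ (b⁻¹ * a).2 (fun e => h3 (inv_mul_eq_one.1 (Subtype.ext e)).symm) ⟨hy, mem_cent1.2 ?_⟩)
    have := mul_left_cancel (congrArg Subtype.val e)
    calc y * ((b : L)⁻¹ * a) = (b : L)⁻¹ * (b * y * (b : L)⁻¹) * a := by group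
      _ = _ := by rw [← coe_inv, ← this]; simp [mul_assoc]

theorem wc' {t : L} (ht : Inv t) (hw : WC (Qv V t)) {g : L} (h2 : MulAut.conj g • Qv V t ≤ 𝐍(Qv V t)) :
    g ∈ 𝐍(Qv V t) := conj_smul_eq_iff_mem_normalizer.1 <| by_contra fun e => e <| hw g <| by
  have h3 := (card_conj_smul g (Qv V t)).ge
  rw [conj_Qv] at h2 e h3 ⊢
  exact h.ti ht (ht.conj g) h2 e h3

/-- weak closure -/
theorem wc {t : L} (ht : Inv t) (hw : WC (Qv V t)) {T : Subgroup L} (hT : IsPGroup 2 T)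
    (h1 : Qv V t ≤ T) {g : L} (h2 : MulAut.conj g • Qv V t ≤ T) : g ∈ 𝐍(Qv V t) := by
  refine h.wc' ht hw (h2.trans (by_contra fun e => ?_))
  obtain ⟨x, h3, h4⟩ := SetLike.exists_of_lt (lt_inf_normalizer_of_lt hT (inf_lt_left.2 e))
  exact h4 ⟨h3.1, h.wc' ht hw (conj_smul_le_iff.2 fun y hy =>
    (conj_mem_of_mem_normalizer h3.2 (mem_inf.2 ⟨h1 hy, le_normalizer hy⟩)).2)⟩

/-- weakly closed: different conjugates of `W_t` meet trivially -/
theorem tq {t : L} (ht : Inv t) (h4 : 4 ≤ Nat.card (Qv V t)) (hw : WC (Qv V t)) :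
    Tq (Qv V t) ∧ ∀ g : L, g ∉ 𝐍(Qv V t) → Wv V (g * t * g⁻¹) ⊓ Wv V t = ⊥ := by
  have h1 : ∀ g : L, g ∉ 𝐍(Qv V t) → Wv V (g * t * g⁻¹) ⊓ Wv V t = ⊥ := fun g hg => eq_bot_iff.2 fun v hv =>
    by_contra fun e => hg (h.wc ht hw (h.two v e) (fun _ hx => hx v hv.2) ((conj_Qv g t).le.trans fun _ hx => hx v hv.1))
  refine ⟨⟨h.oc, fun _ => h.sq_of_mem ht, h4, fun s hs e g hg => by_contra fun h2 => ?_⟩, h1⟩
  rw [conj_Qv] at hg
  obtain ⟨v, h3, h5, h6⟩ := h.exists_fixed (Inv.isPGroup ⟨e, h.sq_of_mem ht hs⟩)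
    (fun x hx => (h.mem_norm_Qv (ht.conj g)).1 (zpowers_le.2 hg hx)) (h.W_ne_bot (ht.conj g).isPElt)
  exact h5 ((h1 g h2).le ⟨h3, (h.Wv_eq ht hs e).le (h6 s (mem_zpowers s))⟩)

end Wk

end Her
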