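import Cfsg.Agent.Lib.Her.St
import Cfsg.Agent.Lib.GW.ProdA

/-!
# Elementary abelian `2`-groups whose involutions normalize no other conjugate
-/

set_option autoImplicit false
set_option linter.unusedSectionVars false

namespace Her

open Cfsg GT FT GW Subgroup
open scoped Pointwise commutatorElement

variable {G : Type*} [Group G] [Finite G] {Q P P' α β γ : Subgroup G}

/-- `P` is a conjugate of `Q` -/
def Cj (Q P : Subgroup G) : Prop := ∃ g : G, MulAut.conj g • Q = P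

/-- non-trivial elements of the conjugates of `Q` -/
def Dd (Q : Subgroup G) (d : G) : Prop := d ≠ 1 ∧ ∃ P, Cj Q P ∧ d ∈ P

theorem Cj.refl (Q : Subgroup G) : Cj Q Q := ⟨1, conj_one_smul Q⟩

theorem Cj.conj (h : Cj Q P) (g : G) : Cj Q (MulAut.conj g • P) :=
  let ⟨x, e⟩ := h; ⟨g * x, by rw [← conj_smul_conj_smul, e]⟩

theorem Cj.card (h : Cj Q P) : Nat.card P = Nat.card Q := let ⟨x, e⟩ := h; e ▸ card_conj_smul x Q

theorem Dd.conj {d : G} (h : Dd Q d) (g : G) : Dd Q (g * d * g⁻¹) :=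
  let ⟨h1, _, h2, h3⟩ := h; ⟨mt conj_eq_one_iff.1 h1, _, h2.conj g, conj_mem_conj_smul.2 h3⟩

theorem conj_of_inv {r w : G} (ho : Odd (orderOf r)) (hi : w * r * w⁻¹ = r⁻¹) :
    ∃ c ∈ zpowers r, c * w * c⁻¹ = r * w := by
  obtain ⟨k, hk⟩ := ho
  refine ⟨r ^ (k + 1), pow_mem (mem_zpowers r) _, ?_⟩
  have e : w * (r ^ (k + 1))⁻¹ * w⁻¹ = r ^ (k + 1) := by rw [← conj_inv, ← conj_pow, hi, inv_pow, inv_inv]
  rw [mul_assoc, mul_inv_eq_iff_eq_mul.1 e, ← mul_assoc, ← pow_add, show k + 1 + (k + 1) = 2 * k + 1 + 1 by ring,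
    pow_succ, ← hk, pow_orderOf_eq_one, one_mul]

theorem eq_one_of_inv {u b : G} (hu : Odd (orderOf u)) (hb : Odd (orderOf b)) (hi : u * b * u⁻¹ = b⁻¹) : b = 1 := by
  have h2 : u * u ∈ 𝐂[b] := mem_cent1.2 (by
    rw [← mul_inv_eq_iff_eq_mul, mul_inv_rev, mul_assoc u, mul_assoc u, ← mul_assoc _ u⁻¹, hi, ← mul_assoc,
      ← conj_inv, hi, inv_inv])
  have h3 := mem_cent1.1 (zpowers_le.2 h2 (P4.mem_zpowers_sq hu))
  rw [h3, mul_inv_cancel_right, eq_inv_iff_mul_eq_one] at hi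
  have := P4.mem_zpowers_sq hb
  rwa [hi, zpowers_one_eq_bot, mem_bot] at this

/-- the elements of an abelian group inverted by `w` -/
def invSub (K : Subgroup G) (hK : K ≤ 𝐂(K)) (w : G) : Subgroup G where
  carrier := {x | x ∈ K ∧ w * x * w⁻¹ = x⁻¹}
  one_mem' := ⟨one_mem _, by simp⟩
  mul_mem' {a b} ha hb := ⟨mul_mem ha.1 hb.1, by
    rw [← conj_mul, ha.2, hb.2, ← mul_inv_rev, mem_centralizer_iff.1 (hK ha.1) b hb.1]⟩
  inv_mem' ha := ⟨inv_mem ha.1, by rw [← conj_inv, ha.2]⟩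

theorem OC.exists_inv (h : OC G) {X : Subgroup G} {w : G} (hw : w ∈ X) (h2 : w * w = 1)
    (hi : ∀ g ∈ X, Commute w (g * w * g⁻¹) → g * w * g⁻¹ = w) : ∃ K ≤ X, Odd (Nat.card K) ∧ InvBy w K ∧
      ∀ r ∈ X, Odd (orderOf r) → w * r * w⁻¹ = r⁻¹ → r ∈ K := by
  have ho := odd_Od' X
  refine ⟨invSub (Od X) (h.self_le_cent ho) w, fun x hx => piCoreOf_le _ _ hx.1, odd_of_le ho fun x hx => hx.1,
    fun x hx => hx.2, fun r hr o e => ⟨?_, e⟩⟩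
  obtain ⟨c, hc, e'⟩ := conj_of_inv o e
  have := zstar_in hw h2 hi (commutator_mem_commutator (zpowers_le.2 hr hc) (mem_zpowers w))
  rwa [commutatorElement_def, e', mul_inv_cancel_right] at this

namespace Tq
variable (h : Tq Q)
include h

theorem conj (g : G) : Tq (MulAut.conj g • Q) := by
  refine ⟨h.oc, fun x hx => ?_, by rw [card_conj_smul]; exact h.four, fun t ht h1 x hx => ?_⟩
  · obtain ⟨y, hy, rfl⟩ := mem_conj_smul'.1 hx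
    rw [conj_mul, h.sq y hy, mul_one, mul_inv_cancel]
  · obtain ⟨y, hy, rfl⟩ := mem_conj_smul'.1 ht
    have := h.fix y hy (fun e => h1 (by rw [e, mul_one, mul_inv_cancel])) (g⁻¹ * x * g) (by
      rw [mul_assoc, ← conj_smul_conj_smul, ← conj_smul_normalizer, mem_conj_smul, inv_inv, ← conj_smul_conj_smul]
      exact hx)
    rw [← conj_smul_normalizer, mem_conj_smul]
    exact this

theorem cj (hP : Cj Q P) : Tq P := let ⟨g, e⟩ := hP; e ▸ h.conj g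

theorem inv_eq {t : G} (ht : t ∈ Q) : t⁻¹ = t := inv_eq_of_mul_eq_one_right (h.sq t ht)

theorem le_cent : Q ≤ 𝐂(Q) := fun x hx => mem_centralizer_iff.2 fun y hy => by
  rw [← h.inv_eq (mul_mem hy hx), mul_inv_rev, h.inv_eq hx, h.inv_eq hy]

theorem isPGroup : IsPGroup 2 Q := fun x => ⟨1, Subtype.ext (by rw [pow_one, pow_two]; exact h.sq x x.2)⟩

theorem eq (hP : Cj Q P) (hP' : Cj Q P') {t : G} (ht : t ∈ P) (h1 : t ≠ 1) (hn : t ∈ 𝐍(P')) : P' = P := by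
  obtain ⟨g, rfl⟩ := hP
  obtain ⟨g', rfl⟩ := hP'
  have := (h.conj g).fix t ht h1 (g' * g⁻¹) (by rwa [conj_smul_conj_smul, inv_mul_cancel_right])
  rw [← conj_smul_eq_of_mem_normalizer this, conj_smul_conj_smul, inv_mul_cancel_right]

theorem norm_of_comm (hP : Cj Q P) {t z : G} (ht : t ∈ P) (h1 : t ≠ 1) (e : z * t = t * z) : z ∈ 𝐍(P) :=
  conj_smul_eq_iff_mem_normalizer.1 (h.eq hP (hP.conj z) ht h1 (le_normalizer (by
    rw [mem_conj_smul, mul_assoc, ← e, inv_mul_cancel_left]; exact ht)))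

theorem mem_of_norm (hP : Cj Q P) {d : G} (hd : Dd Q d) (hn : d ∈ 𝐍(P)) : d ∈ P :=
  let ⟨h1, _, h2, h3⟩ := hd; h.eq h2 hP h3 h1 hn ▸ h3

theorem inv_of {d : G} (hd : Dd Q d) : Inv d := let ⟨h1, _, h2, h3⟩ := hd; ⟨h1, (h.cj h2).sq d h3⟩

theorem odd' (hP : Cj Q P) (hP' : Cj Q P') (hne : P' ≠ P) {t s : G} (ht : t ∈ P) (h1 : t ≠ 1) (hs : s ∈ P')
    (h2 : s ≠ 1) : Odd (orderOf (t * s)) := by
  by_contra ho
  obtain ⟨m, hm⟩ := Nat.not_odd_iff_even.1 ho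
  have it := (h.cj hP).inv_eq ht
  have is := (h.cj hP').inv_eq hs
  have qt := (h.cj hP).sq t ht
  set r := t * s with hr
  have pos := orderOf_pos r
  have z1 : r ^ m ≠ 1 := pow_ne_one_of_lt_orderOf (by omega) (by omega)
  have z2 : (r ^ m)⁻¹ = r ^ m := inv_eq_of_mul_eq_one_right (by rw [← pow_add, ← hm, pow_orderOf_eq_one])
  have key : ∀ u : G, u * r * u⁻¹ = r⁻¹ → ∀ k : ℕ, u * (r ^ k)⁻¹ = r ^ k * u := fun u e k => by
    rw [← mul_inv_eq_iff_eq_mul, ← conj_inv, ← conj_pow, e, inv_pow, inv_inv]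
  have e1 : t * r * t⁻¹ = r⁻¹ := by rw [hr, mul_inv_rev, is, it, ← mul_assoc, qt, one_mul]
  have e2 : s * r * s⁻¹ = r⁻¹ := by rw [hr, mul_inv_rev, ← mul_assoc, mul_inv_cancel_right, is, it]
  have n1 := h.norm_of_comm hP ht h1 (z := r ^ m) (by rw [← key t e1, z2])
  have n2 := h.norm_of_comm hP' hs h2 (z := r ^ m) (by rw [← key s e2, z2])
  have hd : Dd Q (r ^ m * t) := by
    obtain ⟨k, rfl | rfl⟩ := Nat.even_or_odd' m
    · convert Dd.conj ⟨h1, P, hP, ht⟩ (r ^ k) using 1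
      rw [mul_assoc, key t e1, ← mul_assoc, ← pow_add, two_mul]
    · convert (Dd.conj ⟨h2, P', hP', hs⟩ t).conj (r ^ k) using 1
      rw [it, ← hr, mul_assoc (r ^ k), key (r * t) (by rw [mul_inv_rev, mul_assoc r, mul_assoc r, ← mul_assoc _ t⁻¹, e1]; group),
        ← mul_assoc, ← pow_add, two_mul, pow_succ, mul_assoc]
  have := (mul_mem_cancel_right ht).1 (h.mem_of_norm hP hd (mul_mem n1 (le_normalizer ht)))
  exact hne (h.eq hP hP' this z1 n2)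

theorem odd {g t s : G} (hg : g ∉ 𝐍(Q)) (ht : t ∈ Q) (h1 : t ≠ 1) (hs : s ∈ MulAut.conj g • Q)
    (h2 : s ≠ 1) : Odd (orderOf (t * s)) :=
  h.odd' (.refl Q) ⟨g, rfl⟩ (mt conj_smul_eq_iff_mem_normalizer.1 hg) ht h1 hs h2

theorem exists_K {X : Subgroup G} {S : Set G} (hS : ∀ w ∈ S, Dd Q w ∧ w ∈ X)
    (hc : ∀ w ∈ S, ∀ x ∈ X, x * w * x⁻¹ ∈ S)
    (hax : ∀ w ∈ S, ∀ w' ∈ S, ∀ P, Cj Q P → w ∈ P → w' ∈ P → w' = w) {w : G} (hw : w ∈ S) :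
    ∃ K ≤ X, Odd (Nat.card K) ∧ InvBy w K ∧ ∀ w' ∈ S, w' * w ∈ K := by
  obtain ⟨⟨h1, P, hP, hwP⟩, hX⟩ := hS w hw
  have i := h.inv_of (hS w hw).1
  obtain ⟨K, k1, k2, k3, k4⟩ := h.oc.exists_inv hX i.sq fun g hg e => hax w hw _ (hc w hw g hg) P hP hwP
    (h.mem_of_norm hP (hS _ (hc w hw g hg)).1 (h.norm_of_comm hP hwP h1 e.symm.eq))
  refine ⟨K, k1, k2, k3, fun w' hw' => ?_⟩
  obtain ⟨⟨h2, P', hP', hwP'⟩, hX'⟩ := hS w' hw'
  refine k4 _ (mul_mem hX' hX) ?_ (by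
    rw [← mul_assoc, mul_inv_cancel_right, mul_inv_rev, i.inv, (h.inv_of (hS w' hw').1).inv])
  by_cases e : P = P'
  · rw [hax w hw w' hw' P hP hwP (e ▸ hwP'), i.sq, orderOf_one]; exact odd_one
  · exact h.odd' hP' hP e hwP' h2 hwP h1

end Tq

/-- the involutions moving `α` to `β` -/
def Sw (Q α β : Subgroup G) : Set G := {w | Dd Q w ∧ MulAut.conj w • α = β}

/-- the stabilizer of a pair -/
def St2 (α β : Subgroup G) : Subgroup G :=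
  (MulAction.stabilizer (MulAut G) ({α, β} : Set (Subgroup G))).comap MulAut.conj

theorem mem_St2 {x : G} : x ∈ St2 α β ↔ MulAut.conj x • α = α ∧ MulAut.conj x • β = β ∨
    MulAut.conj x • α = β ∧ MulAut.conj x • β = α := by
  rw [St2, mem_comap, MulAction.mem_stabilizer_iff, Set.smul_set_insert, Set.smul_set_singleton, Set.pair_eq_pair_iff]

namespace Tq
variable (h : Tq Q)
include h

theorem sw_symm {w : G} (hw : w ∈ Sw Q α β) : w ∈ Sw Q β α :=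
  ⟨hw.1, by rw [← hw.2, conj_smul_conj_smul, (h.inv_of hw.1).sq, conj_one_smul]⟩

theorem exists_B (hα : Cj Q α) (hne : β ≠ α) {w : G} (hw : w ∈ Sw Q α β) : ∃ B ≤ 𝐍(α) ⊓ 𝐍(β),
    Odd (Nat.card B) ∧ InvBy w B ∧ (∀ w' ∈ Sw Q α β, w' * w ∈ B) ∧
      ∀ t ∈ α, t ≠ 1 → ∀ b ∈ B, b * t = t * b → b = 1 := by
  have nα : ∀ w ∈ Sw Q α β, ∀ P, Cj Q P → w ∈ P → P ≠ α := fun w hw P _ hwP e =>
    hne (by rw [← hw.2, conj_smul_eq_of_mem_normalizer (le_normalizer (e ▸ hwP))])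
  obtain ⟨K, k1, k2, k3, k4⟩ := h.exists_K (X := St2 α β) (S := Sw Q α β)
    (fun w hw => ⟨hw.1, mem_St2.2 (.inr ⟨hw.2, (h.sw_symm hw).2⟩)⟩) (fun w hw x hx => ⟨hw.1.conj x, by
      rw [← conj_smul_conj_smul, ← conj_smul_conj_smul]
      rcases mem_St2.1 hx with ⟨e1, e2⟩ | ⟨e1, e2⟩
      · rw [← e1, conj_inv_smul_conj_smul, hw.2, e2]
      · rw [← e2, conj_inv_smul_conj_smul, (h.sw_symm hw).2, e1]⟩) (fun w hw w' hw' P hP h1 h2 => by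
      by_contra e
      refine nα w hw P hP h1 (h.eq hP hα (mul_mem h2 h1) (fun e' => e ?_) ?_).symm
      · rw [eq_inv_of_mul_eq_one_left e', (h.inv_of hw.1).inv]
      · rw [← conj_smul_eq_iff_mem_normalizer, ← conj_smul_conj_smul, hw.2, (h.sw_symm hw').2]) hw
  refine ⟨K, fun x hx => mem_of_sq_mem_odd k2 hx ?_, k2, k3, k4, fun t ht h1 b hb e => ?_⟩
  · simp only [mem_inf, ← conj_smul_eq_iff_mem_normalizer, ← conj_smul_conj_smul]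
    rcases mem_St2.1 (k1 hx) with ⟨e1, e2⟩ | ⟨e1, e2⟩
    · rw [e1, e1, e2, e2]; exact ⟨rfl, rfl⟩
    · rw [e1, e2, e1]; exact ⟨rfl, rfl⟩
  · obtain ⟨h2, P, hP, hwP⟩ := hw.1
    refine eq_one_of_inv (h.odd' hP hα (nα w hw P hP hwP).symm hwP h2 ht h1)
      (k2.of_dvd_nat (orderOf_dvd_natCard K hb)) ?_
    rw [mul_inv_rev, mul_assoc w, mul_assoc w, ← mul_assoc _ t⁻¹, ← e, mul_inv_cancel_right, ← mul_assoc, k3 b hb]

omit h in
theorem ncard_sharp (α : Subgroup G) : ((α : Set G) \ {1}).ncard + 1 = Nat.card α :=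
  Set.ncard_sdiff_singleton_add_one (one_mem α)

omit h in
theorem conj_maps {B : Subgroup G} (hB : B ≤ 𝐍(α)) {t : G} (ht : t ∈ α) (h1 : t ≠ 1)
    (hf : ∀ b ∈ B, b * t = t * b → b = 1) : Set.MapsTo (fun b => b * t * b⁻¹) B ((α : Set G) \ {1}) ∧
      Set.InjOn (fun b => b * t * b⁻¹) B :=
  ⟨fun b hb => ⟨conj_mem_of_mem_normalizer (hB hb) ht, mt conj_eq_one_iff.1 h1⟩, fun a ha b hb e =>
    (inv_mul_eq_one.1 (hf _ (mul_mem (inv_mem hb) ha) (by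
      rw [mul_assoc, mul_inv_eq_iff_eq_mul.1 e]; group))).symm⟩

theorem exists_ne (hα : Cj Q α) (s : G) : ∃ t ∈ α, t ≠ 1 ∧ t ≠ s := by
  by_contra! e
  have h1 := Set.ncard_le_ncard (s := (α : Set G) \ {1}) (t := {s}) fun t ht => e t ht.1 ht.2
  have h2 := ncard_sharp α
  have h3 := h.four
  rw [Set.ncard_singleton] at h1
  rw [hα.card] at h2
  omega

theorem card_B (hα : Cj Q α) {w : G} {B : Subgroup G} (hB : B ≤ 𝐍(α)) (h1 : ∀ w' ∈ Sw Q α β, w' * w ∈ B)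
    (h2 : ∀ t ∈ α, t ≠ 1 → ∀ b ∈ B, b * t = t * b → b = 1) :
    (Sw Q α β).ncard ≤ Nat.card B ∧ Nat.card B + 1 ≤ Nat.card Q := by
  obtain ⟨t, ht, t1, -⟩ := h.exists_ne hα 1
  obtain ⟨m, i⟩ := conj_maps hB ht t1 (h2 t ht t1)
  exact ⟨Set.ncard_le_ncard_of_injOn (t := (B : Set G)) (· * w) h1 fun _ _ _ _ e => mul_right_cancel e,
    (Nat.succ_le_succ (Set.ncard_le_ncard_of_injOn _ m i)).trans ((ncard_sharp α).trans hα.card).le⟩

theorem card_Sw (hα : Cj Q α) (hβ : Cj Q β) (hne : β ≠ α) : (Sw Q α β).ncard + 1 = Nat.card Q := by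
  classical
  have := Fintype.ofFinite G
  have := Fintype.ofFinite (Subgroup G)
  have le : ∀ β, β ≠ α → (Sw Q α β).ncard ≤ Nat.card Q - 1 := fun β hne => by
    rcases (Sw Q α β).eq_empty_or_nonempty with e | ⟨w, hw⟩
    · rw [e, Set.ncard_empty]; exact Nat.zero_le _
    · obtain ⟨B, b1, -, -, b2, b3⟩ := h.exists_B hα hne hw
      have := h.card_B hα (b1.trans inf_le_left) b2 b3
      omega
  set S := Finset.univ.filter fun P => Cj Q P ∧ P ≠ α with hS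
  have mS : ∀ P, P ∈ S ↔ Cj Q P ∧ P ≠ α := fun P => by rw [hS, Finset.mem_filter_univ]
  set D := S.biUnion fun P => ((P : Set G) \ {1}).toFinset with hD
  have mD : ∀ d, d ∈ D ↔ Dd Q d ∧ MulAut.conj d • α ≠ α := fun d => by
    simp only [hD, Finset.mem_biUnion, mS, Set.mem_toFinset, ne_eq, conj_smul_eq_iff_mem_normalizer]
    refine ⟨fun ⟨P, p1, p2⟩ => ⟨⟨p2.2, P, p1.1, p2.1⟩, fun e => p1.2 (h.eq p1.1 hα p2.1 p2.2 e).symm⟩,
      fun ⟨⟨p1, P, p2, p3⟩, p4⟩ => ⟨P, ⟨p2, fun e => p4 (le_normalizer (e ▸ p3))⟩, p3, p1⟩⟩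
  have c1 : D.card = ∑ _P ∈ S, (Nat.card Q - 1) := by
    rw [hD, Finset.card_biUnion]
    · refine Finset.sum_congr rfl fun P hP => ?_
      rw [← Set.ncard_eq_toFinset_card', ← ((mS P).1 hP).1.card, ← ncard_sharp, Nat.add_sub_cancel]
    · refine fun P hP P' hP' e => Finset.disjoint_left.2 fun d h1 h2 => e ?_
      rw [Set.mem_toFinset] at h1 h2
      exact h.eq ((mS P').1 hP').1 ((mS P).1 hP).1 h2.1 h2.2 (le_normalizer h1.1)
  have c2 : D.card = ∑ P ∈ S, (Sw Q α P).ncard := by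
    rw [Finset.card_eq_sum_card_fiberwise (f := fun d => MulAut.conj d • α) (t := S)
      fun d hd => (mS _).2 ⟨hα.conj d, ((mD d).1 hd).2⟩]
    refine Finset.sum_congr rfl fun P hP => ?_
    rw [← Set.ncard_coe_finset]
    congr 1
    ext d
    rw [Finset.coe_filter, Set.mem_ofPred_eq, mD]
    exact ⟨fun e => ⟨e.1.1, e.2⟩, fun e => ⟨⟨e.1, e.2 ▸ ((mS P).1 hP).2⟩, e.2⟩⟩
  have := (Finset.sum_eq_sum_iff_of_le fun P hP => le P ((mS P).1 hP).2).1 (c2.symm.trans c1) β ((mS β).2 ⟨hβ, hne⟩)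
  have := h.four
  omega

theorem sw_nonempty (hα : Cj Q α) (hβ : Cj Q β) (hne : β ≠ α) : (Sw Q α β).Nonempty :=
  Set.nonempty_of_ncard_ne_zero (by have := h.card_Sw hα hβ hne; have := h.four; omega)

theorem main (hα : Cj Q α) (hβ : Cj Q β) (hne : β ≠ α) {w : G} (hw : w ∈ Sw Q α β) : ∃ B ≤ 𝐍(α) ⊓ 𝐍(β),
    Nat.card B + 1 = Nat.card Q ∧ Odd (Nat.card B) ∧ InvBy w B ∧
      (∀ t ∈ α, t ≠ 1 → ∀ s ∈ α, s ≠ 1 → ∃ b ∈ B, b * t * b⁻¹ = s) ∧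
      (∀ w' ∈ Sw Q α β, w' * w ∈ B) ∧ ∀ b ∈ B, b * w ∈ Sw Q α β := by
  obtain ⟨B, b1, b2, b3, b4, b5⟩ := h.exists_B hα hne hw
  have c1 := h.card_B hα (b1.trans inf_le_left) b4 b5
  have c2 := h.card_Sw hα hβ hne
  have c : Nat.card B + 1 = Nat.card Q := by omega
  refine ⟨B, b1, c, b2, b3, fun t ht t1 s hs s1 => ?_, b4, fun b hb => ?_⟩
  · obtain ⟨m, i⟩ := conj_maps (b1.trans inf_le_left) ht t1 (b5 t ht t1)
    obtain ⟨b, hb, e⟩ := Set.surj_on_of_inj_on_of_ncard_le (t := (α : Set G) \ {1}) (fun b _ => b * t * b⁻¹)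
      (fun b hb => m hb) (fun a b ha hb e => i ha hb e)
      (Nat.le_of_succ_le_succ ((ncard_sharp α).trans (hα.card.trans c.symm)).le) (Set.toFinite _) s ⟨hs, s1⟩
    exact ⟨b, hb, e.symm⟩
  · obtain ⟨c, hc, e⟩ := conj_of_inv (b2.of_dvd_nat (orderOf_dvd_natCard B hb)) (b3 b hb)
    refine ⟨e ▸ hw.1.conj c, ?_⟩
    rw [← conj_smul_conj_smul, hw.2, conj_smul_eq_of_mem_normalizer (b1 hb).2]

theorem delta1 {g : G} (hg : g ∉ 𝐍(Q)) : ∃ (B : Subgroup G) (w : G), Inv w ∧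
    (∃ x, x * w * x⁻¹ ∈ Q) ∧ MulAut.conj w • Q = MulAut.conj g • Q ∧ B ≤ 𝐍(Q) ⊓ 𝐍(MulAut.conj g • Q) ∧
    Nat.card B + 1 = Nat.card Q ∧ Odd (Nat.card B) ∧ InvBy w B ∧
    ∀ t ∈ Q, t ≠ 1 → ∀ s ∈ Q, s ≠ 1 → ∃ b ∈ B, b * t * b⁻¹ = s := by
  have hne := mt conj_smul_eq_iff_mem_normalizer.1 hg
  obtain ⟨w, hw⟩ := h.sw_nonempty (.refl Q) ⟨g, rfl⟩ hne
  obtain ⟨B, b1, b2, b3, b4, b5, -⟩ := h.main (.refl Q) ⟨g, rfl⟩ hne hw
  obtain ⟨-, _, ⟨x, rfl⟩, hx⟩ := hw.1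
  exact ⟨B, w, h.inv_of hw.1, ⟨x⁻¹, by rw [inv_inv]; exact mem_conj_smul.1 hx⟩, hw.2, b1, b2, b3, b4, b5⟩

end Tq

/-- the hypotheses of the second part -/
structure Tq2 (Q : Subgroup G) : Prop extends Tq Q where
  sol : Group.IsSolvable 𝐍(Q)
  reg : ∀ x ∈ Op 2 𝐍(Q), x ≠ 1 → ∀ g : G, x ∈ 𝐍(MulAut.conj g • Q) → g ∈ 𝐍(Q)

namespace Tq2
variable (h : Tq2 Q) {B : Subgroup G}
include h

theorem sol' (hα : Cj Q α) : Group.IsSolvable 𝐍(α) := by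
  obtain ⟨g, rfl⟩ := hα
  have := h.sol
  rw [← conj_smul_normalizer]
  exact Group.isSolvable_of_surjective ((MulAut.conj g).toMonoidHom.subgroupMap_surjective 𝐍(Q))

theorem reg' (hα : Cj Q α) (hβ : Cj Q β) (hne : β ≠ α) {x : G} (hx : x ∈ Op 2 𝐍(α)) (hn : x ∈ 𝐍(β)) : x = 1 := by
  obtain ⟨g, rfl⟩ := hα
  obtain ⟨g', rfl⟩ := hβ
  rw [← conj_smul_normalizer, Op, ← conj_piCoreOf] at hx
  obtain ⟨y, hy, rfl⟩ := mem_conj_smul'.1 hx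
  refine conj_eq_one_iff.2 (by_contra fun e => hne ?_)
  have := h.reg y hy e (g⁻¹ * g') (by
    rw [← conj_smul_conj_smul, ← conj_smul_normalizer, mem_conj_smul, inv_inv]; exact hn)
  rw [← mul_inv_cancel_left g g', ← conj_smul_conj_smul, conj_smul_eq_of_mem_normalizer this]

theorem uniq (hα : Cj Q α) (hβ : Cj Q β) (hne : β ≠ α) {B' : Subgroup G} (h1 : B ≤ 𝐍(α) ⊓ 𝐍(β))
    (h2 : B' ≤ 𝐍(α) ⊓ 𝐍(β)) (ho : Odd (Nat.card B)) (hc : Nat.card B' = Nat.card B) : B' = B := by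
  refine eq_of_le_of_card_ge (fun x hx => ?_) hc.ge
  obtain ⟨y, hy, r, hr, rfl⟩ := (mem_sup_of_le_normalizer_right ((h1.trans inf_le_left).trans
    (le_norm_piCoreOf _ _))).1 (h.oc.le_sup (h.sol' hα) (h2.trans inf_le_left) (h1.trans inf_le_left) ho hc.dvd hx)
  rw [h.reg' hα hβ hne hr ((mul_mem_cancel_left (mem_inf.1 (h1 hy)).2).1 (h2 hx).2), mul_one]
  exact hy

variable (hc : Nat.card B + 1 = Nat.card Q) (ho : Odd (Nat.card B))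
include hc ho

theorem inv (hα : Cj Q α) (hβ : Cj Q β) (hne : β ≠ α) (h1 : B ≤ 𝐍(α) ⊓ 𝐍(β)) {w : G} (hw : w ∈ Sw Q α β) :
    InvBy w B ∧ ∀ t ∈ α, t ≠ 1 → ∀ s ∈ α, s ≠ 1 → ∃ b ∈ B, b * t * b⁻¹ = s := by
  obtain ⟨B', b1, b2, -, b3, b4, -⟩ := h.toTq.main hα hβ hne hw
  exact h.uniq hα hβ hne h1 b1 ho (by omega) ▸ ⟨b3, b4⟩

theorem not_fix (hα : Cj Q α) (hβ : Cj Q β) (hne : β ≠ α) (h1 : B ≤ 𝐍(α) ⊓ 𝐍(β)) {d : G} (hd : Dd Q d)
    (hB : d ∈ 𝐍(B)) : d ∉ 𝐍(α) := fun hn => by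
  have hdα := h.toTq.mem_of_norm hα hd hn
  obtain ⟨w, hw⟩ := h.toTq.sw_nonempty hα hβ hne
  obtain ⟨s, hs, s1, s2⟩ := h.toTq.exists_ne hα d
  obtain ⟨b, hb, e⟩ := (h.inv hc ho hα hβ hne h1 hw).2 d hdα hd.1 s hs s1
  refine s2 (mul_inv_eq_one.1 (mem_bot.1 ((disjoint_two (h.toTq.cj hα).isPGroup ho).le_bot
    (mem_inf.2 ⟨mul_mem hs (inv_mem hdα), ?_⟩))))
  rw [← e, mul_assoc, mul_assoc, ← mul_assoc d]
  exact mul_mem hb (conj_mem_of_mem_normalizer hB (inv_mem hb))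

theorem two (hα : Cj Q α) (hβ : Cj Q β) (hne : β ≠ α) (h1 : B ≤ 𝐍(α) ⊓ 𝐍(β)) (hγ : Cj Q γ) (hne' : γ ≠ α)
    (h2 : B ≤ 𝐍(γ)) : γ = β := by
  by_contra hne''
  have hα' := h1.trans inf_le_left
  have hβ' := h1.trans inf_le_right
  obtain ⟨w1, hw1⟩ := h.toTq.sw_nonempty hα hβ hne
  obtain ⟨w2, hw2⟩ := h.toTq.sw_nonempty hβ hγ hne''
  obtain ⟨w3, hw3⟩ := h.toTq.sw_nonempty hγ hα hne'.symm
  obtain ⟨K, k1, k2, k3, k4⟩ := h.toTq.exists_K (X := 𝐍(B)) (S := {w | Dd Q w ∧ InvBy w B})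
    (fun w hw => ⟨hw.1, hw.2.mem_norm⟩)
    (fun w hw x hx => ⟨hw.1.conj x, conj_smul_eq_of_mem_normalizer hx ▸ hw.2.conj x⟩)
    (fun w hw w' hw' P hP p1 p2 => by
      by_contra e
      have hd : Dd Q (w' * w) := ⟨fun e' => e (by rw [eq_inv_of_mul_eq_one_left e', (h.toTq.inv_of hw.1).inv]),
        P, hP, mul_mem p2 p1⟩
      have hn := mul_mem hw'.2.mem_norm hw.2.mem_norm
      have i := (h.inv hc ho hα (hα.conj (w' * w)) (mt conj_smul_eq_iff_mem_normalizer.1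
        (h.not_fix hc ho hα hβ hne h1 hd hn)) (le_inf hα' (by
          rw [← conj_smul_normalizer, ← conj_smul_eq_of_mem_normalizer hn]; exact conj_smul_mono _ hα')) ⟨hd, rfl⟩).1
      have : B = ⊥ := eq_bot_iff.2 fun b hb =>
        i.eq_one ho hb (mem_cent1.2 (mem_centralizer_iff.1 (hw'.2.mul hw.2) b hb))
      have := h.four
      rw [‹B = ⊥›, card_bot] at hc
      omega) (w := w1) ⟨hw1.1, (h.inv hc ho hα hβ hne h1 hw1).1⟩
  have a2 := k4 w2 ⟨hw2.1, (h.inv hc ho hβ hγ hne'' (le_inf hβ' h2) hw2).1⟩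
  have a3 := k4 w3 ⟨hw3.1, (h.inv hc ho hγ hα hne'.symm (le_inf h2 hα') hw3).1⟩
  have a := mul_mem a3 (inv_mem a2)
  obtain ⟨c, -, e⟩ := conj_of_inv (k2.of_dvd_nat (orderOf_dvd_natCard K a)) (k3 _ a)
  refine h.not_fix hc ho hα hβ hne h1 (e ▸ hw1.1.conj c)
    (mul_mem (k1 a) (h.inv hc ho hα hβ hne h1 hw1).1.mem_norm) ?_
  rw [mul_inv_rev, mul_assoc w3, mul_inv_cancel_left, (h.toTq.inv_of hw2.1).inv, ← conj_smul_eq_iff_mem_normalizer,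
    ← conj_smul_conj_smul, ← conj_smul_conj_smul, hw1.2, hw2.2, hw3.2]

omit hc ho in
theorem trans (hα : Cj Q α) (hβ : Cj Q β) (hne : β ≠ α) (hγ : Cj Q γ) (hne' : γ ≠ α) :
    ∃ x ∈ Op 2 𝐍(α), MulAut.conj x • γ = β := by
  obtain ⟨w, hw⟩ := h.toTq.sw_nonempty hα hβ hne
  obtain ⟨w', hw'⟩ := h.toTq.sw_nonempty hα hγ hne'
  obtain ⟨B, b1, b2, b3, -⟩ := h.toTq.main hα hβ hne hw
  obtain ⟨B', c1, c2, c3, -⟩ := h.toTq.main hα hγ hne' hw'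
  have hp := isPGroup_Op 2 𝐍(α)
  obtain ⟨x, hx, e⟩ := exists_conj_eq_of_sup_eq ((c1.trans inf_le_left).trans (le_norm_piCoreOf _ _))
    (by rw [sup_comm, h.oc.sup_eq (h.sol' hα) (c1.trans inf_le_left) (b1.trans inf_le_left) c3 (by omega), sup_comm])
    (cop_two hp c3) (cop_two hp b3) (.inl (have := hp.isNilpotent; inferInstance))
  refine ⟨x, hx, h.two b2 b3 hα hβ hne b1 (hγ.conj x) (fun e' => hne' ?_) ?_⟩
  · rw [← conj_inv_smul_conj_smul x γ, e', conj_smul_eq_of_mem_normalizer (inv_mem (piCoreOf_le _ _ hx))]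
  · rw [← e, ← conj_smul_normalizer]
    exact conj_smul_mono _ (c1.trans inf_le_right)

end Tq2

theorem ncard_Cj (Q : Subgroup G) : {P | Cj Q P}.ncard = (𝐍(Q)).index := by
  let _ := MulAction.compHom (Subgroup G) (MulAut.conj (G := G))
  rw [show 𝐍(Q) = MulAction.stabilizer G Q from ext fun _ => conj_smul_eq_iff_mem_normalizer.symm,
    MulAction.index_stabilizer]
  rfl

theorem Tq.delta2 (h : Tq Q) (hs : Group.IsSolvable 𝐍(Q)) (hne : 𝐍(Q) ≠ ⊤)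
    (hR : ∀ x ∈ Op 2 𝐍(Q), x ≠ 1 → ∀ g : G, x ∈ 𝐍(MulAut.conj g • Q) → g ∈ 𝐍(Q)) :
    (𝐍(Q)).index = Nat.card (Op 2 𝐍(Q)) + 1 ∧ ∀ g g' : G, g ∉ 𝐍(Q) → g' ∉ 𝐍(Q) →
      ∃ x ∈ Op 2 𝐍(Q), MulAut.conj (x * g) • Q = MulAut.conj g' • Q := by
  have h2 : Tq2 Q := ⟨h, hs, hR⟩
  refine ⟨?_, fun g g' hg hg' => ?_⟩
  · obtain ⟨g, hg⟩ := not_forall.1 (mt (eq_top_iff' _).2 hne)
    have hne := mt conj_smul_eq_iff_mem_normalizer.1 hg
    rw [← ncard_Cj, ← Set.ncard_sdiff_singleton_add_one (a := Q) (Cj.refl Q)]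
    congr 1
    refine (Set.ncard_congr (s := (Op 2 𝐍(Q) : Set G)) (t := {P | Cj Q P} \ {Q}) (fun x _ => MulAut.conj x • MulAut.conj g • Q)
      (fun x hx => ⟨Cj.conj (Q := Q) ⟨g, rfl⟩ x, fun e => hne ?_⟩) (fun x y hx hy e => ?_) fun P hP => ?_).symm
    · rw [← conj_inv_smul_conj_smul x (MulAut.conj g • Q), show _ = Q from e,
        conj_smul_eq_of_mem_normalizer (inv_mem (piCoreOf_le _ _ hx))]
    · refine (inv_mul_eq_one.1 (h2.reg' (.refl Q) ⟨g, rfl⟩ hne (mul_mem (inv_mem hy) hx) ?_)).symm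
      rw [← conj_smul_eq_iff_mem_normalizer, ← conj_smul_conj_smul, e, conj_inv_smul_conj_smul]
    · obtain ⟨x, hx, e⟩ := h2.trans (.refl Q) hP.1 hP.2 ⟨g, rfl⟩ hne
      exact ⟨x, hx, e⟩
  · obtain ⟨x, hx, e⟩ := h2.trans (.refl Q) ⟨g', rfl⟩ (mt conj_smul_eq_iff_mem_normalizer.1 hg') ⟨g, rfl⟩
      (mt conj_smul_eq_iff_mem_normalizer.1 hg)
    exact ⟨x, hx, by rw [← conj_smul_conj_smul, e]⟩

end Her
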