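import Cfsg.Agent.Lib.Her.AmA
import Cfsg.Agent.Lib.Her.Delta
import Cfsg.Agent.Lib.Her.Base

/-!
# S4841, step 6: the module part of the proof that three divides the order
-/

set_option autoImplicit false

namespace Her

open Cfsg GT FT GW Subgroup
open scoped Pointwise commutatorElement

universe u

theorem exists_cent_inv {G : Type*} [Group G] [Finite G] {s t : G} (hs : s * s = 1) (ht : t * t = 1)
    (ho : ¬ Odd (orderOf (s * t))) : ∃ z, Inv z ∧ z * s = s * z ∧ z * t = t * z := by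
  obtain ⟨m, hm⟩ := Nat.not_odd_iff_even.1 ho
  have pos := orderOf_pos (s * t)
  have z2 : (s * t) ^ m * (s * t) ^ m = 1 := by rw [← pow_add, ← hm, pow_orderOf_eq_one]
  have key : ∀ u : G, u * (s * t) * u⁻¹ = (s * t)⁻¹ → (s * t) ^ m * u = u * (s * t) ^ m := fun u e => by
    rw [eq_comm, ← mul_inv_eq_iff_eq_mul, ← conj_pow, e, inv_pow, inv_eq_of_mul_eq_one_right z2]
  have is := inv_eq_of_mul_eq_one_right hs
  have it := inv_eq_of_mul_eq_one_right ht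
  exact ⟨_, ⟨pow_ne_one_of_lt_orderOf (by omega) (by omega), z2⟩,
    key s (by rw [mul_inv_rev, is, it, ← mul_assoc, hs, one_mul]),
    key t (by rw [mul_inv_rev, ← mul_assoc, mul_inv_cancel_right, is, it])⟩

theorem num_am {a b x : ℕ} (e : (2 ^ b + 1) * x + 1 = (2 ^ a) ^ 2) (h1 : 2 ^ a - 1 ≤ x)
    (h2 : x ≤ (2 ^ b - 1) * (2 ^ a - 1)) (ha : 1 ≤ a) : a = b := by
  obtain ⟨q, hq⟩ : ∃ q, 2 ^ a = q + 1 := ⟨_, (Nat.sub_add_cancel Nat.one_le_two_pow).symm⟩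
  obtain ⟨τ, hτ⟩ : ∃ τ, 2 ^ b = τ + 1 := ⟨_, (Nat.sub_add_cancel Nat.one_le_two_pow).symm⟩
  have q0 : 0 < q := by have := Nat.one_lt_two_pow (show a ≠ 0 by omega); omega
  have e' := e
  rw [hq, hτ] at e' h2
  rw [hq] at h1
  simp only [Nat.add_sub_cancel] at h1 h2
  have l1 : b ≤ a := (Nat.pow_le_pow_iff_right one_lt_two).1 (by
    rw [hq, hτ]; exact Nat.succ_le_succ (Nat.le_of_mul_le_mul_right (by nlinarith) q0))
  have l2 : a < 2 * b := (Nat.pow_lt_pow_iff_right one_lt_two).1 (by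
    rw [hq, two_mul, pow_add, hτ]
    have : q + 2 ≤ (τ + 2) * τ := Nat.le_of_mul_le_mul_right (by nlinarith) q0
    nlinarith)
  obtain ⟨i, rfl⟩ := Nat.exists_eq_add_of_le l1
  have d : ((2 : ℤ) ^ b + 1) ∣ 2 ^ (2 * i) - 1 := by
    have e2 : ((2 : ℤ) ^ b + 1) * x + 1 = (2 ^ (b + i)) ^ 2 := by
      have h3 : ((2 : ℤ) ^ b) = τ + 1 := by exact_mod_cast hτ
      have h4 : ((2 : ℤ) ^ (b + i)) = q + 1 := by exact_mod_cast hq
      rw [h3, h4]; exact_mod_cast e'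
    exact ⟨x - (2 ^ b - 1) * 2 ^ (2 * i), by linear_combination -e2⟩
  by_contra hi
  have i0 : 0 < 2 * i := by omega
  rcases le_or_gt (2 * i) b with c | c
  · have := Int.le_of_dvd (sub_pos.2 (one_lt_pow₀ one_lt_two i0.ne')) d
    have := pow_le_pow_right₀ (one_le_two (α := ℤ)) c
    omega
  · obtain ⟨j, hj⟩ := Nat.exists_eq_add_of_lt c
    have d' : ((2 : ℤ) ^ b + 1) ∣ 2 ^ (j + 1) + 1 := by
      have := (dvd_mul_right ((2 : ℤ) ^ b + 1) (2 ^ (j + 1))).sub d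
      rwa [hj, show ((2 : ℤ) ^ b + 1) * 2 ^ (j + 1) - (2 ^ (b + j + 1) - 1) = 2 ^ (j + 1) + 1 by ring] at this
    have := Int.le_of_dvd (by positivity) d'
    have := pow_lt_pow_right₀ (one_lt_two (α := ℤ)) (show j + 1 < b by omega)
    omega

variable {L V : Type u} [Group L] [Finite L] [AddCommGroup V] [Finite V] [DistribMulAction L V]

theorem Am.not_mod_of (h : Am L) (w : Wk L V) (cov : ∀ v : V, v ≠ 0 → ∃ t : L, Inv t ∧ t • v = v)
    (h3 : ∀ R : Subgroup L, IsPGroup 2 R → 3 ∣ Nat.card (Fx V R) - 1) {T Z : Subgroup L}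
    (hT : IsSylowIn 2 T ⊤) (hZ : Z ≤ T) (hn : T ≤ 𝐍(Z)) (sq : ∀ x ∈ Z, x * x = 1) (h4 : 4 ≤ Nat.card Z)
    (se : SE 𝐍(Z)) : False := by
  classical
  have se' : ∀ x ∈ 𝐍(Z), IsPElt 2 x → x ≠ 1 → ∀ g : L, x ∈ 𝐍(MulAut.conj g • Z) → g ∈ 𝐍(Z) :=
    fun x hx h2 h1 g hg => se x hx h2 h1 g (conj_smul_normalizer g Z ▸ hg)
  have tq : Tq Z := ⟨h.oc, sq, h4, fun t ht h1 => se' t (le_normalizer ht) (isPElt_of_sq (sq t ht)) h1⟩
  have Z0 : Z ≠ ⊥ := fun e => by rw [e, card_bot] at h4; omega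
  have hs := h.loc Z tq.isPGroup Z0
  have hne : 𝐍(Z) ≠ ⊤ := fun e => h.ns (by rw [e] at hs; exact isSolvable_of_mulEquiv topEquiv)
  obtain ⟨g, hg⟩ : ∃ g, g ∉ 𝐍(Z) := by_contra fun e => hne (eq_top_iff.2 fun g _ => by_contra fun e' => e ⟨g, e'⟩)
  obtain ⟨idx, tra⟩ := tq.delta2 hs hne fun x hx =>
    se' x (piCoreOf_le _ _ hx) (isPElt_of_mem (isPGroup_Op 2 _) hx)
  have hO : Op 2 𝐍(Z) = T := by
    have h1 := Op_le_sylow (hT.of_le hn le_top)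
    refine le_antisymm h1 fun x hx => ?_
    obtain ⟨y, hy, e⟩ := tra g (x * g) hg fun e => hg ((mul_mem_cancel_left (hn hx)).1 e)
    have h2 := mul_mem (inv_mem (h1 hy)) hx
    have : y⁻¹ * x = 1 := by_contra fun h0 => hg (se' _ (hn h2) (isPElt_of_mem hT.isPGroup h2) h0 g
      (conj_smul_eq_iff_mem_normalizer.1 (by
        rw [← conj_smul_conj_smul, conj_smul_conj_smul x, ← e, ← conj_smul_conj_smul, conj_inv_smul_conj_smul])))
    exact inv_mul_eq_one.1 this ▸ hy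
  have inZ : ∀ s ∈ 𝐍(Z), s * s = 1 → s ∈ Z := fun s hs s2 => by
    by_cases s1 : s = 1
    · exact s1 ▸ one_mem _
    obtain ⟨t, ht, t1, -⟩ := tq.exists_ne ⟨g, rfl⟩ 1
    have t2 := (tq.conj g).sq t ht
    have ho : Odd (orderOf (s * t)) := by_contra fun ho => by
      obtain ⟨z, hz, e1, e2⟩ := exists_cent_inv s2 t2 ho
      refine hg (se' z (se s hs (isPElt_of_sq s2) s1 z ?_) hz.isPElt hz.ne g (tq.norm_of_comm ⟨g, rfl⟩ ht t1 e2))
      rwa [mem_conj_smul, mul_assoc, ← e1, inv_mul_cancel_left]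
    obtain ⟨c, -, hc⟩ := conj_of_inv ho (w := t) (by
      rw [mul_inv_rev, ← mul_assoc, mul_inv_cancel_right, inv_eq_of_mul_eq_one_right s2,
        inv_eq_of_mul_eq_one_right t2])
    rw [mul_assoc s, t2, mul_one] at hc
    exact tq.mem_of_norm (.refl Z) (hc ▸ Dd.conj ⟨t1, _, ⟨g, rfl⟩, ht⟩ c) hs
  obtain ⟨B, -, -, -, -, hB, cB, -, -, trB⟩ := tq.delta1 hg
  have cen : ∀ z ∈ Z, ∀ x ∈ T, x * z = z * x := fun z hz x hx => by
    by_cases z1 : z = 1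
    · simp [z1]
    obtain ⟨⟨z0, h0, h0'⟩, h1⟩ := ne_bot_iff_exists_ne_one.1
      (inf_centralizer_ne_bot_of_isPGroup hT.isPGroup tq.isPGroup Z0 hn)
    obtain ⟨b, hb, rfl⟩ := trB z0 h0 (fun e => h1 (Subtype.ext e)) z hz z1
    have hN : 𝐍(Z) ≤ 𝐍(T) := hO ▸ (le_norm_piCoreOf _ _ : 𝐍(Z) ≤ 𝐍(Op 2 𝐍(Z)))
    have := h0' _ ((mem_normalizer_iff''.1 (hN (hB hb).1) x).1 hx)
    calc x * (b * z0 * b⁻¹) = b * (b⁻¹ * x * b * z0) * b⁻¹ := by group
      _ = _ := by rw [this]; group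
  -- counting
  let R : V → Subgroup L → Prop := fun v P => Cj Z P ∧ ∃ t ∈ P, t ≠ 1 ∧ t • v = v
  have R1 : ∀ v, v ≠ 0 → ∃ P, R v P := fun v hv => by
    obtain ⟨t, ht, e⟩ := cov v hv
    obtain ⟨x, -, hx⟩ := hT.exists_conj_mem ht.isPElt (mem_top t)
    exact ⟨_, ⟨x⁻¹, rfl⟩, t, mem_conj_smul.2 (by simpa using inZ _ (hn hx) (ht.conj x).sq), ht.ne, e⟩
  have R2 : ∀ v, v ≠ 0 → ∀ P P', R v P → R v P' → P' = P := fun v hv P P' ⟨c, t, ht, t1, e⟩ ⟨c', s, hs, s1, e'⟩ => by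
    by_contra hne
    have h1 := tq.odd' c c' hne ht t1 hs s1
    have h2 : t * s = 1 := by_contra fun h0 => hv (w.fpf h1 h0 (by rw [mul_smul, e', e]))
    exact hne (tq.eq c c' ht t1 (le_normalizer (eq_inv_of_mul_eq_one_left h2 ▸ inv_mem hs)))
  choose! f hf using R1
  let X : Set V := {v | v ≠ 0 ∧ R v Z}
  have fib : ∀ P, Cj Z P → {v | v ≠ 0 ∧ R v P}.ncard = X.ncard := by
    rintro _ ⟨x, rfl⟩
    refine (Set.ncard_congr (fun v _ => x • v) ?_ (fun _ _ _ _ => smul_left_cancel x) ?_).symm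
    · rintro v ⟨hv, -, t, ht, t1, e⟩
      exact ⟨smul_ne_zero' x hv, ⟨x, rfl⟩, _, conj_mem_conj_smul.2 ht, mt conj_eq_one_iff.1 t1,
        smul_mem_Wv.2 e⟩
    · rintro v ⟨hv, -, t, ht, t1, e⟩
      refine ⟨x⁻¹ • v, ⟨smul_ne_zero' _ hv, .refl Z, _, mem_conj_smul.1 ht, fun e => t1 ?_, ?_⟩, smul_inv_smul _ _⟩
      · rw [← conj_eq_one_iff (a := x⁻¹), inv_inv, e]
      · rw [mul_smul, smul_inv_smul, mul_smul, e]
  obtain ⟨z, hz, z1, -⟩ := tq.exists_ne (.refl Z) 1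
  have iz : ∀ {t}, t ∈ Z → t ≠ 1 → Inv t := fun ht t1 => ⟨t1, sq _ ht⟩
  have cW : ∀ {t}, t ∈ Z → t ≠ 1 → {v | v ∈ Wv V t ∧ v ≠ 0}.ncard = Nat.card (Wv V z) - 1 := fun ht t1 => by
    rw [ncard_ne_zero, w.card_W_eq (iz ht t1) (iz hz z1)]
  have sub : ∀ {t}, t ∈ Z → t ≠ 1 → {v | v ∈ Wv V t ∧ v ≠ 0} ⊆ X := fun ht t1 v hv =>
    ⟨hv.2, .refl Z, _, ht, t1, hv.1⟩
  have c1 : Nat.card V - 1 = (Nat.card T + 1) * X.ncard := by
    have h1 := ncard_eq_of_fib f (S := {v | v ≠ 0}) (n := X.ncard) fun v hv => by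
      rw [← fib _ (hf v hv).1]
      congr 1
      ext y
      exact and_congr_right fun hy => ⟨fun e => e ▸ hf y hy, fun e => R2 y hy _ _ e (hf y hy)⟩
    have h2 : f '' {v | v ≠ 0} = {P | Cj Z P} := by
      ext P
      refine ⟨fun ⟨v, hv, e⟩ => e ▸ (hf v hv).1, fun c => ?_⟩
      obtain ⟨t, ht, t1, -⟩ := tq.exists_ne c 1
      obtain ⟨v, hv⟩ := AddSubgroup.ne_bot_iff_exists_ne_zero.1 (w.W_ne_bot (isPElt_of_sq ((tq.cj c).sq t ht)))
      have v0 : v.1 ≠ 0 := fun e => hv (Subtype.ext e)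
      exact ⟨v, v0, R2 v v0 _ _ ⟨c, t, ht, t1, v.2⟩ (hf v v0)⟩
    rw [h2, ncard_Cj, idx, hO] at h1
    simpa [← h1] using (ncard_ne_zero (⊤ : AddSubgroup V)).symm
  have c2 : X.ncard ≤ (Nat.card T - 1) * (Nat.card (Wv V z) - 1) := by
    have h1 : X ⊆ ⋃ t ∈ ((Z : Set L) \ {1}).toFinite.toFinset, {v | v ∈ Wv V t ∧ v ≠ 0} :=
      fun v ⟨hv, _, t, ht, t1, e⟩ => Set.mem_biUnion (by simp [ht, t1]) ⟨e, hv⟩
    refine (Set.ncard_le_ncard h1).trans ((Finset.set_ncard_biUnion_le _ _).trans ?_)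
    rw [Finset.sum_congr rfl fun t ht => by
      simp only [Set.Finite.mem_toFinset, Set.mem_sdiff, Set.mem_singleton_iff] at ht
      exact cW ht.1 ht.2, Finset.sum_const, smul_eq_mul, ← Set.ncard_eq_toFinset_card]
    have := Tq.ncard_sharp Z
    have := card_le_of_le hZ
    exact Nat.mul_le_mul_right _ (by omega)
  have c3 := Set.ncard_le_ncard (sub hz z1)
  have qV := w.card_W (iz hz z1)
  have V2 : IsPGroup 2 (Multiplicative V) := fun v => ⟨1, by rw [pow_one, pow_two]; exact w.exp v.toAdd⟩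
  obtain ⟨n, hV⟩ := IsPGroup.iff_card.1 V2
  obtain ⟨a, -, ha⟩ := (Nat.dvd_prime_pow Nat.prime_two).1
    (hV ▸ (Wv V z).card_addSubgroup_dvd_card : Nat.card (Wv V z) ∣ 2 ^ n)
  obtain ⟨b, hb⟩ := IsPGroup.iff_card.1 hT.isPGroup
  have pV : 1 < Nat.card V := have := w.nt; Finite.one_lt_card
  have hab : a = b := by
    rw [cW hz z1] at c3
    rw [ha] at c3 qV
    rw [ha, hb] at c2
    rw [hb] at c1
    refine num_am (x := X.ncard) (by omega) c3 c2 ?_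
    rcases a with _ | a
    · simp at qV; omega
    · omega
  have qT : Nat.card T = Nat.card (Wv V z) := by rw [ha, hb, hab]
  have cX : X.ncard = Nat.card (Wv V z) - 1 := by
    rw [qT, ← qV, show Nat.card (Wv V z) ^ 2 - 1 = _ from Nat.sq_sub_sq _ 1] at c1
    exact (Nat.eq_of_mul_eq_mul_left (Nat.succ_pos _) c1).symm
  have WW : ∀ t ∈ Z, ∀ v ∈ Wv V z, t • v = v := fun t ht v hv => by
    by_cases t1 : t = 1
    · rw [t1, one_smul]
    by_cases v0 : v = 0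
    · rw [v0, smul_zero]
    exact ((Set.eq_of_subset_of_ncard_le (sub ht t1) (cX.trans (cW ht t1).symm).le).ge (sub hz z1 ⟨hv, v0⟩)).1
  have WX : ∀ t ∈ Z, t ≠ 1 → ∀ v, t • v = v → v ∈ Wv V z := fun t ht t1 v hv => by
    by_cases v0 : v = 0
    · rw [v0]; exact zero_mem _
    exact ((Set.eq_of_subset_of_ncard_le (sub hz z1) (cX.trans (cW hz z1).symm).le).ge (sub ht t1 ⟨hv, v0⟩)).1
  obtain ⟨v, -, v0, hv⟩ := have := w.nt
    w.exists_fixed hT.isPGroup (U := ⊤) (fun _ _ _ _ => trivial) top_ne_bot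
  obtain ⟨y, hy⟩ := w.free z (iz hz z1) v (hv z (hZ hz))
  have cancel : ∀ a b : V, a + b + b = a := fun a b => by rw [add_assoc, w.exp, add_zero]
  have zy : z • y = v + y := by rw [← hy, cancel]
  have inj : ∀ x ∈ T, x • y = y → x = 1 := fun x hx e => by_contra fun x1 => by
    obtain ⟨s, hs, s2, s1⟩ := exists_invol (hT.isPGroup.to_le (zpowers_le.2 hx)) (mt zpowers_eq_bot.1 x1)
    have h1 : z • y = y := WX s (inZ s (hn (zpowers_le.2 hx hs)) s2) s1 y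
      (zpowers_le.2 (show x ∈ MulAction.stabilizer L y from e) hs)
    exact v0 (by rw [← hy, h1, w.exp])
  have mW : ∀ x ∈ T, x • y + y ∈ Wv V z := fun x hx => by
    rw [mem_Wv, smul_add, smul_smul, ← cen z hz x hx, mul_smul, zy, smul_add, hv x hx, add_add_add_comm, w.exp,
      zero_add]
  have inj' : ∀ x ∈ T, ∀ x' ∈ T, x • y + y = x' • y + y → x = x' := fun x hx x' hx' e =>
    (inv_mul_eq_one.1 (inj _ (mul_mem (inv_mem hx') hx) (by
      rw [mul_smul, add_right_cancel e, inv_smul_smul]))).symm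
  have sur := ((Nat.bijective_iff_injective_and_card fun x : T => (⟨_, mW x x.2⟩ : Wv V z)).2
    ⟨fun x x' e => Subtype.ext (inj' _ x.2 _ x'.2 (congrArg Subtype.val e)), qT⟩).2
  have mF : ∀ x ∈ Z, x • y + y ∈ Fx V T := fun x hx x' hx' => by
    have h1 := WW x hx _ (mW x' hx')
    rw [smul_add, smul_smul] at h1
    rw [smul_add, smul_smul, cen x hx x' hx', ← cancel ((x * x') • y) (x • y), h1, add_assoc, add_comm (x • y),
      ← add_assoc, add_right_comm (x' • y), w.exp, zero_add, add_comm]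
  have cF : Nat.card Z = Nat.card (Fx V T) := Nat.card_eq_of_bijective (fun x : Z => ⟨_, mF x x.2⟩)
    ⟨fun x x' e => Subtype.ext (inj' _ (hZ x.2) _ (hZ x'.2) (congrArg Subtype.val e)), fun u => by
      obtain ⟨⟨x, hx⟩, e⟩ := sur ⟨u, u.2 z (hZ hz)⟩
      replace e : x • y + y = u := congrArg Subtype.val e
      have h1 := u.2 x hx
      rw [← e, smul_add, smul_smul, add_comm (x • y)] at h1
      exact ⟨⟨x, inZ x (hn hx) (inj _ (mul_mem hx hx) (add_right_cancel h1))⟩, Subtype.ext e⟩⟩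
  have := h3 T hT.isPGroup
  rw [← cF, ← cB, Nat.add_sub_cancel] at this
  exact h.three (this.trans (card_subgroup_dvd_card B))

/-- the two results of the local analysis -/
def HP : Prop := ∀ (G : Type u) [Group G] [Finite G], Am G → ∀ T : Subgroup G, IsSylowIn 2 T ⊤ →
  ¬ 𝐍(Jt T) ≤ 𝐂(Oz T) ∧ SE 𝐍(Zs T)

theorem HP.not_mod (H : HP.{u}) (h : Am L) (w : Wk L V) (cov : ∀ v : V, v ≠ 0 → ∃ t : L, Inv t ∧ t • v = v)
    (h3 : ∀ R : Subgroup L, IsPGroup 2 R → 3 ∣ Nat.card (Fx V R) - 1) : False := by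
  obtain ⟨T, hT⟩ := exists_isSylowIn (p := 2) (⊤ : Subgroup L)
  obtain ⟨h1, h2⟩ := H L h T hT
  exact h.not_mod_of w cov h3 hT (Zs_le T) (le_normalizer.trans ((norm_le_norm_Jt T).trans (le_norm_Zs T)))
    (fun x hx => sq_of_elem (elem_Zs T) hx) (le_trans (by norm_num) (h.card_Zs hT h1)) h2

theorem HP.three_dvd (H : HP.{u}) (h : Hc 2 L V) (w : Wk L V) (ns : ¬ Group.IsSolvable L) : 3 ∣ Nat.card L := by
  by_contra h3
  obtain ⟨P, -, hmax⟩ := Finite.exists_le_maximal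
    (p := fun X : Subgroup L => IsPGroup 2 X ∧ ¬ Group.IsSolvable 𝐍(X)) (a := ⊥)
    ⟨IsPGroup.of_bot, fun e => ns (by rw [normalizer_eq_top] at e; exact isSolvable_of_mulEquiv topEquiv)⟩
  obtain ⟨hP, hN⟩ := hmax.prop
  have hU : Fx V P ≠ ⊥ := by
    have := w.nt
    obtain ⟨v, -, h0, hv⟩ := w.exists_fixed hP (U := ⊤) (fun _ _ _ _ => trivial) top_ne_bot
    exact fun e => h0 (AddSubgroup.mem_bot.1 (e ▸ hv))
  obtain ⟨Γ, _, _, _, π, hs, hπ, hf, hk⟩ := exists_restrict 𝐍(P) (Fx V P) fun n hn u hu g hg => by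
    rw [← smul_inv_smul n (g • n • u), smul_smul n⁻¹, smul_smul (n⁻¹ * g),
      hu _ ((mem_normalizer_iff''.1 hn g).1 hg)]
  have hker : IsPGroup 2 π.ker := hk ▸ (w.isPGroup_Cn hU).comap_subtype
  have k1 : ∀ n : 𝐍(P), n.1 ∈ P → π n = 1 := fun n hn =>
    show n ∈ π.ker from hk ▸ fun v hv => hv _ hn
  let pre : Subgroup Γ → Subgroup L := fun Y => (Y.comap π).map 𝐍(P).subtype
  have p0 : ∀ Y, P ≤ pre Y := fun Y p hp =>
    ⟨⟨p, le_normalizer hp⟩, show π _ ∈ Y by rw [k1 _ hp]; exact one_mem _, rfl⟩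
  have p1 : ∀ Y : Subgroup Γ, IsPGroup 2 Y → IsPGroup 2 (pre Y) := fun Y hY =>
    (hY.comap_of_ker_isPGroup π hker).map _
  have p2 : ∀ Y (n : 𝐍(P)), π n ∈ 𝐍(Y) → n.1 ∈ 𝐍(pre Y) := fun Y n h =>
    le_normalizer_map _ (mem_map_of_mem _ (le_normalizer_comap π h))
  have K : ∀ Y : Subgroup Γ, IsPGroup 2 Y → ¬ Group.IsSolvable 𝐍(pre Y) → ∀ n : 𝐍(P), π n ∈ Y → n.1 ∈ P :=
    fun Y hY hs n hn => hmax.le_of_ge ⟨p1 Y hY, hs⟩ (p0 Y) ⟨n, hn, rfl⟩
  have K' : ∀ Y : Subgroup Γ, IsPGroup 2 Y → ⊤ ≤ 𝐍(Y) → ∀ n : 𝐍(P), π n ∈ Y → n.1 ∈ P := fun Y hY hn =>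
    K Y hY fun hs => hN (isSolvable_of_le fun n h => p2 Y ⟨n, h⟩ (hn (mem_top _)))
  have bot : ∀ Y : Subgroup Γ, (∀ n : 𝐍(P), π n ∈ Y → n.1 ∈ P) → Y = ⊥ := fun Y hY => eq_bot_iff.2 fun g hg => by
    obtain ⟨n, rfl⟩ := hs g
    exact k1 n (hY n hg)
  have oc := (w.oc.sub _).of_surj hs hker
  have w' : Wk Γ (Fx V P) := by
    refine Wk.of hf (fun u hu => ?_) (fun u => Subtype.ext (w.exp _))
      ((AddSubgroup.nontrivial_iff_ne_bot _).2 hU) oc (bot _ (K' _ (isPGroup_Op 2 ⊤) (le_norm_piCoreOf _ _)))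
    refine (((w.two u.1 fun e => hu (Subtype.ext e)).comap_subtype (K := 𝐍(P))).map π).to_le fun g hg => ?_
    obtain ⟨n, rfl⟩ := hs g
    exact ⟨n, (hπ n u).symm.trans (congrArg Subtype.val hg), rfl⟩
  have am : Am Γ := by
    refine ⟨oc, fun e => h3 (e.trans ((card_dvd_of_surjective π hs).trans (card_subgroup_dvd_card _))),
      fun R hR R0 => ?_, fun e => hN ?_⟩
    · have : Group.IsSolvable 𝐍(pre R) := by_contra fun e => R0 (bot R (K R hR e))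
      have : Group.IsSolvable (𝐍(pre R).subgroupOf 𝐍(P)) :=
        Group.isSolvable_of_isSolvable_injective (f := 𝐍(P).subtype.subgroupComap 𝐍(pre R))
          fun a b e => Subtype.ext (Subtype.ext (congrArg (fun x : 𝐍(pre R) => x.1) e))
      have := isSolvable_map (𝐍(pre R).subgroupOf 𝐍(P)) π
      refine isSolvable_of_le (K := (𝐍(pre R).subgroupOf 𝐍(P)).map π) fun g hg => ?_
      obtain ⟨n, rfl⟩ := hs g
      exact ⟨n, p2 R n hg, rfl⟩
    · have := hker.isNilpotent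
      exact Group.isSolvable_of_ker_le_range π.ker.subtype π (by rw [range_subtype])
  have lt : ∀ u ∈ Fx V P, u ≠ 0 → P < MulAction.stabilizer L u ⊓ 𝐍(P) := fun u hu u0 => by
    refine lt_inf_normalizer_of_lt (w.two u u0) (lt_of_le_of_ne hu fun e => ?_)
    obtain ⟨T, hT⟩ := exists_isSylowIn (p := 2) (⊤ : Subgroup Γ)
    exact am.ne_bot hT (bot T fun n hn =>
      ((e ▸ h.syl u u0 : IsSylowIn 2 P ⊤).eq_of_le (p1 T hT.isPGroup) le_top (p0 T)).le ⟨n, hn, rfl⟩)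
  obtain ⟨e, e1, e2⟩ := h.exists_e
  have e3 : 3 ∣ e := by
    obtain ⟨⟨u, hu⟩, u0⟩ := AddSubgroup.ne_bot_iff_exists_ne_zero.1 hU
    replace u0 : u ≠ 0 := fun e => u0 (Subtype.ext e)
    obtain ⟨t, -, t2, t1⟩ := exists_invol (w.two u u0) (ne_bot_of_gt ((lt u hu u0).trans_le inf_le_left))
    have h1 := w.card_W ⟨t1, t2⟩
    obtain ⟨n, -, hn⟩ := h.card_V
    have h2 : ¬ 3 ∣ Nat.card (Wv V t) := fun d => by
      have := Nat.prime_three.dvd_of_dvd_pow (hn ▸ d.trans (Wv V t).card_addSubgroup_dvd_card)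
      omega
    refine ((Nat.Prime.dvd_mul Nat.prime_three).1 (?_ : 3 ∣ (MulAction.stabilizer L u).index * e)).resolve_left
      fun d => h3 (d.trans (index_dvd_card _))
    have h4 := e1 _ (h.syl u u0)
    have : Nat.card (Wv V t) ^ 2 % 3 = 1 := by
      rw [Nat.pow_mod]
      rcases (by omega : Nat.card (Wv V t) % 3 = 1 ∨ Nat.card (Wv V t) % 3 = 2) with c | c <;> rw [c]
    omega
  refine H.not_mod am w' (fun u u0 => ?_) fun R hR => ?_
  · have u1 : u.1 ≠ 0 := fun e => u0 (Subtype.ext e)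
    obtain ⟨n, ⟨h1, h2⟩, h4⟩ := SetLike.exists_of_lt (lt u u.2 u1)
    have h5 : zpowers (π ⟨n, h2⟩) ≤ MulAction.stabilizer Γ u := zpowers_le.2 (Subtype.ext ((hπ _ u).trans h1))
    obtain ⟨t, ht, t2, t1⟩ := exists_invol ((w'.two u u0).to_le h5) (mt zpowers_eq_bot.1 fun e =>
      h4 (K' ⊥ IsPGroup.of_bot (normalizer_eq_top _).ge ⟨n, h2⟩ e))
    exact ⟨t, ⟨t1, t2⟩, h5 ht⟩
  · have : Nat.card (Fx (Fx V P) R) = Nat.card (Fx V (pre R)) := Nat.card_congr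
      ⟨fun u => ⟨u.1.1, by rintro _ ⟨n, hn, rfl⟩; exact (hπ n u.1).symm.trans (congrArg Subtype.val (u.2 _ hn))⟩,
        fun u => ⟨⟨u.1, fun g hg => u.2 g (p0 R hg)⟩, fun g hg => by
          obtain ⟨n, rfl⟩ := hs g
          exact Subtype.ext ((hπ n _).trans (u.2 _ ⟨n, hg, rfl⟩))⟩, fun _ => rfl, fun _ => rfl⟩
    exact this ▸ e3.trans (e2 _ (p1 R hR))

end Her
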