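import Cfsg.Agent.Lib.Her.AmA
import Cfsg.Agent.Lib.GW.ProdA

/-!
# Maximal intersections of conjugates, strong embedding
-/

set_option autoImplicit false
set_option linter.unusedSectionVars false

namespace Her

open Cfsg GT FT GW Subgroup
open scoped Pointwise commutatorElement

variable {G : Type*} [Group G] [Finite G] {T M P P' K D : Subgroup G} {ρ : Subgroup G → G → Prop}

/-- a relation between subgroups and points -/
structure Pt (M : Subgroup G) (ρ : Subgroup G → G → Prop) : Prop where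
  r1 : ∀ P g x, ρ P g → ρ (MulAut.conj x • P) (x * g)
  r2 : ∀ P g m, m ∈ M → ρ P g → ρ P (g * m)
  r3 : ∀ P g, ρ P g → P ≠ ⊥ ∧ P ≤ MulAut.conj g • M
  r4 : ∀ P P' g, ρ P g → P ≤ P' → P' ≤ MulAut.conj g • M → ρ P' g

/-- a `2`-group with two points -/
def Tw (M : Subgroup G) (ρ : Subgroup G → G → Prop) (P : Subgroup G) : Prop :=
  IsPGroup 2 P ∧ ρ P 1 ∧ ∃ g ∉ M, ρ P g

/-- a largest `2`-group with two points -/
structure Mx (M : Subgroup G) (ρ : Subgroup G → G → Prop) (P : Subgroup G) : Prop extends Pt M ρ where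
  tw : Tw M ρ P
  max : ∀ P', Tw M ρ P' → Nat.card P' ≤ Nat.card P

namespace Mx
variable (h : Mx M ρ P)
include h

theorem le : P ≤ M := by simpa using (h.r3 _ _ h.tw.2.1).2

theorem ne : P ≠ ⊥ := (h.r3 _ _ h.tw.2.1).1

theorem conj {m : G} (hm : m ∈ M) : Mx M ρ (MulAut.conj m • P) := by
  obtain ⟨h1, h2, g, h3, h4⟩ := h.tw
  refine ⟨h.toPt, ⟨isPGroup_conj_smul m h1, ?_, m * g, mt (mul_mem_cancel_left hm).1 h3, h.r1 _ _ _ h4⟩,
    fun P' e => (h.max P' e).trans (card_conj_smul m P).ge⟩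
  simpa using h.r2 _ _ _ (inv_mem hm) (h.r1 _ _ m h2)

theorem uniq' (hl : P < P') (h2 : IsPGroup 2 P') (hM : P' ≤ M) {g : G} (hg : ρ P g) (h3 : P' ≤ MulAut.conj g • M) :
    g ∈ M := by_contra fun e => (card_lt_of_lt hl).not_ge
  (h.max _ ⟨h2, h.r4 _ _ _ h.tw.2.1 hl.le (by simpa using hM), g, e, h.r4 _ _ _ hg hl.le h3⟩)

theorem uniq (hl : P < P') (h2 : IsPGroup 2 P') (hM : P' ≤ M) {n : G} (hn : n ∈ 𝐍(P)) (hn' : n ∈ 𝐍(P')) : n ∈ M :=
  h.uniq' hl h2 hM (by simpa [conj_smul_eq_of_mem_normalizer hn] using h.r1 _ _ n h.tw.2.1)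
    (conj_smul_eq_of_mem_normalizer hn' ▸ conj_smul_mono n hM)

variable (hT : IsSylowIn 2 T ⊤) (hM : 𝐍(T) ≤ M)
include hT hM

theorem not_syl : ¬ IsSylowIn 2 P ⊤ := fun hP => by
  obtain ⟨-, -, g, h3, h4⟩ := h.tw
  have hTM := hT.of_le (le_normalizer.trans hM) le_top
  obtain ⟨m, hm, e⟩ := hTM.exists_conj_eq (hP.of_le h.le le_top)
  obtain ⟨_, hx, e'⟩ := (hTM.conj g).exists_conj_eq (hP.of_le (h.r3 _ _ h4).2 le_top)
  obtain ⟨m', hm', rfl⟩ := mem_conj_smul'.1 hx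
  have : m⁻¹ * g * m' ∈ 𝐍(T) := by
    rw [conj_smul_conj_smul, inv_mul_cancel_right, ← e] at e'
    rw [← conj_smul_eq_iff_mem_normalizer, mul_assoc, ← conj_smul_conj_smul, e', conj_inv_smul_conj_smul]
  exact h3 ((mul_mem_cancel_left (inv_mem hm)).1 ((mul_mem_cancel_right hm').1 (hM this)))

theorem exists_lt {g : G} (hg : ρ P g) : ∃ S : Subgroup G, IsPGroup 2 S ∧ S ≤ 𝐍(P) ⊓ MulAut.conj g • M ∧ P < S := by
  obtain ⟨S, hS, h1⟩ := exists_isSylowIn_ge h.tw.1 (h.r3 _ _ hg).2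
  have hl : P < S := lt_of_le_of_ne h1 fun e => h.not_syl hT hM (hT.of_card_ge h.tw.1 le_top (by
    rw [e, hS.card_eq_card ((hT.of_le (le_normalizer.trans hM) le_top).conj g), card_conj_smul]))
  exact ⟨S ⊓ 𝐍(P), hS.isPGroup.to_inf_left, le_inf inf_le_right (inf_le_left.trans hS.le),
    lt_inf_normalizer_of_lt hS.isPGroup hl⟩

theorem not_le : ¬ 𝐍(P) ≤ M := fun e => by
  obtain ⟨-, -, g, h3, h4⟩ := h.tw
  obtain ⟨S, h1, h2, hl⟩ := h.exists_lt hT hM h4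
  exact h3 (h.uniq' hl h1 ((h2.trans inf_le_left).trans e) h4 (h2.trans inf_le_right))

theorem exists_syl : ∃ P, Mx M ρ P ∧ P < T ⊓ 𝐍(P) ∧ IsSylowIn 2 (T ⊓ 𝐍(P)) 𝐍(P) := by
  obtain ⟨S, h1, h2, hl⟩ := h.exists_lt hT hM h.tw.2.1
  rw [conj_one_smul] at h2
  obtain ⟨T1, h3, h4⟩ := exists_isSylowIn_ge h1 h2
  have h5 : IsSylowIn 2 T1 𝐍(P) := IsSylowIn.of_inf_normalizer (h3.of_le
    (le_inf (h3.le.trans inf_le_left) le_normalizer) fun n hn =>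
      ⟨hn.1, h.uniq (hl.trans_le h4) h3.isPGroup (h3.le.trans inf_le_right) hn.1 hn.2⟩)
  obtain ⟨m, hm, e⟩ := (hT.of_le (le_normalizer.trans hM) le_top).exists_conj_le h3.isPGroup (h3.le.trans inf_le_right)
  have h6 := h5.conj m
  rw [conj_smul_normalizer] at h6
  have h7 := h6.eq_of_le (Q := T ⊓ 𝐍(MulAut.conj m • P)) hT.isPGroup.to_inf_left inf_le_right (le_inf e h6.le)
  refine ⟨_, h.conj hm, ?_, h7 ▸ h6⟩
  rw [h7]
  exact lt_of_le_of_ne (conj_smul_mono m (hl.le.trans h4)) fun e =>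
    (hl.trans_le h4).ne (MulAction.injective (MulAut.conj m) e)

omit hT hM in
theorem star {T1 : Subgroup G} (hT1 : T1 ≤ M) (hK : K ≤ 𝐍(P)) (hKM : ¬ K ≤ M) (hD : IsPGroup 2 D) (h1 : P ≤ D)
    (h2 : K ≤ 𝐍(D)) (h3 : D ⊓ 𝐍(P) ≤ T1) : D = P := by_contra fun e => hKM fun _ hk =>
  h.uniq (lt_inf_normalizer_of_lt hD (lt_of_le_of_ne h1 (Ne.symm e))) hD.to_inf_left (h3.trans hT1) (hK hk)
    (le_normalizer_inf h2 (hK.trans le_normalizer) hk)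

end Mx

theorem Am.lemP (h : Am G) (hT : IsSylowIn 2 T ⊤) (hM : 𝐍(Jt T) ≤ M) (ρ : Subgroup G → G → Prop)
    (r1 : ∀ P g x, ρ P g → ρ (MulAut.conj x • P) (x * g)) (r2 : ∀ P g m, m ∈ M → ρ P g → ρ P (g * m))
    (r3 : ∀ P g, ρ P g → P ≠ ⊥ ∧ P ≤ MulAut.conj g • M)
    (r4 : ∀ P P' g, ρ P g → P ≤ P' → P' ≤ MulAut.conj g • M → ρ P' g)
    {P0 : Subgroup G} {g : G} (h0 : IsPGroup 2 P0) (h1 : ρ P0 1) (h2 : ρ P0 g) (hg : g ∉ M) :
    ∃ P K : Subgroup G, ρ P 1 ∧ P < T ⊓ 𝐍(P) ∧ Gp (T ⊓ 𝐍(P)) K ∧ Op 2 ((T ⊓ 𝐍(P)) ⊔ K) = P ∧ ¬ K ≤ M ∧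
      K ≤ 𝐂(Oz P) ∧
      ∀ R : Subgroup G, IsPGroup 2 R → T ⊓ 𝐍(P) ≤ R → Group.IsSolvable ↥(R ⊔ K) → R = T ⊓ 𝐍(P) := by
  have hM' := (norm_le_norm_Jt T).trans hM
  have hTM := le_normalizer.trans hM'
  obtain ⟨P1, m1, m2⟩ := Set.exists_max_image {P | Tw M ρ P} (fun P => Nat.card P) (Set.toFinite _)
    ⟨P0, h0, h1, g, hg, h2⟩
  obtain ⟨P, x, hl, hs⟩ := Mx.exists_syl ⟨⟨r1, r2, r3, r4⟩, m1, m2⟩ hT hM'
  set T1 := T ⊓ 𝐍(P) with e1
  have h1M : T1 ≤ M := inf_le_left.trans hTM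
  have sol := h.loc P x.tw.1 x.ne
  obtain ⟨r, _, hr⟩ : ∃ r, ∃ _ : Fact r.Prime, ∀ K, IsSylowIn r K 𝐍(P) → ¬ K ≤ M := by
    by_contra! e
    exact x.not_le hT hM' (le_of_forall_exists_isSylowIn_le fun q hq => e q hq)
  obtain ⟨K, hK⟩ := exists_isSylowIn r 𝐍(P)
  have hKM := hr K hK
  have pr : ∃ r : ℕ, ∃ _ : Fact r.Prime, r ≠ 2 ∧ IsPGroup r K :=
    ⟨r, ‹_›, fun e => by subst e; exact hr _ hs h1M, hK.isPGroup⟩
  have K0 : K ≠ ⊥ := fun e => hKM (e ▸ bot_le)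
  have nP := sup_le hs.le hK.le
  have gp : Gp T1 K := ⟨hs.of_le le_sup_left nP, isSolvable_of_le nP, pr, K0⟩
  have eQ : Op 2 (T1 ⊔ K) = P := x.star h1M hK.le hKM (isPGroup_Op 2 _) (le_Op (hl.le.trans le_sup_left) nP x.tw.1)
    (le_sup_right.trans (le_norm_piCoreOf _ _)) (inf_le_left.trans gp.Q_le)
  have loc : ∀ R : Subgroup G, IsPGroup 2 R → T1 ≤ R → Group.IsSolvable ↥(R ⊔ K) → R = T1 := fun R hR h1 h2 => by
    obtain ⟨R', h3, h4⟩ := exists_isSylowIn_ge hR (le_sup_left : R ≤ R ⊔ K)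
    have h5 : R' ⊔ K ≤ R ⊔ K := sup_le h3.le le_sup_right
    have g' : Gp R' K := ⟨h3.of_le le_sup_left h5, isSolvable_of_le h5, pr, K0⟩
    have h6 : R' ⊓ 𝐍(P) = T1 := hs.eq_of_le h3.isPGroup.to_inf_left inf_le_right (le_inf (h1.trans h4) hs.le)
    have nK : K ≤ 𝐍(Op 2 (R' ⊔ K)) := le_sup_right.trans (le_norm_piCoreOf _ _)
    have h7 : Op 2 (R' ⊔ K) = P := x.star h1M hK.le hKM (isPGroup_Op 2 _) (fun y hy => by
      obtain ⟨⟨k, hk⟩, k1⟩ := ne_bot_iff_exists_ne_one.1 K0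
      have hy' := h4 (h1 (hl.le hy))
      refine g'.mem_of_comm h.oc hy' hk (fun e => k1 (Subtype.ext e)) (mem_of_two g'.odd (isPGroup_Op 2 _) nK
        (isPElt_of_mem x.tw.1 ?_) (mul_mem (conj_mem_of_mem_normalizer (g'.norm h.oc (mem_sup_left hy'))
          (mem_sup_left hk)) (inv_mem (mem_sup_left hk))))
      exact commutator_le_left_of_norm hK.le (commutator_mem_commutator hy hk)) nK
      ((inf_le_inf_right _ g'.Q_le).trans h6.le)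
    exact le_antisymm (h4.trans ((le_inf le_rfl (h7 ▸ le_sup_left.trans (le_norm_piCoreOf _ _))).trans h6.le)) h1
  refine ⟨P, K, x.tw.2.1, hl, gp, eQ, hKM, eQ ▸ gp.ff h.oc h.three (eQ.symm ▸ fun e => ?_), loc⟩
  have nJ : K ≤ 𝐍(Jt T1) := Jt_eq e hl.le ▸ hK.le.trans (norm_le_norm_Jt P)
  by_cases e2 : T1 = T
  · exact hKM ((e2 ▸ nJ).trans hM)
  · have h3 := lt_inf_normalizer_of_lt hT.isPGroup (lt_of_le_of_ne inf_le_left e2 : T1 < T)
    have := h.loc _ (isPGroup_Jt hs.isPGroup) (Jt_ne_bot hs.isPGroup (hl.trans_le' bot_le).ne')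
    exact h3.ne' (loc _ hT.isPGroup.to_inf_left h3.le
      (isSolvable_of_le (sup_le (inf_le_right.trans (norm_le_norm_Jt T1)) nJ)))

theorem exists_mem_sq (hP : IsPGroup 2 P) (h0 : P ≠ ⊥) : ∃ x ∈ P, x ≠ 1 ∧ x * x = 1 := by
  simpa only [sq] using exists_mem_pow_eq_one (dvd_card_of_isPGroup_of_ne_bot hP h0)

theorem exists_mem_cent (hT : IsPGroup 2 T) (hP : IsPGroup 2 P) (h0 : P ≠ ⊥) (hn : T ≤ 𝐍(P)) :
    ∃ x ∈ P, x ∈ 𝐂(T) ∧ x ≠ 1 ∧ x * x = 1 :=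
  let ⟨x, hx, e⟩ := exists_mem_sq hP.to_inf_left (inf_centralizer_ne_bot_of_isPGroup hT hP h0 hn)
  ⟨x, hx.1, hx.2, e⟩

theorem Am.not_cent (h : Am G) (hT : IsSylowIn 2 T ⊤) : ¬ 𝐍(Jt T) ≤ 𝐂(Oz T) := fun hc => by
  obtain ⟨z, hz, z0, z1, z2⟩ := exists_mem_cent hT.isPGroup hT.isPGroup (h.ne_bot hT) le_normalizer
  have iz := isPElt_of_sq z2
  have key : ∀ g ∈ (⊤ : Subgroup G), Commute z (g * z * g⁻¹) → g * z * g⁻¹ = z := fun g _ e => by_contra fun hg => by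
    have c1 : ∀ {a b : G}, a * b = b * a → zpowers a ⊔ zpowers b ≤ 𝐂[a] := fun e =>
      sup_le (zpowers_le.2 (mem_cent1.2 rfl)) (zpowers_le.2 (mem_cent1.2 e.symm))
    obtain ⟨P, K, p1, -, -, -, p2, p3, -⟩ := h.lemP hT (hc.trans (cent_le_cent1 (mem_Oz hz z0 z2)))
      (fun P g => g * z * g⁻¹ ∈ P ∧ P ≤ MulAut.conj g • 𝐂[z])
      (fun P g x e => ⟨by simpa only [mul_inv_rev, mul_assoc] using conj_mem_conj_smul.2 e.1,
        conj_smul_conj_smul x g _ ▸ conj_smul_mono x e.2⟩)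
      (fun P g m hm e => ⟨by
        rw [mul_inv_rev, mul_assoc g m z, mem_cent1.1 hm, mul_assoc g, mul_assoc z, mul_inv_cancel_left, ← mul_assoc]
        exact e.1, by rw [← conj_smul_conj_smul, conj_smul_eq_of_mem_normalizer (le_normalizer hm)]; exact e.2⟩)
      (fun P g e => ⟨fun e' => z1 (conj_eq_one_iff.1 (mem_bot.1 (e' ▸ e.1))), e.2⟩)
      (fun P P' g e h1 h2 => ⟨h1 e.1, h2⟩) (P0 := zpowers z ⊔ zpowers (g * z * g⁻¹)) (g := g)
      (iz.isPGroup_zpowers.to_sup_of_normal_right' (iz.conj g).isPGroup_zpowers (zpowers_le.2 (cent_le_norm _ (by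
        rw [centralizer_zpowers]; exact mem_cent1.2 e.eq))))
      ⟨by simpa using mem_sup_left (mem_zpowers z), by simpa using c1 e.eq⟩
      ⟨mem_sup_right (mem_zpowers _), by rw [conj_cent1, sup_comm]; exact c1 e.eq.symm⟩
      fun e' => hg (mul_inv_eq_iff_eq_mul.2 (mem_cent1.1 e'))
    simp only [one_mul, inv_one, mul_one, conj_one_smul] at p1
    exact p2 (p3.trans (cent_le_cent1 (mem_Oz p1.1 (le_cent1_iff.1 p1.2) z2)))
  have h1 := le_sup_of_comm iz.isPGroup_zpowers le_top (zstar_in (mem_top z) z2 key)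
  rw [top_inf_eq, centralizer_zpowers] at h1
  have := h.solv_cent iz z1
  have := isSolvable_sup_of_le_normalizer (H := 𝐂[z]) (K := Od ⊤) (le_top.trans (le_norm_piCoreOf _ _))
  have := isSolvable_of_le h1
  exact h.ns (isSolvable_of_mulEquiv (topEquiv (G := G)))

theorem card_le_sq {E : Subgroup G} (hE : IsElementaryAbelian 2 E) {x : G} (hx : x * x = 1) (hn : x ∈ 𝐍(E)) :
    Nat.card E ≤ Nat.card ↥(𝐂[x] ⊓ E) * Nat.card ↥(𝐂[x] ⊓ E) := by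
  have hc : ∀ a ∈ E, ∀ b ∈ E, a * b = b * a := fun a ha b hb => elem_le_cent hE hb a ha
  let φ : E →* G := MonoidHom.mk' (fun u => u * (x * u * x⁻¹)) fun a b => by
    rw [coe_mul, ← conj_mul, mul_assoc, mul_assoc (a : G), ← mul_assoc (b : G),
      hc b b.2 _ (conj_mem_of_mem_normalizer hn a.2), mul_assoc (x * a * x⁻¹)]
  have hk : φ.ker ≤ (𝐂[x]).subgroupOf E := fun u hu => mem_cent1.2 (by
    have : (u : G) * (x * u * x⁻¹) = u * u := hu.trans (sq_of_elem hE u.2).symm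
    exact (mul_inv_eq_iff_eq_mul.1 (mul_left_cancel this)).symm)
  have hr : φ.range ≤ 𝐂[x] ⊓ E := by
    rintro _ ⟨u, rfl⟩
    refine ⟨mem_cent1.2 ?_, mul_mem u.2 (conj_mem_of_mem_normalizer hn u.2)⟩
    show u * (x * u * x⁻¹) * x = x * (u * (x * u * x⁻¹))
    rw [← hc _ (conj_mem_of_mem_normalizer hn u.2) u u.2, inv_eq_of_mul_eq_one_right hx]
    conv_rhs => rw [hc _ (by simpa only [inv_eq_of_mul_eq_one_right hx] using conj_mem_of_mem_normalizer hn u.2) u u.2]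
    simp only [mul_assoc]
  rw [← card_mul_index φ.ker, index_ker]
  exact Nat.mul_le_mul ((card_le_of_le hk).trans (card_subgroupOf _ _).le) (card_le_of_le hr)

theorem Am.se' (h : Am G) (hT : IsSylowIn 2 T ⊤) (cK : 8 ≤ Nat.card (Zs T) → ∀ K, Gp T K → K ≤ 𝐍(Zs T)) :
    SE 𝐍(Zs T) := fun x hx h2 h1 g hg => by_contra fun hg' => by
  have h8 := h.card_Zs hT (h.not_cent hT)
  obtain ⟨P, K, ⟨P0, -⟩, hl, gp, eQ, hKM, hKc, loc⟩ := h.lemP hT (le_norm_Zs T)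
    (fun P g => P ≠ ⊥ ∧ P ≤ MulAut.conj g • 𝐍(Zs T))
    (fun P g x e => ⟨mt conj_smul_eq_bot_iff.1 e.1, conj_smul_conj_smul x g _ ▸ conj_smul_mono x e.2⟩)
    (fun P g m hm e => ⟨e.1, by
      rw [← conj_smul_conj_smul, conj_smul_eq_of_mem_normalizer (le_normalizer hm)]; exact e.2⟩)
    (fun P g e => e) (fun P P' g e h1 h2 => ⟨fun e' => e.1 (le_bot_iff.1 (e' ▸ h1)), h2⟩) h2.isPGroup_zpowers
    ⟨mt zpowers_eq_bot.1 h1, by simpa using hx⟩ ⟨mt zpowers_eq_bot.1 h1, zpowers_le.2 hg⟩ hg'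
  set T1 := T ⊓ 𝐍(P) with e1
  have hTZ : T ≤ 𝐍(Zs T) := le_normalizer.trans ((norm_le_norm_Jt T).trans (le_norm_Zs T))
  have hP := gp.two.to_le hl.le
  have hne : T1 ≠ T := fun e => hKM (cK h8 K (e ▸ gp))
  have nP : T1 ⊔ K ≤ 𝐍(P) := eQ ▸ le_norm_piCoreOf _ _
  have hC : ∀ x ∈ P, x ∈ 𝐂(T1) → x ≠ 1 → x * x = 1 → T ⊓ 𝐂[x] = T1 := fun x hx c x1 x2 =>
    haveI := h.solv_cent (isPElt_of_sq x2) x1
    loc _ hT.isPGroup.to_inf_left (le_inf inf_le_left (le_cent1_iff.2 c)) (isSolvable_of_le (sup_le inf_le_right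
      (hKc.trans (cent_le_cent1 (mem_Oz hx (centralizer_anti hl.le c) x2)))))
  obtain ⟨z, hz, z0, z1, z2⟩ := exists_mem_cent hT.isPGroup hT.isPGroup (h.ne_bot hT) le_normalizer
  have zP := centralizer_anti (hl.le.trans inf_le_left) z0
  have hKP : K ≤ 𝐂(P) := gp.le_cent h.oc nP ⟨hz, cent_le_norm _ zP⟩ (eQ.symm ▸ fun e =>
    hne ((hC z e (centralizer_anti inf_le_left z0) z1 z2).symm.trans (inf_eq_left.2 (le_cent1_iff.2 z0)))) zP
  have nK : T1 ≤ 𝐍(K) := gp.le_norm h.oc (eQ.symm ▸ hKP)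
  have i2 : ∀ A ≤ T1, A ≤ Zs T → P.relIndex A ≤ 2 := fun A a1 a2 =>
    (eQ ▸ gp.i2 h.oc a1 fun x hx => (sq_of_elem (elem_Zs T) (a2 hx)).symm ▸ one_mem _ : I2 P A).le
  have hZ : Zs T ≤ T1 := by
    obtain ⟨x0, a1, a2, a3, a4⟩ := exists_mem_cent gp.two hP P0 inf_le_right
    have b1 := card_le_sq (elem_Zs T) a4 (hTZ (hl.le a1).1)
    have b2 := i2 (𝐂[x0] ⊓ Zs T) (hC x0 a1 a2 a3 a4 ▸ le_inf (inf_le_right.trans (Zs_le T)) inf_le_left) inf_le_right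
    have b3 : P ⊓ Zs T ≠ ⊥ := fun e => by
      have b4 := card_inf_mul_relIndex P (𝐂[x0] ⊓ Zs T)
      rw [le_bot_iff.1 ((inf_le_inf_left P inf_le_right).trans e.le), card_bot, one_mul] at b4
      have := Nat.mul_le_mul (b4 ▸ b2) (b4 ▸ b2)
      omega
    obtain ⟨x, c1, c2, c3, c4⟩ := exists_mem_cent gp.two hP.to_inf_left b3
      (le_normalizer_inf inf_le_right (inf_le_left.trans hTZ))
    exact hC x c1.1 c2 c3 c4 ▸ le_inf (Zs_le T) ((elem_le_cent (elem_Zs T)).trans (cent_le_cent1 c1.2))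
  obtain ⟨y, hy, y1⟩ := SetLike.exists_of_lt (lt_inf_normalizer_of_lt hT.isPGroup (lt_of_le_of_ne inf_le_left hne : T1 < T))
  have ey := conj_smul_eq_of_mem_normalizer hy.2
  have d0 : P ⊓ MulAut.conj y • P ≠ ⊥ := fun e => by
    have b1 := i2 _ hZ le_rfl
    have b2 : (MulAut.conj y • P).relIndex (Zs T) ≤ 2 := by
      rw [← conj_smul_eq_of_mem_normalizer (hTZ hy.1), relIndex_conj_smul]; exact b1
    have b3 := relIndex_inf_le (H := P) (K := MulAut.conj y • P) (L := Zs T)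
    rw [e, relIndex_bot_left] at b3
    have := Nat.mul_le_mul b1 b2
    omega
  have c2 : MulAut.conj y • K ≤ 𝐂(MulAut.conj y • P) := conj_smul_centralizer y P ▸ conj_smul_mono y hKP
  have p2 : MulAut.conj y • P ≤ T1 := ey ▸ conj_smul_mono y hl.le
  refine y1 ⟨hy.1, mem_normalizer_of_conj_mem (conj_smul_le_iff.1 fun u hu => eQ ▸ gp.mem_of_cent h.oc (p2 hu)
    (h.oc.cmp (h.loc _ hP.to_inf_left d0) (hKP.trans ((centralizer_anti inf_le_left).trans (cent_le_norm _)))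
      (c2.trans ((centralizer_anti inf_le_right).trans (cent_le_norm _))) gp.odd (card_conj_smul y K).symm
      (le_normalizer_inf inf_le_right (ey.ge.trans ((conj_smul_mono y inf_le_right).trans
        (conj_smul_normalizer y P).le)) (p2 hu))
      (le_cent_comm.1 c2 hu) (nK (p2 hu))))⟩

end Her
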