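import Cfsg.Agent.Lib.Her.AmK
import Cfsg.Agent.Lib.Her.AmP
import Cfsg.Agent.Lib.Her.AmM

/-!
# The order of a non-solvable group of the class `𝓗` (`p = 2`) is divisible by three
-/

set_option autoImplicit false

namespace Her

open Cfsg GT FT GW Subgroup

universe u

theorem Am.se {G : Type*} [Group G] [Finite G] {T : Subgroup G} (h : Am G) (hT : IsSylowIn 2 T ⊤) : SE 𝐍(Zs T) :=
  h.se' hT fun h8 _ g => h.claimK hT h8 g

theorem three_dvd {L V : Type u} [Group L] [Finite L] [AddCommGroup V] [Finite V] [DistribMulAction L V]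
    (h : Hc 2 L V) (w : Wk L V) (ns : ¬ Group.IsSolvable L) : 3 ∣ Nat.card L :=
  HP.three_dvd (fun _ _ _ h _ hT => ⟨h.not_cent hT, h.se hT⟩) h w ns

end Her
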