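import Cfsg.Agent.Lib.Her.AmDefs

/-!
# Transvections and the groups `R K`
-/

set_option autoImplicit false
set_option linter.unusedSectionVars false

namespace Her

open Cfsg GT FT GW Subgroup
open scoped Pointwise commutatorElement

variable {G : Type*} [Group G] [Finite G]

theorem mem_of_pow_cop {H : Subgroup G} {x : G} {n : ℕ} (h : (orderOf x).Coprime n) (hx : x ^ n ∈ H) : x ∈ H :=
  zpowers_le.2 hx (mem_zpowers_pow_iff.2 h.symm)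

theorem I2.dvd {C E : Subgroup G} (h : I2 C E) : C.relIndex E ∣ 2 := by
  by_cases e : E ≤ C
  · rw [relIndex_eq_one.2 e]; exact one_dvd _
  · obtain ⟨a, ha, h1⟩ := SetLike.not_le_iff_exists.1 e
    exact relIndex_dvd_two_iff.2 ⟨a, ha, fun b hb => (em (b ∈ C)).elim .inr fun e => .inl (h b hb a ha e h1)⟩

theorem I2.le {C E : Subgroup G} (h : I2 C E) : C.relIndex E ≤ 2 := Nat.le_of_dvd two_pos h.dvd

theorem i2_of_le {C E : Subgroup G} (h : C.relIndex E ≤ 2) : I2 C E := fun x hx y hy h1 h2 => by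
  have h0 := relIndex_pos C E
  have e : C.relIndex E = 2 := by
    have : C.relIndex E ≠ 1 := fun e => h1 (relIndex_eq_one.1 e hx)
    omega
  exact (mul_mem_iff_of_index_two (H := C.subgroupOf E) e (a := ⟨x, hx⟩) (b := ⟨y, hy⟩)).2 (iff_of_false h1 h2)

theorem I2.mono {C C' E E' : Subgroup G} (h : I2 C E) (h1 : C ⊓ E' ≤ C') (h2 : E' ≤ E) : I2 C' E' :=
  fun x hx y hy h3 h4 => h1 ⟨h x (h2 hx) y (h2 hy) (fun e => h3 (h1 ⟨e, hx⟩)) fun e => h4 (h1 ⟨e, hy⟩), mul_mem hx hy⟩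

/-- an element of order prime to six does not act non-trivially on a group of order at most four -/
theorem nt0 {E : Subgroup G} {y : G} (h6 : (orderOf y).Coprime 6) (hE : IsPGroup 2 E) (hc : E ≤ 𝐂(E)) (hn : y ∈ 𝐍(E))
    (hi : 𝐂[y].relIndex E ≤ 4) : y ∈ 𝐂(E) := by
  have c : CoprimeAct (zpowers y) E := coprimeAct_zpowers hn (hE.coprime_card
    ((Nat.Prime.coprime_iff_not_dvd Nat.prime_two).1 (h6.coprime_dvd_right (by decide)).symm))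
  have : IsMulCommutative E := comm_iff_le_cent.2 hc
  have d := c.disjoint_commutator_centralizer
  rw [centralizer_zpowers] at d
  have hD : Nat.card ↥⁅E, zpowers y⁆ ≤ 4 := by
    rw [← card_inf_mul_relIndex 𝐂[y], d.symm.eq_bot, card_bot, one_mul]
    exact (relIndex_le_of_le_right c.commutator_le (relIndex_pos _ _).ne').trans hi
  have n : y ∈ 𝐍(⁅E, zpowers y⁆) := c.commutator.norm (mem_zpowers y)
  refine zpowers_le.1 (le_cent_comm.1 (c.le_centralizer_of_commutator_le fun x hx => by_contra fun h1 => ?_))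
  rw [centralizer_zpowers] at h1
  have key : ∀ i j : Fin 4, i < j → y ^ i.1 * x * (y ^ i.1)⁻¹ ≠ y ^ j.1 * x * (y ^ j.1)⁻¹ := fun i j hij e => by
    obtain ⟨k, hk⟩ := Nat.exists_eq_add_of_lt (show i.1 < j.1 from hij)
    have h2 : y ^ (k + 1) ∈ 𝐂[x] := mem_cent1.2 (by
      rw [hk, add_assoc, pow_add] at e
      have : x = y ^ (k + 1) * x * (y ^ (k + 1))⁻¹ := by
        rw [← mul_left_inj (y ^ i.1)⁻¹, ← mul_right_inj (y ^ i.1), ← mul_assoc, e]; group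
      exact mul_inv_eq_iff_eq_mul.1 this.symm)
    refine h1 (mem_cent1_comm.1 (mem_of_pow_cop (h6.coprime_dvd_right ?_) h2))
    have : k < 3 := by omega
    interval_cases k <;> decide
  let f : Option (Fin 4) → ↥⁅E, zpowers y⁆ := fun o =>
    o.elim 1 fun i => ⟨y ^ i.1 * x * (y ^ i.1)⁻¹, conj_mem_of_mem_normalizer (pow_mem n _) hx⟩
  have x1 : ∀ g : G, g * x * g⁻¹ ≠ 1 := fun g e => h1 (conj_eq_one_iff.1 e ▸ one_mem _)
  have hf : Function.Injective f := by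
    rintro (_ | i) (_ | j) e
    · rfl
    · exact absurd (congrArg Subtype.val e).symm (x1 _)
    · exact absurd (congrArg Subtype.val e) (x1 _)
    · rcases lt_trichotomy i j with h | h | h
      · exact absurd (congrArg Subtype.val e) (key i j h)
      · rw [h]
      · exact absurd (congrArg Subtype.val e).symm (key j i h)
  have := Nat.card_le_card_of_injective f hf
  simp only [Nat.card_eq_fintype_card, Fintype.card_option, Fintype.card_fin] at this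
  omega

/-- no transvections -/
theorem tv0 (h3 : ¬ 3 ∣ Nat.card G) {X K Q E : Subgroup G} {a : G} (ha : a ∈ X) (hK : K ≤ X) (ho : Odd (Nat.card K))
    (hQ : IsPGroup 2 Q) (hQX : Q ≤ X) (nQ : X ≤ 𝐍(Q)) (hi : InvM a K Q) (hE : IsPGroup 2 E) (hc : E ≤ 𝐂(E))
    (nE : X ≤ 𝐍(E)) (h2 : I2 𝐂[a] E) : K ≤ 𝐂(E) := by
  have nC : X ≤ 𝐍((X ⊓ 𝐂(E) : Subgroup G)) := le_normalizer_inf le_normalizer (le_normalizer_centralizer nE)
  have nN : X ≤ 𝐍((Q ⊔ X ⊓ 𝐂(E) : Subgroup G)) := le_normalizer_sup nQ nC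
  have := subgroupOf_normal nN
  obtain ⟨j, -, hj⟩ := exists_forall_pRegPart_eq_pow G 2
  obtain ⟨i, hi'⟩ := hQ.exists_relIndex_eq_pow (X ⊓ 𝐂(E))
  refine (le_of_coprime_card_relIndex (K := Q ⊔ X ⊓ 𝐂(E)) (fun k hk => ?_) ((sup_le hQX inf_le_left).trans nC) (by
    rw [relIndex_sup_of_le_normalizer (hQX.trans nC), hi']
    exact (Nat.coprime_two_right.2 ho).pow_right _)).trans inf_le_right
  have gX : a * k * a⁻¹ * k⁻¹ ∈ X := mul_mem (mul_mem (mul_mem ha (hK hk)) (inv_mem ha)) (inv_mem (hK hk))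
  have h4 : pRegPart 2 (a * k * a⁻¹ * k⁻¹) ∈ 𝐂(E) := by
    refine nt0 ?_ hE hc (nE (pRegPart_mem 2 gX)) ((relIndex_le_of_le_left (H := 𝐂[a] ⊓ 𝐂[k * a * k⁻¹])
      (fun x hx => centralizer_le_centralizer_pRegPart 2 _ (mem_cent1_comm.1 ?_)) (relIndex_pos _ _).ne').trans
      (relIndex_inf_le.trans ?_))
    · exact Nat.Coprime.mul_right (m := 2) (n := 3)
        ((Nat.Prime.coprime_iff_not_dvd Nat.prime_two).2 (not_dvd_orderOf_pRegPart 2 _)).symm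
        ((Nat.Prime.coprime_iff_not_dvd Nat.prime_three).2 fun e => h3 (e.trans (orderOf_dvd_natCard _))).symm
    · rw [show a * k * a⁻¹ * k⁻¹ = a * (k * a * k⁻¹)⁻¹ by group]
      exact mul_mem (mem_cent1_comm.1 hx.1) (inv_mem (mem_cent1_comm.1 hx.2))
    · rw [← conj_cent1, ← conj_smul_eq_of_mem_normalizer (nE (hK hk)), relIndex_conj_smul,
        conj_smul_eq_of_mem_normalizer (nE (hK hk))]
      exact Nat.mul_le_mul h2.le h2.le
  rw [hj] at h4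
  have e1 : qmk X (Q ⊔ X ⊓ 𝐂(E)) ⟨_, gX⟩ ^ 2 ^ j = 1 := by
    rw [← map_pow]; exact qmk_eq_one_iff.2 (mem_sup_right ⟨pow_mem gX _, h4⟩)
  have e2 : qmk X (Q ⊔ X ⊓ 𝐂(E)) ⟨_, gX⟩ * qmk X (Q ⊔ X ⊓ 𝐂(E)) ⟨k, hK hk⟩ ^ 2 = 1 := by
    rw [← map_pow, ← map_mul]
    exact qmk_eq_one_iff.2 (mem_sup_left (by simpa [sq, mul_assoc] using hi k hk))
  rw [eq_inv_of_mul_eq_one_left e2, inv_pow, inv_eq_one, ← pow_mul, ← map_pow, qmk_eq_one_iff, ← pow_succ'] at e1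
  exact mem_of_pow_cop ((Nat.coprime_two_right.2 (ho.of_dvd_nat (orderOf_dvd_natCard K hk))).pow_right _) e1

theorem InvM.qim {X D K Q : Subgroup G} [(D.subgroupOf X).Normal] {a : X} (h : InvM a.1 K Q) :
    InvM (qmk X D a) (qim X D K) (qim X D Q) := by
  rintro _ ⟨k, hk, rfl⟩
  exact ⟨a * k * a⁻¹ * k, h k hk, by simp only [map_mul, map_inv]⟩

/-- no transvections on sections -/
theorem tv_mod (h3 : ¬ 3 ∣ Nat.card G) {X K Q E D : Subgroup G} {a : G} (ha : a ∈ X) (hK : K ≤ X)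
    (ho : Odd (Nat.card K)) (hQ : IsPGroup 2 Q) (nQ : X ≤ 𝐍(Q)) (hi : InvM a K Q) (hE : IsPGroup 2 E)
    (hEX : E ≤ X) (nD : X ≤ 𝐍(D)) (hc : ⁅E, E⁆ ≤ D) (nE : X ≤ 𝐍(E))
    (h2 : ∀ x ∈ E, ∀ y ∈ E, ⁅x, a⁆ ∉ D → ⁅y, a⁆ ∉ D → ⁅x * y, a⁆ ∈ D) : ⁅K, E⁆ ≤ D := by
  have := subgroupOf_normal nD
  have key : ∀ x : X, qmk X D x ∈ 𝐂[qmk X D ⟨a, ha⟩] ↔ ⁅x.1, a⁆ ∈ D := fun x => by
    rw [mem_cent1, ← commutatorElement_eq_one_iff_mul_comm, ← map_commutatorElement, qmk_eq_one_iff]; rfl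
  refine (qim_le_cent_iff hK hEX).1 (tv0 (X := ⊤) (a := qmk X D ⟨a, ha⟩) (Q := qim X D Q)
    (fun e => h3 (e.trans ((card_quotient_dvd_card _).trans (card_subgroup_dvd_card X)))) trivial le_top
    (ho.of_dvd_nat (card_qim_dvd hK)) (isPGroup_qim hQ) le_top (top_le_norm_qim nQ) hi.qim (isPGroup_qim hE)
    ((qim_le_cent_iff hEX hEX).2 hc) (top_le_norm_qim nE) ?_)
  rintro _ ⟨x, hx, rfl⟩ _ ⟨y, hy, rfl⟩ h4 h5
  rw [← map_mul]
  exact (key _).2 (h2 x hx y hy (mt (key x).2 h4) (mt (key y).2 h5))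

theorem le_of_le_sup_two {K Q N : Subgroup G} (ho : Odd (Nat.card K)) (hQ : IsPGroup 2 Q) (hn : Q ≤ 𝐍(N))
    (h : K ≤ Q ⊔ N) : K ≤ N := by
  obtain ⟨i, hi⟩ := hQ.exists_relIndex_eq_pow N
  refine le_of_coprime_card_relIndex h (sup_le hn le_normalizer) ?_
  rw [relIndex_sup_of_le_normalizer hn, hi]
  exact (Nat.coprime_two_right.2 ho).pow_right _

theorem sylow_sup_two {r : ℕ} [Fact r.Prime] (hr : r ≠ 2) {K Q : Subgroup G} (hK : IsPGroup r K) (hQ : IsPGroup 2 Q)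
    (hn : K ≤ 𝐍(Q)) : IsSylowIn r K (K ⊔ Q) := ⟨le_sup_left, hK, by
  rw [sup_comm, (sdp_sup hn (disjoint_two hQ (not_two_dvd.1 (not_dvd_card_of_ne hK hr.symm)))).relIndex_right]
  exact not_dvd_card_of_ne hQ hr⟩

theorem mem_of_two {K Q : Subgroup G} (ho : Odd (Nat.card K)) (hQ : IsPGroup 2 Q) (hn : K ≤ 𝐍(Q)) {x : G}
    (hx : IsPElt 2 x) (h : x ∈ K ⊔ Q) : x ∈ Q :=
  IsSylowIn.mem_of_mem_normalizer (H := K ⊔ Q) ⟨le_sup_right, hQ, by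
    rw [sup_comm, (sdp_sup hn (disjoint_two hQ ho)).relIndex_left]; exact not_two_dvd.2 ho⟩ hx h
    (sup_le hn le_normalizer h)

namespace Gp
variable {R K : Subgroup G} (g : Gp R K)
include g

theorem two : IsPGroup 2 R := g.syl.isPGroup

theorem odd : Odd (Nat.card K) := by
  obtain ⟨r, _, h1, h2⟩ := g.pr
  exact not_two_dvd.1 (not_dvd_card_of_ne h2 h1.symm)

theorem Q_le : Op 2 (R ⊔ K) ≤ R := Op_le_sylow g.syl

theorem conj (x : G) : Gp (MulAut.conj x • R) (MulAut.conj x • K) := by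
  obtain ⟨r, _, h1, h2⟩ := g.pr
  have := g.sol
  exact ⟨conj_smul_sup x R K ▸ g.syl.conj x, conj_smul_sup x R K ▸ isSolvable_of_mulEquiv (conjEquiv x _),
    ⟨r, ‹_›, h1, isPGroup_conj_smul x h2⟩, mt conj_smul_eq_bot_iff.1 g.ne⟩

variable (oc : OC G)
include oc

theorem norm : R ⊔ K ≤ 𝐍((K ⊔ Op 2 (R ⊔ K) : Subgroup G)) := oc.norm_sup g.sol le_sup_right g.odd

theorem qim_ne : qim (R ⊔ K) (Op 2 (R ⊔ K)) K ≠ ⊥ := fun e =>
  g.ne ((disjoint_two (isPGroup_Op 2 _) g.odd).symm.eq_bot_of_le ((qim_eq_bot_iff le_sup_right).1 e))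

theorem qim_cyc : IsCyclic (qim (R ⊔ K) (Op 2 (R ⊔ K)) K) := cyclic_qim (oc K g.odd) le_sup_right

theorem frob : FrobAct (qim (R ⊔ K) (Op 2 (R ⊔ K)) R) (qim (R ⊔ K) (Op 2 (R ⊔ K)) K) := by
  have n := (qim_le_norm_iff (piCoreOf_le _ _) le_sup_left le_sup_right).2 (le_sup_left.trans (g.norm oc))
  refine ⟨n, fun x hx h1 k hk e => by_contra fun h2 => h1 ?_⟩
  obtain ⟨r, _, h3, h4⟩ := g.pr
  have := g.qim_cyc oc
  have h5 := le_cent_of_cyclic (isPGroup_qim h4) (coprimeAct_of_isPGroup_left (zpowers_le.2 (n hx))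
    (isPElt_of_mem (isPGroup_qim g.two) hx).isPGroup_zpowers (not_dvd_card_of_ne (isPGroup_qim h4) h3.symm))
    fun e' => h2 (mem_bot.1 (e' ▸ ⟨hk, by rw [centralizer_zpowers]; exact mem_cent1.2 e⟩))
  refine mem_bot.1 (piCoreOf_quo_piCoreOf {2} (R ⊔ K) ▸ le_Op (K := qim _ _ R ⊓ 𝐂(qim _ _ K)) le_top ?_
    ((isPGroup_qim g.two).to_le inf_le_left) ⟨hx, zpowers_le.1 (le_cent_comm.1 h5)⟩)
  rw [← qim_top, qim_sup le_sup_left le_sup_right]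
  exact sup_le (le_normalizer_inf le_normalizer (le_normalizer_centralizer n))
    ((le_cent_comm.1 inf_le_right).trans (cent_le_norm _))

/-- (G2) -/
theorem mem_of_comm {x k : G} (hx : x ∈ R) (hk : k ∈ K) (h1 : k ≠ 1) (h : ⁅x, k⁆ ∈ Op 2 (R ⊔ K)) :
    x ∈ Op 2 (R ⊔ K) := by_contra fun h2 => by
  have h3 := (g.frob oc).fpf _ (qmk_mem_qim (x := ⟨x, mem_sup_left hx⟩) hx) (mt qmk_eq_one_iff.1 h2) _
    (qmk_mem_qim (x := ⟨k, mem_sup_right hk⟩) hk) (by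
      rw [eq_comm, ← commutatorElement_eq_one_iff_mul_comm, ← map_commutatorElement, qmk_eq_one_iff]; exact h)
  exact h1 (disjoint_def.1 (disjoint_two (isPGroup_Op 2 _) g.odd) (qmk_eq_one_iff.1 h3) hk)

theorem mem_of_cent {x : G} (hx : x ∈ R) (h : x ∈ 𝐂(K)) : x ∈ Op 2 (R ⊔ K) := by
  obtain ⟨⟨k, hk⟩, h1⟩ := ne_bot_iff_exists_ne_one.1 g.ne
  refine g.mem_of_comm oc hx hk (fun e => h1 (Subtype.ext e)) ?_
  rw [commutatorElement_eq_one_iff_mul_comm.2 (h k hk).symm]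
  exact one_mem _

/-- (G3) -/
theorem invM {x : G} (hx : x ∈ R) (h1 : x ∉ Op 2 (R ⊔ K)) (h2 : x * x ∈ Op 2 (R ⊔ K)) :
    InvM x K (Op 2 (R ⊔ K)) := fun k hk => by
  have h3 := (g.frob oc).conj_eq_inv (qmk_mem_qim (x := ⟨x, mem_sup_left hx⟩) hx) (mt qmk_eq_one_iff.1 h1)
    (by rw [sq, ← map_mul]; exact qmk_eq_one_iff.2 h2) (qmk_mem_qim (x := ⟨k, mem_sup_right hk⟩) hk)
  rw [← mul_eq_one_iff_eq_inv, ← map_inv, ← map_mul, ← map_mul, ← map_mul] at h3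
  exact qmk_eq_one_iff.1 h3

/-- (G4) -/
theorem mul_mem {x y : G} (hx : x ∈ R) (hy : y ∈ R) (h1 : x ∉ Op 2 (R ⊔ K)) (h2 : x * x ∈ Op 2 (R ⊔ K))
    (h3 : y ∉ Op 2 (R ⊔ K)) (h4 : y * y ∈ Op 2 (R ⊔ K)) : x * y ∈ Op 2 (R ⊔ K) := by
  have h5 := (g.frob oc).involution_unique (g.qim_ne oc) (qmk_mem_qim (x := ⟨x, mem_sup_left hx⟩) hx)
    (mt qmk_eq_one_iff.1 h1) (by rw [sq, ← map_mul]; exact qmk_eq_one_iff.2 h2)
    (qmk_mem_qim (x := ⟨y, mem_sup_left hy⟩) hy) (mt qmk_eq_one_iff.1 h3)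
    (by rw [sq, ← map_mul]; exact qmk_eq_one_iff.2 h4)
  simpa [mul_assoc] using Subgroup.mul_mem _ h2 (qmk_eq_iff.1 h5)

theorem i2 {A : Subgroup G} (hA : A ≤ R) (h : ∀ x ∈ A, x * x ∈ Op 2 (R ⊔ K)) : I2 (Op 2 (R ⊔ K)) A :=
  fun x hx y hy h1 h2 => g.mul_mem oc (hA hx) (hA hy) h1 (h x hx) h2 (h y hy)

/-- `R / Q` is cyclic -/
theorem i2_sq {H C : Subgroup G} (hH : H ≤ R) (h1 : H ⊓ Op 2 (R ⊔ K) ≤ C) (h2 : ∀ x ∈ H, x * x ∈ C) : I2 C H := by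
  have f := g.frob oc
  have := g.qim_cyc oc
  have : IsMulCommutative (qim (R ⊔ K) (Op 2 (R ⊔ K)) R) := comm_iff_le_cent.2 (le_cent_of_commutator_le
    fun x hx => by_contra fun e => g.qim_ne oc (eq_bot_iff.2 fun k hk => f.fpf x (der_le _ hx) e k hk
      (commutator_le_centralizer_of_isCyclic f.norm hx k hk)))
  have := f.isCyclic_of_isMulCommutative (g.qim_ne oc) le_rfl
  obtain ⟨_, hc⟩ := isCyclic_iff_exists_zpowers_eq.1 (GT.isCyclic_of_le (qim_mono hH :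
    qim (R ⊔ K) (Op 2 (R ⊔ K)) H ≤ _))
  obtain ⟨c, cH, rfl⟩ := hc.le (mem_zpowers _)
  have key : ∀ x ∈ H, x ∉ C → c.1⁻¹ * x ∈ C := fun x hx h3 => by
    obtain ⟨n, hn⟩ := mem_powers_iff_mem_zpowers.2 (hc.ge (qmk_mem_qim (x := ⟨x, mem_sup_left (hH hx)⟩) hx))
    have h4 : (c.1 ^ n)⁻¹ * x ∈ C := h1 ⟨Subgroup.mul_mem _ (inv_mem (pow_mem cH n)) hx,
      qmk_eq_iff.1 ((map_pow _ c n).trans hn)⟩
    have h5 : ∀ m, c.1 ^ (2 * m) ∈ C := fun m => by rw [pow_mul, sq]; exact pow_mem (h2 _ cH) m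
    obtain ⟨m, rfl | rfl⟩ := Nat.even_or_odd' n
    · exact absurd (by simpa using Subgroup.mul_mem _ (h5 m) h4) h3
    · simpa [pow_succ', mul_assoc] using Subgroup.mul_mem _ (h5 m) h4
  intro x hx y hy h3 h4
  simpa [mul_assoc] using Subgroup.mul_mem _ (inv_mem (key _ (inv_mem hx) (mt inv_mem_iff.1 h3))) (key y hy h4)

theorem le_of_mem {N : Subgroup G} (hN : N ≤ R ⊔ K) (n : R ⊔ K ≤ 𝐍(N)) {a : G} (ha : a ∈ R) (h1 : a ∉ Op 2 (R ⊔ K))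
    (h2 : a ∈ N) : K ≤ N := by
  have f := g.frob oc
  have h3 := qmk_mem_qim (M := R ⊔ K) (N := Op 2 (R ⊔ K)) (x := ⟨a, mem_sup_left ha⟩) ha
  have h4 := le_of_fpf_of_mem (f.norm h3) (f.fpf _ h3 (mt qmk_eq_one_iff.1 h1))
    (le_top.trans (top_le_norm_qim n)) (qmk_mem_qim h2)
  rw [qim_le_qim_iff (piCoreOf_le _ _) le_sup_right hN, sup_comm] at h4
  exact le_of_le_sup_two g.odd (isPGroup_Op 2 _) ((piCoreOf_le _ _).trans n) h4

/-- (G6) -/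
theorem le_cent {D : Subgroup G} (hD : R ⊔ K ≤ 𝐍(D)) {a : G} (ha : a ∈ R) (h1 : a ∉ Op 2 (R ⊔ K)) (hc : a ∈ 𝐂(D)) :
    K ≤ 𝐂(D) := (g.le_of_mem oc inf_le_left (le_normalizer_inf le_normalizer (le_normalizer_centralizer hD)) ha h1
      ⟨mem_sup_left ha, hc⟩).trans inf_le_right

/-- (G7) -/
theorem mem_of_conj {H : Subgroup G} (hQ : Op 2 (R ⊔ K) ≤ H) {a k : G} (ha : a ∈ R) (h1 : a ∉ Op 2 (R ⊔ K))
    (h2 : a * a ∈ Op 2 (R ⊔ K)) (hk : k ∈ K) (h3 : a ∈ H) (h4 : k * a * k⁻¹ ∈ H) : k ∈ H := by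
  have h5 := conj_mem_of_mem_normalizer (le_norm_piCoreOf _ _ (mem_sup_right hk)) (g.invM oc ha h1 h2 _ (inv_mem hk))
  refine mem_of_sq_mem_odd g.odd hk ?_
  have := Subgroup.mul_mem _ (inv_mem (hQ h5)) (Subgroup.mul_mem _ h4 (inv_mem h3))
  simpa [mul_assoc] using this

theorem le_norm (h : K ≤ 𝐂(Op 2 (R ⊔ K))) : R ≤ 𝐍(K) := by
  obtain ⟨r, _, h1, h2⟩ := g.pr
  exact (le_sup_left.trans (g.norm oc)).trans ((sylow_sup_two h1 h2 (isPGroup_Op 2 _)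
    (h.trans (cent_le_norm _))).normalizer_le_normalizer
      (sup_le le_normalizer ((le_cent_comm.1 h).trans (cent_le_norm _))))

end Gp

section J
variable {R P A B E K : Subgroup G}

theorem sq_of_elem (h : IsElementaryAbelian 2 A) {x : G} (hx : x ∈ A) : x * x = 1 := (sq x).symm.trans (h.2 x hx)

theorem norm_le_norm_Jt (R : Subgroup G) : 𝐍(R) ≤ 𝐍(Jt R) := (charIn_sSup_jSet 2 R).normalizer_le

theorem Jt_le (R : Subgroup G) : Jt R ≤ R := sSup_le fun _ h => h.1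

theorem isPGroup_Jt (h : IsPGroup 2 R) : IsPGroup 2 (Jt R) := h.to_le (Jt_le R)

theorem jSet_conj (x : G) (h : A ∈ JSet 2 R) : MulAut.conj x • A ∈ JSet 2 (MulAut.conj x • R) :=
  ⟨conj_smul_mono x h.1, elem_conj h.2.1 x, fun B h1 h2 => by
    simpa only [card_conj_smul] using h.2.2 _ ((conj_smul_mono x⁻¹ h1).trans_eq (conj_inv_smul_conj_smul x R)) (elem_conj h2 x⁻¹)⟩

theorem conj_Jt_le (x : G) (R : Subgroup G) : MulAut.conj x • Jt R ≤ Jt (MulAut.conj x • R) :=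
  conj_smul_le_iff_le_inv.2 (sSup_le fun _ h => conj_smul_le_iff_le_inv.1 (le_sSup (jSet_conj x h)))

theorem conj_Jt (x : G) (R : Subgroup G) : MulAut.conj x • Jt R = Jt (MulAut.conj x • R) :=
  (conj_Jt_le x R).antisymm (by simpa using conj_smul_mono x (conj_Jt_le x⁻¹ (MulAut.conj x • R)))

theorem Jt_eq (h1 : Jt R ≤ P) (h2 : P ≤ R) : Jt P = Jt R := by
  obtain ⟨A, hA⟩ := jSet_nonempty 2 R
  exact le_antisymm (sSup_le_sSup fun B h => ⟨h.1.trans h2, h.2.1, fun C h3 h4 => (hA.2.2 C h3 h4).trans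
    (h.2.2 A ((le_sSup hA).trans h1) hA.2.1)⟩) (sSup_le_sSup fun B h => ⟨(le_sSup h).trans h1, h.2.1,
      fun C h3 => h.2.2 C (h3.trans h2)⟩)

theorem Jt_ne_bot (h : IsPGroup 2 R) (h1 : R ≠ ⊥) : Jt R ≠ ⊥ := sSup_jSet_ne_bot (dvd_card_of_isPGroup_of_ne_bot h h1)

/-- the maximality of `|A|` -/
theorem jSet_rank (hA : A ∈ JSet 2 R) (hB : B ≤ A) (hE : E ≤ R) (eE : IsElementaryAbelian 2 E) (hc : B ≤ 𝐂(E)) :
    B.relIndex E ≤ B.relIndex A := by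
  have h := hA.2.2 _ (sup_le hE (hB.trans hA.1)) (elem_sup eE (elem_of_le hA.2.1 hB) hc)
  rw [← card_mul_relIndex (le_sup_right : B ≤ E ⊔ B), ← card_mul_relIndex hB,
    relIndex_sup_of_le_normalizer ((le_cent_comm.1 hc).trans (cent_le_norm _))] at h
  exact Nat.le_of_mul_le_mul_left h Nat.card_pos

theorem le_of_jSet (hA : A ∈ JSet 2 R) (hE : E ≤ R) (eE : IsElementaryAbelian 2 E) (hc : A ≤ 𝐂(E)) : E ≤ A :=
  relIndex_eq_one.1 (le_antisymm ((jSet_rank hA le_rfl hE eE hc).trans_eq (relIndex_self A)) (relIndex_pos _ _))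

theorem Oz_le (R : Subgroup G) : Oz R ≤ R := (omegaOne_le _ _).trans (Zc_le R)

theorem le_cent_Oz (R : Subgroup G) : R ≤ 𝐂(Oz R) := le_cent_comm.1 ((omegaOne_le _ _).trans (Zc_le_cent R))

theorem elem_Oz (R : Subgroup G) : IsElementaryAbelian 2 (Oz R) := elem_omegaOne_Zc 2 R

theorem norm_le_norm_Oz (R : Subgroup G) : 𝐍(R) ≤ 𝐍(Oz R) := (norm_le_norm_Zc R).trans (norm_le_norm_omegaOne 2 _)

theorem mem_Oz {x : G} (h1 : x ∈ R) (h2 : x ∈ 𝐂(R)) (h3 : x * x = 1) : x ∈ Oz R :=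
  mem_omegaOne ⟨h1, h2⟩ ((sq x).trans h3)

theorem le_Oz (eE : IsElementaryAbelian 2 E) (h1 : E ≤ R) (h2 : E ≤ 𝐂(R)) : E ≤ Oz R :=
  le_omegaOne_of_elem eE (le_inf h1 h2)

theorem Gp.ff' (g : Gp R K) (oc : OC G) (h3 : ¬ 3 ∣ Nat.card G) (hA : A ∈ JSet 2 R) (h : ¬ A ≤ Op 2 (R ⊔ K))
    (hE : E ≤ R) (eE : IsElementaryAbelian 2 E) (nE : R ⊔ K ≤ 𝐍(E)) (hc : A ⊓ Op 2 (R ⊔ K) ≤ 𝐂(E)) : K ≤ 𝐂(E) := by
  obtain ⟨a, ha, h1⟩ := SetLike.not_le_iff_exists.1 h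
  have sq : ∀ x ∈ A, x * x ∈ Op 2 (R ⊔ K) := fun x hx => (sq_of_elem hA.2.1 hx).symm ▸ one_mem _
  exact tv0 h3 (mem_sup_left (hA.1 ha)) le_sup_right g.odd (isPGroup_Op 2 _) (piCoreOf_le _ _) (le_norm_piCoreOf _ _)
    (g.invM oc (hA.1 ha) h1 (sq a ha)) (elem_isPGroup eE) (elem_le_cent eE) nE
    ((i2_of_le ((jSet_rank hA inf_le_left hE eE hc).trans ((inf_relIndex_left _ _).trans_le (g.i2 oc hA.1 sq).le))).mono
      (fun x hx => cent_le_cent1 ha (elem_le_cent hA.2.1 hx.1.1)) le_rfl)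

/-- (F) failure of factorization -/
theorem Gp.ff (g : Gp R K) (oc : OC G) (h3 : ¬ 3 ∣ Nat.card G) (h : ¬ Jt R ≤ Op 2 (R ⊔ K)) :
    K ≤ 𝐂(Oz (Op 2 (R ⊔ K))) := by
  rw [sSup_le_iff, not_forall₂] at h
  obtain ⟨A, hA, h⟩ := h
  exact g.ff' oc h3 hA h ((Oz_le _).trans g.Q_le) (elem_Oz _) ((le_norm_piCoreOf _ _).trans (norm_le_norm_Oz _))
    (inf_le_right.trans (le_cent_Oz _))

/-- (Cmp) in a solvable group subgroups of the same odd order agree modulo `O₂` -/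
theorem OC.cmp (oc : OC G) {Y K' : Subgroup G} (hs : Group.IsSolvable Y) (hK : K ≤ Y) (hK' : K' ≤ Y)
    (ho : Odd (Nat.card K)) (hc : Nat.card K = Nat.card K') {y : G} (hy : y ∈ Y) (h1 : y ∈ 𝐂(K')) (h2 : y ∈ 𝐍(K)) :
    y ∈ 𝐂(K) := by
  have n := le_norm_piCoreOf {2} Y
  have h3 : ⁅K, zpowers y⁆ ≤ Op 2 Y := (commutator_mono (oc.le_sup hs hK hK' (hc ▸ ho) hc.dvd) le_rfl).trans
    (commutator_sup_left_le ((commutator_eq_bot_of_le_cent (le_cent_comm.1 (zpowers_le.2 h1))).le.trans bot_le)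
      (commutator_le_left_of_norm ((zpowers_le.2 hy).trans n)) (hK'.trans n) le_normalizer)
  exact zpowers_le.1 (le_cent_comm.1 (le_cent_of_commutator_le ((le_inf h3 (commutator_le_left_of_norm
    (zpowers_le.2 h2))).trans (disjoint_two (isPGroup_Op 2 Y) ho).le_bot)))

theorem Am.solv_cent (h : Am G) {x : G} (hx : IsPElt 2 x) (h1 : x ≠ 1) : Group.IsSolvable 𝐂[x] :=
  haveI := h.loc _ hx.isPGroup_zpowers (mt zpowers_eq_bot.1 h1)
  isSolvable_of_le ((centralizer_zpowers x).ge.trans (cent_le_norm _))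

theorem Am.ne_bot (h : Am G) {T : Subgroup G} (hT : IsSylowIn 2 T ⊤) : T ≠ ⊥ := fun e => h.ns (
  haveI := h.oc ⊤ (not_two_dvd.1 (hT.eq_bot_iff.1 e))
  isSolvable_of_mulEquiv (topEquiv (G := G)))

variable {T : Subgroup G}

theorem ncl_le_Oz (T : Subgroup G) : ncl 𝐍(Jt T) (Oz T) ≤ Oz (Jt T) := by
  obtain ⟨A, hA⟩ := jSet_nonempty 2 T
  exact ncl_le (le_Oz (elem_Oz T) ((le_of_jSet hA (Oz_le T) (elem_Oz T) (hA.1.trans (le_cent_Oz T))).trans (le_sSup hA))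
    (le_cent_comm.1 ((Jt_le T).trans (le_cent_Oz T)))) (norm_le_norm_Oz _)

theorem Oz_Jt_le (hA : A ∈ JSet 2 T) : Oz (Jt T) ≤ A :=
  le_of_jSet hA ((Oz_le _).trans (Jt_le T)) (elem_Oz _) ((le_sSup hA).trans (le_cent_Oz _))

theorem Zs_le_Oz (T : Subgroup G) : Zs T ≤ Oz (Jt T) := inf_le_left.trans (ncl_le_Oz T)

theorem Zs_le (T : Subgroup G) : Zs T ≤ T := (Zs_le_Oz T).trans ((Oz_le _).trans (Jt_le T))

theorem elem_Zs (T : Subgroup G) : IsElementaryAbelian 2 (Zs T) := elem_of_le (elem_Oz _) (Zs_le_Oz T)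

theorem le_norm_Zs (T : Subgroup G) : 𝐍(Jt T) ≤ 𝐍(Zs T) :=
  le_normalizer_inf le_norm_ncl (le_normalizer.trans (norm_le_norm_der _))

theorem cop_six (h3 : ¬ 3 ∣ Nat.card G) {y : G} (ho : Odd (orderOf y)) : (orderOf y).Coprime 6 :=
  Nat.Coprime.mul_right (m := 2) (n := 3) (Nat.coprime_two_right.2 ho)
    ((Nat.Prime.coprime_iff_not_dvd Nat.prime_three).2 fun e => h3 (e.trans (orderOf_dvd_natCard _))).symm

theorem Am.card_Zs (h : Am G) (hT : IsSylowIn 2 T ⊤) (hc : ¬ 𝐍(Jt T) ≤ 𝐂(Oz T)) : 8 ≤ Nat.card (Zs T) := by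
  refine by_contra fun h8 => hc (le_of_forall_exists_isSylowIn_le fun q _ => ?_)
  have hM : T ≤ 𝐍(Jt T) := le_normalizer.trans (norm_le_norm_Jt T)
  by_cases e : q = 2
  · subst e; exact ⟨T, hT.of_le hM le_top, le_cent_Oz T⟩
  obtain ⟨X, hX⟩ := exists_isSylowIn q 𝐍(Jt T)
  refine ⟨X, hX, fun y hy => centralizer_anti (le_ncl (M := 𝐍(Jt T))) ?_⟩
  have ho : Odd (orderOf y) := (not_two_dvd.1 (not_dvd_card_of_ne hX.isPGroup (Ne.symm e))).of_dvd_nat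
    (orderOf_dvd_natCard X hy)
  have eZ := elem_of_le (elem_Oz _) (ncl_le_Oz T)
  have c := coprimeAct_zpowers (le_norm_ncl (A := Oz T) (hX.le hy)) ((elem_isPGroup eZ).coprime_card (not_two_dvd.2 ho))
  have h1 : ⁅ncl 𝐍(Jt T) (Oz T), zpowers y⁆ ≤ Zs T := le_inf c.commutator_le (commutator_mono
    ((ncl_le_Oz T).trans ((Oz_le _).trans le_normalizer)) (zpowers_le.2 (hX.le hy)))
  have e1 := elem_of_le eZ c.commutator_le
  refine zpowers_le.1 (le_cent_comm.1 (c.le_centralizer_of_commutator_le (le_cent_comm.1 (zpowers_le.2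
    (nt0 (cop_six h.three ho) (elem_isPGroup e1) (elem_le_cent e1) (c.commutator.norm (mem_zpowers y)) ?_)))))
  obtain ⟨k, hk⟩ := (elem_isPGroup (elem_Zs T)).exists_card_eq
  refine (Nat.le_of_dvd Nat.card_pos (relIndex_dvd_card _ _)).trans ((card_le_of_le h1).trans ?_)
  rw [hk] at h8 ⊢
  exact (Nat.pow_le_pow_right two_pos (by_contra fun e => h8 (Nat.pow_le_pow_right two_pos (by omega : 3 ≤ k))) :
    2 ^ k ≤ 2 ^ 2)

end J

end Her
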