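import Cfsg.Agent.Lib.Her.St
import Cfsg.Agent.Lib.Grp.Thompson

/-!
# Groups of order prime to three with cyclic subgroups of odd order: definitions (see docs/S4841_am.lean.txt)
-/

set_option autoImplicit false
set_option linter.unusedSectionVars false

namespace Her

open Cfsg GT FT GW Subgroup
open scoped Pointwise commutatorElement

/-- the hypotheses of the local analysis -/
structure Am (G : Type*) [Group G] : Prop where
  oc : OC G
  three : ¬ 3 ∣ Nat.card G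
  loc : ∀ R : Subgroup G, IsPGroup 2 R → R ≠ ⊥ → Group.IsSolvable 𝐍(R)
  ns : ¬ Group.IsSolvable G

variable {G : Type*} [Group G]

/-- `R K` is solvable with Sylow `2`-subgroup `R`, and `K ≠ 1` has odd prime power order -/
structure Gp (R K : Subgroup G) : Prop where
  syl : IsSylowIn 2 R (R ⊔ K)
  sol : Group.IsSolvable ↥(R ⊔ K)
  pr : ∃ r : ℕ, ∃ _ : Fact r.Prime, r ≠ 2 ∧ IsPGroup r K
  ne : K ≠ ⊥

/-- `a` inverts `K` modulo `Q` -/
def InvM (a : G) (K Q : Subgroup G) : Prop := ∀ k ∈ K, a * k * a⁻¹ * k ∈ Q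

/-- `C ∩ E` has index at most two in `E` -/
def I2 (C E : Subgroup G) : Prop := ∀ x ∈ E, ∀ y ∈ E, x ∉ C → y ∉ C → x * y ∈ C

/-- the Thompson subgroup -/
abbrev Jt (R : Subgroup G) : Subgroup G := sSup (JSet 2 R)

/-- `Ω₁(Z(R))` -/
abbrev Oz (R : Subgroup G) : Subgroup G := omegaOne 2 (Zc R)

/-- the subgroup generated by the `M`-conjugates of `A` -/
def ncl (M A : Subgroup G) : Subgroup G := ⨆ m : M, MulAut.conj (m : G) • A

/-- `Z* = ⟨Ω₁(Z(T))^M⟩ ∩ M'` for `M = N(J(T))` -/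
def Zs (T : Subgroup G) : Subgroup G := ncl 𝐍(Jt T) (Oz T) ⊓ ⁅𝐍(Jt T), 𝐍(Jt T)⁆

/-- a non-trivial `2`-element lies in at most one conjugate of `M` -/
def SE (M : Subgroup G) : Prop :=
  ∀ x ∈ M, IsPElt 2 x → x ≠ 1 → ∀ g : G, x ∈ MulAut.conj g • M → g ∈ M

variable {M A B : Subgroup G}

theorem conj_le_ncl {m : G} (hm : m ∈ M) : MulAut.conj m • A ≤ ncl M A :=
  le_iSup (fun m : M => MulAut.conj (m : G) • A) ⟨m, hm⟩

theorem le_ncl : A ≤ ncl M A := by simpa using conj_le_ncl (A := A) M.one_mem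

theorem ncl_le_iff : ncl M A ≤ B ↔ ∀ m ∈ M, MulAut.conj m • A ≤ B :=
  iSup_le_iff.trans ⟨fun h m hm => h ⟨m, hm⟩, fun h m => h m m.2⟩

theorem ncl_le (h : A ≤ B) (hn : M ≤ 𝐍(B)) : ncl M A ≤ B := ncl_le_iff.2 fun m hm =>
  (conj_smul_mono m h).trans (conj_smul_eq_of_mem_normalizer (hn hm)).le

theorem le_norm_ncl [Finite G] : M ≤ 𝐍(ncl M A) := fun m hm => by
  refine mem_normalizer_of_conj_mem (conj_smul_le_iff.1 (conj_smul_le_iff_le_inv.2 (ncl_le_iff.2 fun x hx => ?_)))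
  rw [← conj_smul_le_iff_le_inv, conj_smul_conj_smul]
  exact conj_le_ncl (M.mul_mem hm hx)

end Her
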