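import Cfsg.Agent.Lib.Her.AmA

/-!
# Groups `T K` containing a Sylow `2`-subgroup `T`
-/

set_option autoImplicit false
set_option linter.unusedSectionVars false

namespace Her

open Cfsg GT FT GW Subgroup
open scoped Pointwise commutatorElement

variable {G : Type*} [Group G] [Finite G]

/-- `T` acts on `Z` without transvections, and `T / C_T(Z)` has at most one involution -/
structure Nt (T Z : Subgroup G) : Prop where
  el : IsElementaryAbelian 2 Z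
  norm : T ≤ 𝐍(Z)
  n1 : ∀ i ∈ T, I2 𝐂[i] Z → i ∈ 𝐂(Z)
  n2 : ∀ i ∈ T, ∀ j ∈ T, i ∉ 𝐂(Z) → j ∉ 𝐂(Z) → i * i ∈ 𝐂(Z) → j * j ∈ 𝐂(Z) → i * j ∈ 𝐂(Z)

variable {T K X Z Z' W A : Subgroup G}

theorem le_of_idx_left {H L M : Subgroup G} (h1 : H ≤ L) (h2 : L ≤ M) (h4 : H.relIndex M ≤ 4) (h3 : 3 ≤ L.relIndex M) :
    L ≤ H := by
  rw [← relIndex_mul_relIndex H L M h1 h2] at h4
  have := relIndex_pos H L
  exact relIndex_eq_one.1 (by nlinarith)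

theorem le_of_idx_right {H L M : Subgroup G} (h1 : H ≤ L) (h2 : L ≤ M) (h4 : H.relIndex M ≤ 4) (h3 : 3 ≤ H.relIndex L) :
    M ≤ L := by
  rw [← relIndex_mul_relIndex H L M h1 h2] at h4
  have := relIndex_pos L M
  exact relIndex_eq_one.1 (by nlinarith)

theorem exists_pow_sq_mem {x : G} (hx : IsPElt 2 x) {N : Subgroup G} (h : x ∉ N) :
    ∃ y ∈ zpowers x, y ∉ N ∧ y * y ∈ N := by
  obtain ⟨k, hk⟩ := hx.exists_pow_eq_one
  have h1 : ∃ k, x ^ 2 ^ k ∈ N := ⟨k, hk ▸ one_mem _⟩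
  classical
  obtain ⟨j, hj⟩ := Nat.exists_eq_succ_of_ne_zero (n := Nat.find h1) fun e => h (by simpa [e] using Nat.find_spec h1)
  refine ⟨x ^ 2 ^ j, npow_mem_zpowers x _, Nat.find_min h1 (by omega), ?_⟩
  have := Nat.find_spec h1
  rwa [hj, pow_succ, pow_mul, sq] at this

theorem exists_comm_mem {Q : Subgroup G} (hQ : IsPGroup 2 Q) (hZ : Z ≤ Q) (nZ : Q ≤ 𝐍(Z)) (nW : Q ≤ 𝐍(W))
    (h : ¬ Z ≤ W) : ∃ u ∈ Z, u ∉ W ∧ ∀ x ∈ Q, ⁅x, u⁆ ∈ W := by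
  have := subgroupOf_normal nW
  obtain ⟨⟨_, ⟨u, hu, rfl⟩, h1⟩, h2⟩ := ne_bot_iff_exists_ne_one.1 (inf_centralizer_ne_bot_of_isPGroup
    (isPGroup_qim (M := Q) (N := W) hQ) (isPGroup_qim (hQ.to_le hZ)) (mt (qim_eq_bot_iff hZ).1 h) (qim_le_norm nZ))
  refine ⟨u, hu, fun e => h2 (Subtype.ext (qmk_eq_one_iff.2 e)), fun x hx => ?_⟩
  have h3 := h1 _ (qmk_mem_qim (x := ⟨x, hx⟩) hx)
  rw [← commutatorElement_eq_one_iff_mul_comm, ← map_commutatorElement, qmk_eq_one_iff] at h3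
  exact h3

theorem I2.conj {C E : Subgroup G} (h : I2 C E) (g : G) : I2 (MulAut.conj g • C) (MulAut.conj g • E) :=
  i2_of_le ((relIndex_conj_smul g C E).trans_le h.le)

namespace Nt
variable (n : Nt T Z)
include n

theorem mono {Q : Subgroup G} (h : Q ≤ T) : Nt Q Z :=
  ⟨n.el, h.trans n.norm, fun i hi => n.n1 i (h hi), fun i hi j hj => n.n2 i (h hi) j (h hj)⟩

theorem conj (g : G) : Nt (MulAut.conj g • T) (MulAut.conj g • Z) := by
  refine ⟨elem_conj n.el g, conj_smul_normalizer g Z ▸ conj_smul_mono g n.norm, ?_, ?_⟩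
  · rintro _ ⟨i, hi, rfl⟩ h
    change g * i * g⁻¹ ∈ _
    change I2 𝐂[g * i * g⁻¹] _ at h
    rw [← conj_smul_centralizer, conj_mem_conj_smul]
    exact n.n1 i hi (by simpa [← conj_cent1] using h.conj g⁻¹)
  · intro i' hi' j' hj'
    obtain ⟨i, hi, rfl⟩ := mem_conj_smul'.1 hi'
    obtain ⟨j, hj, rfl⟩ := mem_conj_smul'.1 hj'
    simp only [← conj_smul_centralizer, conj_mul, conj_mem_conj_smul]
    exact n.n2 i hi j hj

theorem three_le {i : G} (hi : i ∈ T) (h : i ∉ 𝐂(Z)) : 3 ≤ 𝐂[i].relIndex Z :=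
  not_lt.1 fun e => h (n.n1 i hi (i2_of_le (by omega)))

theorem inf_le {i : G} (hi : i ∈ T) (h : i ∉ 𝐂(Z)) (h1 : W ≤ Z ⊓ 𝐂[i]) (h4 : W.relIndex Z ≤ 4) : Z ⊓ 𝐂[i] ≤ W :=
  le_of_idx_left h1 inf_le_left h4 ((n.three_le hi h).trans_eq (inf_relIndex_left _ _).symm)

theorem i2 (hA : A ≤ T) (h : ∀ x ∈ A, x * x = 1) : I2 𝐂(Z) A := fun x hx y hy h1 h2 =>
  n.n2 x (hA hx) y (hA hy) h1 h2 ((h x hx).symm ▸ one_mem _) ((h y hy).symm ▸ one_mem _)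

theorem le_cent (n' : Nt T Z') (h : Z ≤ T) (h' : Z' ≤ T) : Z ≤ 𝐂(Z') := fun z hz =>
  n'.n1 z (h hz) ((n.i2 h' fun _ => sq_of_elem n'.el).mono
    (inf_le_left.trans (cent_le_cent1 hz)) le_rfl)

/-- elements centralizing a subgroup of index four -/
theorem sq_mem (hT : IsPGroup 2 T) (hZ : Z ≤ T) (hW : W ≤ Z) (nW : T ≤ 𝐍(W)) (h4 : W.relIndex Z ≤ 4) {x : G} (hx : x ∈ T)
    (hc : x ∈ 𝐂(W)) : x * x ∈ 𝐂(Z) := by_contra fun h => by
  obtain ⟨u, hu, h1, h2⟩ := exists_comm_mem hT hZ n.norm nW fun e => h (centralizer_anti e (mul_mem hc hc))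
  refine h1 (n.inf_le (mul_mem hx hx) h (le_inf hW (le_cent1_iff.2 (mul_mem hc hc))) h4 ⟨hu, mem_cent1.2 ?_⟩)
  have e1 : x * u = ⁅x, u⁆ * (u * x) := by rw [commutatorElement_def]; group
  calc u * (x * x) = ⁅x, u⁆ * ⁅x, u⁆ * (u * x) * x := by rw [sq_of_elem n.el (hW (h2 x hx)), one_mul, mul_assoc]
    _ = ⁅x, u⁆ * x * (u * x) := by rw [mul_assoc _ _ (u * x), ← e1]; simp only [mul_assoc]
    _ = _ := by rw [hc _ (h2 x hx), mul_assoc, ← e1, mul_assoc]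

theorem comm_mem (hT : IsPGroup 2 T) (hZ : Z ≤ T) (hW : W ≤ Z) (nW : T ≤ 𝐍(W)) (h4 : W.relIndex Z ≤ 4) :
    ⁅T ⊓ 𝐂(W), Z⁆ ≤ W := commutator_le.2 fun x hx v hv => by
  by_cases h : x ∈ 𝐂(Z)
  · rw [commutatorElement_eq_one_iff_mul_comm.2 (h v hv).symm]; exact one_mem _
  have h1 := conj_mem_of_mem_normalizer (n.norm hx.1) hv
  refine n.inf_le hx.1 h (le_inf hW (le_cent1_iff.2 hx.2)) h4 ⟨Z.mul_mem h1 (inv_mem hv), mem_cent1.2 ?_⟩
  have e1 := n.sq_mem hT hZ hW nW h4 hx.1 hx.2 v hv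
  have e2 := elem_le_cent n.el hv _ h1
  have e3 := eq_inv_of_mul_eq_one_left (sq_of_elem n.el hv)
  rw [commutatorElement_def, ← e3, e2]
  calc v * (x * v * x⁻¹) * x = v * (x * x) * x⁻¹ * v := by group
    _ = x * (x * v * x⁻¹ * v) := by rw [e1]; group
    _ = _ := by rw [e2]

end Nt

theorem elem_ncl {Y : Subgroup G} (eZ : IsElementaryAbelian 2 Z)
    (h : ∀ y ∈ Y, ∀ y' ∈ Y, MulAut.conj y • Z ≤ 𝐂(MulAut.conj y' • Z)) : IsElementaryAbelian 2 (ncl Y Z) :=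
  haveI : IsMulCommutative (ncl Y Z) := comm_iff_le_cent.2 (ncl_le_iff.2 fun y hy => le_cent_comm.1
    (ncl_le_iff.2 fun y' hy' => h y' hy' y hy))
  elem_of_le (elem_omegaOne_of_comm 2 (ncl Y Z)) (ncl_le_iff.2 fun y hy =>
    le_omegaOne_of_elem (elem_conj eZ y) (conj_le_ncl hy))

theorem Gp.exists_mul (g : Gp T K) (oc : OC G) {y : G} (hy : y ∈ T ⊔ K) : ∃ k ∈ K, ∃ t ∈ T, k * t = y := by
  obtain ⟨n, hn, t, ht, rfl⟩ := (mem_sup_of_le_normalizer_left (le_sup_left.trans (g.norm oc))).1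
    ((sup_le le_sup_right (le_sup_left.trans le_sup_left) : T ⊔ K ≤ _) hy)
  obtain ⟨k, hk, q, hq, rfl⟩ := (mem_sup_of_le_normalizer_right (le_sup_right.trans (le_norm_piCoreOf _ _))).1 hn
  exact ⟨k, hk, q * t, T.mul_mem (g.Q_le hq) ht, (mul_assoc _ _ _).symm⟩

theorem core_b (oc : OC G) (h3 : ¬ 3 ∣ Nat.card G) (g : Gp T K) (nt : Nt T Z) (hZ : Z ≤ Op 2 (T ⊔ K))
    (hA : A ∈ JSet 2 T) (hAQ : ¬ A ≤ Op 2 (T ⊔ K)) (hc : A ≤ 𝐂(Z)) (hgen : ∀ k ∈ K, ¬ K ≤ zpowers k → k ∈ 𝐍(Z)) :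
    K ≤ 𝐂(Z) := by
  have nQ := le_norm_piCoreOf {2} (T ⊔ K)
  have QT := g.Q_le
  have pQ := isPGroup_Op 2 (T ⊔ K)
  have QY := piCoreOf_le {2} (T ⊔ K)
  have gi := g.i2 oc hA.1 fun x hx => (sq_of_elem hA.2.1 hx).symm ▸ one_mem _
  have g7 := fun H hH a k h0 h1 h2 => g.mem_of_conj oc (H := H) hH (a := a) (k := k) h0 h1 h2
  have ginv := fun a h0 h1 h2 => g.invM oc (x := a) h0 h1 h2
  set Q := Op 2 (T ⊔ K)
  have cQ : ∀ y ∈ T ⊔ K, MulAut.conj y • Q = Q := fun y hy => conj_smul_eq_of_mem_normalizer (nQ hy)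
  have QT' : ∀ y ∈ T ⊔ K, Q ≤ MulAut.conj y • T := fun y hy => (cQ y hy).ge.trans (conj_smul_mono y QT)
  have ZQ : ∀ y ∈ T ⊔ K, MulAut.conj y • Z ≤ Q := fun y hy => (conj_smul_mono y hZ).trans (cQ y hy).le
  have nZ : ∀ y ∈ T ⊔ K, Nt Q (MulAut.conj y • Z) := fun y hy => (nt.conj y).mono (QT' y hy)
  have eV := elem_ncl nt.el fun y hy y' hy' => (nZ y hy).le_cent (nZ y' hy') (ZQ y hy) (ZQ y' hy')
  have VQ : ncl (T ⊔ K) Z ≤ Q := ncl_le_iff.2 ZQ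
  have nV : T ⊔ K ≤ 𝐍(ncl (T ⊔ K) Z) := le_norm_ncl
  by_cases hB : A ⊓ Q ≤ 𝐂(ncl (T ⊔ K) Z)
  · exact (g.ff' oc h3 hA hAQ (VQ.trans QT) eV nV hB).trans (centralizer_anti le_ncl)
  exfalso
  rw [le_cent_comm, ncl_le_iff, not_forall₂] at hB
  obtain ⟨y, hy, hB⟩ := hB
  obtain ⟨k, hk, t, ht, rfl⟩ := g.exists_mul oc hy
  rw [← conj_smul_conj_smul, conj_smul_eq_of_mem_normalizer (nt.norm ht), le_cent_comm] at hB
  have kY : k ∈ T ⊔ K := mem_sup_right hk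
  have hK : K ≤ zpowers k := by_contra fun e => hB (by
    rw [conj_smul_eq_of_mem_normalizer (hgen k hk e)]; exact inf_le_left.trans hc)
  obtain ⟨b, hb, b1⟩ := SetLike.not_le_iff_exists.1 hB
  obtain ⟨a, ha, a1⟩ := SetLike.not_le_iff_exists.1 hAQ
  have cA := elem_le_cent hA.2.1
  have sqA := fun x (hx : x ∈ A) => sq_of_elem hA.2.1 hx
  have n' := nZ k kY
  have nT := nt.conj k
  have ZV := conj_le_ncl (A := Z) kY
  set Z' := MulAut.conj k • Z with hZ'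
  have i4 : (A ⊓ Q ⊓ 𝐂(Z')).relIndex A ≤ 4 := by
    rw [← relIndex_mul_relIndex _ (A ⊓ Q) A inf_le_left inf_le_left, inf_relIndex_left, inf_relIndex_left]
    exact Nat.mul_le_mul (n'.i2 inf_le_right fun x hx => sqA x hx.1).le gi.le
  have B0A : A ⊓ Q ⊓ 𝐂(Z') ≤ A := inf_le_left.trans inf_le_left
  have Ab : A ≤ 𝐂[b] := cA.trans (cent_le_cent1 hb.1)
  have r4 : (Z' ⊓ (A ⊓ Q ⊓ 𝐂(Z'))).relIndex Z' ≤ 4 := (inf_relIndex_left _ _).trans_le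
    ((jSet_rank hA B0A ((ZQ k kY).trans QT) n'.el inf_le_right).trans i4)
  have W1 := n'.inf_le hb.2 b1 (inf_le_inf_left _ (B0A.trans Ab)) r4
  have WA : Z' ⊓ 𝐂[b] ≤ A := W1.trans (inf_le_right.trans B0A)
  have W4 : (Z' ⊓ 𝐂[b]).relIndex Z' ≤ 4 :=
    (relIndex_le_of_le_left (inf_le_inf_left _ (B0A.trans Ab)) (relIndex_pos _ _).ne').trans r4
  have nW0 : MulAut.conj k • T ≤ 𝐍((Z' ⊓ 𝐂[b] : Subgroup G)) := fun s hs => mem_normalizer_of_conj_mem fun w hw => by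
    have bT := QT' k kY hb.2
    have h1 := conj_mem_of_mem_normalizer (nT.norm hs) hw.1
    have h2 := nT.n2 _ (mul_mem (mul_mem hs bT) (inv_mem hs)) b bT (fun e => b1 ((mem_normalizer_iff.1
      (normalizer_le_normalizer_centralizer _ (nT.norm hs)) b).2 e)) b1 (by
        rw [conj_mul, sqA b hb.1, mul_one, mul_inv_cancel]; exact one_mem _) ((sqA b hb.1).symm ▸ one_mem _)
    have h5 : s * w * s⁻¹ ∈ 𝐂[s * b * s⁻¹] := conj_cent1 s b ▸ conj_mem_conj_smul.2 hw.2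
    exact ⟨h1, mem_cent1_comm.1 ((mul_mem_cancel_left (mem_cent1_comm.1 h5)).1 (cent_le_cent1 h1 h2))⟩
  have nW : T ⊔ K ≤ 𝐍((Z' ⊓ 𝐂[b] : Subgroup G)) := by
    have h1 := g7 _ ((QT' k kY).trans nW0) a k (hA.1 ha) a1 ((sqA a ha).symm ▸ one_mem _) hk
      (cent_le_norm _ (centralizer_anti WA (cA ha))) (nW0 (conj_mem_conj_smul.2 (hA.1 ha)))
    refine sup_le (fun s hs => ?_) (hK.trans (zpowers_le.2 h1))
    simpa [mul_assoc] using inv_conj_mem_of_mem_normalizer (le_normalizer h1) (nW0 (conj_mem_conj_smul.2 hs))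
  have WZ' : Z' ⊓ 𝐂[b] ≤ Z' := inf_le_left
  have b3 := n'.three_le hb.2 b1
  have W3 : 3 ≤ (Z' ⊓ 𝐂[b]).relIndex Z' := b3.trans_eq (inf_relIndex_left _ _).symm
  generalize hW : Z' ⊓ 𝐂[b] = W at W4 WA nW WZ' W3
  have Wy : ∀ y ∈ T ⊔ K, W ≤ MulAut.conj y • Z ∧ W.relIndex (MulAut.conj y • Z) ≤ 4 := fun y hy => by
    have e : MulAut.conj y • Z = MulAut.conj (y * k⁻¹) • Z' := by
      rw [hZ', conj_smul_conj_smul, inv_mul_cancel_right]
    rw [e, ← conj_smul_eq_of_mem_normalizer (nW (mul_mem hy (inv_mem kY))), relIndex_conj_smul]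
    exact ⟨conj_smul_mono _ WZ', W4⟩
  have nS : T ⊔ K ≤ 𝐍((Q ⊓ 𝐂(W) : Subgroup G)) := le_normalizer_inf nQ (le_normalizer_centralizer nW)
  have SV : ⁅Q ⊓ 𝐂(W), ncl (T ⊔ K) Z⁆ ≤ W := by
    have := subgroupOf_normal nW
    rw [← qim_le_cent_iff (inf_le_left.trans QY) (VQ.trans QY), le_cent_comm, qim_le_iff (VQ.trans QY), ncl_le_iff]
    intro y hy
    rw [← qim_le_iff ((ZQ y hy).trans QY), le_cent_comm, qim_le_cent_iff (inf_le_left.trans QY) ((ZQ y hy).trans QY)]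
    exact (nZ y hy).comm_mem pQ (ZQ y hy) (Wy y hy).1 (QY.trans nW) (Wy y hy).2
  have AW : A ≤ 𝐂(W) := cA.trans (centralizer_anti WA)
  have B0V : A ⊓ Q ⊓ 𝐂(Z') ≤ 𝐂(ncl (T ⊔ K) Z) := le_cent_comm.1 (ncl_le_iff.2 fun y hy => le_cent_comm.1
    fun c hc' => by_contra fun c1 => by
    have n'' := nZ y hy
    have ZV' := conj_le_ncl (A := Z) hy
    obtain ⟨W5, W6⟩ := Wy y hy
    set Z'' := MulAut.conj y • Z
    have h1 := n''.inf_le hc'.1.2 c1 (le_inf W5 (le_cent1_iff.2 (AW hc'.1.1))) W6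
    have h2 : (A ⊓ Q ⊓ 𝐂(Z') ⊓ 𝐂(Z'')).relIndex A ≤ 2 * 4 := by
      rw [← relIndex_mul_relIndex _ _ A inf_le_left B0A, inf_relIndex_left]
      exact Nat.mul_le_mul (n''.i2 (inf_le_left.trans inf_le_right) fun x hx => sqA x hx.1.1).le i4
    have DV := sup_le ZV' ZV
    have nn : Z'' ≤ 𝐍(Z') := (ZV'.trans VQ).trans n'.norm
    have h4 := (jSet_rank hA (inf_le_left.trans B0A) (DV.trans (VQ.trans QT)) (elem_of_le eV DV) (by
      rw [GT.centralizer_sup]; exact le_inf inf_le_right (inf_le_left.trans inf_le_right))).trans h2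
    have h5 : (A ⊓ Q ⊓ 𝐂(Z') ⊓ 𝐂(Z'')) ⊓ (Z'' ⊔ Z') ≤ W := fun d hd => by
      obtain ⟨u, hu, v, hv, rfl⟩ := (mem_sup_of_le_normalizer_right nn).1 hd.2
      have h6 : u ∈ W := h1 ⟨hu, (mul_mem_cancel_right (mem_cent1_comm.1 (cent_le_cent1 hv hc'.2))).1
        (cent_le_cent1 hc'.1.1 (cA hd.1.1.1.1))⟩
      exact hW ▸ ⟨mul_mem (WZ' h6) hv, Ab hd.1.1.1.1⟩
    have h7 := (relIndex_le_of_le_left h5 (relIndex_pos _ (Z'' ⊔ Z')).ne').trans ((inf_relIndex_right _ _).trans_le h4)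
    rw [← relIndex_mul_relIndex W Z' _ WZ' le_sup_right, relIndex_sup_of_le_normalizer nn] at h7
    have h8 := (n''.three_le hc'.1.2 c1).trans (relIndex_le_of_le_left (le_cent1_iff.2 hc'.2) (relIndex_pos _ _).ne')
    have := (Nat.mul_le_mul W3 h8).trans h7
    omega)
  have VC : ncl (T ⊔ K) Z ≤ Z' ⊔ ncl (T ⊔ K) Z ⊓ A := by
    refine le_of_idx_right le_sup_right (sup_le ZV inf_le_left) ((inf_relIndex_left _ _).trans_le
      ((relIndex_le_of_le_left B0A (relIndex_pos _ _).ne').trans ((jSet_rank hA B0A (VQ.trans QT) eV B0V).trans i4))) ?_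
    rw [relIndex_sup_of_le_normalizer ((ZV.trans (elem_le_cent eV)).trans
      ((centralizer_anti inf_le_left).trans (cent_le_norm _)))]
    exact b3.trans (relIndex_le_of_le_left (inf_le_right.trans Ab) (relIndex_pos _ _).ne')
  have aY : a ∈ T ⊔ K := mem_sup_left (hA.1 ha)
  have s1 : ∀ x ∈ Q ⊓ 𝐂(W), ⁅x, a⁆ ∈ Q ⊓ 𝐂(W) := fun x hx =>
    commutator_le_left_of_norm (zpowers_le.2 (nS aY)) (commutator_mem_commutator hx (mem_zpowers a))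
  have s2 : ∀ x ∈ Q ⊓ 𝐂(W), ⁅x, a⁆ ∈ 𝐂(Z') → ⁅x, a⁆ ∈ Q ⊓ 𝐂(W) ⊓ 𝐂(ncl (T ⊔ K) Z) := fun x hx h => by
    refine ⟨s1 x hx, centralizer_anti VC ?_⟩
    rw [GT.centralizer_sup]
    refine ⟨h, fun c hc' => ?_⟩
    have h1 := cA (mul_mem (WA (SV (commutator_mem_commutator (inv_mem hx) hc'.1))) hc'.2) a ha
    have h2 := cA hc'.2 a ha
    simp only [commutatorElement_def, inv_inv, inv_mul_cancel_right] at h1 ⊢
    calc c * (x * a * x⁻¹ * a⁻¹) = x * (x⁻¹ * c * x * a) * x⁻¹ * a⁻¹ := by group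
      _ = x * a * x⁻¹ * (c * a⁻¹) := by rw [← h1]; group
      _ = _ := by rw [(Commute.inv_left h2).eq.symm]; group
  have KS := tv_mod h3 aY le_sup_right g.odd pQ nQ (ginv a (hA.1 ha) a1 ((sqA a ha).symm ▸ one_mem _))
    (pQ.to_le inf_le_left) (inf_le_left.trans QY) (le_normalizer_inf nS (le_normalizer_centralizer nV))
    (le_inf (der_le _) (commutator_le_centralizer_of_rotate (SV.trans (le_cent_comm.1 inf_le_right))
      ((commutator_comm _ _).le.trans (SV.trans (le_cent_comm.1 inf_le_right))))) nS fun x hx y hy h1 h2 => by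
    have sq := fun x (hx : x ∈ Q ⊓ 𝐂(W)) => n'.sq_mem pQ (ZQ k kY) WZ' (QY.trans nW) W4 hx.1 hx.2
    have h4 := conj_mem_of_mem_normalizer (le_normalizer hx) (s1 y hy)
    refine s2 _ (mul_mem hx hy) ?_
    rw [show ⁅x * y, a⁆ = x * ⁅y, a⁆ * x⁻¹ * ⁅x, a⁆ by simp only [commutatorElement_def]; group]
    exact n'.n2 _ h4.1 _ (s1 x hx).1 (fun e => h2 (s2 y hy ((mem_normalizer_iff.1
      (normalizer_le_normalizer_centralizer _ (n'.norm hx.1)) _).2 e))) (mt (s2 x hx) h1) (sq _ h4) (sq _ (s1 x hx))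
  refine b1 ?_
  rw [hZ', ← conj_smul_centralizer, mem_conj_smul]
  have := mul_mem (centralizer_anti le_ncl (KS (commutator_mem_commutator (inv_mem hk) ⟨hb.2, AW hb.1⟩)).2) (hc hb.1)
  simpa [commutatorElement_def] using this

theorem Gp.nt (g : Gp T X) (oc : OC G) (h3 : ¬ 3 ∣ Nat.card G) (eZ : IsElementaryAbelian 2 Z) (nZ : T ⊔ X ≤ 𝐍(Z))
    (hc : Op 2 (T ⊔ X) ≤ 𝐂(Z)) (hX : ¬ X ≤ 𝐂(Z)) : Nt T Z := by
  have key : ∀ i ∈ T, i ∈ 𝐂(Z) → i ∈ Op 2 (T ⊔ X) := fun i hi h => by_contra fun e => hX (g.le_cent oc nZ hi e h)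
  refine ⟨eZ, le_sup_left.trans nZ, fun i hi h => hc (by_contra fun e => hX ?_), fun i hi j hj h1 h2 h4 h5 =>
    hc (g.mul_mem oc hi hj (fun e => h1 (hc e)) (key _ (T.mul_mem hi hi) h4) (fun e => h2 (hc e)) (key _ (T.mul_mem hj hj) h5))⟩
  obtain ⟨y, hy, h1, h2⟩ := exists_pow_sq_mem (isPElt_of_mem g.two hi) e
  have yT := zpowers_le.2 hi hy
  exact tv0 h3 (mem_sup_left yT) le_sup_right g.odd (isPGroup_Op 2 _) (piCoreOf_le _ _) (le_norm_piCoreOf _ _)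
    (g.invM oc yT h1 h2) (elem_isPGroup eZ) (elem_le_cent eZ) nZ (h.mono (inf_le_left.trans
      ((centralizer_zpowers i).ge.trans (cent_le_cent1 hy))) le_rfl)

theorem Gp.sub (g : Gp T K) (oc : OC G) {K' : Subgroup G} (h : K' ≤ K) (h1 : K' ≠ ⊥) :
    Gp T K' ∧ Op 2 (T ⊔ K') = Op 2 (T ⊔ K) := by
  obtain ⟨r, _, h2, h3⟩ := g.pr
  have e := sup_le_sup_left h T
  have := g.sol
  have g' : Gp T K' := ⟨g.syl.of_le le_sup_left e, isSolvable_of_le e, ⟨r, ‹_›, h2, h3.to_le h⟩, h1⟩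
  refine ⟨g', le_antisymm (fun x hx => ?_) (le_Op (g.Q_le.trans le_sup_left) (e.trans (le_norm_piCoreOf _ _))
    (isPGroup_Op 2 _))⟩
  obtain ⟨⟨k, hk⟩, k1⟩ := ne_bot_iff_exists_ne_one.1 h1
  refine g.mem_of_comm oc (g'.Q_le hx) (h hk) (fun e => k1 (Subtype.ext e)) (mem_of_two g.odd (isPGroup_Op 2 _)
    (le_sup_right.trans (le_norm_piCoreOf _ _)) (isPElt_of_mem (isPGroup_Op 2 (T ⊔ K')) ?_) ?_)
  · exact commutator_le_left_of_norm (le_sup_right.trans (le_norm_piCoreOf _ _)) (commutator_mem_commutator hx hk)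
  · exact commutator_le_right_of_norm (le_sup_left.trans (g.norm oc))
      (commutator_mem_commutator (g'.Q_le hx) (mem_sup_left (h hk)))

theorem core_b' (oc : OC G) (h3 : ¬ 3 ∣ Nat.card G) (nt : Nt T Z) (hA : A ∈ JSet 2 T) (hc : A ≤ 𝐂(Z)) (K : Subgroup G) :
    Gp T K → Z ≤ Op 2 (T ⊔ K) → ¬ A ≤ Op 2 (T ⊔ K) → K ≤ 𝐂(Z) := by
  induction K using WellFoundedLT.induction with | _ K ih => ?_
  refine fun g hZ hAQ => core_b oc h3 g nt hZ hA hAQ hc fun k hk h => ?_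
  by_cases e : k = 1
  · exact e ▸ one_mem _
  obtain ⟨g', e'⟩ := g.sub oc (zpowers_le.2 hk) (mt zpowers_eq_bot.1 e)
  exact cent_le_norm _ (ih _ (lt_of_le_not_ge (zpowers_le.2 hk) h) g' (e' ▸ hZ) (e' ▸ hAQ) (mem_zpowers k))

theorem core_a (oc : OC G) (h3 : ¬ 3 ∣ Nat.card G) (g : Gp T K) (g2 : Gp T X) {z : G} (hz : z ∈ T)
    (h1 : z ∉ Op 2 (T ⊔ K)) (h2 : z * z = 1) (hc : Op 2 (T ⊔ X) ≤ 𝐂[z]) : K ≤ 𝐂(Op 2 (T ⊔ K)) := by
  have nQ := le_norm_piCoreOf {2} (T ⊔ K)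
  have pQ := isPGroup_Op 2 (T ⊔ K)
  have nP := nQ.trans (norm_le_norm_Phi _)
  have zY : z ∈ T ⊔ K := mem_sup_left hz
  have i2 := g2.i2_sq oc (C := Op 2 (T ⊔ K) ⊓ 𝐂[z] ⊔ Phi (Op 2 (T ⊔ K))) g.Q_le
    ((inf_le_inf_left _ hc).trans le_sup_left) fun x hx => mem_sup_right (sq x ▸ pow_mem_Phi pQ hx)
  have h4 : ⁅Op 2 (T ⊔ K) ⊓ 𝐂[z] ⊔ Phi (Op 2 (T ⊔ K)), zpowers z⁆ ≤ Phi (Op 2 (T ⊔ K)) := commutator_sup_left_le
    ((commutator_eq_bot_of_le_cent (inf_le_right.trans (centralizer_zpowers z).ge)).le.trans bot_le)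
    (commutator_le_left_of_norm (zpowers_le.2 (nP zY))) ((inf_le_left.trans (piCoreOf_le _ _)).trans nP) le_normalizer
  have h5 := fun x hx => h4 (commutator_mem_commutator (g₁ := x) hx (mem_zpowers z))
  have := pQ.isNilpotent
  have h6 := tv_mod h3 zY le_sup_right g.odd pQ nQ (g.invM oc hz h1 (h2.symm ▸ one_mem _)) pQ (piCoreOf_le _ _) nP
    der_le_Phi nQ fun x hx y hy h7 h8 => h5 _ (i2 x hx y hy (mt (h5 x) h7) (mt (h5 y) h8))
  have c := coprimeAct_of_isPGroup_right (le_sup_right.trans nQ) pQ (not_two_dvd.2 g.odd)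
  exact le_cent_comm.1 ((eq_of_sup_Phi inf_le_left (c.inf_centralizer_sup_commutator.ge.trans
    (sup_le_sup_left ((commutator_comm _ _).le.trans h6) _))).ge.trans inf_le_right)

theorem le_norm_ncl_of_sol (oc : OC G) (hT : IsSylowIn 2 T ⊤) (g : Gp T K) {Y : Subgroup G} (hs : Group.IsSolvable Y)
    (h1 : T ≤ Y) (h2 : K ≤ Y) : Y ≤ 𝐍(ncl T K) := fun y hy => by
  obtain ⟨r, _, h3, h4⟩ := g.pr
  have n := h2.trans (le_norm_piCoreOf {2} Y)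
  have s := sylow_sup_two h3 h4 (isPGroup_Op 2 Y) n
  refine mem_normalizer_of_conj_mem (conj_smul_le_iff.1 (conj_smul_le_iff_le_inv.2 (ncl_le_iff.2 fun t ht => ?_)))
  rw [← conj_smul_le_iff_le_inv, conj_smul_conj_smul]
  obtain ⟨x, hx, e⟩ := s.exists_conj_eq (s.conj_of_mem_normalizer (oc.norm_sup hs h2 g.odd (mul_mem hy (h1 ht))))
  obtain ⟨o, ho, k, hk, rfl⟩ := (mem_sup_of_le_normalizer_left n).1 (sup_comm K _ ▸ hx)
  rw [← e, ← conj_smul_conj_smul, conj_smul_eq_of_mem hk]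
  exact conj_le_ncl (Op_le_sylow (hT.of_le h1 le_top) ho)

theorem Am.cent_of_cent (h : Am G) (hT : IsSylowIn 2 T ⊤) (h8 : 8 ≤ Nat.card (Zs T)) (g : Gp T K)
    (hJ : ¬ Jt T ≤ Op 2 (T ⊔ K)) (hc : K ≤ 𝐂(Op 2 (T ⊔ K))) : K ≤ 𝐂(Zs T) := by
  have nK := g.le_norm h.oc hc
  have nQ := le_sup_left.trans (le_norm_piCoreOf {2} (T ⊔ K))
  have pJ := isPGroup_Jt g.two
  have hM : T ≤ 𝐍(Jt T) := le_normalizer.trans (norm_le_norm_Jt T)
  have h9 := h8.trans (card_le_of_le ((Zs_le_Oz T).trans (Oz_le _)))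
  have i2 : (Op 2 (T ⊔ K)).relIndex (Jt T) ≤ 2 := by
    rw [sSup_le_iff, not_forall₂] at hJ
    obtain ⟨A, hA, hJ⟩ := hJ
    obtain ⟨a, ha, a1⟩ := SetLike.not_le_iff_exists.1 hJ
    have a2 := sq_of_elem hA.2.1 ha
    refine (relIndex_le_of_le_right (L := zpowers a ⊔ Op 2 (T ⊔ K)) (sSup_le fun B hB x hx => ?_)
      (relIndex_pos _ _).ne').trans ?_
    · by_cases e : x ∈ Op 2 (T ⊔ K)
      · exact mem_sup_right e
      · simpa [← mul_assoc, a2] using mul_mem (mem_sup_left (mem_zpowers a)) (mem_sup_right (S := zpowers a)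
          (g.mul_mem h.oc (hA.1 ha) (hB.1 hx) a1 (a2.symm ▸ one_mem _) e ((sq_of_elem hB.2.1 hx).symm ▸ one_mem _)))
    · rw [relIndex_sup_of_le_normalizer (zpowers_le.2 (nQ (hA.1 ha)))]
      refine Nat.le_of_dvd two_pos ((relIndex_dvd_card _ _).trans ?_)
      rw [Nat.card_zpowers]
      exact orderOf_dvd_of_pow_eq_one ((sq a).trans a2)
  have ne : ∀ D : Subgroup G, D.relIndex (Jt T) ≤ 4 → D ⊓ Jt T ≠ ⊥ := fun D h4 e => by
    have := card_inf_mul_relIndex D (Jt T)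
    rw [e, card_bot] at this
    omega
  have n0 : T ≤ 𝐍((Op 2 (T ⊔ K) ⊓ Jt T : Subgroup G)) := le_normalizer_inf nQ hM
  have n1 : 𝐍(Jt T) ≤ 𝐍((Op 2 (T ⊔ K) ⊓ Jt T : Subgroup G)) := fun x hx => mem_normalizer_of_conj_mem fun j hj => by
    have e := conj_smul_eq_of_mem_normalizer hx
    have h1 := conj_mem_of_mem_normalizer hx hj.2
    have c' : MulAut.conj x • K ≤ 𝐂(MulAut.conj x • Op 2 (T ⊔ K)) := conj_smul_centralizer x _ ▸ conj_smul_mono x hc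
    have nJ : Jt T ≤ 𝐍((Op 2 (T ⊔ K) ⊓ MulAut.conj x • Op 2 (T ⊔ K) ⊓ Jt T : Subgroup G)) := le_normalizer_inf
      (le_normalizer_inf ((Jt_le T).trans nQ) (e.ge.trans (conj_smul_normalizer x _ ▸
        conj_smul_mono x ((Jt_le T).trans nQ)))) le_normalizer
    refine ⟨g.mem_of_cent h.oc (Jt_le T h1) (h.oc.cmp (h.loc _ (pJ.to_le inf_le_right)
      (ne (Op 2 (T ⊔ K) ⊓ MulAut.conj x • Op 2 (T ⊔ K)) (relIndex_inf_le.trans ?_)))
      ((hc.trans (centralizer_anti (inf_le_left.trans inf_le_left))).trans (cent_le_norm _))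
      ((c'.trans (centralizer_anti (inf_le_left.trans inf_le_right))).trans (cent_le_norm _)) g.odd
      (card_conj_smul x K).symm (nJ h1) (le_cent_comm.1 c' (conj_mem_conj_smul.2 hj.1)) (nK (Jt_le T h1))), h1⟩
    conv_lhs => rw [← e, relIndex_conj_smul, e]
    exact Nat.mul_le_mul i2 i2
  have n2 := n1.trans (le_norm_ncl_of_sol h.oc hT g (h.loc _ (pJ.to_le inf_le_right) (ne _ (i2.trans (by decide)))) n0
    ((hc.trans (centralizer_anti inf_le_left)).trans (cent_le_norm _)))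
  rw [le_antisymm (ncl_le le_rfl nK) le_ncl] at n2
  have := h.oc K g.odd
  exact le_cent_comm.1 (inf_le_right.trans (commutator_le_centralizer_of_isCyclic n2))

theorem Am.claimK (h : Am G) (hT : IsSylowIn 2 T ⊤) (h8 : 8 ≤ Nat.card (Zs T)) (g : Gp T K) : K ≤ 𝐍(Zs T) := by
  have nQ := le_norm_piCoreOf {2} (T ⊔ K)
  by_cases hJ : Jt T ≤ Op 2 (T ⊔ K)
  · exact (((le_sup_right.trans nQ).trans (norm_le_norm_Jt _)).trans_eq (by rw [Jt_eq hJ g.Q_le])).trans (le_norm_Zs T)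
  by_cases hc : K ≤ 𝐂(Op 2 (T ⊔ K))
  · exact (h.cent_of_cent hT h8 g hJ hc).trans (cent_le_norm _)
  have hM : T ≤ 𝐍(Jt T) := le_normalizer.trans (norm_le_norm_Jt T)
  have cO : ∀ D ≤ T, D ≤ 𝐂(Oz T) := fun D hD => hD.trans (le_cent_Oz T)
  have ZQ : Oz T ≤ Op 2 (T ⊔ K) := fun z hz => by_contra fun e =>
    hc (g.le_cent h.oc nQ (Oz_le T hz) e (le_cent_comm.1 (cO _ g.Q_le) hz))
  have KZ : K ≤ 𝐂(Oz T) := (g.ff h.oc h.three hJ).trans
    (centralizer_anti (le_Oz (elem_Oz T) ZQ (le_cent_comm.1 (cO _ g.Q_le))))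
  have z0 : Oz T ≠ ⊥ := omegaOne_Zc_ne_bot g.two (h.ne_bot hT)
  have n : 𝐍(Jt T) ≤ 𝐍(ncl T K) := le_of_forall_exists_isSylowIn_le fun q _ => by
    by_cases e : q = 2
    · subst e; exact ⟨T, hT.of_le hM le_top, le_norm_ncl⟩
    obtain ⟨X, hX⟩ := exists_isSylowIn q 𝐍(Jt T)
    refine ⟨X, hX, ?_⟩
    by_cases hXZ : X ≤ 𝐂(ncl (T ⊔ X) (Oz T))
    · exact ((hXZ.trans (centralizer_anti le_ncl)).trans (cent_le_norm _)).trans (le_norm_ncl_of_sol h.oc hT g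
        (h.loc _ (elem_isPGroup (elem_Oz T)) z0) ((cO T le_rfl).trans (cent_le_norm _)) (KZ.trans (cent_le_norm _)))
    have := h.loc _ (isPGroup_Jt g.two) (Jt_ne_bot g.two (h.ne_bot hT))
    have XM := sup_le hM hX.le
    have g2 : Gp T X := ⟨hT.of_le le_sup_left le_top, isSolvable_of_le XM, ⟨q, ‹_›, e, hX.isPGroup⟩,
      fun e' => hXZ (e'.le.trans bot_le)⟩
    have Z2 : ncl (T ⊔ X) (Oz T) ≤ Oz (Jt T) := ncl_le (le_ncl.trans (ncl_le_Oz T)) (XM.trans (norm_le_norm_Oz _))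
    have eZ := elem_of_le (elem_Oz _) Z2
    have c2 : Op 2 (T ⊔ X) ≤ 𝐂(ncl (T ⊔ X) (Oz T)) := le_cent_comm.1 (ncl_le (le_cent_comm.1 (cO _ g2.Q_le))
      (le_normalizer_centralizer (le_norm_piCoreOf _ _)))
    rw [sSup_le_iff, not_forall₂] at hJ
    obtain ⟨A, hA, hJ⟩ := hJ
    have ZA := Z2.trans (Oz_Jt_le hA)
    have h1 := core_b' h.oc h.three (g2.nt h.oc h.three eZ le_norm_ncl c2 hXZ) hA
      ((elem_le_cent hA.2.1).trans (centralizer_anti ZA)) K g (fun z hz => by_contra fun e' => hc (core_a h.oc h.three g g2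
        (hA.1 (ZA hz)) e' (sq_of_elem eZ hz) (c2.trans (cent_le_cent1 hz)))) hJ
    exact (le_sup_right.trans le_norm_ncl).trans (le_norm_ncl_of_sol h.oc hT g (h.loc _ (elem_isPGroup eZ)
      fun e' => z0 (le_bot_iff.1 (le_ncl.trans e'.le))) (le_sup_left.trans le_norm_ncl) (h1.trans (cent_le_norm _)))
  exact ((le_ncl.trans (le_cent_comm.1 (ncl_le (le_cent_comm.1 (ncl_le KZ (le_normalizer_centralizer
    ((cO T le_rfl).trans (cent_le_norm _))))) (le_normalizer_centralizer n)))).trans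
      (centralizer_anti inf_le_left)).trans (cent_le_norm _)

end Her
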