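import Cfsg.Agent.Lib.Her.Hc
import Cfsg.Agent.Lib.Grp.Zsig
import Mathlib.RingTheory.LittleWedderburn
import Mathlib.LinearAlgebra.Eigenspace.Minpoly
import Mathlib.LinearAlgebra.Charpoly.ToMatrix
import Mathlib.FieldTheory.IsAlgClosed.AlgebraicClosure

/-!
# Irreducible elements and the field of endomorphisms commuting with them
-/

set_option autoImplicit false
set_option linter.unusedSectionVars false

namespace Her

open Cfsg GT FT Subgroup MulAction Polynomial
open scoped Pointwise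

variable {p : ℕ} [hp : Fact p.Prime] {H : Type*} {V : Type*} [Group H] [Finite H] [AddCommGroup V]
  [Finite V] [DistribMulAction H V]

theorem Irr.exists_field [Nontrivial V] {x : H} (hx : Irr V x) {A : Subgroup H} (hA : A ≤ 𝐂[x]) :
    ∃ (K : Subring (AddMonoid.End V)) (_ : IsField K),
      (∀ a ∈ A, DistribMulAction.toAddMonoidEnd H V a ∈ K) ∧
        ∀ c ∈ 𝐂(A), ∀ k ∈ K, ∀ v : V, c • k v = k (c • v) := by
  let K := Subring.closure (DistribMulAction.toAddMonoidEnd H V '' A)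
  have h1 : ∀ c ∈ 𝐂(A), ∀ k ∈ K, ∀ v : V, c • k v = k (c • v) := fun c hc k hk v =>
    DFunLike.congr_fun ((Subring.closure_le (t := Subring.centralizer
      {DistribMulAction.toAddMonoidEnd H V c})).2 (by
        rintro _ ⟨a, ha, rfl⟩ _ rfl
        rw [← map_mul, ← map_mul, hc a ha]) hk _ rfl) v
  haveI : Finite (AddMonoid.End V) := DFunLike.finite _
  haveI : Nontrivial K := ⟨1, 0, fun e => by
    obtain ⟨v, hv⟩ := exists_ne (0 : V)
    exact hv (DFunLike.congr_fun (congrArg Subtype.val e) v)⟩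
  haveI : NoZeroDivisors K := ⟨fun {a b} e => by
    refine (hx (AddMonoidHom.ker a.1) fun w hw => ?_).symm.imp
      (fun h => Subtype.ext (AddMonoidHom.ext fun v => h.ge (AddSubgroup.mem_top v)))
      fun h => Subtype.ext (AddMonoidHom.ext fun v => AddSubgroup.mem_bot.1
        (h.le (DFunLike.congr_fun (congrArg Subtype.val e) v)))
    exact (h1 x (le_cent1_iff.1 hA) a a.2 w).symm.trans ((congrArg _ hw).trans (smul_zero x))⟩
  haveI := NoZeroDivisors.to_isDomain K
  exact ⟨K, Finite.isDomain_to_isField K, fun a ha => Subring.subset_closure ⟨a, ha, rfl⟩, h1⟩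

theorem le_finrank_of_conj {K W : Type*} [Field K] [AddCommGroup W] [Module K W] [Module.Finite K W]
    [Nontrivial W] {C : Type*} [Group C] (φ : C →* Module.End K W) {y g : C} {r a k : ℕ}
    (hr : r.Prime) (hy : orderOf y = r) (h1 : ∀ v, φ y v = v → v = 0) (e : g * y * g⁻¹ = y ^ a)
    (hk : ∀ i, 0 < i → i < k → ¬ a ^ i ≡ 1 [MOD r]) : k ≤ Module.finrank K W := by
  classical
  haveI := Fact.mk hr
  have hi := Algebra.IsIntegral.isIntegral (R := K) (φ y)
  obtain ⟨ζ, hζ⟩ := IsAlgClosed.exists_aeval_eq_zero (AlgebraicClosure K) _ (minpoly.degree_pos hi).ne'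
  have h2 : ∀ (f : K[X]) {z : AlgebraicClosure K}, aeval z (minpoly K (φ y)) = 0 → aeval (φ y) f = 0 →
      aeval z f = 0 := fun f z hz hf => aeval_eq_zero_of_dvd_aeval_eq_zero (minpoly.dvd _ _ hf) hz
  have h3 : orderOf ζ = r := orderOf_eq_prime (by
    have := h2 (X ^ r - 1) hζ (by
      rw [map_sub, aeval_X_pow, ← map_pow, ← hy, pow_orderOf_eq_one, map_one, map_one, sub_self])
    rwa [map_sub, aeval_X_pow, map_one, sub_eq_zero] at this) (by
    rintro rfl
    obtain ⟨v, hv⟩ := (Module.End.hasEigenvalue_of_isRoot (f := φ y) (μ := 1) (by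
      rwa [← map_one (algebraMap K _), aeval_algebraMap_eq_zero_iff, coe_aeval_eq_eval]
        at hζ)).exists_hasEigenvector
    exact hv.2 (h1 v (hv.apply_eq_smul.trans (one_smul _ _))))
  have h4 : ∀ i, aeval (ζ ^ a ^ i) (minpoly K (φ y)) = 0 := fun i => by
    induction i with
    | zero => simpa
    | succ i ih =>
      have := h2 ((minpoly K (φ y)).comp (X ^ a)) ih (by
        rw [aeval_comp, aeval_X_pow, ← map_pow, ← e]
        have h5 : ∀ f : K[X], aeval (φ (g * y * g⁻¹)) f * φ g = φ g * aeval (φ y) f := fun f => by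
          induction f using Polynomial.induction_on' with
          | add f f' h h' => rw [map_add, map_add, add_mul, mul_add, h, h']
          | monomial n c =>
            rw [aeval_monomial, aeval_monomial, ← map_pow, ← map_pow, conj_pow, mul_assoc, ← map_mul,
              inv_mul_cancel_right, map_mul, ← mul_assoc, Algebra.commutes, mul_assoc]
        exact ((Group.isUnit g).map φ).mul_left_eq_zero.1 (by rw [h5, minpoly.aeval, mul_zero]))
      rwa [aeval_comp, aeval_X_pow, ← pow_mul, ← pow_succ] at this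
  have h5 : a.Coprime r := ((Nat.Prime.coprime_iff_not_dvd hr).2 fun h => hr.one_lt.ne' (by
    rw [← hy, orderOf_eq_one_iff, ← conj_eq_one_iff (a := g), e, ← orderOf_dvd_iff_pow_eq_one, hy]
    exact h)).symm
  have h6 : ∀ i j, i < j → j < k → ζ ^ a ^ i ≠ ζ ^ a ^ j := fun i j h hj e => by
    obtain ⟨l, rfl⟩ := Nat.exists_eq_add_of_lt h
    rw [(isOfFinOrder_iff_pow_eq_one.2 ⟨r, hr.pos, h3 ▸ pow_orderOf_eq_one ζ⟩).pow_eq_pow_iff_modEq,
      h3, add_assoc, pow_add] at e
    exact hk _ l.succ_pos (by omega) (Nat.ModEq.cancel_left_of_coprime (h5.pow_left i).symm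
      (by rwa [mul_one])).symm
  calc k = ((Finset.range k).image fun i => ζ ^ a ^ i).card := by
        rw [Finset.card_image_of_injOn, Finset.card_range]
        intro i hi j hj e
        by_contra h
        rcases lt_or_gt_of_ne h with h | h
        exacts [h6 i j h (by simpa using hj) e, h6 j i h (by simpa using hi) e.symm]
    _ ≤ ((minpoly K (φ y)).map (algebraMap K (AlgebraicClosure K))).natDegree :=
        card_le_degree_of_subset_roots fun z hz => by
          obtain ⟨i, -, rfl⟩ := Finset.mem_image.1 (Finset.mem_def.2 hz)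
          exact (mem_roots (map_ne_zero (minpoly.ne_zero hi))).2
            ((eval_map_algebraMap ..).trans (h4 i))
    _ ≤ _ := by
        rw [natDegree_map, ← (φ y).charpoly_natDegree]
        exact natDegree_le_of_dvd (φ y).minpoly_dvd_charpoly (φ y).charpoly_monic.ne_zero

theorem Hc.field (h : Hc p H V) {x : H} (hx : Irr V x) {A : Subgroup H} (hA : A ≤ 𝐂[x]) :
    IsCyclic A ∧ ∃ Q D : ℕ, 2 ≤ Q ∧ Nat.card V = Q ^ D ∧ Nat.card A ∣ Q - 1 ∧
      (∀ a ∈ 𝐂(A), ∀ b ∈ 𝐂(A), a * b ≠ b * a → 2 ≤ D) ∧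
      ∀ y ∈ 𝐂(A), ∀ g ∈ 𝐂(A), ∀ r a k : ℕ, r.Prime → r ≠ p → orderOf y = r → g * y * g⁻¹ = y ^ a →
        (∀ i, 0 < i → i < k → ¬ a ^ i ≡ 1 [MOD r]) → k ≤ D := by
  haveI := h.nt
  obtain ⟨K, hK, h1, h2⟩ := hx.exists_field hA
  haveI : Finite (AddMonoid.End V) := DFunLike.finite _
  letI := hK.toField
  let ι : A →* K := ((DistribMulAction.toAddMonoidEnd H V).comp A.subtype).codRestrict K
    fun a => h1 a a.2
  have hι : Function.Injective ι := (injective_iff_map_eq_one _).2 fun a e =>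
    Subtype.ext (h.faith a fun v => DFunLike.congr_fun (congrArg Subtype.val e) v)
  let φ : 𝐂(A) →* Module.End K V :=
    { toFun := fun c => ⟨DistribSMul.toAddMonoidHom V c.1, fun k v => h2 c c.2 k k.2 v⟩
      map_one' := LinearMap.ext (one_smul H)
      map_mul' := fun c d => LinearMap.ext (mul_smul c.1 d.1) }
  refine ⟨isCyclic_of_injective_ringHom ι hι, Nat.card K, Module.finrank K V, Finite.one_lt_card,
    Module.natCard_eq_pow_finrank, Nat.card_units K ▸ card_dvd_of_injective ι.toHomUnits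
      fun a b e => hι (congrArg Units.val e), fun a ha b hb e => by_contra fun hD => e ?_,
    fun y hy g hg r a k hr hrp h3 h4 h5 => le_finrank_of_conj φ (y := ⟨y, hy⟩) (g := ⟨g, hg⟩) hr
      ((orderOf_mk _ _).trans h3) (fun v hv => by_contra fun h6 => hr.one_lt.ne' ?_)
      (Subtype.ext h4) h5⟩
  · obtain ⟨v, hv⟩ := finrank_le_one_iff.1 (show Module.finrank K V ≤ 1 by omega)
    obtain ⟨α, hα⟩ := hv (φ ⟨a, ha⟩ v)
    obtain ⟨β, hβ⟩ := hv (φ ⟨b, hb⟩ v)
    refine mul_inv_eq_one.1 (h.faith _ fun w => ?_)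
    obtain ⟨c, hc⟩ := hv ((b * a)⁻¹ • w)
    have h3 : φ ⟨a, ha⟩ (φ ⟨b, hb⟩ (c • v)) = φ ⟨b, hb⟩ (φ ⟨a, ha⟩ (c • v)) := by
      simp only [map_smul, ← hα, ← hβ, smul_smul, mul_right_comm]
    rw [mul_smul, mul_smul, ← hc]
    exact h3.trans (by rw [hc]; exact (mul_smul b a _).symm.trans (smul_inv_smul _ _))
  · rw [← h3, h.fpf (fun e => hrp ((Nat.prime_dvd_prime_iff_eq hp.out hr).1 (h3 ▸ e)).symm) h6 hv,
      orderOf_one]

theorem Hc.irr (h : Hc p H V) {n : ℕ} (hn : Nat.card V = p ^ n) {x : H} (hx : ¬ p ∣ orderOf x)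
    (hd : ∀ j, 0 < j → j < n → ¬ orderOf x ∣ p ^ j - 1) : Irr V x := fun W hW => by
  obtain ⟨j, hj, e⟩ := (Nat.dvd_prime_pow hp.out).1 (hn ▸ AddSubgroup.card_addSubgroup_dvd_card W)
  have h1 := h.dvd (K := zpowers x) (W := W) (by rwa [Nat.card_zpowers]) fun g hg w hw => by
    obtain ⟨k, rfl⟩ := mem_powers_iff_mem_zpowers.2 hg
    induction k with
    | zero => simpa
    | succ k ih => simpa only [pow_succ', mul_smul] using hW _ (ih (npow_mem_zpowers x k))
  rw [Nat.card_zpowers, e] at h1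
  rcases Nat.eq_zero_or_pos j with rfl | h0
  · exact Or.inl (AddSubgroup.card_eq_one.1 e)
  · exact Or.inr (AddSubgroup.eq_top_of_card_eq W (by
      rw [e, hn, hj.eq_of_not_lt fun h2 => hd j h0 h2 h1]))

theorem Hc.exists_irr (h : Hc p H V) (tr : Tr H V) (hp2 : p ≠ 2) {L : Subgroup H} [L.Normal]
    (hL : ¬ L ≤ 𝐂(L)) (h4 : ∃ i ∈ L, orderOf i = 4) (he : (L ⊔ 𝐂(L)).index ∣ 2) :
    ∃ x ∈ L, Irr V x := by
  obtain ⟨n, h1, hn⟩ := h.card_V
  have ho := hp.out.odd_of_ne_two hp2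
  have h2 := hp.out.two_le
  have key : ∀ r : ℕ, r.Prime → r ≠ 2 → r ∣ p ^ n - 1 → (∀ j, 0 < j → j < n → ¬ r ∣ p ^ j - 1) →
      ∃ x ∈ L, Irr V x := fun r hr hr2 h3 h5 => by
    haveI := Fact.mk hr
    have h6 : ∀ x : H, orderOf x = r → Irr V x := fun x hx => h.irr hn (fun e => by
      rw [hx, Nat.prime_dvd_prime_iff_eq hp.out hr] at e
      exact hr.one_lt.ne' (Nat.dvd_one.1 ((Nat.dvd_sub_iff_right (Nat.one_le_pow _ _ (by omega))
        (e ▸ dvd_pow_self p (by omega))).1 h3))) (hx ▸ h5)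
    obtain ⟨a, ha⟩ := h.card_trans tr
    have h7 : r ∣ Nat.card ↥(L ⊔ 𝐂(L)) * (L ⊔ 𝐂(L)).index := by
      rw [card_mul_index, ha, hn]; exact h3.mul_right _
    rcases hr.dvd_mul.1 (((hr.dvd_mul.1 h7).resolve_right fun e => hr2
      ((Nat.prime_dvd_prime_iff_eq hr Nat.prime_two).1 (e.trans he))).trans
        (sup_comm L 𝐂(L) ▸ card_sup_dvd 𝐂(L) L)) with e | e
    · obtain ⟨x, hx, e⟩ := exists_mem_orderOf_eq e
      haveI := (h.field (h6 x e) (le_cent1_iff.2 hx)).1
      exact absurd (comm_iff_le_cent.1 IsCyclic.isMulCommutative) hL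
    · obtain ⟨x, hx, e⟩ := exists_mem_orderOf_eq e
      exact ⟨x, hx, h6 x e⟩
  rcases (show n = 1 ∨ n = 2 ∨ 3 ≤ n by omega) with rfl | rfl | h3
  · exact ⟨1, one_mem _, h.irr hn (by simpa using hp.out.ne_one) (by omega)⟩
  · obtain ⟨k, hk⟩ := ho
    by_cases h5 : p % 4 = 3
    · obtain ⟨i, hi, e⟩ := h4
      refine ⟨i, hi, h.irr hn (fun e' => hp2 ((Nat.prime_dvd_prime_iff_eq hp.out Nat.prime_two).1
        (hp.out.dvd_of_dvd_pow (n := 2) (by rwa [e] at e')))) fun j h0 hj => ?_⟩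
      rw [e, show j = 1 by omega, pow_one]
      omega
    obtain ⟨r, hr, e⟩ := Nat.exists_prime_and_dvd (n := k + 1) (by omega)
    have h6 : r ≠ 2 := by rintro rfl; omega
    refine key r hr h6 (e.trans ⟨2 * (p - 1), ?_⟩) fun j h0 hj e' => h6 ?_
    · rw [hk, Nat.add_sub_cancel]
      exact Nat.sub_eq_of_eq_add (by ring)
    · rw [show j = 1 by omega, pow_one, hk, Nat.add_sub_cancel] at e'
      exact (Nat.prime_dvd_prime_iff_eq hr Nat.prime_two).1
        ((Nat.dvd_add_right e').1 (show r ∣ 2 * k + 2 from e.trans ⟨2, by ring⟩))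
  · obtain ⟨r, hr, h5, h6⟩ := exists_zsigmondy (show 3 ≤ p by omega) h3
    have h7 : ∀ j, r ∣ p ^ j - 1 ↔ (r : ℤ) ∣ (p : ℤ) ^ j - 1 := fun j => by
      rw [← Int.natCast_dvd_natCast, Nat.cast_sub (Nat.one_le_pow _ _ (by omega))]; simp
    refine key r hr ?_ ((h7 n).2 h5) fun j h0 hj e => h6 j h0 hj ((h7 j).1 e)
    rintro rfl
    obtain ⟨k, hk⟩ := ho
    exact h6 1 one_pos (by omega) ⟨k, by simp [hk]⟩

end Her
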