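import Cfsg.Agent.Lib.Her.Hc
import Cfsg.Agent.Lib.GW.Stab
import Cfsg.Agent.Lib.Grp.DoubleCover
import Cfsg.Agent.Lib.Grp.Zsig

/-!
# Vocabulary for the outer frame of the classification of transitive groups in the class `𝓗`
-/

set_option autoImplicit false

namespace Her

open Cfsg GT FT GW Subgroup MulAction Matrix
open scoped Pointwise commutatorElement

/-- case (i) of the conclusion -/
def Def (p : ℕ) (H : Type*) [Group H] : Prop :=
  ∃ (F : Type) (_ : Field F) (_ : Fintype F), (∃ a : ℕ, Fintype.card F = p ^ a) ∧ 2 < Fintype.card F ∧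
    ∃ S : Subgroup H, S.Normal ∧ Nonempty (S ≃* SpecialLinearGroup (Fin 2) F) ∧ (∃ k : ℕ, S.index = p ^ k) ∧
      (∃ h : H, S ⊔ zpowers h = ⊤) ∧ centralizer (S : Set H) = (center S).map S.subtype

/-- cases (ii) - (vi) of the conclusion -/
def Exc (p : ℕ) (H : Type*) [Group H] : Prop :=
  (p = 3 ∧ ∃ S : Subgroup H, S.Normal ∧ S.index = 2 ∧ Nonempty (S ≃* SpecialLinearGroup (Fin 2) (ZMod 5)) ∧
    centralizer (S : Set H) = (center S).map S.subtype ∧ ∀ K : Subgroup H, ¬ IsComplement' S K) ∨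
  (p = 3 ∧ Nonempty (H ≃* SpecialLinearGroup (Fin 2) (ZMod 13))) ∨
  (p = 11 ∧ Nonempty (H ≃* SpecialLinearGroup (Fin 2) (ZMod 5))) ∨
  (p = 29 ∧ Nonempty (H ≃* SpecialLinearGroup (Fin 2) (ZMod 5) × Multiplicative (ZMod 7))) ∨
  (p = 59 ∧ Nonempty (H ≃* SpecialLinearGroup (Fin 2) (ZMod 5) × Multiplicative (ZMod 29)))

/-- the structure for `p` odd -/
structure St {H Q : Type*} [Group H] [Group Q] (f : H →* Q) (z : H) (L : Subgroup H) : Prop where
  cov : DCov f z
  dc : DC (⊤ : Subgroup Q)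
  normal : L.Normal
  mem : z ∈ L
  perf : ⁅L, L⁆ = L
  simple : IsSimpleGroup (L.map f)

end Her
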