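import Cfsg.Agent.Lib.Her.Even
import Cfsg.Agent.Lib.Her.Fld
import Cfsg.Agent.Lib.Her.Fr
import Cfsg.Agent.Lib.GW.DXd
import Cfsg.Agent.Lib.Block.BSuzA

/-!
# The class `𝓗`: normal structure for `p` odd
-/

set_option autoImplicit false
set_option linter.unusedSectionVars false

namespace Her

open Cfsg GT FT GW Subgroup
open scoped Pointwise commutatorElement

section Cov
variable {H Q : Type*} [Group H] [Finite H] [Group Q] {f : H →* Q} {z : H}

theorem cov_ker (hf : DCov f z) : f.ker = zpowers z :=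
  Subgroup.ext fun x => (hf.ker x).trans (Inv.mem_zpowers_iff ⟨hf.ne, hf.mul_self⟩).symm

theorem cov_ker_le (hf : DCov f z) : f.ker ≤ center H :=
  cov_ker hf ▸ zpowers_le.2 (mem_center_iff.2 hf.comm)

theorem cov_card_ker (hf : DCov f z) : Nat.card f.ker = 2 := by
  rw [cov_ker hf, Nat.card_zpowers, Inv.orderOf ⟨hf.ne, hf.mul_self⟩]

theorem cov_mem (hf : DCov f z) {X : Subgroup H} (hX : ¬ Group.IsSolvable X) : z ∈ X := by
  obtain ⟨t, ht, h⟩ := DX.exists_inv (H := X) (by_contra fun e => hX (GAG.odd_solv e))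
  exact (hf.uniq t h.sq).resolve_left h.ne ▸ ht

theorem cov_comap_map (hf : DCov f z) {X : Subgroup H} (hX : z ∈ X) : (X.map f).comap f = X :=
  comap_map_eq_self (cov_ker hf ▸ zpowers_le.2 hX)

theorem cov_dc (hf : DCov f z) (hc : ∀ A : Subgroup H, IsPGroup 2 A → A ≤ 𝐂(A) → IsCyclic A) :
    DC (⊤ : Subgroup Q) := fun T _ hT => by
  have hD : IsPGroup 2 (T.comap f) := hT.comap_of_ker_isPGroup f (IsPGroup.of_card (n := 1) (cov_card_ker hf))
  rw [← map_comap_eq_self_of_surjective hf.surj T]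
  by_cases ha : ∀ a ∈ T.comap f, ∀ b ∈ T.comap f, a * b = b * a
  · have := hc _ hD fun a h b h' => ha b h' a h
    exact .inl (isCyclic_of_surjective _ (f.subgroupMap_surjective _))
  obtain ⟨n, x, y, M, -, -⟩ := BT.BS.exists_maxCl hD (show f z ∈ T by rw [hf.map_self]; exact one_mem _) hf.ne
    hf.mul_self (fun v _ => hf.uniq v) ha
  have sq : ∀ v ∈ T.comap f, v ∉ zpowers x → f v * f v = 1 := fun v hv hv' => by
    rw [← map_mul]; exact (hf.ker _).2 (M.sq_out hv hv')
  refine .inr ⟨f y, mem_map_of_mem f M.ym, f (x * y), mem_map_of_mem f M.xy_mem, sq y M.ym M.yn,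
    sq _ M.xy_mem M.xy_not_mem, map_le_iff_le_comap.2 fun g hg => ?_⟩
  have h1 : y ∈ (closure {f y, f (x * y)}).comap f := subset_closure (by simp)
  have h2 : x * y ∈ (closure {f y, f (x * y)}).comap f := subset_closure (by simp)
  have h3 := zpowers_le.2 ((mul_mem_cancel_right h1).1 h2)
  by_cases e : g ∈ zpowers x
  · exact h3 e
  · exact (mul_mem_cancel_right (inv_mem h1)).1 (h3 (M.mul_inv_mem hg e))

end Cov

theorem solvable_of_normal_two {G : Type*} [Group G] [Finite G] (h : DC (⊤ : Subgroup G)) {N : Subgroup G}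
    [N.Normal] (hp : IsPGroup 2 N) (hc : N ≤ 𝐂(N)) (h0 : N ≠ ⊥) : Group.IsSolvable G := by
  obtain ⟨t, ht, h1⟩ := DX.exists_inv (dvd_card_of_isPGroup_of_ne_bot hp h0)
  have := DX.solvable_cent1 h h1
  have := isSolvable_of_le (cent_le_cent1 ht)
  have : Group.IsSolvable (G ⧸ 𝐂(N)) := by
    by_cases hcy : IsCyclic N
    · have := (Normal.quotient_commutative_iff_commutator_le).2 (commutator_le_centralizer_of_isCyclic_normal N)
      exact isSolvable_of_isMulCommutative
    obtain ⟨a, b, hk, rfl⟩ := DX.exists_kl h le_top hp hc hcy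
    have h5 := (relIndex_centralizer_dvd_card_mulAut (Vk a b)).trans (card_mulAut_dvd_factorial _)
    rw [normalizer_eq_top, relIndex_top_right, DX.card_Vk hk] at h5
    have := IsZGroup.of_squarefree (G := G ⧸ 𝐂(Vk a b)) (((Nat.squarefree_mul (by decide)).2
      ⟨Nat.prime_two.squarefree, Nat.prime_three.squarefree⟩).squarefree_of_dvd h5)
    infer_instance
  exact Group.isSolvable_of_ker_le_range (𝐂(N)).subtype (QuotientGroup.mk' 𝐂(N)) (by simp)

variable {p : ℕ} [hp : Fact p.Prime] {H V : Type*} [Group H] [Finite H] [AddCommGroup V] [Finite V]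
  [DistribMulAction H V]

theorem Hc.inv_smul (h : Hc p H V) (hp2 : p ≠ 2) {t : H} (ht : Inv t) (v : V) : t • v = -v := by
  by_contra e
  refine ht.ne (h.fpf (v := t • v + v) (fun e => hp2 ((Nat.prime_dvd_prime_iff_eq hp.out Nat.prime_two).1
    (ht.orderOf ▸ e))) (fun e' => e (eq_neg_of_add_eq_zero_left e')) ?_)
  rw [smul_add, ← mul_smul, ht.sq, one_smul, add_comm]

theorem Hc.inv_eq (h : Hc p H V) (hp2 : p ≠ 2) {t s : H} (ht : Inv t) (hs : Inv s) : t = s :=
  mul_inv_eq_one.1 (h.faith _ fun v => by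
    rw [mul_smul, hs.inv, h.inv_smul hp2 hs, h.inv_smul hp2 ht, neg_neg])

theorem Hc.exists_st' (h : Hc p H V) (hp2 : p ≠ 2) (hns : ¬ Group.IsSolvable H) {Q : Type*} [Group Q]
    {f : H →* Q} {z : H} (hf : DCov f z) : ∃ L : Subgroup H, St f z L := by
  have : Finite Q := Finite.of_surjective f hf.surj
  have hD : DC (⊤ : Subgroup Q) := cov_dc hf fun A hA hc => h.cyclic hc (not_dvd_card_of_ne hA hp2)
  have hs : Group.IsSolvable f.ker := IsPGroup.isSolvable' (IsPGroup.of_card (p := 2) (n := 1) (cov_card_ker hf))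
  have hn : (GW.Res (⊤ : Subgroup H)).Normal := top_le_norm_iff.1 (le_normalizer.trans (norm_Res ⊤))
  have hK : ¬ Group.IsSolvable (GW.Res (⊤ : Subgroup H)) := fun e => hns (by
    have := Res_eq_bot_iff.1 (eq_bot_of_perfect (Res_perfect ⊤) e)
    exact isSolvable_of_mulEquiv topEquiv)
  obtain ⟨M, hM, hMK⟩ := exists_isMinNormal_le (hn.map f hf.surj) fun e =>
    hK (isSolvable_of_le ((Subgroup.map_eq_bot_iff _).1 e))
  have := hM.normal
  have h1 : ¬ Group.IsSolvable M := fun hs => by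
    obtain ⟨r, hr, hrM⟩ := hM.exists_isPGroup
    have := Fact.mk hr
    by_cases e : r = 2
    · have := solvable_of_normal_two hD (e ▸ hrM) (comm_iff_le_cent.1 hM.isMulCommutative_of_isSolvable) hM.ne_bot
      exact hns (Group.isSolvable_of_ker_le_range f.ker.subtype f (by simp))
    obtain ⟨P, hP⟩ := exists_isSylowIn r (M.comap f)
    obtain ⟨h2, h3⟩ := hP.comap_le_normalizer (cov_ker_le hf) hrM
    have : P.Normal := top_le_norm_iff.1 (le_normalizer_of_normal.trans (hP.normalizer_le_normalizer h2))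
    have h4 : P = ⊥ := by
      by_cases e' : r = p
      · exact h.eq_bot (e' ▸ hP.isPGroup)
      · exact eq_bot_of_perfect_cyc (Res_perfect ⊤) (hP.le.trans ((comap_mono hMK).trans
          (cov_comap_map hf (cov_mem hf hK)).le)) le_normalizer_of_normal hP.isPGroup
          fun R _ => h.cyclic_of_isPGroup e e'
    rw [h4, Subgroup.map_bot, f.range_eq_top_of_surjective hf.surj, inf_top_eq] at h3
    exact hM.ne_bot h3.symm
  have := DX.simple_of_minNormal hD hM h1
  have e := map_comap_eq_self_of_surjective hf.surj M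
  have e' : (⁅M.comap f, M.comap f⁆).map f = M := by rw [map_commutator, e, perfect_of_simple h1]
  refine ⟨M.comap f, hf, hD, inferInstance, show f z ∈ M by rw [hf.map_self]; exact one_mem _, ?_, e.symm ▸ this⟩
  rw [← cov_comap_map hf (cov_mem hf (X := ⁅M.comap f, M.comap f⁆) fun _ => h1 (e' ▸ isSolvable_map _ f)), e']

theorem Hc.exists_st (h : Hc p H V) (hp2 : p ≠ 2) (hns : ¬ Group.IsSolvable H) :
    ∃ (z : H) (_ : (zpowers z).Normal) (L : Subgroup H), St (QuotientGroup.mk' (zpowers z)) z L := by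
  obtain ⟨z, -, hz⟩ := DX.exists_inv (H := (⊤ : Subgroup H)) (by_contra fun e => hns (by
    have := GAG.odd_solv e
    exact isSolvable_of_mulEquiv topEquiv))
  have : (zpowers z).Normal := top_le_norm_iff.1 (le_trans (fun g _ => by
    rw [centralizer_zpowers]
    exact mem_cent1.2 (mul_inv_eq_iff_eq_mul.1 (h.inv_eq hp2 (hz.conj g) hz))) (cent_le_norm _))
  exact ⟨z, this, h.exists_st' hp2 hns ⟨QuotientGroup.mk'_surjective _, hz.ne,
    fun x => (QuotientGroup.eq_one_iff x).trans hz.mem_zpowers_iff,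
    fun x hx => or_iff_not_imp_left.2 fun e => h.inv_eq hp2 ⟨e, hx⟩ hz⟩⟩

namespace St
variable {Q : Type*} [Group Q] {f : H →* Q} {z : H} {L : Subgroup H} (S : St f z L)
include S

theorem ne_bot : L ≠ ⊥ := fun e => S.cov.ne (mem_bot.1 (e ▸ S.mem))

theorem ns : ¬ Group.IsSolvable L := fun e => S.ne_bot (eq_bot_of_perfect S.perf e)

theorem perf_map : ⁅L.map f, L.map f⁆ = L.map f := by rw [← map_commutator, S.perf]

theorem ns_map : ¬ Group.IsSolvable (L.map f) := fun e =>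
  haveI := S.simple
  (L.map f).nontrivial_iff_ne_bot.1 inferInstance (eq_bot_of_perfect S.perf_map e)

theorem normal_map : (L.map f).Normal := S.normal.map f S.cov.surj

theorem mem_cent : z ∈ 𝐂(L) := fun g _ => S.cov.comm g

theorem map_cent_le : (𝐂(L)).map f ≤ 𝐂(L.map f) := by
  rintro _ ⟨c, hc, rfl⟩ _ ⟨a, ha, rfl⟩
  rw [← map_mul, ← map_mul, hc a ha]

theorem inf_cent : L ⊓ 𝐂(L) = zpowers z := by
  have := S.simple
  have := S.normal_map
  refine le_antisymm ?_ (zpowers_le.2 ⟨S.mem, S.mem_cent⟩)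
  rw [← cov_ker S.cov, ← Subgroup.map_eq_bot_iff, eq_bot_iff,
    ← (isMinNormal_of_isSimpleGroup (N := L.map f)).inf_centralizer_eq_bot fun _ => S.ns_map isSolvable_of_isMulCommutative]
  exact le_inf (map_mono inf_le_left) ((map_mono inf_le_right).trans S.map_cent_le)

theorem card_map {X : Subgroup H} (hX : z ∈ X) : Nat.card X = 2 * Nat.card (X.map f) := by
  rw [← card_map_mul_card_inf_ker f X, inf_eq_left.2 (cov_ker S.cov ▸ zpowers_le.2 hX), cov_card_ker S.cov, mul_comm]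

theorem odd_cent : ¬ 2 ∣ Nat.card ((𝐂(L)).map f) := fun e =>
  haveI : Finite Q := Finite.of_surjective f S.cov.surj
  DX.odd_cent S.dc S.ns_map (e.trans (card_dvd_of_le S.map_cent_le))

theorem exists_four : ∃ i ∈ L, orderOf i = 4 := by
  have : Finite Q := Finite.of_surjective f S.cov.surj
  obtain ⟨_, ⟨i, hi, rfl⟩, h⟩ := DX.exists_inv (H := L.map f) (by_contra fun e => S.ns_map (GAG.odd_solv e))
  have e := S.cov.mul_self_eq h.sq h.ne
  refine ⟨i, hi, orderOf_eq_prime_pow (p := 2) (n := 1) (by rw [pow_one, pow_two, e]; exact S.cov.ne) ?_⟩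
  rw [show i ^ 2 ^ (1 + 1) = i * i * (i * i) by rw [← pow_two, ← pow_two, ← pow_mul]; rfl, e, S.cov.mul_self]

/-- the restriction of the double cover to `L` -/
theorem cov_sub : DCov (f.subgroupMap L) ⟨z, S.mem⟩ :=
  ⟨f.subgroupMap_surjective L, fun e => S.cov.ne (congrArg Subtype.val e),
    fun x => Subtype.ext_iff.trans ((S.cov.ker x).trans ⟨Or.imp (fun e => Subtype.ext e) fun e => Subtype.ext e,
      Or.imp (congrArg Subtype.val) (congrArg Subtype.val)⟩),
    fun x hx => (S.cov.uniq x (congrArg Subtype.val hx)).imp (fun e => Subtype.ext e) fun e => Subtype.ext e⟩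

theorem sd : Sd (L.map f) :=
  haveI : Finite Q := Finite.of_surjective f S.cov.surj
  ⟨S.simple, S.ns_map, DX.hasDih_of_ns (S.dc.mono le_top).top S.ns_map⟩

end St

theorem Hc.core (h : Hc p H V) (tr : Tr H V) (hp2 : p ≠ 2) {Q : Type*} [Group Q] {f : H →* Q} {z : H}
    {L : Subgroup H} (S : St f z L) (he : (L ⊔ 𝐂(L)).index ∣ 2) :
    IsCyclic 𝐂(L) ∧ L ⊓ 𝐂(L) = zpowers z ∧ ∃ m q c D a : ℕ, Nat.card 𝐂(L) = 2 * m ∧ m.Coprime (Nat.card L) ∧
      q = p ^ c ∧ 2 * m ∣ q - 1 ∧ 2 ≤ D ∧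
      (L ⊔ 𝐂(L)).index * m * Nat.card L = (q ^ D - 1) * p ^ a ∧
      ∀ y ∈ L, ∀ g ∈ L, ∀ r a k : ℕ, r.Prime → r ≠ p → orderOf y = r → g * y * g⁻¹ = y ^ a →
        (∀ i, 0 < i → i < k → ¬ a ^ i ≡ 1 [MOD r]) → k ≤ D := by
  have := S.normal
  have hL : ¬ L ≤ 𝐂(L) := fun e => S.ns (by
    have := comm_iff_le_cent.2 e
    exact isSolvable_of_isMulCommutative)
  obtain ⟨x, hx, hi⟩ := h.exists_irr tr hp2 hL S.exists_four he
  obtain ⟨h1, q, D, h2, h3, h4, h5, h6⟩ := h.field hi (cent_le_cent1 hx)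
  have hLC : L ≤ 𝐂(𝐂(L)) := le_cent_comm.1 le_rfl
  have hD : 2 ≤ D := by_contra fun e => hL fun a ha b hb => by_contra fun e' => e (h5 b (hLC hb) a (hLC ha) e')
  obtain ⟨n, -, hn⟩ := h.card_V
  obtain ⟨c, -, hc⟩ := (Nat.dvd_prime_pow hp.out).1 (hn ▸ h3 ▸ dvd_pow_self q (by omega) : q ∣ p ^ n)
  obtain ⟨a, ha⟩ := h.card_trans tr
  have e1 := S.card_map S.mem_cent
  have hz : Nat.card (zpowers z) = 2 := cov_ker S.cov ▸ cov_card_ker S.cov
  refine ⟨h1, S.inf_cent, _, q, c, D, a, e1, Nat.coprime_of_dvd fun r hr d1 d2 => ?_, hc, e1 ▸ h4, hD, ?_,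
    fun y hy g hg => h6 y (hLC hy) g (hLC hg)⟩
  · have := Fact.mk hr
    have r2 : r ≠ 2 := fun e => S.odd_cent (e ▸ d1)
    have d3 : r ∣ Nat.card 𝐂(L) := e1 ▸ d1.mul_left 2
    have rp : r ≠ p := fun e => by
      have d4 : p ∣ q := hc ▸ dvd_pow_self p (by rintro rfl; rw [pow_zero] at hc; omega)
      exact hp.out.ne_one (Nat.dvd_one.1 ((Nat.dvd_sub_iff_right (by omega) d4).1 (e ▸ d3.trans h4)))
    obtain ⟨E, hE⟩ := exists_elemN_one d2
    obtain ⟨F, hF⟩ := exists_elemN_one d3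
    have h7 := (hE.mono le_top).sup (hF.mono le_top) (hF.le.trans (centralizer_anti hE.le))
      (disjoint_iff.2 (eq_bot_of_isPGroup_of_not_dvd hE.isPGroup.to_inf_left fun e => r2
        ((Nat.prime_dvd_prime_iff_eq hr Nat.prime_two).1 (hz ▸ e.trans (card_dvd_of_le
          (S.inf_cent ▸ inf_le_inf hE.le hF.le))))))
    exact h7.not_cyclic le_rfl (h.cyclic_of_isPGroup r2 rp h7.isPGroup)
  · have e2 := card_sup_mul_card_inf L 𝐂(L)
    rw [S.inf_cent, hz, e1] at e2
    rw [← h3, ← ha, ← (L ⊔ 𝐂(L)).index_mul_card, mul_assoc]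
    congr 1
    linarith

end Her
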