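import Cfsg.Agent.Lib.Her.S7
import Cfsg.Agent.Lib.Her.Num
import Cfsg.Agent.Lib.Grp.Zass3
import Cfsg.Agent.Lib.Her.Odd

/-!
# Transitive groups in the class `𝓗`: the cross characteristic case
-/

set_option autoImplicit false
set_option linter.unusedSectionVars false

namespace Her

open Cfsg GT FT GW Subgroup MulAction Matrix CT.SL2 LG
open scoped Pointwise commutatorElement

/-- the conclusion of `Hc.core` -/
def Core (p : ℕ) {H : Type*} [Group H] (z : H) (L : Subgroup H) : Prop :=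
  IsCyclic 𝐂(L) ∧ L ⊓ 𝐂(L) = zpowers z ∧ ∃ m q c D a : ℕ, Nat.card 𝐂(L) = 2 * m ∧ m.Coprime (Nat.card L) ∧
    q = p ^ c ∧ 2 * m ∣ q - 1 ∧ 2 ≤ D ∧
    (L ⊔ 𝐂(L)).index * m * Nat.card L = (q ^ D - 1) * p ^ a ∧
    ∀ y ∈ L, ∀ g ∈ L, ∀ r a k : ℕ, r.Prime → r ≠ p → orderOf y = r → g * y * g⁻¹ = y ^ a →
      (∀ i, 0 < i → i < k → ¬ a ^ i ≡ 1 [MOD r]) → k ≤ D

theorem uHom_inj {F : Type*} [Field F] : Function.Injective (uHom F) := fun _ _ h => congrArg (slm · 0 1) h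

theorem conj_uu {F : Type*} [Field F] (l : Fˣ) {h} : m2 l.1 0 0 l⁻¹.1 h * uu 1 * (m2 l.1 0 0 l⁻¹.1 h)⁻¹ = uu (l.1 ^ 2) := by
  refine ext_ent ?_ ?_ ?_ ?_ <;> simp [mul_ent, sq]

section
variable {H Q : Type*} [Group H] [Finite H] [Group Q] {f : H →* Q} {z : H} {L : Subgroup H}

theorem card_zpowers_cov (c : DCov f z) : Nat.card (zpowers z) = 2 := by
  rw [Nat.card_zpowers]
  exact orderOf_eq_prime (by rw [sq, c.mul_self]) c.ne

theorem cent_le_of_card (S : St f z L) (h1 : L ⊓ 𝐂(L) = zpowers z) (h2 : Nat.card 𝐂(L) = 2 * 1) : 𝐂(L) ≤ L := by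
  rw [← eq_of_le_of_card_ge (h1.ge.trans inf_le_right) (by rw [h2, card_zpowers_cov S.cov])]
  exact zpowers_le.2 S.mem

theorem exists_prod {A : Type*} [Group A] {m : ℕ} [hp : Fact m.Prime] (hm : m.Coprime (Nat.card L))
    (hC : Nat.card 𝐂(L) = 2 * m) (h2 : Nat.card ↥(L ⊓ 𝐂(L)) = 2) (ht : L ⊔ 𝐂(L) = ⊤) (e : L ≃* A) :
    Nonempty (H ≃* A × Multiplicative (ZMod m)) := by
  obtain ⟨⟨o, ho⟩, ho'⟩ := exists_prime_orderOf_dvd_card' (G := 𝐂(L)) m (hC ▸ dvd_mul_left _ _)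
  rw [← orderOf_coe] at ho'
  have h3 : Nat.card (zpowers o) = m := (Nat.card_zpowers o).trans ho'
  let j : Multiplicative (ZMod m) ≃* zpowers o := mulEquivOfPrimeCardEq (by simp) h3
  let ψ := (zpowers o).subtype.comp j.toMonoidHom
  let φ := L.subtype.comp e.symm.toMonoidHom
  have hψ : ψ.range = zpowers o := by
    rw [MonoidHom.range_comp, MonoidHom.range_eq_top.2 j.surjective, ← MonoidHom.range_eq_map, range_subtype]
  have hφ : φ.range = L := by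
    rw [MonoidHom.range_comp, MonoidHom.range_eq_top.2 e.symm.surjective, ← MonoidHom.range_eq_map, range_subtype]
  have hc : ∀ a b, Commute (φ a) (ψ b) := fun a b => zpowers_le.2 ho (j b).2 _ (e.symm a).2
  refine ⟨(MulEquiv.ofBijective (φ.noncommCoprod ψ hc) ⟨(MonoidHom.noncommCoprod_injective _ _ _).2
    ⟨L.subtype_injective.comp e.symm.injective, (subtype_injective _).comp j.injective, ?_⟩,
    MonoidHom.range_eq_top.1 ?_⟩).symm⟩
  · rw [hφ, hψ]
    exact disjoint_of_coprime_natCard (h3 ▸ hm.symm)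
  · rw [MonoidHom.noncommCoprod_range, hφ, hψ, eq_top_iff, ← ht, sup_le_iff]
    refine ⟨le_sup_left, inf_eq_right.1 (eq_of_le_of_card_ge inf_le_right (Nat.le_of_dvd Nat.card_pos ?_))⟩
    rw [hC]
    exact ((hm.coprime_dvd_right (h2 ▸ card_dvd_of_le inf_le_left)).symm).mul_dvd_of_dvd_of_dvd
      (h2 ▸ card_dvd_of_le (inf_le_inf_right _ le_sup_left))
      (h3 ▸ card_dvd_of_le (le_inf le_sup_right (zpowers_le.2 ho)))

theorem index_dvd_two_of {M : Subgroup H} (h : ∀ x y, x ∉ M → y ∉ M → x * y ∈ M) : M.index ∣ 2 := by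
  refine index_dvd_two_iff.2 ?_
  by_cases h1 : ∃ a, a ∉ M
  · obtain ⟨a, ha⟩ := h1
    exact ⟨a, fun b => or_iff_not_imp_right.2 fun hb => h b a hb ha⟩
  · exact ⟨1, fun b => Or.inr (by_contra fun hb => h1 ⟨b, hb⟩)⟩

theorem exc_zmod {p : ℕ} [hp' : Fact p.Prime] (hp : p ≠ 2) (S : St f z L)
    (hc : (L ⊔ 𝐂(L)).index ∣ 2 → Core p z L) {r : ℕ} [hr : Fact r.Prime] (h5 : 5 ≤ r) (hrp : r ≠ p)
    (e : L ≃* SpecialLinearGroup (Fin 2) (ZMod r)) : Exc p H := by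
  haveI := S.normal
  have he : (L ⊔ 𝐂(L)).index ∣ 2 := by
    obtain ⟨θ, -, h6, -⟩ := DL.exists_fa (by rw [ZMod.card]; omega) e
    exact index_dvd_two_of fun x y =>
      h6 x (Subsingleton.elim (α := ZMod r ≃+* ZMod r) _ _) y (Subsingleton.elim (α := ZMod r ≃+* ZMod r) _ _)
  obtain ⟨-, h1, m, q, c, D, a, h2, h3, h4, h6, -, h7, h8⟩ := hc he
  have hL : Nat.card L = r * (r ^ 2 - 1) := by
    rw [Nat.card_congr e.toEquiv, card_SL2, ZMod.card, ← mul_assoc, mul_comm, ← Nat.sq_sub_sq, one_pow]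
  have hD : (r - 1) / 2 ≤ D := by
    let φ := L.subtype.comp e.symm.toMonoidHom
    obtain ⟨l, hl⟩ := IsCyclic.exists_ofOrder_eq_natCard (α := (ZMod r)ˣ)
    rw [Nat.card_units, Nat.card_zmod] at hl
    refine h8 (φ (uHom _ (.ofAdd 1))) (e.symm _).2 (φ (m2 l.1 0 0 l⁻¹.1 (by rw [l.mul_inv, mul_zero, sub_zero]))) (e.symm _).2 r (l.1 ^ 2).val _
      hr.out hrp ?_ ?_ fun i hi hi' hm => ?_
    · rw [orderOf_injective φ (L.subtype_injective.comp e.symm.injective),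
        orderOf_injective (uHom (ZMod r)) uHom_inj, orderOf_ofAdd_eq_addOrderOf,
        ZMod.addOrderOf_one]
    · rw [← map_inv, ← map_mul, ← map_mul, ← map_pow, ← map_pow, ← ofAdd_nsmul, nsmul_one, ZMod.natCast_zmod_val]
      exact congrArg φ (conj_uu l)
    · have h9 := (ZMod.natCast_eq_natCast_iff _ _ _).2 hm
      rw [Nat.cast_pow, ZMod.natCast_zmod_val, Nat.cast_one, ← pow_mul, ← Units.val_pow_eq_pow_val,
        Units.val_eq_one, ← orderOf_dvd_iff_pow_eq_one, hl] at h9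
      have := Nat.le_of_dvd (by omega) h9
      omega
  have h9 : (L ⊔ 𝐂(L)).index = 1 → m = 1 → Nonempty (H ≃* SpecialLinearGroup (Fin 2) (ZMod r)) := fun h h' => by
    rw [sup_eq_left.2 (cent_le_of_card S h1 (h' ▸ h2)), index_eq_one] at h
    exact ⟨(topEquiv.symm.trans (MulEquiv.subgroupCongr h.symm)).trans e⟩
  have h10 : Nat.card ↥(L ⊓ 𝐂(L)) = 2 := h1 ▸ card_zpowers_cov S.cov
  rcases num_psl hp'.out hp hr.out h5 hrp he (hL ▸ h3) h4 h6 hD (hL ▸ h7) with ⟨rfl, rfl, i2, rfl⟩ |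
    ⟨i1, ⟨rfl, rfl, m1⟩ | ⟨rfl, rfl, m1⟩ | ⟨rfl, rfl, rfl⟩ | ⟨rfl, rfl, rfl⟩⟩
  · have hC := cent_le_of_card S h1 h2
    rw [sup_eq_left.2 hC] at i2
    refine Or.inl ⟨rfl, L, S.normal, i2, ⟨e⟩,
      le_antisymm (fun x hx => ⟨⟨x, hC hx⟩, mem_center_iff.2 fun y => Subtype.ext (hx y y.2), rfl⟩) ?_, fun K hK => ?_⟩
    · rintro _ ⟨x, hx, rfl⟩ y hy
      exact congrArg Subtype.val (mem_center_iff.1 hx ⟨y, hy⟩)
    · obtain ⟨⟨x, hx⟩, h11⟩ := exists_prime_orderOf_dvd_card' (G := K) 2 (hK.symm.index_eq_card ▸ i2 ▸ dvd_rfl)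
      rw [← orderOf_coe] at h11
      rcases S.cov.uniq x (by rw [← sq, ← h11, pow_orderOf_eq_one]) with rfl | rfl
      · simp at h11
      · exact S.cov.ne (disjoint_def.1 hK.disjoint S.mem hx)
  · exact Or.inr (Or.inl ⟨rfl, h9 i1 m1⟩)
  · exact Or.inr (Or.inr (Or.inl ⟨rfl, h9 i1 m1⟩))
  · haveI : Fact (Nat.Prime 7) := ⟨by norm_num⟩
    exact Or.inr (Or.inr (Or.inr (Or.inl ⟨rfl, exists_prod h3 h2 h10 (index_eq_one.1 i1) e⟩)))
  · haveI : Fact (Nat.Prime 29) := ⟨by norm_num⟩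
    exact Or.inr (Or.inr (Or.inr (Or.inr ⟨rfl, exists_prod h3 h2 h10 (index_eq_one.1 i1) e⟩)))

end

variable {p : ℕ} [hp' : Fact p.Prime] {H V : Type*} [Group H] [Finite H] [AddCommGroup V] [Finite V]
  [DistribMulAction H V] {Q : Type*} [Group Q] {f : H →* Q} {z : H} {L : Subgroup H}

theorem Hc.cross_of (h : Hc p H V) (hp : p ≠ 2) (S : St f z L) (hc : (L ⊔ 𝐂(L)).index ∣ 2 → Core p z L)
    {F : Type} [Field F] [Fintype F] (hF : ¬ p ∣ Fintype.card F) (ho : Odd (Fintype.card F))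
    (h3 : 3 < Fintype.card F) (e : L ≃* SpecialLinearGroup (Fin 2) F) : Exc p H := by
  let φ := (L.subtype.comp e.symm.toMonoidHom).comp (uHom F)
  have hφ : Function.Injective φ :=
    (L.subtype_injective.comp e.symm.injective).comp uHom_inj
  have h1 : IsCyclic (Multiplicative F) := by
    have := h.cyclic (A := φ.range) (by
      rintro _ ⟨x, rfl⟩ _ ⟨y, rfl⟩
      rw [← map_mul, ← map_mul, mul_comm]) (by
      rwa [← Nat.card_congr (MonoidHom.ofInjective hφ).toEquiv, Nat.card_eq_fintype_card, Fintype.card_multiplicative])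
    exact isCyclic_of_surjective _ (MonoidHom.ofInjective hφ).symm.surjective
  obtain ⟨r, _, n, hr, hn⟩ := FiniteField.card' F
  obtain ⟨g, hg⟩ := IsCyclic.exists_ofOrder_eq_natCard (α := Multiplicative F)
  have h2 : Fintype.card F = r := by
    refine ((Nat.dvd_prime hr).1 ?_).resolve_left (by omega)
    rw [← Fintype.card_multiplicative, ← Nat.card_eq_fintype_card, ← hg, orderOf_dvd_iff_pow_eq_one]
    exact Multiplicative.toAdd.injective (by simp)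
  haveI := Fact.mk hr
  rw [h2] at hF ho h3
  refine exc_zmod hp S hc (r := r) (by obtain ⟨k, rfl⟩ := ho; omega) (fun e => hF (e ▸ dvd_rfl))
    (e.trans (slCongr (ZMod.ringEquivOfPrime F hr h2).symm))

/-- cross characteristic -/
theorem Hc.cross (h : Hc p H V) (tr : Tr H V) (hp : p ≠ 2) {Q : Type*} [Group Q] {f : H →* Q} {z : H}
    {L : Subgroup H} (S : St f z L) {F : Type} [Field F] [Fintype F] (hF : ¬ p ∣ Fintype.card F)
    (ho : Odd (Fintype.card F)) (h3 : 3 < Fintype.card F) (e : L ≃* SpecialLinearGroup (Fin 2) F)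
    (_e' : L.map f ≃* ProjectiveSpecialLinearGroup (Fin 2) F) : Exc p H :=
  h.cross_of hp S (h.core tr hp S) hF ho h3 e

end Her
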