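import Cfsg.Agent.Lib.Grp.DoubleCover
import Cfsg.Agent.Lib.Grp.DihSyl
import Cfsg.Agent.Lib.Grp.CentCover
import Cfsg.Agent.Lib.Grp.TwoCover
import Cfsg.Agent.Lib.Char.Burnside
import Cfsg.Agent.Lib.GW.DXd
import Cfsg.Agent.Lib.GW.DLB

/-!
# Double covers with a unique involution of groups with dihedral Sylow `2`-subgroups
-/

set_option autoImplicit false
set_option linter.unusedSectionVars false

namespace GT

open Cfsg Subgroup
open scoped commutatorElement

namespace DCov

variable {K S Q : Type*} [Group K] [Group S] [Group Q] {f : K →* Q} {z : K} {g : S →* Q} {w : S}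

theorem exists_subgroup_dih [Finite K] [Finite S] [Finite Q] (hf : DCov f z) (hg : DCov g w)
    {P : Subgroup Q} {σ τ J : Q} {k : ℕ} (D : DihSyl P σ τ J k) : ∃ L : Subgroup (K × S),
      (∀ x ∈ L, f x.1 = g x.2) ∧ (z, w) ∈ L ∧ (z, 1) ∉ L ∧
      ∀ x y : K × S, f x.1 = g x.2 → f y.1 = g y.2 → x * y * x⁻¹ * y⁻¹ ∈ L := by
  let E : Subgroup (K × S) := (f.comp (MonoidHom.fst K S)).eqLocus (g.comp (MonoidHom.snd K S))
  let d : E := ⟨(z, w), hf.map_self.trans hg.map_self.symm⟩
  let u : E := ⟨(z, 1), hf.map_self.trans (map_one g).symm⟩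
  have hd : ∀ x : E, x * d = d * x := fun x => Subtype.ext (Prod.ext (hf.comm _) (hg.comm _))
  have hu : ∀ x : E, x * u = u * x := fun x =>
    Subtype.ext (Prod.ext (hf.comm _) ((mul_one _).trans (one_mul _).symm))
  have hdd : d * d = 1 := Subtype.ext (Prod.ext hf.mul_self hg.mul_self)
  have huu : u * u = 1 := Subtype.ext (Prod.ext hf.mul_self (mul_one _))
  haveI hD : (zpowers d).Normal := ⟨fun a ha x => by
    rwa [← (commute_of_mem_zpowers ha (hd x).symm).eq, mul_inv_cancel_right]⟩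
  let π := QuotientGroup.mk' (zpowers d)
  have hπ : Function.Surjective π := QuotientGroup.mk'_surjective _
  have hπd : π d = 1 := (QuotientGroup.eq_one_iff _).2 (mem_zpowers d)
  let φ : E →* Q := (f.comp (MonoidHom.fst K S)).comp E.subtype
  let ρ : E ⧸ zpowers d →* Q := QuotientGroup.lift _ φ (zpowers_le.2 hf.map_self)
  have hρ : ∀ x, ρ (π x) = f x.1.1 := fun _ => rfl
  have hs : Function.Surjective ρ := fun q => by
    obtain ⟨a, rfl⟩ := hf.surj q
    obtain ⟨b, hb⟩ := hg.surj (f a)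
    exact ⟨π ⟨(a, b), hb.symm⟩, rfl⟩
  have hc : π u ∈ center _ := mem_center_iff.2 fun y => by
    obtain ⟨x, rfl⟩ := hπ y
    rw [← map_mul, hu, map_mul]
  have hker : ∀ y, ρ y = 1 → y = 1 ∨ y = π u := fun y hy => by
    obtain ⟨x, rfl⟩ := hπ y
    have h4 : f x.1.1 = g x.1.2 := x.2
    rcases (hf.ker _).1 hy with h1 | h1 <;> rcases (hg.ker _).1 (h4.symm.trans hy) with h2 | h2
    · exact .inl (by rw [show x = 1 from Subtype.ext (Prod.ext h1 h2), map_one])
    · exact .inr (by rw [show x = u * d from Subtype.ext (Prod.ext (h1.trans hf.mul_self.symm)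
        (h2.trans (one_mul w).symm)), map_mul, hπd, mul_one])
    · exact .inr (congrArg π (Subtype.ext (Prod.ext h1 h2)))
    · exact .inl (by rw [show x = d from Subtype.ext (Prod.ext h1 h2), hπd])
  have hsq : ∀ y, ρ y * ρ y = 1 → y * y = 1 := fun y h3 => by
    obtain ⟨x, rfl⟩ := hπ y
    have h4 : f x.1.1 = g x.1.2 := x.2
    rw [hρ] at h3
    rw [← map_mul]
    by_cases h5 : f x.1.1 = 1
    · rw [show x * x = 1 from
        Subtype.ext (Prod.ext (hf.mul_self_eq_one h5) (hg.mul_self_eq_one (h4 ▸ h5))), map_one]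
    · rw [show x * x = d from
        Subtype.ext (Prod.ext (hf.mul_self_eq h3 h5) (hg.mul_self_eq (h4 ▸ h3) (h4 ▸ h5)))]
      exact hπd
  have hne : π u ≠ 1 := fun h3 => by
    obtain ⟨j, hj⟩ := mem_zpowers_iff.1 ((QuotientGroup.eq_one_iff _).1 h3)
    rcases Int.even_or_odd' j with ⟨i, rfl | rfl⟩
    · rw [zpow_mul, zpow_two, hdd, one_zpow] at hj
      exact hf.ne (congrArg (fun x : E => x.1.1) hj).symm
    · rw [zpow_add_one, zpow_mul, zpow_two, hdd, one_zpow, one_mul] at hj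
      exact hg.ne (congrArg (fun x : E => x.1.2) hj)
  have hP : IsSylowIn 2 (P.comap ρ) ⊤ := by
    simpa using D.syl.comap_of_isPGroup_ker hs fun y =>
      ⟨1, Subtype.ext (by rw [pow_one, coe_pow, sq]; exact hsq _ (by rw [y.2, mul_one]))⟩
  obtain ⟨s, rfl⟩ := hs σ
  have h1 : ∀ y ∈ P.comap ρ, y * y ∈ zpowers s := fun y hy => by
    by_cases h : ρ y ∈ zpowers (ρ s)
    · obtain ⟨i, hi⟩ := mem_zpowers_iff.1 h
      have h2 : s ^ i * s ^ i ∈ zpowers s := mul_mem (zpow_mem (mem_zpowers s) i) (zpow_mem (mem_zpowers s) i)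
      rcases hker ((s ^ i)⁻¹ * y) (by rw [map_mul, map_inv, map_zpow, hi, inv_mul_cancel]) with e | e
      · rwa [← inv_mul_eq_one.1 e]
      · rwa [inv_mul_eq_iff_eq_mul.1 e, mul_assoc, ← mul_assoc (π u), ← mem_center_iff.1 hc, mul_assoc,
          ← map_mul, huu, map_one, mul_one]
    · rw [hsq y (D.sq_of_not_mem hy h)]
      exact one_mem _
  have h2 : π u ∉ commutator _ := fun h => by
    obtain ⟨i, hi⟩ := mem_zpowers_iff.1 ((commutator_le (H₃ := zpowers s)).2 (fun x hx y hy => by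
      rw [show ⁅x, y⁆ = x * x * (x⁻¹ * y * (x⁻¹ * y)) * (y⁻¹ * y⁻¹) by group]
      exact mul_mem (mul_mem (h1 _ hx) (h1 _ (mul_mem (inv_mem hx) hy))) (h1 _ (inv_mem hy)))
      (hP.mem_commutator_of_mem_center hc (by simp [hρ, u, hf.map_self]) h))
    have h3 : ρ s ^ i = 1 := by rw [← map_zpow, hi]; exact hf.map_self
    obtain ⟨j, rfl⟩ := orderOf_dvd_iff_zpow_eq_one.2 h3
    have h4 := hsq (s ^ 2 ^ k) (by rw [map_pow, ← D.J_eq, D.J_sq])
    rw [D.ord, zpow_mul, zpow_natCast, pow_succ, pow_mul, sq, h4, one_zpow] at hi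
    exact hne hi.symm
  refine ⟨((commutator _).comap π).map E.subtype, ?_, ⟨d, ?_, rfl⟩, ?_, fun x y hx hy => ?_⟩
  · rintro _ ⟨x, -, rfl⟩
    exact x.2
  · simp [hπd]
  · rintro ⟨x, hx, h⟩
    exact h2 ((show x = u from Subtype.ext h) ▸ hx)
  · exact ⟨⁅(⟨x, hx⟩ : E), (⟨y, hy⟩ : E)⁆, by
      rw [SetLike.mem_coe, mem_comap, map_commutatorElement]
      exact commutator_mem_commutator (mem_top _) (mem_top _), rfl⟩

/-- Uniqueness of the double cover with a unique involution. -/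
theorem nonempty_mulEquiv_dih [Finite K] [Finite S] [Finite Q] (hf : DCov f z) (hg : DCov g w)
    (hQ : commutator Q = ⊤) {P : Subgroup Q} {σ τ J : Q} {k : ℕ} (D : DihSyl P σ τ J k) :
    Nonempty (K ≃* S) := by
  obtain ⟨L, h3, h4, h5, h6⟩ := hf.exists_subgroup_dih hg D
  have h7 : (1, w) ∉ L := fun h => h5 (by
    have := mul_mem h4 h
    rwa [Prod.mk_mul_mk, mul_one, hg.mul_self] at this)
  let σ := MulEquiv.prodComm (M := K) (N := S)
  have h8 := hg.bijective_fst hf hQ (L := L.comap σ.symm.toMonoidHom)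
    (fun x hx => (h3 _ hx).symm) h4 h5 fun x y hx hy => h6 x.swap y.swap hx.symm hy.symm
  refine ⟨(MulEquiv.ofBijective _ (hf.bijective_fst hg hQ h3 h4 h7 h6)).symm.trans
    (MulEquiv.trans ?_ (MulEquiv.ofBijective _ h8))⟩
  exact ((σ.symm.subgroupMap _).trans
    (MulEquiv.subgroupCongr (map_comap_eq_self_of_surjective σ.symm.surjective L))).symm

open Matrix in
theorem sl2 {F : Type*} [Field F] (h2 : (2 : F) ≠ 0) :
    DCov (QuotientGroup.mk' (center (SpecialLinearGroup (Fin 2) F))) (CT.SL2.negOne F) := by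
  have h := twoCover_SL2 h2 (V := ⊥) fun v hv => by simp [mem_bot.1 hv]
  refine ⟨h.surj, h.ne, h.ker, fun x hx => (h.ker x).1 (by_contra fun e => h.ne ?_)⟩
  have h1 := twoCover_SL2 h2 (V := zpowers (QuotientGroup.mk' _ x)) fun v hv => by
    obtain ⟨i, rfl⟩ := mem_zpowers_iff.1 hv
    rw [← (Commute.refl _).mul_zpow, ← map_mul, hx, map_one, _root_.one_zpow]
  exact (h1.sq x (mem_zpowers _) e).symm.trans hx

open Matrix in
/-- A double cover of `PSL(2, F)` with a unique involution is `SL(2, F)`. -/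
theorem nonempty_mulEquiv_sl2 [Finite K] [Finite Q] (hf : DCov f z) (hQ : commutator Q = ⊤)
    {P : Subgroup Q} {σ τ J : Q} {k : ℕ} (D : DihSyl P σ τ J k) {F : Type*} [Field F] [Finite F]
    (h2 : (2 : F) ≠ 0) (e : Q ≃* ProjectiveSpecialLinearGroup (Fin 2) F) :
    Nonempty (K ≃* SpecialLinearGroup (Fin 2) F) :=
  have h := sl2 h2
  hf.nonempty_mulEquiv_dih (g := e.symm.toMonoidHom.comp (QuotientGroup.mk' _))
    ⟨e.symm.surjective.comp h.surj, h.ne, fun x => (map_eq_one_iff _ e.symm.injective).trans (h.ker x),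
      h.uniq⟩ hQ D

end DCov

end GT

namespace Her

open Cfsg GT FT GW Subgroup Matrix CT.SL2 LG

theorem dcov_equiv {K S Q : Type*} [Group K] [Group S] [Group Q] [Finite K] [Finite S] {f : K →* Q} {z : K}
    {g : S →* Q} {w : S} (hf : DCov f z) (hg : DCov g w) (hQ : commutator Q = ⊤) (hD : DC (⊤ : Subgroup Q)) :
    Nonempty (K ≃* S) := by
  have := Finite.of_surjective f hf.surj
  rcases subsingleton_or_nontrivial Q with _ | _
  · exact hf.nonempty_mulEquiv hg hQ fun _ _ => Subsingleton.elim _ _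
  obtain ⟨_, _, _, _, _, D⟩ := DX.hasDih_of_ns hD fun _ =>
    (Group.IsSolvable.commutator_lt_top_of_nontrivial Q).ne hQ
  exact hf.nonempty_mulEquiv_dih hg hQ D

theorem dcov_sl2 {K Q F : Type*} [Group K] [Group Q] [Finite K] [Field F] [Fintype F] {f : K →* Q} {z : K}
    (hf : DCov f z) (hQ : commutator Q = ⊤) (hD : DC (⊤ : Subgroup Q)) (ho : Odd (Fintype.card F))
    (e : Q ≃* ProjectiveSpecialLinearGroup (Fin 2) F) : Nonempty (K ≃* SpecialLinearGroup (Fin 2) F) :=
  have h := DCov.sl2 (F := F) (by classical exact DL.two_ne ho)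
  dcov_equiv hf (g := e.symm.toMonoidHom.comp (QuotientGroup.mk' _))
    ⟨e.symm.surjective.comp h.surj, h.ne, fun x => (map_eq_one_iff _ e.symm.injective).trans (h.ker x),
      h.uniq⟩ hQ hD

variable {F : Type*} [Field F] [Fintype F]

theorem card_borel : Nat.card (borel F) = (Fintype.card F - 1) * Fintype.card F := by
  classical
  rw [← Nat.card_eq_fintype_card, ← Nat.card_units, ← Nat.card_prod]
  refine Nat.card_congr ⟨fun b => (dHom F b, slm b.1 0 1),
    fun x => ⟨m2 x.1 x.2 0 x.1⁻¹ (by simp), rfl⟩, fun b => Subtype.ext (ext_ent rfl rfl b.2.symm ?_),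
    fun x => Prod.ext (Units.ext rfl) rfl⟩
  exact inv_eq_of_mul_eq_one_right (borel_det b)

theorem card_SL2 : Nat.card (SpecialLinearGroup (Fin 2) F) =
    (Fintype.card F + 1) * ((Fintype.card F - 1) * Fintype.card F) := by
  rw [← index_borel, ← card_borel, index_mul_card]

/-- `SL(2,2)`, `SL(2,3)` are solvable -/
theorem three_lt_card (h : ¬ Group.IsSolvable (SpecialLinearGroup (Fin 2) F)) : 3 < Fintype.card F := by
  by_contra h3
  refine h (CT.isSolvable_of_card_dvd_pow_mul_pow (p := 2) (q := 3) (a := 3) (b := 1) Nat.prime_two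
    Nat.prime_three ?_)
  have := Fintype.one_lt_card (α := F)
  rw [card_SL2]
  obtain h | h : Fintype.card F = 2 ∨ Fintype.card F = 3 := by omega
  all_goals rw [h]; decide

end Her
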