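import Cfsg.Agent.Lib.Her.St
import Cfsg.Agent.Lib.GW.Ly
import Cfsg.Agent.Lib.Grp.CentCover
import Cfsg.Agent.Lib.FT.Lib15

/-!
# The class `𝓗`: normal structure for `p = 2`, subgroups of odd order
-/

set_option autoImplicit false
set_option linter.unusedSectionVars false

namespace Her

open Cfsg GT FT GW Subgroup
open scoped Pointwise commutatorElement

section Grp
variable {G : Type*} [Group G] [Finite G]

/-- A perfect group with cyclic Sylow `r`-subgroups has no normal `r`-subgroup. -/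
theorem eq_bot_of_perfect_cyc {r : ℕ} [Fact r.Prime] {K M : Subgroup G} (hK : ⁅K, K⁆ = K) (hM : M ≤ K)
    (hn : K ≤ 𝐍(M)) (hr : IsPGroup r M) (hc : ∀ R ≤ K, IsPGroup r R → IsCyclic R) : M = ⊥ := by
  have := hc M hM hr
  have h1 : K ≤ 𝐂(M) := hK ▸ commutator_le_centralizer_of_isCyclic hn
  obtain ⟨P, hP, hMP⟩ := exists_isSylowIn_ge hr hM
  have := hc P hP.le hP.isPGroup
  refine eq_bot_iff.2 fun x hx => ?_
  have h2 := IsSylowIn.mem_commutator_of_mem_center ((isSylowIn_subgroupOf_top_iff hP.le).2 hP) (z := ⟨x, hM hx⟩)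
    (mem_center_iff.2 fun g => Subtype.ext (h1 g.2 x hx).symm) (hMP hx) (by
      obtain ⟨y, hy, e⟩ : x ∈ (commutator K).map K.subtype := by rw [← der_eq_map, hK]; exact hM hx
      rwa [show (⟨x, hM hx⟩ : K) = y from Subtype.ext e.symm])
  rw [commutator_eq_bot_iff_le_centralizer.2 fun a ha b hb => Subtype.ext
    (comm_iff_le_cent.1 (inferInstance : IsMulCommutative P) ha b hb)] at h2
  exact congrArg Subtype.val (mem_bot.1 h2)

theorem simple_of_minNormal' {N : Subgroup G} (hN : IsMinNormal N) (hns : ¬ Group.IsSolvable N)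
    (h : ∀ A B : Subgroup N, A ≤ 𝐂(B) → Disjoint A B → Nat.card A = Nat.card B → Group.IsSolvable B) :
    IsSimpleGroup N := by
  have := hN.normal
  have := hN.nontrivial
  obtain ⟨M, hM⟩ := exists_isMinNormal N
  have h1 : ¬ Group.IsSolvable M := fun hs => by
    rcases hN.eq_bot_or_top (fittingSubgroup N) with e | e
    · exact hM.ne_bot (eq_bot_iff.2 (e ▸ hM.le_fitting))
    · have := fittingSubgroup_isNilpotent (G := N)
      rw [e, Group.isNilpotent_top] at this
      exact hns inferInstance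
  have h2 : ∀ g : G, M.map (MulAut.conjNormal g : N ≃* N).toMonoidHom = M := fun g => by
    by_contra hne
    have h3 := hM.map_mulEquiv (MulAut.conjNormal g)
    exact h1 (h _ _ (h3.le_centralizer_of_ne hM hne) (h3.disjoint_of_ne hM hne)
      (card_map_of_injective (MulEquiv.injective _)))
  have h3 : (M.map N.subtype).Normal := ⟨by
    rintro _ ⟨x, hx, rfl⟩ g
    exact ⟨MulAut.conjNormal g x, h2 g ▸ mem_map_of_mem _ hx, by simp⟩⟩
  rcases hN.eq_bot_or_eq h3 (map_subtype_le M) with e | e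
  · exact (hM.ne_bot ((map_eq_bot_iff_of_injective _ N.subtype_injective).1 e)).elim
  · rwa [← sgOf_eq_of_map e, subgroupOf_self, isMinNormal_top_iff] at hM

/-- Burnside: a cyclic Sylow subgroup, one of whose non-trivial elements is central -/
theorem sdp_of_cyc {r : ℕ} [Fact r.Prime] {J R : Subgroup G} [IsCyclic R] (hR : IsSylowIn r R J) {y : G}
    (hy : y ∈ R) (h1 : y ≠ 1) (hc : J ≤ 𝐂[y]) : Sdp (Op' r J) R J := by
  refine sdp_Op'_of_hall (hall_Op'_iff.2 (hR.hasNormalPComplement_of_le_centralizer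
    (le_of_forall_isPElt_mem fun q _ x hx hq => ?_))) hR
  by_cases e : q = r
  · subst e
    exact comm_iff_le_cent.1 inferInstance (hR.mem_of_mem_normalizer hq hx.1 hx.2)
  · refine zpowers_le.1 (le_cent_comm.1 (le_cent_of_cyclic hR.isPGroup (coprimeAct_of_isPGroup_left
      (zpowers_le.2 hx.2) hq.isPGroup_zpowers (not_dvd_card_of_ne hR.isPGroup e)) fun e' => h1 (mem_bot.1 (e' ▸ ⟨hy, ?_⟩))))
    rw [centralizer_zpowers]
    exact mem_cent1_comm.1 (hc hx.1)

/-- In a perfect group with cyclic Sylow `r`- and `s`-subgroups -/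
theorem mem_cent_of_perfect (hG : commutator G = ⊤) {r s : ℕ} [Fact r.Prime] [Fact s.Prime] (hrs : s ≠ r)
    (cr : ∀ R : Subgroup G, IsPGroup r R → IsCyclic R) (cs : ∀ R : Subgroup G, IsPGroup s R → IsCyclic R)
    {R : Subgroup G} (hR : IsPGroup r R) {y x : G} (hy : IsPElt s y) (hn : y ∈ 𝐍(R)) (hx : x ∈ zpowers y)
    (h1 : x ≠ 1) (hc : x ∈ 𝐂(R)) : y ∈ 𝐂(R) := by
  obtain ⟨S, hyS⟩ := hy.exists_mem_sylow
  have := cs S S.isPGroup'
  have hxS : x ∈ (S : Subgroup G) := zpowers_le.2 hyS hx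
  have hSS : (S : Subgroup G) ≤ 𝐂((S : Subgroup G)) := comm_iff_le_cent.1 inferInstance
  have hSC : (S : Subgroup G) ≤ 𝐂[x] := le_cent1_iff.2 (hSS hxS)
  have hD := sdp_of_cyc (isSylowIn_sylow_of_le S hSC) hxS h1 le_rfl
  have hRC : R ≤ 𝐂[x] := le_cent1_iff.2 hc
  have hRX : R ≤ Op' s 𝐂[x] := le_of_normal_hall (hD.hall_left (isPiNat_piCoreOf _ _) (by
    rw [compl_compl]; exact isPGroup_iff_isPiNat.1 S.isPGroup')) hD.le_norm hRC
    ((isPiNat_compl_singleton_iff Fact.out).2 (not_dvd_card_of_ne hR hrs))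
  obtain ⟨T, hT, hRT⟩ := exists_isSylowIn_ge hR hRX
  have := cr T hT.isPGroup
  have hCN : 𝐂[x] ≤ 𝐍(zpowers x) := centralizer_zpowers x ▸ cent_le_norm _
  have hNC : 𝐍(zpowers x) ≤ 𝐍((𝐂[x] : Subgroup G)) := centralizer_zpowers x ▸ normalizer_le_normalizer_centralizer _
  have hF := hT.frattini_sup (hD.left_le.trans hCN) (hNC.trans (norm_le_norm_piCoreOf _ _))
  have h2 : (S : Subgroup G) ≤ ⁅𝐍(zpowers x), 𝐍(zpowers x)⁆ := by
    refine (le_inf (hG ▸ le_top) le_rfl).trans (commutator_inf_sylow_le S fun a ha u hu => ?_)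
    obtain ⟨n, hn, e⟩ := exists_mem_normalizer_conj_eq_of_mem_centralizer S (hSS ha) (hSS hu)
    rw [← e, show a * (n * a * n⁻¹)⁻¹ = ⁅a, n⁆ by rw [commutatorElement_def]; group]
    exact commutator_mem_commutator (hCN (hSC ha))
      (normalizer_le_normalizer_of_le_isCyclic (zpowers_le.2 hxS) hn)
  have h3 : (S : Subgroup G) ≤ Op' s 𝐂[x] ⊔ (𝐂[x] ⊓ 𝐂(R)) := by
    rw [← hF] at h2
    refine h2.trans ((der_sup_le (inf_le_right.trans (hNC.trans (norm_le_norm_piCoreOf _ _)))).trans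
      (sup_le_sup_left (le_inf ?_ ?_) _))
    · exact centralizer_zpowers x ▸ commutator_le_centralizer_of_isCyclic inf_le_right
    · exact (commutator_le_centralizer_of_isCyclic inf_le_left).trans (centralizer_anti hRT)
  have h4 : Op' s 𝐂[x] ⊔ (𝐂[x] ⊓ 𝐂(R)) = 𝐂[x] :=
    le_antisymm (sup_le hD.left_le inf_le_left) (hD.sup.ge.trans (sup_le le_sup_left h3))
  have h5 : (𝐂[x] ⊓ 𝐂(R)).relIndex 𝐂[x] ∣ Nat.card (Op' s 𝐂[x]) := by
    have e := card_sup_mul_card_inf_of_le_normalizer ((inf_le_left : 𝐂[x] ⊓ 𝐂(R) ≤ _).trans hD.le_norm)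
    rw [sup_comm, h4, ← card_mul_relIndex (inf_le_left : 𝐂[x] ⊓ 𝐂(R) ≤ _), mul_assoc] at e
    exact Dvd.intro _ (Nat.eq_of_mul_eq_mul_left Nat.card_pos e)
  have h6 : zpowers y ≤ 𝐂[x] ⊓ 𝐂(R) := le_of_coprime_card_relIndex (K := 𝐂[x] ⊓ 𝐍(R))
    (zpowers_le.2 ⟨hSC hyS, hn⟩) (fun g hg => mem_normalizer_of_conj_mem fun a ha =>
      ⟨(𝐂[x]).mul_mem ((𝐂[x]).mul_mem hg.1 ha.1) ((𝐂[x]).inv_mem hg.1),
        conj_mem_of_mem_normalizer (normalizer_le_normalizer_centralizer _ hg.2) ha.2⟩)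
    (hy.isPGroup_zpowers.coprime_card fun e => not_dvd_card_Op' s _ (e.trans ((Dvd.intro _
      (relIndex_mul_relIndex _ _ _ (inf_le_inf_left _ (cent_le_norm R)) inf_le_left)).trans h5)))
  exact (h6 (mem_zpowers y)).2

end Grp

variable {p : ℕ} [hp : Fact p.Prime] {H V : Type*} [Group H] [Finite H] [AddCommGroup V] [Finite V]
  [DistribMulAction H V]

theorem Hc.sum_eq_zero (h : Hc p H V) {X : Subgroup H} [Fintype X] (h0 : X ≠ ⊥) (hX : ¬ p ∣ Nat.card X) (v : V) :
    ∑ x : X, (x : H) • v = 0 := by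
  by_contra e
  refine h0 (eq_bot_iff.2 fun y hy => h.fpf (isPRegular_of_mem hX hy) e ?_)
  rw [Finset.smul_sum]
  exact Fintype.sum_equiv (Equiv.mulLeft ⟨y, hy⟩) _ _ fun a => by simp [mul_smul]

/-- There is no Frobenius subgroup of order prime to `p`. -/
theorem Hc.not_frob (h : Hc p H V) {A N : Subgroup H} (F : FrobAct A N) (hA : A ≠ ⊥) (hN : N ≠ ⊥)
    (h1 : ¬ p ∣ Nat.card A) (h2 : ¬ p ∣ Nat.card N) : False := by
  classical
  have := Fintype.ofFinite N
  have := Fintype.ofFinite A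
  obtain ⟨v, hv⟩ := h.exists_ne
  have e1 : ∑ k : N, ∑ c : A, ((k : H) * c * (k : H)⁻¹) • v = 0 := Finset.sum_eq_zero fun k _ => by
    rw [← smul_zero (k : H), ← h.sum_eq_zero hA h1 ((k : H)⁻¹ • v), Finset.smul_sum]
    exact Finset.sum_congr rfl fun c _ => by simp only [mul_smul]
  rw [Finset.sum_comm, Fintype.sum_eq_single (1 : A)] at e1
  · have e2 : Nat.card N • v = 0 := by simpa using e1
    exact h2 (addOrderOf_eq_prime (h.exp v) hv ▸ addOrderOf_dvd_of_nsmul_eq_zero e2)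
  · intro c hc1
    let g : N → N := fun k => ⟨⁅(k : H), (c : H)⁆,
      le_normalizer_iff_commutator_le_left.1 F.norm (commutator_mem_commutator k.2 c.2)⟩
    have hg : Function.Bijective g := Finite.surjective_iff_bijective.1 fun n => by
      obtain ⟨k, hk, he⟩ := exists_commutator_eq_of_fpf (F.norm c.2)
        (F.fpf c c.2 fun e => hc1 (Subtype.ext e)) n.2
      exact ⟨⟨k, hk⟩, Subtype.ext he⟩
    rw [← h.sum_eq_zero hN h2 ((c : H) • v)]
    refine Fintype.sum_bijective g hg _ _ fun k => ?_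
    rw [← mul_smul]
    exact congrArg (· • v) (by
      change (k : H) * c * (k : H)⁻¹ = ⁅(k : H), (c : H)⁆ * c
      rw [commutatorElement_def, inv_mul_cancel_right])

/-- An element of prime order `s` normalizing a cyclic `r`-subgroup centralizes it. -/
theorem Hc.mem_cent_prime (h : Hc p H V) {r s : ℕ} [Fact r.Prime] [hs : Fact s.Prime] (hrs : s ≠ r) (hr : p ≠ r)
    (hs' : p ≠ s) {R : Subgroup H} [IsCyclic R] (hR : IsPGroup r R) {x : H} (hx : orderOf x = s) (hn : x ∈ 𝐍(R)) :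
    x ∈ 𝐂(R) := by
  have hX : IsPGroup s (zpowers x) := IsPElt.isPGroup_zpowers ⟨1, by rw [hx, pow_one]⟩
  by_contra hc
  have h1 : R ⊓ 𝐂(zpowers x) = ⊥ := by_contra fun e => hc (zpowers_le.1 (le_cent_comm.1 (le_cent_of_cyclic hR
    (coprimeAct_of_isPGroup_left (zpowers_le.2 hn) hX (not_dvd_card_of_ne hR hrs)) e)))
  refine h.not_frob (A := zpowers x) (N := R) ⟨zpowers_le.2 hn, fun a ha a1 n hn e => mem_bot.1 (h1 ▸ ⟨hn, ?_⟩)⟩
    (fun e => hc (mem_bot.1 (e ▸ mem_zpowers x) ▸ one_mem _)) (fun e => hc (e ▸ fun a ha => by simp [mem_bot.1 ha]))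
    (not_dvd_card_of_ne hX hs') (not_dvd_card_of_ne hR hr)
  rw [← (elemN_one_iff.2 ⟨le_top, (Nat.card_zpowers x).trans hx⟩).eq_zpowers ha a1, centralizer_zpowers]
  exact mem_cent1.2 e

section Two
variable {H V : Type*} [Group H] [Finite H] [AddCommGroup V] [Finite V] [DistribMulAction H V]

theorem Hc.oc (h : Hc 2 H V) (hH : commutator H = ⊤) : OC H := fun K ho => by
  have c : ∀ {r : ℕ} [Fact r.Prime], r ∣ Nat.card K → r ≠ 2 := fun hr e => not_two_dvd.2 ho (e ▸ hr)
  have cy : ∀ {r : ℕ} [Fact r.Prime], r ≠ 2 → ∀ R : Subgroup H, IsPGroup r R → IsCyclic R :=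
    fun hr _ => h.cyclic_of_isPGroup hr hr
  have : Group.IsNilpotent K := isNilpotent_of_forall_hasNormalPComplement fun r _ hr =>
    hasNormalPComplement_of_forall_isPElt fun R hR _ s _ hs y hy hys => by
      by_cases y1 : y = 1
      · exact y1 ▸ one_mem _
      have hs2 := c ((hys.dvd_orderOf y1).trans (orderOf_dvd_natCard y))
      have hR' := hR.map K.subtype
      have := cy (c hr) _ hR'
      have hn : (y : H) ∈ 𝐍(R.map K.subtype) := le_normalizer_map _ ⟨y, hy, rfl⟩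
      obtain ⟨x, hx⟩ := exists_prime_orderOf_dvd_card' (G := zpowers (y : H)) s (by
        rw [Nat.card_zpowers, orderOf_coe]; exact hys.dvd_orderOf y1)
      rw [← orderOf_coe] at hx
      have := mem_cent_of_perfect hH hs (cy (c hr)) (cy hs2) hR' (isPElt_coe.2 hys) hn x.2
        (fun e => (Fact.out : s.Prime).ne_one (by rw [← hx, e, orderOf_one]))
        (h.mem_cent_prime hs (c hr).symm hs2.symm hR' hx (zpowers_le.2 hn x.2))
      exact fun a ha => Subtype.ext (this a ⟨a, ha, rfl⟩)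
  have : IsZGroup K := ⟨fun r hr P => by
    have := Fact.mk hr
    by_cases e : r = 2
    · have : (P : Subgroup K) = ⊥ := eq_bot_of_isPGroup_of_not_dvd P.isPGroup' fun e' =>
        not_two_dvd.2 ho (e ▸ e'.trans (card_subgroup_dvd_card _))
      rw [this]; infer_instance
    · have := cy e _ (P.isPGroup'.map K.subtype)
      exact isCyclic_of_surjective _ (Subgroup.equivMapOfInjective _ _ K.subtype_injective).symm.surjective⟩
  infer_instance

theorem commutator_eq_top_of_simple [IsSimpleGroup H] (hns : ¬ Group.IsSolvable H) : commutator H = ⊤ :=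
  (IsSimpleGroup.eq_bot_or_eq_top_of_normal (commutator H) inferInstance).resolve_left fun e =>
    hns ⟨⟨1, by rwa [derivedSeries_one]⟩⟩

theorem Hc.oc_simple [IsSimpleGroup H] (h : Hc 2 H V) (hns : ¬ Group.IsSolvable H) : OC H :=
  h.oc (commutator_eq_top_of_simple hns)

theorem Hc.exists_simple (h : Hc 2 H V) (hns : ¬ Group.IsSolvable H) :
    ∃ L : Subgroup H, L.Normal ∧ IsSimpleGroup L ∧ ¬ Group.IsSolvable L := by
  have hn : (GW.Res (⊤ : Subgroup H)).Normal := top_le_norm_iff.1 (le_normalizer.trans (norm_Res ⊤))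
  obtain ⟨M, hM, hMK⟩ := exists_isMinNormal_le hn fun e => hns (by
    have := Res_eq_bot_iff.1 e
    exact isSolvable_of_mulEquiv topEquiv)
  have := hM.normal
  have h1 : ¬ Group.IsSolvable M := fun hs => by
    obtain ⟨r, hr, hrM⟩ := hM.exists_isPGroup
    have := Fact.mk hr
    by_cases e : r = 2
    · exact hM.ne_bot (h.eq_bot (e ▸ hrM))
    · exact hM.ne_bot (eq_bot_of_perfect_cyc (Res_perfect ⊤) hMK le_normalizer_of_normal hrM
        fun R _ => h.cyclic_of_isPGroup e e)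
  refine ⟨M, this, simple_of_minNormal' hM h1 fun A B hc hd he => by_contra fun hB => ?_, h1⟩
  obtain ⟨r, hr, hrB, h2⟩ : ∃ r : ℕ, r.Prime ∧ r ∣ Nat.card B ∧ r ≠ 2 := by
    by_contra! e
    exact hB (IsPGroup.isSolvable' (isPGroup_iff_isPiNat.2 e))
  have := Fact.mk hr
  obtain ⟨E, hE⟩ := exists_elemN_one hrB
  obtain ⟨F, hF⟩ := exists_elemN_one (he ▸ hrB : r ∣ Nat.card A)
  have h3 := (hE.mono le_top).sup (hF.mono le_top) (hF.le.trans (hc.trans (centralizer_anti hE.le)))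
    (hd.symm.mono hE.le hF.le)
  exact h3.not_cyclic le_rfl ((h.sub M).cyclic_of_isPGroup h2 h2 h3.isPGroup)

end Two

end Her
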