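import Cfsg.Agent.Lib.Her.Base
import Cfsg.Agent.Lib.Her.DC2
import Cfsg.Agent.Lib.Her.Delta
import Cfsg.Agent.Lib.Her.Even
import Cfsg.Agent.Lib.Grp.Zass3

/-!
# S4841, step 5: a weakly closed quadratic group gives `SL(2, q)`
-/

set_option autoImplicit false
set_option linter.unusedSectionVars false

namespace Her

open Cfsg GT FT GW Subgroup MulAction
open scoped Pointwise commutatorElement

universe u

/-- a split doubly transitive action: `Q` is regular on the points other than `α` -/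
structure Sp {G Ω : Type*} [Group G] [MulAction G Ω] (α : Ω) (Q B : Subgroup G) (w : G) : Prop where
  stab : ∀ g : G, g • α = α ↔ g ∈ 𝐍(Q)
  sq : ∀ t ∈ Q, t * t = 1
  fix : ∀ t ∈ Q, t ≠ 1 → ∀ ω : Ω, t • ω = ω → ω = α
  card : Nat.card Ω = Nat.card Q + 1
  inv : Inv w
  conj : ∃ x, x * w * x⁻¹ ∈ Q
  ne : w • α ≠ α
  le : B ≤ 𝐍(Q)
  invBy : InvBy w B
  cardB : Nat.card B + 1 = Nat.card Q
  trans : ∀ t ∈ Q, t ≠ 1 → ∀ s ∈ Q, s ≠ 1 → ∃ b ∈ B, b * t * b⁻¹ = s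

namespace Sp
variable {G Ω : Type*} [Group G] [Finite G] [MulAction G Ω] [Finite Ω] {α : Ω} {Q B : Subgroup G} {w : G}
  (h : Sp α Q B w)
include h

theorem fixQ {x : G} (hx : x ∈ Q) : x • α = α := (h.stab x).2 (le_normalizer hx)

theorem fixB {b : G} (hb : b ∈ B) : b • α = α := (h.stab b).2 (h.le hb)

theorem comm {b : G} (hb : b ∈ B) : b * w = w * b⁻¹ := by
  rw [mul_inv_eq_iff_eq_mul.1 (h.invBy _ (inv_mem hb)), inv_inv]

theorem fixB' {b : G} (hb : b ∈ B) : b • w • α = w • α := by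
  rw [smul_smul, h.comm hb, mul_smul, h.fixB (inv_mem hb)]

theorem eq_one {x : G} (hx : x ∈ Q) {ω : Ω} (h1 : ω ≠ α) (e : x • ω = ω) : x = 1 :=
  by_contra fun h2 => h1 (h.fix x hx h2 ω e)

theorem reg {ω : Ω} (h1 : ω ≠ α) : ∃ x ∈ Q, x • w • α = ω := by
  refine (Set.eq_of_subset_of_ncard_le (s := (fun x : G => x • w • α) '' Q) (t := {α}ᶜ) ?_ (le_of_eq ?_)).ge h1
  · rintro _ ⟨x, hx, rfl⟩ e
    exact h.ne ((eq_inv_smul_iff.2 e).trans (h.fixQ (inv_mem hx)))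
  · rw [Set.InjOn.ncard_image fun x hx y hy e => (inv_mul_eq_one.1 (h.eq_one (mul_mem (inv_mem hy) hx) h.ne
      (by rw [mul_smul, inv_smul_eq_iff]; exact e))).symm, Set.ncard_compl, h.card, Set.ncard_singleton]
    rfl

theorem transB {γ δ : Ω} (h1 : γ ≠ α) (h2 : γ ≠ w • α) (h3 : δ ≠ α) (h4 : δ ≠ w • α) : ∃ b ∈ B, b • γ = δ := by
  obtain ⟨x, hx, rfl⟩ := h.reg h1
  obtain ⟨y, hy, rfl⟩ := h.reg h3
  obtain ⟨b, hb, rfl⟩ := h.trans x hx (by rintro rfl; simp at h2) y hy (by rintro rfl; simp at h4)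
  exact ⟨b, hb, by rw [mul_smul, mul_smul, h.fixB' (inv_mem hb)]⟩

theorem axis {y s : G} (hs : s ∈ Q) (e : (y * s * y⁻¹) • α = w • α) : y • α ≠ α ∧ y • α ≠ w • α := by
  have h1 : (y * s * y⁻¹) • y • α = y • α := by rw [mul_smul, inv_smul_smul, mul_smul, h.fixQ hs]
  refine ⟨fun h2 => h.ne (by rwa [h2, e] at h1), fun h2 => h.ne ?_⟩
  rwa [h2, ← e, smul_smul, conj_mul, h.sq s hs, mul_one, mul_inv_cancel, one_smul, e, eq_comm] at h1

theorem swap {y s : G} (hs : s ∈ Q) (e : (y * s * y⁻¹) • α = w • α) : ∃ b ∈ B, y * s * y⁻¹ = b * w := by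
  obtain ⟨x, hx⟩ := h.conj
  have h1 := h.axis (y := x⁻¹) hx (by congr 1; group)
  have h2 := h.axis hs e
  obtain ⟨b, hb, h3⟩ := h.transB h1.1 h1.2 h2.1 h2.2
  have h4 := conj_mem_of_mem_normalizer ((h.stab (y⁻¹ * b * x⁻¹)).1 (by rw [mul_smul, mul_smul, h3, inv_smul_smul])) hx
  have h5 := h.eq_one (mul_mem (inv_mem hs) h4) (ω := y⁻¹ • α) (fun e' => h2.1 (inv_smul_eq_iff.1 e').symm) (by
    rw [smul_smul, show s⁻¹ * (y⁻¹ * b * x⁻¹ * (x * w * x⁻¹) * (y⁻¹ * b * x⁻¹)⁻¹) * y⁻¹ =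
      y⁻¹ * (y * s * y⁻¹)⁻¹ * b * w * b⁻¹ by group]
    simp only [mul_smul]
    rw [h.fixB (inv_mem hb), h.fixB' hb, ← e, inv_smul_smul])
  refine ⟨b * b, mul_mem hb hb, ?_⟩
  rw [inv_mul_eq_one.1 h5, mul_assoc b, h.comm hb]
  group

theorem cases (y : G) {s : G} (hs : s ∈ Q) :
    y * s * y⁻¹ ∈ Q ∨ ∃ x ∈ Q, ∃ b ∈ B, y * s * y⁻¹ = x * b * w * x⁻¹ := by
  by_cases e : (y * s * y⁻¹) • α = α
  · rcases eq_or_ne s 1 with rfl | h1
    · exact .inl (by simp)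
    refine .inl (conj_mem_of_mem_normalizer (inv_mem_iff.1 ((h.stab _).1 (h.fix s hs h1 _ ?_))) hs)
    rwa [mul_smul, mul_smul, ← eq_inv_smul_iff] at e
  obtain ⟨x, hx, h1⟩ := h.reg e
  obtain ⟨b, hb, h2⟩ := h.swap (y := x⁻¹ * y) hs (by
    rw [eq_comm, ← smul_left_cancel_iff x, h1, smul_smul, ← h.fixQ hx, smul_smul, h.fixQ hx]; congr 1; group)
  exact .inr ⟨x, hx, b, hb, by rw [mul_assoc x b, ← h2]; group⟩

theorem bruhat [IsSimpleGroup G] (g : G) : g ∈ Q ⊔ B ∨ ∃ x ∈ Q, ∃ p ∈ Q ⊔ B, g = x * w * p := by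
  obtain ⟨S, hS⟩ : ∃ S : G → Prop, ∀ g, S g ↔ g ∈ Q ⊔ B ∨ ∃ x ∈ Q, ∃ p ∈ Q ⊔ B, g = x * w * p := ⟨_, fun _ => Iff.rfl⟩
  have h1 : ∀ k ∈ Q ⊔ B, ∀ g, S g → S (k * g) := fun k hk g hg => by
    rcases (hS g).1 hg with hg | ⟨x, hx, p, hp, rfl⟩
    · exact (hS _).2 (.inl (mul_mem hk hg))
    obtain ⟨x', hx', b, hb, e⟩ := (mem_sup_of_le_normalizer_left h.le).1 (mul_mem hk (mem_sup_left hx))
    exact (hS _).2 (.inr ⟨x', hx', b⁻¹ * p, mul_mem (mem_sup_right (inv_mem hb)) hp, by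
      rw [← mul_assoc, ← mul_assoc, ← e, mul_assoc x', h.comm hb, ← mul_assoc, mul_assoc, ← mul_assoc]⟩)
  have h0 : ∀ g ∈ Q ⊔ B, S (w * g) := fun g hg => (hS _).2 (.inr ⟨1, one_mem _, g, hg, by rw [one_mul]⟩)
  have h2 : ∀ g, S g → S (w * g) := fun g hg => by
    rcases (hS g).1 hg with hg | ⟨x, hx, p, hp, rfl⟩
    · exact h0 g hg
    rw [← mul_assoc, ← mul_assoc, show w * x * w = w * x * w⁻¹ by rw [h.inv.inv]]
    rcases h.cases w hx with e | ⟨x', hx', b, hb, e⟩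
    · exact (hS _).2 (.inl (mul_mem (mem_sup_left e) hp))
    · rw [e, mul_assoc, mul_assoc]
      exact h1 _ (mul_mem_sup hx' hb) _ (h0 _ (mul_mem (mem_sup_left (inv_mem hx')) hp))
  have h3 : ∀ d ∈ Group.conjugatesOfSet (Q : Set G), d⁻¹ = d ∧ ∀ g, S g → S (d * g) := fun d hd => by
    obtain ⟨s, hs, e⟩ := Group.mem_conjugatesOfSet_iff.1 hd
    obtain ⟨y, rfl⟩ := isConj_iff.1 e
    refine ⟨by rw [conj_inv, inv_eq_of_mul_eq_one_right (h.sq s hs)], fun g hg => ?_⟩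
    rcases h.cases y hs with e | ⟨x, hx, b, hb, e⟩
    · exact h1 _ (mem_sup_left e) g hg
    · rw [e, mul_assoc, mul_assoc]
      exact h1 _ (mul_mem_sup hx hb) _ (h2 _ (h1 _ (mem_sup_left (inv_mem hx)) g hg))
  obtain ⟨x, hx⟩ := h.conj
  have h4 : g ∈ normalClosure (Q : Set G) := ((IsSimpleGroup.eq_bot_or_eq_top_of_normal _ inferInstance).resolve_left
    fun e => (h.inv.conj x).ne (mem_bot.1 (e.le (le_normalClosure hx)))).ge (mem_top g)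
  unfold normalClosure at h4
  rw [← hS]
  induction h4 using closure_induction_left with
  | one => exact (hS _).2 (.inl (one_mem _))
  | mul_left d hd y _ hy => exact (h3 d hd).2 y hy
  | inv_mul_cancel d hd y _ hy => rw [(h3 d hd).1]; exact (h3 d hd).2 y hy

theorem mem_B [IsSimpleGroup G] {g : G} (h1 : g • α = α) (h2 : g • w • α = w • α) : g ∈ B := by
  rcases h.bruhat g with hg | ⟨x, hx, p, hp, rfl⟩
  · obtain ⟨x, hx, b, hb, rfl⟩ := (mem_sup_of_le_normalizer_left h.le).1 hg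
    rwa [h.eq_one hx h.ne (by rwa [mul_smul, h.fixB' hb] at h2), one_mul]
  · rw [mul_smul, mul_smul, (h.stab p).2 (sup_le le_normalizer h.le hp), ← eq_inv_smul_iff, h.fixQ (inv_mem hx)] at h1
    exact absurd h1 h.ne

theorem three [IsPretransitive G Ω] {γ : Ω} (h1 : γ ≠ α) (h2 : γ ≠ w • α) {a b c : Ω} (ab : a ≠ b) (ac : a ≠ c)
    (bc : b ≠ c) : ∃ g : G, g • a = α ∧ g • b = w • α ∧ g • c = γ := by
  obtain ⟨g, rfl⟩ := exists_smul_eq G α a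
  obtain ⟨x, hx, e⟩ := h.reg (ω := g⁻¹ • b) fun e => ab (inv_smul_eq_iff.1 e).symm
  obtain ⟨y, hy, e'⟩ := h.transB (γ := x⁻¹ • g⁻¹ • c) (fun e' => ac (by
    rw [inv_smul_eq_iff, h.fixQ hx, inv_smul_eq_iff] at e'; exact e'.symm))
    (fun e' => bc (by rwa [inv_smul_eq_iff, e, smul_left_cancel_iff, eq_comm] at e')) h1 h2
  refine ⟨y * x⁻¹ * g⁻¹, ?_, ?_, ?_⟩ <;> simp only [mul_smul]
  · rw [inv_smul_smul, h.fixQ (inv_mem hx), h.fixB hy]
  · rw [← e, inv_smul_smul, h.fixB' hy]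
  · exact e'

theorem iso [IsSimpleGroup G] [IsPretransitive G Ω] (h2 : IsPGroup 2 Q) : ∃ (F : Type) (_ : Field F) (_ : Fintype F),
    Fintype.card F = Nat.card Q ∧ Nonempty (G ≃* Matrix.SpecialLinearGroup (Fin 2) F) := by
  obtain ⟨x, hx⟩ := h.conj
  have ht := h.inv.conj x
  generalize x * w * x⁻¹ = t at hx ht
  have h1 : t • w • α ≠ α := fun e => h.ne ((eq_inv_smul_iff.2 e).trans (h.fixQ (inv_mem hx)))
  have h3 : t • w • α ≠ w • α := fun e => ht.ne (h.eq_one hx h.ne e)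
  have h4 : 𝐂[t] ⊓ B = ⊥ := by
    have e := card_inf_mul_relIndex 𝐂[t] B
    rw [← ncard_conj, show {v | ∃ g ∈ B, g * t * g⁻¹ = v} = (Q : Set G) \ {1} from Set.ext fun v => ⟨?_, fun hv =>
      h.trans t hx ht.ne v hv.1 hv.2⟩, Set.ncard_sdiff_singleton_of_mem (one_mem Q), ← Nat.card_coe_set_eq,
      SetLike.coe_sort_coe, ← h.cardB, Nat.add_sub_cancel] at e
    · exact card_eq_one.1 (Nat.eq_of_mul_eq_mul_right Nat.card_pos (e.trans (one_mul _).symm))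
    · rintro ⟨g, hg, rfl⟩
      exact ⟨conj_mem_of_mem_normalizer (h.le hg) hx, (ht.conj g).ne⟩
  have h5 := dvd_card_of_isPGroup_of_ne_bot h2 fun e => ht.ne (e.le hx)
  obtain ⟨a, -, e, F, _, _, e', φ⟩ := exists_SL2_of_sharply_three_transitive (G := G) (Ω := Ω)
    (isMultiplyPretransitive_iff.2 fun x y => by
      obtain ⟨g, e0, e1, e2⟩ := h.three h1 h3 (x.injective.ne (by decide : (0 : Fin 3) ≠ 1))
        (x.injective.ne (by decide : (0 : Fin 3) ≠ 2)) (x.injective.ne (by decide : (1 : Fin 3) ≠ 2))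
      obtain ⟨g', e0', e1', e2'⟩ := h.three h1 h3 (y.injective.ne (by decide : (0 : Fin 3) ≠ 1))
        (y.injective.ne (by decide : (0 : Fin 3) ≠ 2)) (y.injective.ne (by decide : (1 : Fin 3) ≠ 2))
      refine ⟨g'⁻¹ * g, DFunLike.ext _ _ fun i => ?_⟩
      rw [Function.Embedding.smul_apply, mul_smul, inv_smul_eq_iff]
      fin_cases i
      exacts [e0.trans e0'.symm, e1.trans e1'.symm, e2.trans e2'.symm])
    (fun k a b c ab ac bc ha hb hc => by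
      obtain ⟨g, e0, e1, e2⟩ := h.three h1 h3 ab ac bc
      have h6 : ∀ a : Ω, k • a = a → (g * k * g⁻¹) • g • a = g • a := fun a e => by
        rw [mul_smul, inv_smul_smul, mul_smul, e]
      have h7 := h.mem_B (e0 ▸ h6 a ha) (e1 ▸ h6 b hb)
      have h8 := h.eq_one (mul_mem (inv_mem hx) (conj_mem_of_mem_normalizer (h.le h7) hx)) h.ne (by
        rw [mul_smul, mul_smul, h.fixB' (inv_mem h7), mul_smul, ← e2, h6 c hc, e2, inv_smul_smul])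
      exact conj_eq_one_iff.1 (h4.le (mem_inf.2 ⟨mem_cent1.2 (mul_inv_eq_iff_eq_mul.1 (inv_mul_eq_one.1 h8).symm), h7⟩)))
    (h.card ▸ Nat.succ_le_succ (Nat.le_of_dvd Nat.card_pos h5)) (h.card ▸ (even_iff_two_dvd.2 h5).add_one)
  exact ⟨F, inferInstance, inferInstance, e'.trans (Nat.succ_injective (e.symm.trans h.card)), φ⟩

theorem le_norm [IsSimpleGroup G] {X : Subgroup G} (h1 : Q ≤ X) (h2 : X ≠ ⊤) : X ≤ 𝐍(Q) := fun y hy => by
  by_contra h3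
  obtain ⟨x, hx⟩ := h.conj
  obtain ⟨a, ha, e⟩ := h.reg (mt (h.stab y).1 h3)
  have h4 : ∀ g : G, ∃ z ∈ X, z⁻¹ * g ∈ 𝐍(Q) := fun g => by
    by_cases h5 : g • α = α
    · exact ⟨1, one_mem _, by simpa using (h.stab g).1 h5⟩
    obtain ⟨b, hb, e'⟩ := h.reg h5
    exact ⟨b * a⁻¹ * y, mul_mem (h1 (mul_mem hb (inv_mem ha))) hy, (h.stab _).1 (by
      rw [mul_smul, inv_smul_eq_iff, mul_smul, mul_smul, ← e, inv_smul_smul, e'])⟩
  refine h2 (eq_top_iff.2 ((X.normalCore_normal.eq_bot_or_eq_top.resolve_left fun e =>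
    (h.inv.conj x).ne (mem_bot.1 (e.le fun g => ?_))).ge.trans X.normalCore_le))
  obtain ⟨z, hz, h5⟩ := h4 g
  convert mul_mem (mul_mem hz (h1 (conj_mem_of_mem_normalizer h5 hx))) (inv_mem hz) using 1
  group

end Sp

theorem Tq.sl2 {G : Type*} [Group G] [Finite G] [IsSimpleGroup G] {Q : Subgroup G} (h : Tq Q)
    (hi : (𝐍(Q)).index = Nat.card Q + 1) : (∃ (F : Type) (_ : Field F) (_ : Fintype F), Fintype.card F = Nat.card Q ∧
      Nonempty (G ≃* Matrix.SpecialLinearGroup (Fin 2) F)) ∧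
    ∀ X : Subgroup G, X ≠ ⊤ → ¬ 2 ∣ X.index → Nat.card Q + 1 ∣ X.index := by
  obtain ⟨g, hg⟩ : ∃ g, g ∉ 𝐍(Q) := not_forall.1 fun e => by
    rw [(eq_top_iff' _).2 e, index_top] at hi
    exact Nat.card_pos.ne (Nat.succ_injective hi)
  obtain ⟨B, w, h1, h3, h4, h5, h6, -, h7, h8⟩ := h.delta1 hg
  have h9 : ∀ g : G, g • ((1 : G) : G ⧸ 𝐍(Q)) = (1 : G) ↔ g ∈ 𝐍(Q) := fun g => by
    rw [← mem_stabilizer_iff, stabilizer_quotient]
  have S : Sp ((1 : G) : G ⧸ 𝐍(Q)) Q B w := ⟨h9, h.sq, fun t ht e ω e' => by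
    obtain ⟨x, rfl⟩ := exists_smul_eq G ((1 : G) : G ⧸ 𝐍(Q)) ω
    refine (h9 x).2 (h.fix t ht e x ?_)
    rw [← conj_smul_normalizer, mem_conj_smul, ← h9, mul_smul, mul_smul, e', inv_smul_smul], hi, h1, h3, fun e =>
      hg (conj_smul_eq_iff_mem_normalizer.1 (h4.symm.trans (conj_smul_eq_iff_mem_normalizer.2 ((h9 w).1 e)))),
    h5.trans inf_le_left, h7, h6, h8⟩
  refine ⟨S.iso h.isPGroup, fun X hX ho => ?_⟩
  obtain ⟨P, hP⟩ := exists_sylow_le_of_not_dvd_index ho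
  obtain ⟨x, hx⟩ := exists_conj_le_sylow P h.isPGroup
  rw [← hi, ← index_conj_smul x⁻¹ X]
  refine index_dvd_of_le (S.le_norm ((conj_inv_smul_conj_smul x Q).ge.trans (conj_smul_mono _ (hx.trans hP))) fun e => hX ?_)
  rw [← index_eq_one, ← index_conj_smul x⁻¹ X, e, index_top]

variable {L V : Type u} [Group L] [Finite L] [AddCommGroup V] [Finite V] [DistribMulAction L V]

/-- the conjugates of `W_t` form a spread -/
theorem spread (h : Hc 2 L V) (w : Wk L V) {t : L} (ht : Inv t)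
    (h1 : ∀ g : L, g ∉ 𝐍(Qv V t) → Wv V (g * t * g⁻¹) ⊓ Wv V t = ⊥) :
    (𝐍(Qv V t)).index = Nat.card (Wv V t) + 1 := by
  have h2 := Nat.card_eq_of_bijective (fun x : (L ⧸ 𝐍(Qv V t)) × {v | v ∈ Wv V t ∧ v ≠ 0} =>
    (⟨x.1.out • x.2.1, trivial, smul_ne_zero' _ x.2.2.2⟩ : {v | v ∈ (⊤ : AddSubgroup V) ∧ v ≠ 0})) ⟨?_, ?_⟩
  · have h3 : 1 < Nat.card (Wv V t) := (AddSubgroup.one_lt_card_iff_ne_bot _).2 (w.W_ne_bot ht.isPElt)
    rw [Nat.card_prod, Nat.card_coe_set_eq, Nat.card_coe_set_eq, ncard_ne_zero, ncard_ne_zero, AddSubgroup.card_top,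
      ← w.card_W ht, ← one_pow (M := ℕ) 2, Nat.sq_sub_sq, one_pow] at h2
    exact Nat.eq_of_mul_eq_mul_right (Nat.sub_pos_of_lt h3) h2
  · rintro ⟨a, u⟩ ⟨b, v⟩ e
    have h3 : (b.out⁻¹ * a.out) • u.1 = v.1 := by rw [mul_smul, inv_smul_eq_iff]; exact congrArg Subtype.val e
    obtain rfl : b = a := by
      rw [← b.out_eq, ← a.out_eq]
      exact QuotientGroup.eq.2 (by_contra fun e => v.2.2 ((h1 _ e).le ⟨h3 ▸ smul_mem_Wv.2 u.2.1, v.2.1⟩))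
    rw [inv_mul_cancel, one_smul] at h3
    rw [Subtype.ext h3]
  · rintro ⟨v, -, hv⟩
    obtain ⟨g, -, hg⟩ := (h.syl v hv).exists_conj_mem ht.isPElt trivial
    obtain ⟨m, hm⟩ := QuotientGroup.mk_out_eq_mul 𝐍(Qv V t) g
    refine ⟨⟨g, (g : L ⧸ 𝐍(Qv V t)).out⁻¹ • v, ?_, smul_ne_zero' _ hv⟩, Subtype.ext (smul_inv_smul _ _)⟩
    rw [hm, mul_inv_rev, mul_smul]
    exact (w.mem_norm_Qv ht).1 (inv_mem m.2) _ (smul_mem_Wv.1 (by rwa [smul_inv_smul]))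

theorem eq_of_dvd {n q r a b : ℕ} (hn : n + 1 = 2 ^ a) (hr : r = 2 ^ b) (hq : q = r ^ 2) (h1 : r + 1 ∣ n)
    (h2 : n ∣ q - 1) (h3 : 4 ≤ r) : n + 1 = q := by
  have h4 : 16 ≤ q := hq ▸ Nat.pow_le_pow_left h3 2
  have h5 := Nat.le_of_dvd (by omega) h2
  have h6 := Nat.le_of_dvd (Nat.pos_of_dvd_of_pos h2 (by omega)) h1
  obtain ⟨m, hm⟩ : n + 1 ∣ q := by
    rw [hq, hr, ← pow_mul] at h5 h4 ⊢
    rw [hn]
    exact pow_dvd_pow 2 ((Nat.pow_le_pow_iff_right Nat.one_lt_two).1 (by omega))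
  obtain _ | m := m
  · omega
  have h7 : n ∣ m := (Nat.dvd_add_right (dvd_mul_right n (m + 1))).1 (by convert h2 using 1; rw [hm]; ring_nf; omega)
  rw [hm, Nat.eq_zero_of_dvd_of_lt h7 (by nlinarith), zero_add, mul_one]

/-- package H-5 : step 5 -/
theorem fin (h : Hc 2 L V) (w : Wk L V) [IsSimpleGroup L] (_ns : ¬ Group.IsSolvable L) (ih : IH2.{u} (Nat.card V))
    {t : L} (ht : Inv t) (h4 : 4 ≤ Nat.card (Qv V t)) (wc : WC (Qv V t)) : ∃ q, Cc L V q := by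
  obtain ⟨tq, h1⟩ := w.tq ht h4 wc
  have h2 := w.isPGroup_Qv ht
  have h3 := spread h w ht h1
  have h0 : 1 < Nat.card (Wv V t) := (AddSubgroup.one_lt_card_iff_ne_bot _).2 (w.W_ne_bot ht.isPElt)
  have hne : 𝐍(Qv V t) ≠ ⊤ := fun e => by rw [e, index_top] at h3; omega
  have hT : ∀ v ∈ Wv V t, v ≠ 0 → stabilizer L v ≤ 𝐍(Qv V t) := fun v hv h0 g hg =>
    by_contra fun e => h0 ((h1 g e).le ⟨mem_stabilizer_iff.1 hg ▸ smul_mem_Wv.2 hv, hv⟩)
  suffices hq : Nat.card (Qv V t) = Nat.card (Wv V t) by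
    obtain ⟨⟨F, _, _, e, ⟨φ⟩⟩, h5⟩ := tq.sl2 (hq ▸ h3)
    refine ⟨_, ⟨F, inferInstance, inferInstance, e, ⟨φ⟩⟩, IsPGroup.iff_card.1 h2, h4, by rw [hq, w.card_W ht], ?_, h5⟩
    rw [Nat.card_congr φ.toEquiv, card_SL2, e, ← one_pow (M := ℕ) 2, Nat.sq_sub_sq, one_pow]
    ring
  by_cases hs : Group.IsSolvable 𝐍(Qv V t)
  · have h5 : Op 2 𝐍(Qv V t) = Qv V t := le_antisymm (fun g hg v hv => (eq_or_ne v 0).elim (fun e => e ▸ smul_zero g)
      fun e => (h.syl v e).le_of_normalizes (isPGroup_Op 2 _) le_top ((hT v hv e).trans (le_norm_piCoreOf _ _)) hg)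
      (le_Op le_normalizer le_rfl h2)
    have h6 := (tq.delta2 hs hne (h5.symm ▸ tq.fix)).1
    rw [h5, h3] at h6
    omega
  obtain ⟨Γ, _, _, _, π, hπ, e1, e2, e3⟩ := exists_restrict 𝐍(Qv V t) (Wv V t) fun n hn => (w.mem_norm_Qv ht).1 hn
  have hk : IsPGroup 2 π.ker := e3 ▸ h2.comap_subtype
  have hc : Hc 2 Γ (Wv V t) := ⟨e2, fun u hu => by
    have e := hT u u.2 fun e => hu (Subtype.ext e)
    convert ((isSylowIn_subgroupOf_top_iff e).2 ((h.syl u fun e => hu (Subtype.ext e)).of_le e le_top)).map_top_of_surjective hπ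
    ext g
    obtain ⟨g, rfl⟩ := hπ g
    exact ⟨fun hg => ⟨g, (e1 g u).symm.trans (congrArg Subtype.val hg), rfl⟩, fun ⟨g', h1, h2⟩ =>
      h2 ▸ Subtype.ext ((e1 g' u).trans h1)⟩,
    fun u => Subtype.ext (h.exp u), (AddSubgroup.nontrivial_iff_ne_bot _).2 (w.W_ne_bot ht.isPElt)⟩
  obtain ⟨K, _, _, hK⟩ := hc.exists_simple fun _ => hs (have := hk.isSolvable'
    Group.isSolvable_of_ker_le_range π.ker.subtype π (range_subtype _).ge)
  obtain ⟨r, c⟩ := ih K (Wv V t) hK (((w.oc.sub _).of_surj hπ hk).sub K) (hc.sub K) (by rw [← w.card_W ht]; nlinarith)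
  obtain ⟨g, hg⟩ := not_forall.1 (mt (eq_top_iff' _).2 hne)
  obtain ⟨B, -, -, -, -, b1, b2, b3, -, b4⟩ := tq.delta1 hg
  replace b1 := b1.trans inf_le_left
  have b5 : B ≤ (K.comap π).map (𝐍(Qv V t)).subtype := by
    obtain ⟨e, he, -⟩ := hc.exists_e
    obtain ⟨T, hT⟩ := exists_isSylowIn 2 (⊤ : Subgroup Γ)
    have h5 := (index_mul_card K).trans (index_mul_card T).symm
    rw [c.cardL, ← c.cardV, ← he T hT, Nat.add_sub_cancel] at h5
    have h6 : K.index ∣ Nat.card T := ⟨r * e, Nat.eq_of_mul_eq_mul_left (Nat.pos_of_ne_zero index_ne_zero_of_finite)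
      (h5.symm.trans (by ring))⟩
    rw [← map_subgroupOf_eq_of_le b1]
    refine map_mono (le_of_coprime_card_index ?_)
    rw [index_comap_of_surjective _ hπ, card_subgroupOf_of_le b1]
    exact ((hT.isPGroup.coprime_card (not_two_dvd.2 b3)).coprime_dvd_left h6).symm
  have b6 : ((((𝐂[t]).subgroupOf 𝐍(Qv V t)).map π).subgroupOf K).index = Nat.card B := by
    rw [← relIndex, ← map_comap_eq_self_of_surjective hπ K, relIndex_map_map, subgroupOf, sup_eq_left.2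
      (e3.le.trans (comap_mono ((w.Qv_le_cent ht).trans (cent_le_cent1 (self_mem_Qv t))))),
      sup_eq_left.2 (ker_le_comap π K), relIndex_comap,
      ← ncard_conj, show {v | ∃ g ∈ _, g * t * g⁻¹ = v} = (Qv V t : Set L) \ {1} from Set.ext fun v => ⟨?_, fun hv => ?_⟩,
      Set.ncard_sdiff_singleton_of_mem (one_mem _), ← Nat.card_coe_set_eq, SetLike.coe_sort_coe, ← b2, Nat.add_sub_cancel]
    · rintro ⟨g, hg, rfl⟩
      exact ⟨conj_mem_of_mem_normalizer (map_subtype_le _ hg) (self_mem_Qv t), (ht.conj g).ne⟩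
    · obtain ⟨b, hb, e⟩ := b4 t (self_mem_Qv t) ht.ne v hv.1 hv.2
      exact ⟨b, b5 hb, e⟩
  obtain ⟨a, ha⟩ := IsPGroup.iff_card.1 h2
  obtain ⟨b, hb⟩ := c.pow
  rw [← b2]
  exact eq_of_dvd (b2.trans ha) hb c.cardV (b6 ▸ c.idx _ (fun e => by rw [e, index_top] at b6; omega)
    (b6.symm ▸ not_two_dvd.2 b3)) (w.dvd b3 fun n hn => (w.mem_norm_Qv ht).1 (b1 hn)) c.four

end Her
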