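import Cfsg.Agent.Lib.Her.DC2

/-!
# Groups with a normal subgroup `SL(2, F)` act on the projective line
-/

set_option autoImplicit false
set_option linter.unusedSectionVars false

namespace GW.DL

open Cfsg GT FT Matrix OnePoint Subgroup
open scoped commutatorElement

variable {F : Type*} [Field F] [DecidableEq F]

local notation "Ω" => OnePoint F

theorem isSquare_of_two [Finite F] (h2 : (2 : F) = 0) (y : F) : IsSquare y :=
  have := Fintype.ofFinite F
  FiniteField.isSquare_of_char_two (CharP.ringChar_of_prime_eq_zero Nat.prime_two h2) y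

/-- the normalizer of `PSL(2, F)` in the symmetric group is `PΓL(2, F)` -/
theorem mem_PGaL_of_conj' [Finite F] {π : Equiv.Perm Ω}
    (h : ∀ l ∈ PSL F, π * l * π⁻¹ ∈ PSL F) : π ∈ PGaL F := by
  obtain ⟨g, g1, g2, g3⟩ := exists_mob_three (a := π ∞) (b := π (0 : F)) (c := π (1 : F))
    (π.injective.ne (infty_ne_coe _)) (π.injective.ne (infty_ne_coe _))
    (π.injective.ne (by simp))
  refine (mul_mem_cancel_left (inv_mem (PGL_le_PGaL (mob_mem_PGL g)))).1 ?_
  have h' : ∀ l ∈ PSL F, (mob g)⁻¹ * π * l * ((mob g)⁻¹ * π)⁻¹ ∈ PSL F := fun l hl => by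
    have := conj_mem_PSL (inv_mem (PGL_le_PGaL (mob_mem_PGL g))) (h l hl)
    convert this using 1; group
  have e1 : ((mob g)⁻¹ * π) ∞ = ∞ := by simp [← g1]
  have e2 : ((mob g)⁻¹ * π) ((0 : F) : Ω) = (0 : F) := by simp [← g2]
  have e3 : ((mob g)⁻¹ * π) ((1 : F) : Ω) = (1 : F) := by simp [← g3]
  generalize (mob g)⁻¹ * π = ρ at h' e1 e2 e3
  have hf : ∀ x : F, ∃ y : F, ρ x = y := fun x => by
    obtain ⟨y, hy⟩ := ne_infty_iff_exists.1 (show ρ x ≠ ∞ from fun e =>
      coe_ne_infty _ (ρ.injective (e.trans e1.symm)))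
    exact ⟨y, hy.symm⟩
  choose f hf using hf
  have f0 : f 0 = 0 := coe_eq_coe.1 ((hf 0).symm.trans e2)
  have f1 : f 1 = 1 := coe_eq_coe.1 ((hf 1).symm.trans e3)
  have finj : Function.Injective f := fun x y e =>
    coe_eq_coe.1 (ρ.injective (by rw [hf, hf, e]))
  have key : ∀ a b ha, IsSquare a → ∃ c d : F, ∀ x, f (a * x + b) = c * f x + d :=
    fun a b ha hs => by
      obtain ⟨c, d, hc, e⟩ := exists_aff_of_mem_PGL (PSL_le_PGL (h' _ (aff_mem_PSL.2 hs :
        aff a b ha ∈ _))) (by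
          have : ρ⁻¹ ∞ = ∞ := by rw [← e1, p_inv_apply, e1]
          rw [Equiv.Perm.mul_apply, Equiv.Perm.mul_apply, this, aff_infty, e1])
      refine ⟨c, d, fun x => ?_⟩
      have := congrArg (· (ρ x)) e
      simp only [Equiv.Perm.mul_apply, p_inv_apply] at this
      simpa [hf] using this
  have fadd : ∀ x b, f (x + b) = f x + f b := fun x b => by
    obtain ⟨c, d, e⟩ := key 1 b one_ne_zero IsSquare.one
    have hd : d = f b := by simpa [f0] using (e 0).symm
    simp only [one_mul] at e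
    by_cases hb : b = 0
    · simp [hb, f0]
    by_cases hc : c = 1
    · rw [e, hc, hd, one_mul]
    obtain ⟨y, hy⟩ := (Finite.injective_iff_surjective.1 finj) (d / (1 - c))
    have : f (y + b) = f y := by
      rw [e, hy]; field_simp [sub_ne_zero.2 (Ne.symm hc)]; ring
    exact (hb (by simpa using finj this)).elim
  have fsq : ∀ a x, f (a * a * x) = f (a * a) * f x := fun a x => by
    by_cases ha : a = 0
    · simp [ha, f0]
    obtain ⟨c, d, e⟩ := key (a * a) 0 (mul_ne_zero ha ha) ⟨a, rfl⟩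
    have hd : d = 0 := by simpa [f0] using (e 0).symm
    have hc : c = f (a * a) := by simpa [f1, hd] using (e 1).symm
    simpa [hd, hc] using e x
  have fmul : ∀ y x, f (y * x) = f y * f x := fun y x => by
    by_cases h2 : (2 : F) = 0
    · obtain ⟨a, rfl⟩ := isSquare_of_two h2 y
      exact fsq a x
    have e : ∀ z, f (y * z) + f ((y - 1) / 2 * ((y - 1) / 2) * z) =
        f ((y + 1) / 2 * ((y + 1) / 2) * z) := fun z => by
      rw [← fadd]; congr 1; field_simp; ring
    have a := e x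
    have b := e 1
    rw [fsq, fsq] at a
    rw [mul_one, mul_one, mul_one] at b
    linear_combination a - f x * b
  let φ : F →+* F := ⟨⟨⟨f, f1⟩, fmul⟩, f0, fadd⟩
  exact ⟨1, RingEquiv.ofBijective φ ⟨finj, Finite.injective_iff_surjective.1 finj⟩,
    perm_ext (by simp [e1]) fun k => by rw [hf, map_one, one_mul]; rfl⟩

/-- `Aut PSL(2, F) = PΓL(2, F)`: a group with a normal subgroup `PSL(2, F)` acts on the
projective line. -/
theorem exists_model' [Finite F] {X : Type*} [Group X] {L : Subgroup X}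
    [hL : L.Normal] (e : L ≃* ProjectiveSpecialLinearGroup (Fin 2) F) :
    ∃ ι : X →* Equiv.Perm Ω, ι.ker = centralizer (L : Set X) ∧ L.map ι = PSL F ∧
      ι.range ≤ PGaL F := by
  let e' := e.trans (pslEquiv F)
  have h : ∀ x : X, ∃ π : Equiv.Perm Ω, ∀ l : L, π * e' l * π⁻¹ = e' (MulAut.conjNormal x l) :=
    fun x => by
      obtain ⟨π, hπ⟩ := exists_perm_of_aut (e'.symm.trans ((MulAut.conjNormal x).trans e'))
      exact ⟨π, fun l => by simpa using hπ (e' l)⟩
  choose ι hι using h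
  have uniq : ∀ (x : X) (π : Equiv.Perm Ω),
      (∀ l : L, π * e' l * π⁻¹ = e' (MulAut.conjNormal x l)) → ι x = π := fun x π hπ => by
    rw [← inv_mul_eq_one]
    refine eq_one_of_comm fun l hl => ?_
    obtain ⟨l, rfl⟩ : ∃ l' : L, (e' l' : Equiv.Perm Ω) = l := ⟨e'.symm ⟨l, hl⟩, by simp⟩
    have := (hπ l).trans (hι x l).symm
    calc _ = (ι x)⁻¹ * (π * e' l * π⁻¹) * π := by group
      _ = _ := by rw [this]; group
  let ι' : X →* Equiv.Perm Ω := MonoidHom.mk' ι fun x y => uniq _ _ fun l => by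
    rw [map_mul, MulAut.mul_apply, ← hι, ← hι]; group
  have hl : ∀ l : L, ι' l = e' l := fun l => uniq _ _ fun m => by
    rw [show MulAut.conjNormal (l : X) m = l * m * l⁻¹ from Subtype.ext (by simp)]; simp
  refine ⟨ι', ?_, ?_, ?_⟩
  · ext x
    rw [MonoidHom.mem_ker, mem_centralizer_iff]
    constructor
    · intro h l hl
      have := hι x ⟨l, hl⟩
      rw [show ι x = 1 from h, one_mul, inv_one, mul_one] at this
      have := congrArg Subtype.val (e'.injective (Subtype.ext this))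
      simp only [MulAut.conjNormal_apply] at this
      rw [eq_mul_inv_iff_mul_eq] at this
      exact this
    · intro h
      refine uniq _ _ fun l => ?_
      rw [show MulAut.conjNormal x l = l from Subtype.ext (by simp [← h l l.2])]; simp
  · ext π
    constructor
    · rintro ⟨l, hl', rfl⟩
      rw [hl ⟨l, hl'⟩]; exact (e' _).2
    · intro hπ
      exact ⟨e'.symm ⟨π, hπ⟩, (e'.symm ⟨π, hπ⟩).2, by rw [hl]; simp⟩
  · rintro _ ⟨x, rfl⟩
    refine mem_PGaL_of_conj' fun l hl => ?_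
    obtain ⟨l, rfl⟩ : ∃ l' : L, (e' l' : Equiv.Perm Ω) = l := ⟨e'.symm ⟨l, hl⟩, by simp⟩
    change ι x * _ * (ι x)⁻¹ ∈ _
    rw [hι]; exact (e' _).2


theorem perfect_SL2 [Fintype F] (h3 : 3 < Fintype.card F) : commutator (SpecialLinearGroup (Fin 2) F) = ⊤ := by
  obtain ⟨a, h0, h1⟩ := CT.SL2.exists_sq_ne_one (F := F) h3
  exact SL2.commutator_eq_top h0 h1

/-- the model for a normal subgroup `SL(2, F)` -/
theorem exists_model_sl [Fintype F] (h3 : 3 < Fintype.card F) {X : Type*} [Group X] {L : Subgroup X}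
    [hL : L.Normal] (e : L ≃* SpecialLinearGroup (Fin 2) F) :
    ∃ ι : X →* Equiv.Perm Ω, ι.ker = 𝐂(L) ∧ L.map ι = PSL F ∧ ι.range ≤ PGaL F := by
  let π := QuotientGroup.mk' 𝐂(L)
  let φ := (QuotientGroup.mk' (center (SpecialLinearGroup (Fin 2) F))).comp e.toMonoidHom
  have hk : (π.subgroupMap L).ker = φ.ker := by
    ext x
    have h1 : x ∈ (π.subgroupMap L).ker ↔ x.1 ∈ 𝐂(L) :=
      Subtype.ext_iff.trans (QuotientGroup.eq_one_iff _)
    rw [h1, show x ∈ φ.ker ↔ e x ∈ center _ from QuotientGroup.eq_one_iff _, mem_center_iff,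
      e.surjective.forall, mem_centralizer_iff]
    simp only [← map_mul, e.injective.eq_iff, Subtype.ext_iff]
    exact ⟨fun h y => h y y.2, fun h y hy => h ⟨y, hy⟩⟩
  have := hL.map π (QuotientGroup.mk'_surjective _)
  obtain ⟨ι, h1, h2, h4⟩ := exists_model' (L := L.map π)
    ((QuotientGroup.quotientKerEquivOfSurjective _ (π.subgroupMap_surjective L)).symm.trans
      ((QuotientGroup.quotientMulEquivOfEq hk).trans (QuotientGroup.quotientKerEquivOfSurjective φ
        ((QuotientGroup.mk'_surjective _).comp e.surjective))))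
  refine ⟨ι.comp π, le_antisymm (fun x hx => ?_) fun x hx => ?_, by rw [← Subgroup.map_map, h2], ?_⟩
  · have h5 : ⁅zpowers x, L⁆ ≤ 𝐂(L) := by
      rw [← QuotientGroup.ker_mk' 𝐂(L), ← Subgroup.map_eq_bot_iff, map_commutator, MonoidHom.map_zpowers,
        commutator_eq_bot_iff_le_centralizer, zpowers_le, ← h1]
      exact hx
    have h6 : ⁅L, L⁆ = L := by
      rw [← map_subtype_commutator, ← (commutator L).comap_map_eq_self_of_injective (f := e.toMonoidHom) e.injective,
        map_commutator_eq, MonoidHom.range_eq_top.2 e.surjective, ← _root_.commutator_def, perfect_SL2 h3, comap_top,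
        ← MonoidHom.range_eq_map, range_subtype]
    have h7 := commutator_eq_bot_iff_le_centralizer.2 h5
    rw [← zpowers_le, ← commutator_eq_bot_iff_le_centralizer, ← h6, commutator_comm]
    exact commutator_commutator_eq_bot_of_rotate (by rwa [commutator_comm L (zpowers x)]) h7
  · rw [MonoidHom.mem_ker, MonoidHom.comp_apply, show π x = 1 from (QuotientGroup.eq_one_iff x).2 hx, map_one]
  · rintro _ ⟨x, rfl⟩
    exact h4 ⟨_, rfl⟩

theorem isCyclic_ringAut [Finite F] : IsCyclic (RingAut F) := by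
  have := ringChar.charP F
  have : Fact (ringChar F).Prime := ⟨CharP.char_is_prime F _⟩
  letI := ZMod.algebra F (ringChar F)
  exact isCyclic_of_surjective (MulSemiringAction.toRingAut Gal(F/ZMod (ringChar F)) F) fun σ =>
    ⟨AlgEquiv.ofRingEquiv (f := σ) fun x => RingHom.congr_fun
      (RingHom.ext_zmod ((σ : F →+* F).comp (algebraMap _ F)) _) x, rfl⟩

/-- field automorphisms induced on a normal subgroup `SL(2, F)` -/
theorem exists_fa [Fintype F] (h3 : 3 < Fintype.card F) {X : Type*} [Group X] {L : Subgroup X}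
    [hL : L.Normal] (e : L ≃* SpecialLinearGroup (Fin 2) F) :
    ∃ θ : X →* RingAut F, L ⊔ 𝐂(L) ≤ θ.ker ∧ (∀ x ∈ θ.ker, ∀ y ∈ θ.ker, x ∉ L ⊔ 𝐂(L) → y ∉ L ⊔ 𝐂(L) →
      x * y ∈ L ⊔ 𝐂(L)) ∧ ((2 : F) = 0 → θ.ker ≤ L ⊔ 𝐂(L)) := by
  obtain ⟨ι, h1, h2, h4⟩ := exists_model_sl h3 e
  have h5 : ∀ x, x ∈ L ⊔ 𝐂(L) ↔ ι x ∈ PSL F := fun x => by rw [← h2, ← h1, ← comap_map_eq, mem_comap]
  let θ := fa.comp (ι.codRestrict _ fun x => h4 ⟨x, rfl⟩)
  have h6 : ∀ x, x ∈ θ.ker ↔ ι x ∈ PGL F := fun x => fa_eq_one_iff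
  simp only [SetLike.le_def, h5, h6, map_mul]
  refine ⟨θ, fun x hx => (h6 x).2 (PSL_le_PGL hx), fun x hx y hy => mul_mem_PSL ((h6 x).1 hx) ((h6 y).1 hy),
    fun h x hx => ?_⟩
  obtain ⟨g, hg⟩ := (h6 x).1 hx
  exact hg ▸ mob_mem_PSL.2 (isSquare_of_two h _)

end GW.DL
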