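import Cfsg.Agent.Lib.Her.SLf

/-!
# The quadratic group of an involution lies in the group generated by two elements of order three
-/

set_option autoImplicit false
set_option linter.unusedSectionVars false

namespace Her

open Cfsg GT FT GW Subgroup
open scoped Pointwise commutatorElement

universe u

section Ring
variable {E : Type*} [Ring E] (h2 : (2 : E) = 0) {y D : E}
include h2

theorem trc_sq (y : E) (n : ℕ) : (∑ i ∈ Finset.range n, y ^ 2 ^ i) * (∑ i ∈ Finset.range n, y ^ 2 ^ i) =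
    ∑ i ∈ Finset.range n, y ^ 2 ^ i + y + y ^ 2 ^ n := by
  induction n with
  | zero => simp [add_self' h2]
  | succ n ih =>
    have c : Commute (∑ i ∈ Finset.range n, y ^ 2 ^ i) (y ^ 2 ^ n) :=
      Commute.sum_left _ _ _ fun i _ => (Commute.refl y).pow_pow _ _
    rw [Finset.sum_range_succ, pow_succ 2 n, pow_mul, pow_two]
    linear_combination (norm := (noncomm_ring; simp [zs h2])) ih + c.eq

theorem trc_conj (hD : D * y = (y + 1) * D) (n : ℕ) :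
    D * ∑ i ∈ Finset.range n, y ^ 2 ^ i = (∑ i ∈ Finset.range n, y ^ 2 ^ i + n) * D := by
  induction n with
  | zero => simp
  | succ n ih =>
    have := (SemiconjBy.pow_right hD (2 ^ n)).eq
    rw [add_pow_two_pow h2 (Commute.one_right y), one_pow] at this
    rw [Finset.sum_range_succ, mul_add, ih, this, Nat.cast_succ]
    noncomm_ring

theorem eq_zero_of_shift (hD : D * y = (y + 1) * D) (h : y = 0 ∨ y = 1) : D = 0 := by
  rcases h with rfl | rfl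
  · simpa using hD.symm
  · simpa [add_self' h2] using hD

theorem eq_zero_of_trc {K : Subring E} (hK : ∀ k ∈ K, k ≠ 0 → ∃ k' ∈ K, k * k' = 1) (hy : y ∈ K) {n : ℕ} (hn : Odd n)
    (e : y ^ 2 ^ n = y) (hD : D * y = (y + 1) * D) : D = 0 := by
  have h1 := trc_sq h2 y n
  have h3 := trc_conj h2 hD n
  obtain ⟨m, hm⟩ := hn
  have h4 : (n : E) = 1 := by rw [hm]; push_cast; rw [h2, zero_mul, zero_add]
  rw [e, add_assoc, add_self' h2, add_zero] at h1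
  refine eq_zero_of_shift h2 (h4 ▸ h3) (or_iff_not_imp_left.2 fun h0 => ?_)
  obtain ⟨k, -, hk⟩ := hK _ (K.sum_mem fun i _ => K.pow_mem hy _) h0
  rw [← hk, ← h1, mul_assoc, hk, mul_one, h1]

end Ring

variable {L V : Type u} [Group L] [Finite L] [AddCommGroup V] [Finite V] [DistribMulAction L V] {ρ ρ' t : L}
  {Θ : AddMonoid.End V →+* Matrix (Fin 2) (Fin 2) (AddMonoid.End V)}

theorem exists_comm_Q {P Q : Subgroup L} (hP : IsPGroup 2 P) (hQ : IsPGroup 2 Q) (hn : P ≤ 𝐍(Q))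
    (hd : ∀ p ∈ P, p ∈ Q → p = 1) (h : ¬ Q ≤ 𝐂(P)) :
    ∃ s ∈ Q, ∃ δ ∈ P, δ * s * δ⁻¹ * s⁻¹ ≠ 1 ∧ δ * s * δ⁻¹ * s⁻¹ ∈ Q ⊓ 𝐂(P) := by
  have n0 : P ≤ 𝐍((Q ⊓ 𝐂(P) : Subgroup L)) := le_normalizer_inf hn (le_normalizer_centralizer le_normalizer)
  have key : ∀ x ∈ P ⊔ Q ⊓ 𝐂(P), x ∈ Q → x ∈ Q ⊓ 𝐂(P) := fun x hx h1 => by
    obtain ⟨p, hp, q, hq, rfl⟩ := (mem_sup_of_le_normalizer_right n0).1 hx
    rw [hd p hp ((mul_mem_cancel_right (mem_inf.1 hq).1).1 h1), one_mul]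
    exact hq
  obtain ⟨y, hy, y1⟩ := SetLike.exists_of_lt (lt_inf_normalizer_of_lt (hP.to_sup_of_normal_right' hQ hn)
    (lt_of_le_of_ne (sup_le_sup_left inf_le_left P) fun e => h fun x hx => (key x (e ▸ mem_sup_right hx) hx).2))
  obtain ⟨p, hp, s, hs, rfl⟩ := (mem_sup_of_le_normalizer_right hn).1 hy.1
  have h1 := (mul_mem_cancel_left (le_normalizer (mem_sup_left hp))).1 (mem_inf.1 hy).2
  by_contra! e
  refine y1 (mul_mem (mem_sup_left hp) (mem_sup_right ⟨hs, mem_centralizer_iff.2 fun δ hδ => by_contra fun h3 => ?_⟩))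
  refine e s hs δ hδ (fun h4 => h3 (mul_inv_eq_iff_eq_mul.1 (mul_inv_eq_one.1 h4))) (key _ ?_
    (mul_mem (conj_mem_of_mem_normalizer (hn hδ) hs) (inv_mem hs)))
  rw [mul_assoc, mul_assoc, ← mul_assoc s]
  exact mul_mem (mem_sup_left hδ) (conj_mem_of_mem_normalizer h1 (mem_sup_left (inv_mem hδ)))

theorem Wk.h4c1' (w : Wk L V)
    (sl : ∀ ρ', Pr ρ ρ' → ∃ (K : Subring (AddMonoid.End V)) (n : ℕ), Odd n ∧ (∀ k ∈ K, k ^ 2 ^ n = k) ∧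
      (∀ k ∈ K, k ≠ 0 → ∃ k' ∈ K, k * k' = 1) ∧ (en V ρ + en V ρ') * (en V ρ + en V ρ') ∈ K)
    (h : Pr ρ ρ') (ht : Inv t) (htJ : t ∈ Jg ρ ρ') (hi : t * ρ * t⁻¹ = ρ⁻¹) (f : Fm (en V ρ) (Nn V t) Θ)
    {K : Subring (AddMonoid.End V)} (S : SLd Θ ρ ρ' K) {P : Subgroup L} (hP : IsPGroup 2 P) (hJ : Jg ρ ρ' ≤ 𝐂(P))
    (hC : Qv V t ⊓ 𝐂(P) ≤ Jg ρ ρ') : Qv V t ≤ Jg ρ ρ' := by
  by_contra h0
  have h2 := w.two_eq
  have cm : ∀ δ ∈ P, ∀ g ∈ Jg ρ ρ', δ * g = g * δ := fun δ hδ g hg => hJ hg δ hδ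
  obtain ⟨s, hs, δ, hδ, c1, c2⟩ := exists_comm_Q hP (w.isPGroup_Qv ht)
    (fun p hp => cent1_le_norm_Qv t (mem_cent1.2 (cm p hp t htJ)))
    (fun p hp e => w.eq_one_of_Qv h.l ht hi e (cm p hp ρ (left_mem_Jg _ _))) fun e => h0 ((le_inf le_rfl e).trans hC)
  obtain ⟨x, hx⟩ := (w.mem_Qv_iff_u f ht).1 hs
  obtain ⟨k, hk⟩ := (w.mem_Qv_iff_u f ht).1 c2.1
  have kK : k ∈ K := by have := S.ent _ (hC c2) 0 1; rwa [hk] at this
  have e1 := congrArg (fun g => Θ (en V g)) (show δ * s = δ * s * δ⁻¹ * s⁻¹ * s * δ by group)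
  simp only [map_mul (en V) _ s, map_mul (en V) _ δ, map_mul Θ, hk, hx,
    w.th_scal f (cm δ hδ ρ (left_mem_Jg _ _)) (cm δ hδ t htJ), Matrix.mul_fin_two, mat_eq] at e1
  obtain ⟨k', k1, k2⟩ := S.inv k kK (mt (w.eq_one_iff f hk).2 c1)
  obtain ⟨μ, m1, m2⟩ := S.sqrt k' k1
  have := w.nontrivial
  obtain ⟨μ', m3, m4⟩ := S.inv μ m1 fun e => by simp [← m2, e] at k2
  have m5 : μ' * μ = 1 := by rw [S.mul_comm _ m3 _ m1, m4]
  obtain ⟨d, -, hd⟩ := S.surj μ m1 0 K.zero_mem 0 K.zero_mem μ' m3 (by rw [m4, zero_mul, add_zero])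
  obtain ⟨d', -, hd'⟩ := S.surj μ' m3 0 K.zero_mem 0 K.zero_mem μ m1 (by rw [m5, zero_mul, add_zero])
  have e2 : Θ (en V (d * s * d')) = !![1, μ * x * μ; 0, 1] := by
    simp [map_mul, hd, hx, hd', m4, m5]
  have cD : ∀ g ∈ Jg ρ ρ', Commute (en V δ) (en V g) := fun g hg => by
    rw [Commute, SemiconjBy, ← map_mul, cm δ hδ g hg, map_mul]
  have e3 := (S.comm μ m1 _ (cD ρ (left_mem_Jg _ _)) (cD ρ' (right_mem_Jg _ _))).eq
  have e4 : μ * k * μ = 1 := by rw [S.mul_comm _ m1 _ kK, mul_assoc, m2, k2]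
  have e5 : en V δ * (μ * x * μ) = (μ * x * μ + 1) * en V δ := by
    have := e1.2.1
    linear_combination (norm := noncomm_ring) μ * this * μ - e3 * x * μ - μ * (x + k) * e3 + e4 * en V δ
  have D0 : en V δ ≠ 0 := ((Group.isUnit δ).map (en V)).ne_zero
  obtain ⟨K', n, n1, n2, n3, n4⟩ := sl _ (w.pr_conj f h.l e2 (fun e => D0 (eq_zero_of_shift h2 e5 (.inl e)))
    fun e => D0 (eq_zero_of_shift h2 e5 (.inr e)))
  rw [w.c_eq f e2] at n4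
  refine D0 (eq_zero_of_trc h2 n3 n4 n1 (n2 _ n4) ?_)
  generalize μ * x * μ = z at e5
  linear_combination (norm := (noncomm_ring; simp [zs h2])) e5 * z + (z + 1) * e5

theorem Wk.h4c1 (w : Wk L V) (hA : NoA4 L) (h : Pr ρ ρ') (ht : Inv t) (htJ : t ∈ Jg ρ ρ') (hi : t * ρ * t⁻¹ = ρ⁻¹)
    {P : Subgroup L} (hP : IsPGroup 2 P) (hJ : Jg ρ ρ' ≤ 𝐂(P)) (hC : Qv V t ⊓ 𝐂(P) ≤ Jg ρ ρ') :
    4 ≤ Nat.card (Qv V t) ∧ Qv V t ≤ Jg ρ ρ' := by
  obtain ⟨Θ, f⟩ := w.exists_Fm h.l ht hi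
  obtain ⟨K, S⟩ := w.sl hA h ht htJ f
  obtain ⟨_, -, h8, -⟩ := S.frob
  refine ⟨by have := w.card_K_le f ht S; omega, w.h4c1' (fun ρ' h' => ?_) h ht htJ hi f S hP hJ hC⟩
  obtain ⟨t', a1, a2, a3⟩ := w.j4 hA h'
  obtain ⟨Θ', f'⟩ := w.exists_Fm h'.l a2 a3
  obtain ⟨K', S'⟩ := w.sl hA h' a2 a1 f'
  obtain ⟨n, n1, -, n2⟩ := S'.frob
  exact ⟨K', n, n1, n2, S'.inv,
    w.c_eq_tau h'.l h'.r ▸ S'.tau _ (mul_mem (inv_mem (left_mem_Jg _ _)) (right_mem_Jg _ _))⟩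

end Her
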