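import Cfsg.Agent.Lib.Her.SLf

/-!
# S4841, step 4 (c2): weak closure of `Q = u(K)`
-/

set_option autoImplicit false
set_option linter.unusedSectionVars false
set_option linter.unusedSimpArgs false

namespace Her

open Cfsg GT FT GW Subgroup
open scoped Pointwise commutatorElement

universe u

variable {L V : Type u} [Group L] [Finite L] [AddCommGroup V] [Finite V] [DistribMulAction L V] {ρ ρ' t : L}
  {Θ : AddMonoid.End V →+* Matrix (Fin 2) (Fin 2) (AddMonoid.End V)} {K : Subring (AddMonoid.End V)}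

theorem SLd.cancel (s : SLd Θ ρ ρ' K) {k x : AddMonoid.End V} (hk : k ∈ K) (h0 : k ≠ 0) (e : k * x = 0) : x = 0 := by
  obtain ⟨l, hl, e'⟩ := s.inv k hk h0
  rw [← one_mul x, ← e', s.mul_comm k hk l hl, mul_assoc, e, mul_zero]

namespace Wk
variable (w : Wk L V) (ht : Inv t) (f : Fm (en V ρ) (Nn V t) Θ) (s : SLd Θ ρ ρ' K)
include w ht f s

theorem exists_u {k : AddMonoid.End V} (hk : k ∈ K) : ∃ q ∈ Qv V t, Θ (en V q) = !![1, k; 0, 1] :=
  let ⟨q, _, e⟩ := s.surj 1 K.one_mem k hk 0 K.zero_mem 1 K.one_mem (by simp)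
  ⟨q, (w.mem_Qv_iff_u f ht).2 ⟨k, e⟩, e⟩

theorem cent_tri {x : L} (hx : x ∈ 𝐂(Qv V t)) :
    ∃ a b, Θ (en V x) = !![a, b; 0, a] ∧ ∀ k ∈ K, a * k = k * a := by
  have e := Matrix.eta_fin_two (Θ (en V x))
  generalize Θ (en V x) 0 0 = a, Θ (en V x) 0 1 = b, Θ (en V x) 1 0 = c, Θ (en V x) 1 1 = d at e
  have h1 : ∀ k ∈ K, k * c = 0 ∧ k * d = a * k := fun k hk => by
    obtain ⟨q, hq, e'⟩ := w.exists_u ht f s hk
    have := congrArg (fun g => Θ (en V g)) (mem_centralizer_iff.1 hx q hq)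
    simp only [map_mul, e, e', Matrix.mul_fin_two, mat_eq] at this
    exact ⟨by linear_combination (norm := noncomm_ring) this.1, by linear_combination (norm := noncomm_ring) this.2.1⟩
  obtain ⟨h2, h3⟩ := h1 1 K.one_mem
  rw [one_mul] at h2 h3
  rw [mul_one] at h3
  subst h2 h3
  exact ⟨_, _, e, fun k hk => (h1 k hk).2.symm⟩

/-- (S) -/
theorem cent_Q (hQ : Qv V t ≤ Jg ρ ρ') {x : L} (hx : x ∈ 𝐂(Qv V t)) :
    ∃ a, ∃ k ∈ K, Θ (en V x) = !![a, a * k; 0, a] ∧ ∀ k ∈ K, a * k = k * a := by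
  have h2 := w.two_eq
  obtain ⟨a, b, e, c⟩ := w.cent_tri ht f s hx
  obtain ⟨a', b', e', c'⟩ := w.cent_tri ht f s (inv_mem hx)
  have h1 : Θ (en V x⁻¹) * Θ (en V x) = 1 := by rw [← map_mul, ← map_mul, inv_mul_cancel, map_one, map_one]
  have h3 : Θ (en V x) * Θ (en V x⁻¹) = 1 := by rw [← map_mul, ← map_mul, mul_inv_cancel, map_one, map_one]
  rw [e, e', Matrix.mul_fin_two, Matrix.one_fin_two, mat_eq] at h1 h3
  simp only [mul_zero, add_zero] at h1 h3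
  have h4 : ∀ μ ∈ K, μ ≠ 0 → μ * (a' * b) * μ + a' * b ∈ K := fun μ hμ h0 => by
    obtain ⟨ν, hν, e1⟩ := s.inv μ hμ h0
    have e2 := (s.mul_comm ν hν μ hμ).trans e1
    obtain ⟨d, -, e3⟩ := s.surj μ hμ 0 K.zero_mem 0 K.zero_mem ν hν (by simpa using e1)
    obtain ⟨d', -, e4⟩ := s.surj ν hν 0 K.zero_mem 0 K.zero_mem μ hμ (by simpa using e2)
    have e5 : Θ (en V (x⁻¹ * (d * x * d'))) = !![1, μ * (a' * b) * μ + a' * b; 0, 1] := by
      simp only [map_mul, e, e', e3, e4, Matrix.mul_fin_two, mat_eq]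
      refine ⟨?_, ?_, by simp, ?_⟩
      · linear_combination (norm := noncomm_ring) h1.1 + a' * a * e1 - a' * c μ hμ * ν
      · linear_combination (norm := (noncomm_ring; simp [zs h2])) c' μ hμ * b * μ + h1.2.1 + b' * a * e2 +
          b' * c ν hν * μ
      · linear_combination (norm := noncomm_ring) h1.1 + a' * a * e2 - a' * c ν hν * μ
    have := s.ent _ (hQ ((w.mem_Qv_iff_u f ht).2 ⟨_, e5⟩)) 0 1
    rwa [e5] at this
  obtain ⟨μ, hμ, h0, h5⟩ := s.ex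
  have h6 := h4 μ hμ h0
  have h7 := h4 _ (K.add_mem hμ K.one_mem) fun e => h5 (eq_of_add' h2 e)
  have h8 := K.add_mem (K.add_mem (K.mul_mem hμ hμ) hμ) K.one_mem
  obtain ⟨l, hl, e1⟩ := s.inv _ h8 (s.no3 μ hμ)
  rw [s.mul_comm _ h8 l hl] at e1
  refine ⟨a, a' * b, ?_, by rw [e, ← mul_assoc, h3.1, one_mul], c⟩
  convert K.mul_mem hl (K.add_mem h6 (K.mul_mem hμ (K.add_mem h6 h7))) using 1
  linear_combination (norm := (noncomm_ring; simp [zs h2])) e1 * (a' * b)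

omit ht in
theorem scal_cent {x : L} {a : AddMonoid.End V} (e : Θ (en V x) = !![a, 0; 0, a]) (c : ∀ k ∈ K, a * k = k * a) :
    Jg ρ ρ' ≤ 𝐂[x] := fun g hg => mem_cent1.2 (w.inj_en f (by
  rw [map_mul, map_mul, map_mul, map_mul, e, Matrix.eta_fin_two (Θ (en V g)), Matrix.mul_fin_two, Matrix.mul_fin_two]
  simp [c _ (s.ent g hg _ _)]))

/-- (T) -/
theorem not_three (h : Pr ρ ρ') (hQ : Qv V t ≤ Jg ρ ρ') {x : L} (hx : x ∈ 𝐂(Qv V t)) : orderOf x ≠ 3 := fun h3 => by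
  have h2 := w.two_eq
  obtain ⟨a, k, hk, e, c⟩ := w.cent_Q ht f s hQ hx
  have h1 : Θ (en V x) * Θ (en V x) * Θ (en V x) = 1 := by
    rw [← pow_two, ← pow_succ, ← map_pow, ← map_pow, show 2 + 1 = orderOf x from h3.symm, pow_orderOf_eq_one, map_one, map_one]
  rw [e, Matrix.mul_fin_two, Matrix.mul_fin_two, Matrix.one_fin_two, mat_eq] at h1
  obtain rfl : k = 0 := by
    linear_combination (norm := (noncomm_ring; simp [zs h2])) h1.2.1 + h1.1 * k + a * c k hk * a + a * a * c k hk +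
      a * a * c k hk
  have h4 := w.scal_cent f s (by rw [e, mul_zero]) c
  have h5 : ∀ r ∈ Jg ρ ρ', orderOf r = 3 → zpowers r = zpowers x := fun r hr e =>
    w.oc.eq_of_card (by rw [Nat.card_zpowers, e]; decide) (by rw [Nat.card_zpowers, Nat.card_zpowers, e, h3])
      (zpowers_le.2 (centralizer_le_normalizer _ (by rw [centralizer_zpowers]; exact h4 hr)))
  exact h.ne ((h5 ρ (left_mem_Jg _ _) h.l).trans (h5 ρ' (right_mem_Jg _ _) h.r).symm)

end Wk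

/-- step (c2) -/
theorem Wk.h4c2 (w : Wk L V) (hA : NoA4 L) (h : Pr ρ ρ') (ht : Inv t) (htJ : t ∈ Jg ρ ρ') (hi : t * ρ * t⁻¹ = ρ⁻¹)
    (hQ : Qv V t ≤ Jg ρ ρ') : WC (Qv V t) := fun g hg => by
  have h2 := w.two_eq
  obtain ⟨Θ, f⟩ := w.exists_Fm h.l ht hi
  obtain ⟨K, s⟩ := w.sl hA h ht htJ f
  have hc : ∀ q ∈ Qv V t, g * q * g⁻¹ ∈ 𝐂(Qv V t) := fun q hq => conj_smul_le_iff.1 hg q hq
  obtain ⟨m, hm, m0, m1⟩ := s.ex
  obtain ⟨q1, hq1, e1⟩ := w.exists_u ht f s hm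
  obtain ⟨q2, hq2, e2⟩ := w.exists_u ht f s (K.mul_mem hm hm)
  obtain ⟨a0, k0, hk0, f0, c0⟩ := w.cent_Q ht f s hQ (hc t (self_mem_Qv t))
  obtain ⟨a1, k1, hk1, f1, c1⟩ := w.cent_Q ht f s hQ (hc q1 hq1)
  obtain ⟨a2, k2, hk2, f2, c2⟩ := w.cent_Q ht f s hQ (hc q2 hq2)
  have ht' := ht.conj g
  have n0 : k0 ≠ 0 := by
    rintro rfl
    have h3 := hA ρ h.l _ (w.isPGroup_Qv ht') (cent1_le_norm_Qv _
      (w.scal_cent f s (by rw [f0, mul_zero]) c0 (left_mem_Jg _ _)))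
    rw [← conj_Qv, ← conj_smul_centralizer, mem_conj_smul] at h3
    exact w.not_three ht f s h hQ h3 (by simpa [h.l] using GT.orderOf_conj' ρ g⁻¹)
  have hN : ∀ {x : L} {a b}, Θ (en V x) = !![a, b; 0, a] → Θ (Nn V x) = !![a + 1, b; 0, a + 1] := fun e => by
    rw [Nn, map_add, map_one, e, Matrix.one_fin_two]
    simp
  have h3 : ∀ q ∈ Qv V t, Θ (Nn V (g * q * g⁻¹)) * Θ (Nn V (g * t * g⁻¹)) = 0 := fun q hq => by
    rw [← map_mul, (w.mem_Qv_iff_Nn ht').1 ((conj_Qv g t).le (conj_mem_conj_smul.2 hq)), map_zero]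
  have h4 := h3 t (self_mem_Qv t)
  have h5 := h3 q1 hq1
  have h6 : ∀ Z, Θ (Nn V (g * t * g⁻¹)) * Z = Θ (Nn V (g * q1 * g⁻¹)) →
      Θ (Nn V (g * q1 * g⁻¹)) * Z = Θ (Nn V (g * q2 * g⁻¹)) := fun Z e => by
    have e3 : en V g⁻¹ * en V g = 1 := by rw [← map_mul, inv_mul_cancel, map_one]
    have e4 : Nn V (g * q1 * g⁻¹) = en V g * m * en V g⁻¹ * Nn V (g * t * g⁻¹) := by
      rw [w.Nn_conj, w.Nn_conj, w.Nn_eq f e1]
      simp only [mul_assoc, mul_of_eq e3, one_mul]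
    have e5 : Nn V (g * q2 * g⁻¹) = en V g * m * en V g⁻¹ * Nn V (g * q1 * g⁻¹) := by
      rw [w.Nn_conj, w.Nn_conj, w.Nn_eq f e1, w.Nn_eq f e2]
      simp only [mul_assoc, mul_of_eq e3, one_mul]
    rw [e5, map_mul, ← e, ← mul_assoc, ← map_mul, ← e4, e]
  obtain ⟨l, hl, e3⟩ := s.inv k0 hk0 n0
  obtain ⟨κ, hκ, rfl⟩ : ∃ κ ∈ K, k1 = κ * k0 :=
    ⟨k1 * l, K.mul_mem hk1 hl, by rw [mul_assoc, s.mul_comm l hl k0 hk0, e3, mul_one]⟩
  obtain ⟨γ, rfl⟩ : ∃ γ, a0 = γ + 1 := ⟨a0 + 1, by rw [add_assoc, w.add_self, add_zero]⟩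
  replace c0 : ∀ k ∈ K, γ * k = k * γ := fun k hk => by simpa [add_mul, mul_add] using c0 k hk
  rw [hN f0, hN f1, add_assoc, w.add_self, add_zero] at *
  rw [Matrix.mul_fin_two, Matrix.eta_fin_two 0, mat_eq] at h4 h5
  simp only [mul_zero, add_zero, Matrix.zero_apply] at h4 h5
  obtain rfl : a1 = κ * γ + 1 := by
    linear_combination (norm := (noncomm_ring; simp [zs h2])) h5.2.1 * l + h5.1 * k0 * l + (a1 + 1) * e3 +
      c1 _ hk1 * γ * l + κ * k0 * h5.1 * l + κ * c0 k0 hk0 * l + κ * γ * e3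
  have r1 := c0 κ hκ
  have r2 := c0 k0 hk0
  have r3 := c0 k2 hk2
  have r4 := s.mul_comm k0 hk0 κ hκ
  have h7 := h6 !![κ, 0; 0, κ + κ * (κ + 1) * γ] (by
    rw [Matrix.mul_fin_two, mat_eq]
    simp only [mul_add, add_mul, mul_assoc, mul_one, one_mul, mul_zero, zero_mul, add_zero, zero_add, r1, r2, r4, h4.1,
      mul_of_eq r1, mul_of_eq r2, mul_of_eq r4, w.add_self, true_and]
    abel_nf
    simp [zs h2])
  rw [hN f2, Matrix.mul_fin_two, mat_eq] at h7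
  obtain rfl : a2 = κ * κ * γ + 1 := by
    linear_combination (norm := (noncomm_ring; simp [zs h2])) h7.1 + κ * r1
  have h8 : k2 + κ * κ * k0 = κ * κ * (k2 + k0) * γ := by
    have := h7.2.1
    simp only [mul_add, add_mul, mul_assoc, mul_one, one_mul, mul_zero, zero_mul, add_zero, zero_add, r1, r2, r3, r4, h4.1,
      mul_of_eq r1, mul_of_eq r2, mul_of_eq r4, w.add_self] at this ⊢
    linear_combination (norm := (noncomm_ring; simp [zs h2])) this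
  obtain rfl : γ = 0 := by
    by_contra h0
    have h9 : k2 + κ * κ * k0 = 0 := by_contra fun e => h0 (s.cancel (K.add_mem hk2 (K.mul_mem (K.mul_mem hκ hκ) hk0)) e
      (by rw [h8, mul_assoc, h4.1, mul_zero]))
    have n1 : κ ≠ 0 := by
      rintro rfl
      exact m0 ((w.eq_one_iff f e1).1 (conj_eq_one_iff.1 ((w.eq_one_iff f (by simpa using f1)).2 rfl)))
    have n2 : κ + 1 ≠ 0 := fun e => by
      obtain rfl := eq_of_add' h2 e
      exact m1 ((w.eq_t_iff f e1).1 (conj_injective (w.inj_en f (by rw [f0, f1, one_mul, one_mul]))))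
    have hκ' := K.add_mem hκ K.one_mem
    refine h0 (s.cancel hk0 n0 (s.cancel hκ' n2 (s.cancel hκ' n2 (s.cancel hκ n1 (s.cancel hκ n1 ?_)))))
    linear_combination (norm := (noncomm_ring; simp [zs h2])) h8 + h9 + κ * κ * h9 * γ
  rw [conj_Qv, w.Qv_eq ht ((w.mem_Qv_iff_u f ht).2 ⟨_, by simpa using f0⟩) ht'.ne]

end Her
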