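import Cfsg.Agent.Lib.Her.SL0
import Cfsg.Agent.Lib.Her.Base

/-!
# S4841, step 4: the assembly of the case without `A₄` from five local statements
-/

set_option autoImplicit false

namespace Her

open Cfsg GT FT GW Subgroup
open scoped Pointwise commutatorElement

universe u

/-- the five local statements -/
structure H4 : Prop where
  j1 : ∀ {L V : Type u} [Group L] [Finite L] [AddCommGroup V] [Finite V] [DistribMulAction L V] {ρ ρ' : L}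
    (_ : Wk L V) (_ : NoA4 L) (_ : Pr ρ ρ') {z : L} (_ : z ∈ Jg ρ ρ') (_ : IsPElt 2 z)
    (_ : ρ * z = z * ρ) (_ : ρ' * z = z * ρ'), z = 1
  mem_Qv : ∀ {L V : Type u} [Group L] [Finite L] [AddCommGroup V] [Finite V] [DistribMulAction L V]
    {ρ ρ' t : L} (_ : Wk L V) (_ : NoA4 L) (_ : Pr ρ ρ') (_ : Inv t) (_ : t ∈ Jg ρ ρ')
    (_ : t * ρ * t⁻¹ = ρ⁻¹) {s : L} (_ : s ∈ Jg ρ ρ') (_ : s * t = t * s), s ∈ Qv V t
  eq_one : ∀ {L V : Type u} [Group L] [Finite L] [AddCommGroup V] [Finite V] [DistribMulAction L V]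
    {ρ t : L} (_ : Wk L V) (_ : orderOf ρ = 3) (_ : Inv t) (_ : t * ρ * t⁻¹ = ρ⁻¹) {s : L}
    (_ : s ∈ Qv V t) (_ : s * ρ = ρ * s), s = 1
  h4ab : ∀ {L V : Type u} [Group L] [Finite L] [AddCommGroup V] [Finite V] [DistribMulAction L V]
    {ρ ρ' : L} (_ : Wk L V) (_ : NoA4 L) (_ : Star L) (_ : Pr ρ ρ'), ∃ t1 t0 : L, Inv t1 ∧
    t1 * ρ * t1⁻¹ = ρ⁻¹ ∧ Pr ρ (t0 * ρ * t0⁻¹) ∧ Qv V t1 ≤ Jg ρ (t0 * ρ * t0⁻¹)
  h4c : ∀ {L V : Type u} [Group L] [Finite L] [AddCommGroup V] [Finite V] [DistribMulAction L V]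
    {ρ ρ' t : L} (_ : Wk L V) (_ : NoA4 L) (_ : Pr ρ ρ') (_ : Inv t) (_ : t ∈ Jg ρ ρ')
    (_ : t * ρ * t⁻¹ = ρ⁻¹) {P : Subgroup L} (_ : IsPGroup 2 P) (_ : Jg ρ ρ' ≤ 𝐂(P))
    (_ : Qv V t ⊓ 𝐂(P) ≤ Jg ρ ρ'), 4 ≤ Nat.card (Qv V t) ∧ WC (Qv V t)

theorem eq_one_of_cube {G : Type*} [Group G] {x : G} (h2 : IsPElt 2 x) (h3 : x ^ 3 = 1) : x = 1 :=
  h2.eq_one_of_isPRegular (isPRegular_of_pow_eq_one (by norm_num) h3)

theorem exists_pr {L : Type*} [Group L] [Finite L] [IsSimpleGroup L] (ns : ¬ Group.IsSolvable L)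
    (h3 : 3 ∣ Nat.card L) : ∃ ρ ρ' : L, Pr ρ ρ' := by
  have : Fact (Nat.Prime 3) := ⟨Nat.prime_three⟩
  obtain ⟨ρ, hρ⟩ := exists_prime_orderOf_dvd_card' 3 h3
  by_contra h
  have hn : (zpowers ρ).Normal := ⟨fun x hx g => by
    obtain ⟨k, rfl⟩ := mem_zpowers_iff.1 hx
    have : zpowers ρ = zpowers (g * ρ * g⁻¹) := by_contra fun e =>
      h ⟨ρ, _, hρ, (GT.orderOf_conj' ρ g).trans hρ, e⟩
    rw [this, ← conj_zpow]
    exact zpow_mem (mem_zpowers _) k⟩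
  rcases hn.eq_bot_or_eq_top with e | e
  · rw [zpowers_eq_bot.1 e, orderOf_one] at hρ
    omega
  · refine ns (Group.isSolvable_of_comm fun a b => ?_)
    obtain ⟨i, rfl⟩ := mem_zpowers_iff.1 (e ▸ mem_top a : a ∈ zpowers ρ)
    obtain ⟨j, rfl⟩ := mem_zpowers_iff.1 (e ▸ mem_top b : b ∈ zpowers ρ)
    exact zpow_mul_comm _ _ _

variable {L V : Type u} [Group L] [Finite L] [AddCommGroup V] [Finite V] [DistribMulAction L V]

theorem H4.noA4 (S : H4.{u}) (w : Wk L V) [IsSimpleGroup L] (ns : ¬ Group.IsSolvable L)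
    (h3 : 3 ∣ Nat.card L) (hA : NoA4 L) : ∃ t : L, Inv t ∧ 4 ≤ Nat.card (Qv V t) ∧ WC (Qv V t) := by
  have : Fact (Nat.Prime 3) := ⟨Nat.prime_three⟩
  obtain ⟨P, -, hmax⟩ := Finite.exists_le_maximal
    (p := fun X : Subgroup L => IsPGroup 2 X ∧ ∃ ρ ρ', Pr ρ ρ' ∧ ρ ∈ 𝐂(X) ∧ ρ' ∈ 𝐂(X)) (a := ⊥) (by
      obtain ⟨ρ, ρ', h⟩ := exists_pr ns h3
      exact ⟨IsPGroup.of_bot, ρ, ρ', h, le_cent_comm.1 bot_le (mem_top _),
        le_cent_comm.1 bot_le (mem_top _)⟩)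
  obtain ⟨hP, ρ, ρ', hρ, c1, c2⟩ := hmax.prop
  have hU : Fx V P ≠ ⊥ := by
    have := w.nt
    obtain ⟨v, -, h0, hv⟩ := w.exists_fixed hP (U := ⊤) (fun _ _ _ _ => trivial) top_ne_bot
    exact fun e => h0 (AddSubgroup.mem_bot.1 (e ▸ hv))
  obtain ⟨Γ, _, _, _, π, hs, hπ, hf, hk⟩ := exists_restrict 𝐍(P) (Fx V P) fun n hn u hu g hg => by
    rw [← smul_inv_smul n (g • n • u), smul_smul n⁻¹, smul_smul (n⁻¹ * g),
      hu _ ((mem_normalizer_iff''.1 hn g).1 hg)]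
  have hker : IsPGroup 2 π.ker := hk ▸ (w.isPGroup_Cn hU).comap_subtype
  have k1 : ∀ n : 𝐍(P), n.1 ∈ P → π n = 1 := fun n hn =>
    show n ∈ π.ker from hk ▸ fun v hv => hv _ hn
  let pre : Subgroup Γ → Subgroup L := fun Y => (Y.comap π).map 𝐍(P).subtype
  have p1 : ∀ Y : Subgroup Γ, IsPGroup 2 Y → IsPGroup 2 (pre Y) := fun Y hY =>
    (hY.comap_of_ker_isPGroup π hker).map _
  have p2 : ∀ Y (n : 𝐍(P)), π n ∈ 𝐍(Y) → n.1 ∈ 𝐍(pre Y) := fun Y n h =>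
    le_normalizer_map _ (mem_map_of_mem _ (le_normalizer_comap π h))
  have K : ∀ Y : Subgroup Γ, IsPGroup 2 Y → ∀ a b : 𝐍(P), Pr a.1 b.1 → π a ∈ 𝐍(Y) → π b ∈ 𝐍(Y) →
      ∀ n : 𝐍(P), π n ∈ Y → n.1 ∈ P := fun Y hY a b h ha hb n hn =>
    hmax.le_of_ge ⟨p1 Y hY, a, b, h, hA _ h.l _ (p1 Y hY) (p2 Y a ha), hA _ h.r _ (p1 Y hY) (p2 Y b hb)⟩
      (fun p hp => ⟨⟨p, le_normalizer hp⟩, show π _ ∈ Y by rw [k1 _ hp]; exact one_mem _, rfl⟩)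
      ⟨n, hn, rfl⟩
  let r : 𝐍(P) := ⟨ρ, cent_le_norm P c1⟩
  let r' : 𝐍(P) := ⟨ρ', cent_le_norm P c2⟩
  have k2 : ∀ n : 𝐍(P), π n = 1 → n.1 ∈ P := fun n hn =>
    K ⊥ IsPGroup.of_bot r r' hρ (le_normalizer_of_normal (mem_top _))
      (le_normalizer_of_normal (mem_top _)) n hn
  have lift : ∀ g : Γ, orderOf g = 3 → ∃ n : 𝐍(P), orderOf n.1 = 3 ∧ π n = g := fun g hg => by
    obtain ⟨n, h1, rfl⟩ := IsPElt.exists_lift (p := 3) hs (y := g) ⟨1, hg⟩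
    refine ⟨n, ?_, rfl⟩
    rw [orderOf_coe]
    refine orderOf_eq_prime ((h1.pow 3).eq_one_of_isPRegular
      ((isPElt_of_mem hker ?_).isPRegular_of_ne (by norm_num))) fun e => ?_
    · rw [MonoidHom.mem_ker, map_pow, ← hg, pow_orderOf_eq_one]
    · rw [e, map_one, orderOf_one] at hg; omega
  have ord : ∀ n : 𝐍(P), orderOf n.1 = 3 → orderOf (π n) = 3 := fun n hn => by
    have h1 : n.1 ^ 3 = 1 := hn ▸ pow_orderOf_eq_one _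
    refine orderOf_eq_prime (by rw [← map_pow, show n ^ 3 = 1 from Subtype.ext h1, map_one]) fun e => ?_
    rw [eq_one_of_cube (isPElt_of_mem hP (k2 n e)) h1, orderOf_one] at hn
    omega
  have zp : ∀ a b : 𝐍(P), zpowers a.1 ≤ zpowers b.1 → zpowers (π a) ≤ zpowers (π b) := fun a b h => by
    obtain ⟨k, hk⟩ := mem_zpowers_iff.1 (zpowers_le.1 h)
    exact zpowers_le.2 (mem_zpowers_iff.2 ⟨k, by rw [← map_zpow]; exact congrArg π (Subtype.ext hk)⟩)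
  have up : ∀ a b : 𝐍(P), orderOf a.1 = 3 → orderOf b.1 = 3 → Pr (π a) (π b) → Pr a.1 b.1 :=
    fun a b ha hb h => ⟨ha, hb, fun e => h.ne (le_antisymm (zp a b e.le) (zp b a e.ge))⟩
  have zp' : ∀ a b : 𝐍(P), a.1 ∈ 𝐂(P) → orderOf a.1 = 3 → orderOf b.1 = 3 →
      zpowers (π b) ≤ zpowers (π a) → zpowers b.1 ≤ zpowers a.1 := fun a b hc ha hb h => by
    obtain ⟨k, hk⟩ := mem_zpowers_iff.1 (zpowers_le.1 h)
    have h1 : (a.1 ^ k)⁻¹ * b.1 ∈ P := k2 ((a ^ k)⁻¹ * b) (by rw [map_mul, map_inv, map_zpow, hk, inv_mul_cancel])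
    have h2 : Commute (a.1 ^ k) ((a.1 ^ k)⁻¹ * b.1) := (zpow_mem hc k _ h1).symm
    have h3 := h2.mul_pow 3
    rw [mul_inv_cancel_left, ← zpow_natCast (a.1 ^ k), ← zpow_mul, mul_comm k, zpow_mul, zpow_natCast,
      ← hb, pow_orderOf_eq_one, hb, ← ha, pow_orderOf_eq_one, ha, one_zpow, one_mul] at h3
    rw [← inv_mul_eq_one.1 (eq_one_of_cube (isPElt_of_mem hP h1) h3.symm)]
    exact zpowers_le.2 (zpow_mem (mem_zpowers _) k)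
  have hρ' : Pr (π r) (π r') := ⟨ord r hρ.l, ord r' hρ.r, fun e =>
    hρ.ne (le_antisymm (zp' r' r c2 hρ.r hρ.l e.le) (zp' r r' c1 hρ.l hρ.r e.ge))⟩
  have w' : Wk Γ (Fx V P) := by
    refine Wk.of hf (fun u hu => ?_) (fun u => Subtype.ext (w.exp _))
      ((AddSubgroup.nontrivial_iff_ne_bot _).2 hU) ((w.oc.sub _).of_surj hs hker)
      (eq_bot_iff.2 fun g hg => ?_)
    · refine (((w.two u.1 fun e => hu (Subtype.ext e)).comap_subtype (K := 𝐍(P))).map π).to_le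
        fun g hg => ?_
      obtain ⟨n, rfl⟩ := hs g
      exact ⟨n, (hπ n u).symm.trans (congrArg Subtype.val hg), rfl⟩
    · obtain ⟨n, rfl⟩ := hs g
      exact k1 n (K _ (isPGroup_Op 2 ⊤) r r' hρ (le_norm_piCoreOf _ _ (mem_top _))
        (le_norm_piCoreOf _ _ (mem_top _)) n hg)
  have hA' : NoA4 Γ := fun g hg E hE hn e he => by
    obtain ⟨n, h1, rfl⟩ := lift g hg
    obtain ⟨m, rfl⟩ := hs e
    rw [← map_mul, ← map_mul]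
    exact congrArg π (Subtype.ext (hA _ h1 _ (p1 E hE) (p2 E n hn) m ⟨m, he, rfl⟩))
  have st : Star Γ := fun z g g' hz h e e' => by
    obtain ⟨n, h1, rfl⟩ := lift g h.l
    obtain ⟨n', h1', rfl⟩ := lift g' h.r
    obtain ⟨m, rfl⟩ := hs z
    exact hz.ne (k1 m (K _ hz.isPGroup n n' (up n n' h1 h1' h)
      (cent_le_norm _ (le_cent1_iff.1 (zpowers_le.2 (mem_cent1.2 e.symm))))
      (cent_le_norm _ (le_cent1_iff.1 (zpowers_le.2 (mem_cent1.2 e'.symm)))) m (mem_zpowers _)))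
  obtain ⟨t1, t0, ht1, hi1, hpr, hQ⟩ := S.h4ab w' hA' st hρ'
  obtain ⟨s0, rfl⟩ := hs t0
  rw [← map_inv, ← map_mul, ← map_mul] at hpr hQ
  generalize hr : s0 * r * s0⁻¹ = r'' at hpr hQ
  have c3 : r''.1 ∈ 𝐂(P) := hr ▸ fun p hp => by
    have := c1 _ ((mem_normalizer_iff''.1 s0.2 p).1 hp)
    change p * (s0.1 * ρ * s0.1⁻¹) = s0.1 * ρ * s0.1⁻¹ * p
    calc p * (s0.1 * ρ * s0.1⁻¹) = s0.1 * (s0.1⁻¹ * p * s0.1 * ρ) * s0.1⁻¹ := by group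
      _ = _ := by rw [this]; group
  have hp : Pr ρ r''.1 := up r r'' hρ.l (hr ▸ (GT.orderOf_conj' ρ s0.1).trans hρ.l) hpr
  have hJ : Jg ρ r''.1 ≤ 𝐂(P) := Jg_le c1 c3
  have j1 : ∀ g ∈ Jg (π r) (π r''), ∃ n : 𝐍(P), n.1 ∈ Jg ρ r''.1 ∧ π n = g := fun g hg => by
    rw [Jg, ← Set.image_pair, ← MonoidHom.map_closure] at hg
    obtain ⟨n, hn, rfl⟩ := hg
    refine ⟨n, ?_, rfl⟩
    have := mem_map_of_mem 𝐍(P).subtype hn
    rwa [MonoidHom.map_closure, Set.image_pair] at this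
  have j2 : ∀ a b : 𝐍(P), a.1 ∈ Jg ρ r''.1 → b.1 ∈ Jg ρ r''.1 → π a = π b → a.1 = b.1 :=
    fun a b ha hb e => by
      have h1 : a.1 * b.1⁻¹ ∈ P := k2 (a * b⁻¹) (by rw [map_mul, map_inv, e, mul_inv_cancel])
      exact mul_inv_eq_one.1 (S.j1 w hA hp (mul_mem ha (inv_mem hb)) (isPElt_of_mem hP h1)
        (c1 _ h1).symm (c3 _ h1).symm)
  obtain ⟨t, htJ, rfl⟩ := j1 t1 (hQ (self_mem_Qv _))
  have ht : Inv t.1 := ⟨fun e => ht1.ne (by rw [show t = 1 from Subtype.ext e, map_one]),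
    j2 (t * t) 1 (mul_mem htJ htJ) (one_mem _) (by rw [map_mul, ht1.sq, map_one])⟩
  have hi : t.1 * ρ * t.1⁻¹ = ρ⁻¹ := j2 (t * r * t⁻¹) r⁻¹
    (mul_mem (mul_mem htJ (left_mem_Jg _ _)) (inv_mem htJ)) (inv_mem (left_mem_Jg _ _))
    (by rw [map_mul, map_mul, map_inv, hi1, map_inv])
  refine ⟨t, ht, S.h4c w hA hp ht htJ hi hP hJ fun s ⟨hs1, hs2⟩ => ?_⟩
  let s' : 𝐍(P) := ⟨s, cent_le_norm P hs2⟩
  have h1 : π s' ∈ Qv (Fx V P) (π t) := fun u hu => Subtype.ext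
    ((hπ s' u).trans (hs1 _ ((hπ t u).symm.trans (congrArg Subtype.val hu))))
  obtain ⟨n, hn, e⟩ := j1 _ (hQ h1)
  have h2 : n.1 ∈ Qv V t.1 := S.mem_Qv w hA hp ht htJ hi hn (j2 (n * t) (t * n) (mul_mem hn htJ)
    (mul_mem htJ hn) (by
      rw [map_mul, map_mul, e]
      exact w'.Qv_le_cent ht1 (self_mem_Qv _) _ h1))
  have h3 : s * n.1⁻¹ ∈ P := k2 (s' * n⁻¹) (by rw [map_mul, map_inv, e, mul_inv_cancel])
  rw [mul_inv_eq_one.1 (S.eq_one w hρ.l ht hi (mul_mem hs1 (inv_mem h2)) (c1 _ h3))]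
  exact hn

end Her
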