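import Cfsg.Agent.Lib.Her.NoA4a
import Cfsg.Agent.Lib.Her.NoA4b
import Cfsg.Agent.Lib.Her.NoA4c
import Cfsg.Agent.Lib.Her.NoA4z

/-!
# S4841, steps 3 and 4: the case without `A₄`
-/

set_option autoImplicit false

namespace Her

open Cfsg GT FT GW Subgroup
open scoped Pointwise commutatorElement

universe u

variable {L V : Type u} [Group L] [Finite L] [AddCommGroup V] [Finite V] [DistribMulAction L V]

theorem Wk.noA4 (_ : Hc 2 L V) (w : Wk L V) [IsSimpleGroup L] (ns : ¬ Group.IsSolvable L) (h3 : 3 ∣ Nat.card L)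
    (hA : NoA4 L) : ∃ t : L, Inv t ∧ 4 ≤ Nat.card (Qv V t) ∧ WC (Qv V t) :=
  H4.noA4 ⟨fun w hA h _ => w.j1 hA h, fun w hA h ht htJ hi _ => w.mem_Qv_of_comm hA h ht htJ hi,
    fun w h ht hi _ => w.eq_one_of_Qv h ht hi, fun w hA st h => w.h4ab hA st h,
    fun w hA h ht htJ hi _ hP hJ hC => let c := w.h4c1 hA h ht htJ hi hP hJ hC
      ⟨c.1, w.h4c2 hA h ht htJ hi c.2⟩⟩ w ns h3 hA

end Her
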