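import Cfsg.Agent.Lib.Her.SLf

/-!
# S4841, step 4 (a), (b): no involution centralizes two subgroups of order three
-/

set_option autoImplicit false
set_option linter.unusedSectionVars false

namespace Her

open Cfsg GT FT GW Subgroup
open scoped Pointwise commutatorElement

universe u

variable {L V : Type u} [Group L] [Finite L] [AddCommGroup V] [Finite V] [DistribMulAction L V] {ρ ρ' t s g z : L}
  {Θ : AddMonoid.End V →+* Matrix (Fin 2) (Fin 2) (AddMonoid.End V)} {K : Subring (AddMonoid.End V)}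
  {x a b : AddMonoid.End V}

/-- the endomorphisms with entries in `K` -/
def alg (Θ : AddMonoid.End V →+* Matrix (Fin 2) (Fin 2) (AddMonoid.End V)) (K : Subring (AddMonoid.End V)) :
    Subring (AddMonoid.End V) where
  carrier := {A | ∀ i j, Θ A i j ∈ K}
  zero_mem' i j := by rw [map_zero]; exact K.zero_mem
  one_mem' i j := by
    rw [map_one, Matrix.one_apply]
    split_ifs
    exacts [K.one_mem, K.zero_mem]
  add_mem' h1 h2 i j := by rw [map_add]; exact K.add_mem (h1 i j) (h2 i j)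
  neg_mem' h1 i j := by rw [map_neg]; exact K.neg_mem (h1 i j)
  mul_mem' h1 h2 i j := by
    rw [map_mul, Matrix.mul_apply]
    exact K.sum_mem fun k _ => K.mul_mem (h1 i k) (h2 k j)

theorem SLd.le_alg (S : SLd Θ ρ ρ' K) (hx : x ∈ K) : x ∈ alg Θ K := fun i j => by
  rw [S.sc x hx]
  fin_cases i <;> fin_cases j
  exacts [hx, K.zero_mem, K.zero_mem, hx]

theorem SLd.comm_alg (S : SLd Θ ρ ρ' K) (hi : Function.Injective Θ) (ha : a ∈ K) (hx : x ∈ alg Θ K) :
    a * x = x * a := hi (by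
  rw [map_mul, map_mul, S.sc a ha]
  ext i j
  fin_cases i <;> fin_cases j <;> simp [Matrix.mul_apply, S.mul_comm a ha _ (hx _ _)])

theorem SLd.exists_en (S : SLd Θ ρ ρ' K) (h2 : (2 : AddMonoid.End V) = 0) (hi : Function.Injective Θ)
    (hx : x ∈ alg Θ K) (e : x * x = 1) : ∃ g ∈ Jg ρ ρ', en V g = x := by
  have e' := congrArg Θ e
  rw [map_mul, map_one] at e'
  have a1 : Θ x 0 0 * Θ x 0 0 + Θ x 0 1 * Θ x 1 0 = 1 := by simpa [Matrix.mul_apply] using congrFun (congrFun e' 0) 0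
  have a2 : Θ x 1 0 * Θ x 0 1 + Θ x 1 1 * Θ x 1 1 = 1 := by simpa [Matrix.mul_apply] using congrFun (congrFun e' 1) 1
  have a3 : Θ x 0 0 = Θ x 1 1 := eq_of_add' h2 (by_contra fun h0 => h0 (by
    obtain ⟨k, -, hk⟩ := S.inv _ (K.add_mem (hx 0 0) (hx 1 1)) h0
    have c1 := S.mul_comm _ (hx 0 0) _ (hx 1 1)
    have c2 := S.mul_comm _ (hx 0 1) _ (hx 1 0)
    linear_combination (norm := (noncomm_ring; simp [zs h2])) (Θ x 0 0 + Θ x 1 1) * hk + (a1 + a2 + c1 + c2) * k))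
  obtain ⟨g, hg, e1⟩ := S.surj _ (hx 0 0) _ (hx 0 1) _ (hx 1 0) _ (hx 1 1) (a3 ▸ a1)
  exact ⟨g, hg, hi (e1.trans (Matrix.eta_fin_two _).symm)⟩

theorem th_inv_of {B : Matrix (Fin 2) (Fin 2) (AddMonoid.End V)} (e : Θ (en V g) * B = 1) : Θ (en V g⁻¹) = B := by
  rw [← mul_one (Θ _), ← e, ← mul_assoc, ← map_mul, ← map_mul, inv_mul_cancel, map_one, map_one, one_mul]

theorem th_inv_diag (e : Θ (en V g) = !![a, 0; 0, b]) {a' b' : AddMonoid.End V} (h1 : a * a' = 1) (h2 : b * b' = 1) :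
    Θ (en V g⁻¹) = !![a', 0; 0, b'] :=
  th_inv_of (by rw [e, Matrix.mul_fin_two, Matrix.one_fin_two]; simp [h1, h2])

theorem SLd.exists_d (S : SLd Θ ρ ρ' K) (hx : x ∈ K) (h0 : x ≠ 0) :
    ∃ (d : L) (a b : AddMonoid.End V), Θ (en V d) = !![a, 0; 0, b] ∧ a * b = 1 ∧ b * a = 1 ∧ a * a = x := by
  obtain ⟨a, ha, rfl⟩ := S.sqrt x hx
  obtain ⟨b, hb, e⟩ := S.inv a ha fun e => h0 (by rw [e, mul_zero])
  obtain ⟨d, -, hd⟩ := S.surj a ha 0 K.zero_mem 0 K.zero_mem b hb (by rw [e, mul_zero, add_zero])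
  exact ⟨d, a, b, hd, e, S.mul_comm a ha b hb ▸ e, rfl⟩

namespace Wk
variable (w : Wk L V) (hA : NoA4 L) (st : Star L)
include w hA st

theorem no_inv (h : Pr ρ ρ') (hz : Inv z) (hc : ρ * z = z * ρ) : False := by
  have h2 := w.two_eq
  obtain ⟨t, htJ, ht, hi⟩ := w.j4 hA h
  obtain ⟨Θ, f⟩ := w.exists_Fm h.l ht hi
  obtain ⟨K, S⟩ := w.sl hA h ht htJ f
  have hn : zpowers t ≤ 𝐍(𝐂[ρ]) := zpowers_le_of_mem (mem_normalizer_fintype fun n hn => mem_cent1.2 (by
    have e : Commute n ρ⁻¹ := Commute.inv_right (mem_cent1.1 hn)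
    have e' : ρ = t * ρ⁻¹ * t⁻¹ := by rw [← conj_inv, hi, inv_inv]
    rw [e', conj_mul, conj_mul, e.eq]))
  obtain ⟨T, hT, htT⟩ := exists_isSylowIn_ge ht.isPElt.isPGroup_zpowers hn
  have hD := hT.inf_of_le_normalizer le_normalizer le_rfl
  obtain ⟨y, hy, y1⟩ := exists_ne_one_of_ne_bot (inf_centralizer_ne_bot_of_isPGroup ht.isPElt.isPGroup_zpowers hD.isPGroup
    (hD.ne_bot (hz.orderOf ▸ (𝐂[ρ]).orderOf_dvd_natCard (mem_cent1.2 hc.symm)))
    (le_normalizer_inf (htT.trans le_normalizer) hn))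
  obtain ⟨z, hz, z2, z1⟩ := exists_mul_self_mem_zpowers (isPElt_of_mem hD.isPGroup hy.1) y1
  replace hz := zpowers_le_of_mem hy hz
  have c1 : z * ρ = ρ * z := mem_cent1.1 hz.1.2
  have e1 := w.th_scal f c1 (hz.2 t (mem_zpowers t)).symm
  have e2 : en V z * en V z = 1 := by rw [← map_mul, z2, map_one]
  have key : ∀ s x, Θ (en V s) = !![1, x; 0, 1] → en V z * x = x * en V z → x ≠ 0 → x = 1 := fun s x e c h0 =>
    by_contra fun h1 => st z _ _ ⟨z1, z2⟩ (w.pr_conj f h.l e h0 h1) c1.symm (by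
      have : Commute s z := w.inj_en f (by
        rw [map_mul, map_mul, map_mul, map_mul, e, e1, Matrix.mul_fin_two, Matrix.mul_fin_two]
        simp [c])
      exact ((this.mul_left c1.symm).mul_left this.inv_left).eq)
  obtain ⟨k, hk, k0, k1⟩ := S.ex
  obtain ⟨s, -, hs⟩ := S.surj 1 K.one_mem k hk 0 K.zero_mem 1 K.one_mem (by simp)
  obtain ⟨s', -, hs'⟩ := S.surj 1 K.one_mem _ (K.add_mem (K.mul_mem hk hk) hk) 0 K.zero_mem 1 K.one_mem (by simp)
  have e3 := key (s * (z * s * z)) (en V z * k * en V z + k) (by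
    simp only [map_mul, hs, e1, Matrix.mul_fin_two]
    simp [e2]) (by linear_combination (norm := noncomm_ring) e2 * k * en V z - en V z * k * e2)
    fun e => k1 (key s k hs (by
      linear_combination (norm := (noncomm_ring; simp [zs h2])) e * en V z + en V z * k * e2) k0)
  have e4 : en V z * k = (k + 1) * en V z := by
    linear_combination (norm := (noncomm_ring; simp [zs h2])) e3 * en V z + en V z * k * e2
  obtain ⟨k', -, e5⟩ := S.inv k hk k0
  refine S.no3 k hk ?_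
  rw [key s' _ hs' (by linear_combination (norm := (noncomm_ring; simp [zs h2])) e4 * k + k * e4) fun e => k1 ?_,
    w.add_self]
  have := S.mul_comm
  linear_combination (norm := (noncomm_ring; simp [zs h2])) e * k' + k * e5 + e5

variable (hρ : orderOf ρ = 3) (ht : Inv t) (f : Fm (en V ρ) (Nn V t) Θ)
include hρ ht f

theorem exists_K (e : Θ (en V s) = !![1, x; 0, 1]) (h0 : x ≠ 0) (h1 : x ≠ 1) :
    ∃ K, SLd Θ ρ (s * ρ * s⁻¹) K ∧ x ∈ K := by
  have h2 := w.two_eq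
  have := w.nontrivial
  have h := w.pr_conj f hρ e h0 h1
  have hs := w.sq_of_mem ht ((w.mem_Qv_iff_u f ht).2 ⟨x, e⟩)
  have hc := w.c_eq f e
  obtain ⟨t', htJ, ht', hi⟩ := w.j4 hA h
  obtain ⟨Θ', f'⟩ := w.exists_Fm h.l ht' hi
  obtain ⟨K, S⟩ := w.sl hA h ht' htJ f'
  have e1 : s * ρ = s * ρ * s⁻¹ * s := by group
  have e2 : s * (s * ρ * s⁻¹) = ρ * s := by
    rw [← mul_assoc, ← mul_assoc, hs, one_mul, inv_eq_of_mul_eq_one_right hs]
  generalize s * ρ * s⁻¹ = ρ' at *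
  have l := left_mem_Jg ρ ρ'
  have r := right_mem_Jg ρ ρ'
  have hx : x * x ∈ K := hc ▸ w.c_eq_tau h.l h.r ▸ S.tau _ (mul_mem (inv_mem l) r)
  have u1 : IsUnit (x + 1) := w.isUnit_x f ht (s := t * s) (by
    rw [map_mul, map_mul, e, w.th_t f, Matrix.mul_fin_two]; simp) fun e => h1 (eq_of_add' h2 e)
  obtain ⟨m, hm, e3⟩ := S.sqrt _ (K.add_mem hx K.one_mem)
  obtain ⟨m', hm', e4⟩ := S.inv m hm fun e => (u1.mul u1).ne_zero (by
    rw [e] at e3
    linear_combination (norm := (noncomm_ring; simp [zs h2])) e3)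
  have e5 : m' * m = 1 := S.mul_comm m hm m' hm' ▸ e4
  have q := w.qd h.l h.r
  have c1 := S.comm_alg f'.inj hm' (S.ent _ l)
  have c2 := S.comm_alg f'.inj hm' (S.ent _ r)
  have c3 := S.mul_comm m hm m' hm'
  obtain ⟨v, hv, e6⟩ := S.exists_en h2 f'.inj (x := m' * (en V ρ + en V ρ' + 1))
    (mul_mem (S.le_alg hm') (add_mem (add_mem (S.ent _ l) (S.ent _ r)) (one_mem _))) (by
      linear_combination (norm := (noncomm_ring; simp [zs h2])) m' * (c1 + c2) * (en V ρ + en V ρ' + 1) + m' * m' * hc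
        + m' * m' * e3 + m' * e5 * m + e5)
  have e7 : v * ρ = ρ' * v := w.en_inj (by
    rw [map_mul, map_mul, e6]
    linear_combination (norm := (noncomm_ring; simp [zs h2])) c2 * (en V ρ + en V ρ' + 1) + m' * q.l + m' * q.r)
  have e8 : v * ρ' = ρ * v := w.en_inj (by
    rw [map_mul, map_mul, e6]
    linear_combination (norm := (noncomm_ring; simp [zs h2])) c1 * (en V ρ + en V ρ' + 1) + m' * q.l + m' * q.r)
  have c4 : Commute (en V s) (en V ρ + en V ρ') := by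
    rw [Commute, SemiconjBy, mul_add, add_mul, ← map_mul, ← map_mul, e1, e2, map_mul, map_mul, add_comm]
  have e9 : s * v = v * s := w.en_inj (by
    rw [map_mul, map_mul, e6]
    exact ((S.comm' _ hm' _ c4).symm.mul_right (c4.add_right (Commute.one_right _))).eq)
  have e10 : v * v = 1 := w.en_inj (by
    rw [map_mul, e6, map_one]
    linear_combination (norm := (noncomm_ring; simp [zs h2])) m' * (c1 + c2) * (en V ρ + en V ρ' + 1) + m' * m' * hc
        + m' * m' * e3 + m' * e5 * m + e5)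
  have e11 : s * v = 1 := by_contra fun e' => st (s * v) ρ ρ'
    ⟨e', by rw [mul_assoc, ← mul_assoc v, ← e9, mul_assoc, e10, mul_one, hs]⟩ h
    (by rw [← mul_assoc, ← e2, mul_assoc, ← e7, mul_assoc]) (by rw [← mul_assoc, ← e1, mul_assoc, ← e8, mul_assoc])
  have hsJ : s ∈ Jg ρ ρ' := eq_inv_of_mul_eq_one_left e11 ▸ inv_mem hv
  have hxK : x + 1 ∈ K := by
    convert S.tau _ (mul_mem hsJ l) using 1
    refine f.inj ?_
    rw [mul_inv_rev, map_mul, map_mul, map_add, map_add, map_mul, map_mul, e, f.rr, (w.th_conj f e).1, w.th_inv f hρ,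
      (th_x f e).1, map_one]
    ext i j
    fin_cases i <;> fin_cases j <;> simp [Matrix.mul_apply] <;> abel_nf <;> simp [zs h2]
  replace hxK : x ∈ K := by simpa using K.sub_mem hxK K.one_mem
  obtain ⟨x', hx', e12⟩ := S.inv x hxK h0
  obtain ⟨t'', ht'', e13⟩ := S.exists_en h2 f'.inj (x := en V t) (by
    have : en V t = x' * (en V s + 1) + 1 := by
      rw [w.en_eq t, ← Nn, w.Nn_eq f e, ← mul_assoc, ← S.mul_comm x hxK x' hx', e12, one_mul]
    rw [this]
    exact add_mem (mul_mem (S.le_alg hx') (add_mem (S.ent _ hsJ) (one_mem _))) (one_mem _))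
    (by rw [← map_mul, ht.sq, map_one])
  obtain ⟨K', S'⟩ := w.sl hA h ht (w.en_inj e13 ▸ ht'') f
  exact ⟨K', S', by simpa [e] using S'.ent s hsJ 0 1⟩

theorem exists_d (e : Θ (en V s) = !![1, x; 0, 1]) (h0 : x ≠ 0) :
    ∃ (d : L) (a b : AddMonoid.End V), Θ (en V d) = !![a, 0; 0, b] ∧ a * b = 1 ∧ b * a = 1 ∧ a * a = x := by
  by_cases h1 : x = 1
  · exact ⟨1, 1, 1, by rw [map_one, map_one, Matrix.one_fin_two], mul_one 1, mul_one 1, by rw [h1, mul_one]⟩
  · obtain ⟨K, S, hx⟩ := w.exists_K hA st hρ ht f e h0 h1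
    exact S.exists_d hx h0

theorem no_diag (h : Pr ρ ρ') (hz : Inv z) (e : Θ (en V z) = !![a, 0; 0, b]) : False := by
  have h2 := w.two_eq
  have e1 := congrArg (fun g => Θ (en V g)) hz.sq
  simp only [map_mul, map_one, e, Matrix.mul_fin_two, Matrix.one_fin_two, mat_eq, mul_zero, zero_mul, add_zero,
    zero_add] at e1
  obtain ⟨s, x, hs, h0, e2⟩ : ∃ s x, Θ (en V s) = !![1, x; 0, 1] ∧ x ≠ 0 ∧ a * x = x * b := by
    by_cases h0 : a * b + 1 = 0
    · exact ⟨t, 1, w.th_t f, fun e => ht.ne ((w.eq_one_iff f (w.th_t f)).2 e), by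
        linear_combination (norm := (noncomm_ring; simp [zs h2])) h0 * b + a * e1.2.2.2⟩
    · refine ⟨t * (z * t * z), a * b + 1, ?_, h0, by
        linear_combination (norm := (noncomm_ring; simp [zs h2])) e1.1 * b + a * e1.2.2.2⟩
      simp only [map_mul, e, w.th_t f, Matrix.mul_fin_two]
      simp [e1.1, e1.2.2.2]
  obtain ⟨d, m, m', hd, e3, e4, rfl⟩ := w.exists_d hA st hρ ht f hs h0
  have e5 : m' * a * m = m * b * m' := by
    linear_combination (norm := noncomm_ring) m' * e2 * m' - m' * a * m * e3 + e4 * m * b * m'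
  refine w.no_inv hA st h (z := d⁻¹ * z * d) ⟨fun e => hz.ne (by simpa [mul_assoc] using congrArg (fun y => d * y * d⁻¹) e), by
    calc _ = d⁻¹ * (z * z) * d := by group
      _ = 1 := by rw [hz.sq, mul_one, inv_mul_cancel]⟩ (w.inj_en f ?_)
  simp only [map_mul, e, th_inv_diag hd e3 e4, hd, f.rr, Matrix.mul_fin_two]
  simp [e5]

omit hρ ht f in
theorem h4ab (h : Pr ρ ρ') : ∃ t1 t0 : L, Inv t1 ∧
    t1 * ρ * t1⁻¹ = ρ⁻¹ ∧ Pr ρ (t0 * ρ * t0⁻¹) ∧ Qv V t1 ≤ Jg ρ (t0 * ρ * t0⁻¹) := by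
  obtain ⟨t, htJ, ht, hi⟩ := w.j4 hA h
  obtain ⟨Θ, f⟩ := w.exists_Fm h.l ht hi
  obtain ⟨K, S⟩ := w.sl hA h ht htJ f
  let H : Subgroup L :=
    { carrier := {g | ∃ a b a' b', Θ (en V g) = !![a, 0; 0, b] ∧ a * a' = 1 ∧ a' * a = 1 ∧ b * b' = 1 ∧ b' * b = 1}
      one_mem' := ⟨1, 1, 1, 1, by rw [map_one, map_one, Matrix.one_fin_two], mul_one 1, mul_one 1, mul_one 1, mul_one 1⟩
      mul_mem' := by
        rintro x y ⟨a, b, a', b', e, h1, h2, h3, h4⟩ ⟨c, d, c', d', e', k1, k2, k3, k4⟩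
        refine ⟨a * c, b * d, c' * a', d' * b', by rw [map_mul, map_mul, e, e', Matrix.mul_fin_two]; simp, ?_, ?_, ?_, ?_⟩
        · linear_combination (norm := noncomm_ring) a * k1 * a' + h1
        · linear_combination (norm := noncomm_ring) c' * h2 * c + k2
        · linear_combination (norm := noncomm_ring) b * k3 * b' + h3
        · linear_combination (norm := noncomm_ring) d' * h4 * d + k4
      inv_mem' := by
        rintro x ⟨a, b, a', b', e, h1, h2, h3, h4⟩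
        exact ⟨a', b', a, b, th_inv_diag e h1 h3, h2, h1, h4, h3⟩ }
  have hH : Odd (Nat.card H) := Nat.not_even_iff_odd.1 fun e => by
    obtain ⟨z, ⟨a, b, -, -, e1, -⟩, z1, z2⟩ := exists_mem_pow_eq_one e.two_dvd
    exact w.no_diag hA st h.l ht f h ⟨z1, by rwa [← pow_two]⟩ e1
  let D : Subgroup L :=
    { carrier := {g | ∃ a b, Θ (en V g) = !![a, 0; 0, b] ∧ a * b = 1 ∧ b * a = 1}
      one_mem' := ⟨1, 1, by rw [map_one, map_one, Matrix.one_fin_two], mul_one 1, mul_one 1⟩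
      mul_mem' := by
        rintro x y ⟨a, b, e, h1, h2⟩ ⟨c, d, e', k1, k2⟩
        have := congrArg (fun g => Θ (en V g)) (w.oc.self_le_cent hH ⟨c, d, d, c, e', k1, k2, k2, k1⟩ x
          ⟨a, b, b, a, e, h1, h2, h2, h1⟩)
        simp only [map_mul, e, e', Matrix.mul_fin_two, mat_eq, mul_zero, zero_mul, add_zero, zero_add] at this
        refine ⟨a * c, b * d, by rw [map_mul, map_mul, e, e', Matrix.mul_fin_two]; simp, ?_, ?_⟩
        · linear_combination (norm := noncomm_ring) a * c * this.2.2.2 + a * k1 * b + h1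
        · linear_combination (norm := noncomm_ring) b * d * this.1 + b * k2 * a + h2
      inv_mem' := by
        rintro x ⟨a, b, e, h1, h2⟩
        exact ⟨b, a, th_inv_diag e h1 h2, h2, h1⟩ }
  have hD : IsCyclic D := w.oc D (odd_of_le hH fun x ⟨a, b, e, h1, h2⟩ => ⟨a, b, b, a, e, h1, h2, h2, h1⟩)
  obtain ⟨⟨d, a, b, e, h1, h2⟩, hd⟩ := IsCyclic.exists_monoid_generator (α := D)
  have hp : ∀ n : ℕ, Θ (en V (d ^ n)) = !![a ^ n, 0; 0, b ^ n] := fun n => by
    induction n with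
    | zero => rw [pow_zero, map_one, map_one, Matrix.one_fin_two, pow_zero, pow_zero]
    | succ n ih => rw [pow_succ, map_mul, map_mul, ih, e, Matrix.mul_fin_two, pow_succ, pow_succ]; simp
  have key : ∀ s x, Θ (en V s) = !![1, x; 0, 1] → x ≠ 0 → ∃ n : ℕ, x = (a * a) ^ n := fun s x hs h0 => by
    obtain ⟨d', m, m', e', k1, k2, rfl⟩ := w.exists_d hA st h.l ht f hs h0
    obtain ⟨n, hn⟩ := hd ⟨d', m, m', e', k1, k2⟩
    have := hp n
    rw [show d ^ n = d' from congrArg Subtype.val hn, e', mat_eq] at this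
    exact ⟨n, by rw [this.1, (Commute.refl a).mul_pow]⟩
  have e0 : Θ (en V (d * t * d⁻¹)) = !![1, a * a; 0, 1] := by
    simp only [map_mul, e, th_inv_diag e h1 h2, w.th_t f, Matrix.mul_fin_two]
    simp [h1, h2]
  have n0 : a * a ≠ 0 := fun e => ht.ne (by simpa using (w.eq_one_iff f e0).2 e)
  have n1 : a * a ≠ 1 := fun e => by
    obtain ⟨k, hk, k0, k1⟩ := S.ex
    obtain ⟨s, -, hs⟩ := S.surj 1 K.one_mem k hk 0 K.zero_mem 1 K.one_mem (by simp)
    obtain ⟨n, hn⟩ := key s k hs k0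
    exact k1 (by rw [hn, e, one_pow])
  obtain ⟨K0, S0, hx⟩ := w.exists_K hA st h.l ht f e0 n0 n1
  refine ⟨t, d * t * d⁻¹, ht, hi, w.pr_conj f h.l e0 n0 n1, fun s hs => ?_⟩
  obtain ⟨x, e1⟩ := (w.mem_Qv_iff_u f ht).1 hs
  have hx' : x ∈ K0 := by
    by_cases h0 : x = 0
    · exact h0 ▸ K0.zero_mem
    · obtain ⟨n, rfl⟩ := key s x e1 h0
      exact K0.pow_mem hx n
  obtain ⟨g, hg, e2⟩ := S0.surj 1 K0.one_mem x hx' 0 K0.zero_mem 1 K0.one_mem (by simp)
  exact w.inj_en f (e2.trans e1.symm) ▸ hg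

end Wk

end Her
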