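import Cfsg.Agent.Lib.Her.Base

/-!
# S4841, step 1: `[E, ρ]` is quadratic for a `2`-group `E` normalized by an element `ρ` of order three
-/

set_option autoImplicit false
set_option linter.unusedSectionVars false
set_option linter.unusedSimpArgs false

namespace Her

open Cfsg GT FT GW Subgroup MulAction
open scoped Pointwise commutatorElement

universe u

section Ring
variable {R : Type*} [Ring R]

theorem mul_of_eq {x y z : R} (h : x * y = z) (w : R) : x * (y * w) = z * w := by rw [← mul_assoc, h]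

variable (h2 : ∀ x : R, x + x = 0)
include h2

theorem zev {n : ℤ} (hn : n % 2 = 0) (x : R) : n • x = 0 := by
  obtain ⟨k, rfl⟩ : Even n := Int.even_iff.2 hn
  rw [add_smul, h2]

theorem zod {n : ℤ} (hn : n % 2 = 1) (x : R) : n • x = x := by
  rw [show n = (n - 1) + 1 by ring, add_smul, zev h2 (by omega), one_smul, zero_add]

theorem eq_iff_add {x y : R} : x = y ↔ x + y = 0 :=
  ⟨fun e => e ▸ h2 x, fun e => by rw [← add_zero x, ← h2 y, ← add_assoc, e, zero_add]⟩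

variable {r r' : R} (hr : r * r = r + 1) (hr' : r' * r' = r' + 1)
include hr hr'

theorem rho_swap : r' * r = r * r' + r + r' + (r + r') * (r + r') := by
  simp only [mul_add, add_mul, hr, hr']
  abel_nf
  simp (disch := omega) only [zev h2, zero_add]

theorem rho_comm : r * ((r + r') * (r + r')) = (r + r') * (r + r') * r := by
  simp only [mul_add, add_mul, mul_assoc, hr, hr', mul_of_eq hr, mul_one, one_mul]
  abel_nf
  simp (disch := omega) only [zev h2, add_zero, zero_add]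

omit hr hr' in
theorem fricke {a a' c : R} (ha : a * a = c * a + 1) (ha' : a' * a' = c * a' + 1) (hc : a * c = c * a)
    (hc' : a' * c = c * a') (hw : (a + a') * (a + a') = c * c + c) :
    a * a * (a' + c) * (a' + c) + a' * (a' * ((a + c) * (a + c))) = c ^ 3 * (1 + c) := by
  have hw' : a' * a = a * a' + c * c + c + c * a + c * a' := by
    rw [add_assoc (a * a'), ← hw]
    simp only [mul_add, add_mul, ha, ha']
    abel_nf
    simp (disch := omega) only [zev h2, add_zero, zero_add]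
  simp only [mul_add, add_mul, mul_assoc, ha, ha', hc, hc', hw', mul_of_eq hc, mul_of_eq hc', mul_of_eq hw',
    mul_one, one_mul, pow_succ, pow_zero]
  abel_nf
  simp (disch := omega) only [zev h2, zod h2, zero_add]

end Ring

section Nil
variable {V : Type*} [AddCommGroup V]

theorem mul_app (f g : AddMonoid.End V) (v : V) : (f * g) v = f (g v) := rfl

theorem eq_zero_of_nil {m f : AddMonoid.End V} (hm : IsNilpotent m) (h : ∀ v, ∃ w, f v = m (f w)) : f = 0 := by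
  obtain ⟨k, hk⟩ := hm
  have h1 : ∀ n v, ∃ w, f v = (m ^ n) (f w) := fun n => by
    induction n with
    | zero => exact fun v => ⟨v, rfl⟩
    | succ n ih =>
      intro v
      obtain ⟨w, hw⟩ := ih v
      obtain ⟨w', hw'⟩ := h w
      exact ⟨w', by rw [hw, hw', pow_succ]; rfl⟩
  ext v
  obtain ⟨w, hw⟩ := h1 k v
  rw [hk] at hw
  exact hw

/-- kernel and image coincide -/
structure Ex (f : AddMonoid.End V) : Prop where
  sq : f * f = 0
  ne : f ≠ 0
  ex : ∀ v, f v = 0 → ∃ w, f w = v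

theorem Ex.pow_ne {c : AddMonoid.End V} {n : ℕ} (h : Ex (c ^ (n + 1))) : c ^ (2 * n + 1) ≠ 0 := fun e => by
  refine h.ne ?_
  rw [pow_succ, eq_zero_of_nil (f := c ^ n) ⟨_, e⟩ fun v => ?_, zero_mul]
  obtain ⟨w, hw⟩ := h.ex ((c ^ n) v) (by
    rw [← mul_app, ← pow_add, show n + 1 + n = 2 * n + 1 by ring, e]; rfl)
  exact ⟨w, by rw [← hw, pow_succ']; rfl⟩

theorem Ex.le {c : AddMonoid.End V} {n m : ℕ} (h : Ex (c ^ n)) (h0 : n ≠ 0) (hm : c ^ m = 0) : 2 * n ≤ m := by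
  obtain ⟨n, rfl⟩ := Nat.exists_eq_succ_of_ne_zero h0
  by_contra h1
  exact h.pow_ne (pow_eq_zero_of_le (by omega) hm)

end Nil

variable {L V : Type u} [Group L] [Finite L] [AddCommGroup V] [Finite V] [DistribMulAction L V]

theorem isUnit_en (g : L) : IsUnit (en V g) := (Group.isUnit g).map (en V)

namespace Wk
variable (h : Wk L V)
include h

theorem Nn_eq_zero {g : L} : Nn V g = 0 ↔ g = 1 := by
  rw [Nn, ← eq_iff_add h.add_self, ← (en V (L := L)).map_one, h.en_inj.eq_iff]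

theorem en_eq (g : L) : en V g = Nn V g + 1 := by rw [Nn, add_assoc, h.add_self, add_zero]

theorem Nn_sq (g : L) : Nn V (g * g) = Nn V g * Nn V g := by rw [h.Nn_mul', h.add_self, zero_add]

theorem Nn_sq' (g : L) : Nn V g * Nn V g = (en V g + en V g⁻¹) * en V g := by
  rw [← h.Nn_sq, add_mul, ← map_mul, ← map_mul, inv_mul_cancel, map_one, Nn]

theorem en_sq (g : L) : en V g * en V g = (en V g + en V g⁻¹) * en V g + 1 := by
  rw [← h.Nn_sq', ← h.Nn_sq, ← h.en_eq, map_mul]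

theorem Nn_pow (g : L) (n : ℕ) : Nn V (g ^ 2 ^ n) = Nn V g ^ 2 ^ n := by
  induction n with
  | zero => simp
  | succ n ih => rw [pow_succ, pow_mul, pow_mul, sq, sq, h.Nn_sq, ih]

theorem Nn_conj (g x : L) : Nn V (g * x * g⁻¹) = en V g * Nn V x * en V g⁻¹ := by
  rw [Nn, Nn, mul_add, add_mul, mul_one, ← map_mul, ← map_mul, ← map_mul, mul_inv_cancel, map_one]

theorem ex_Nn {t : L} (ht : Inv t) : Ex (Nn V t) :=
  ⟨by rw [← h.Nn_sq, ht.sq, h.Nn_eq_zero], mt h.Nn_eq_zero.1 ht.ne, fun v hv =>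
    h.free t ht v (h.mem_Wv_iff.2 hv)⟩

theorem rho_inv {ρ : L} (hρ : orderOf ρ = 3) : en V ρ⁻¹ = en V ρ + 1 := by
  rw [← h.rho hρ, ← map_mul, inv_eq_of_mul_eq_one_right (a := ρ) (b := ρ * ρ)]
  rw [← pow_three, ← hρ, pow_orderOf_eq_one]

theorem exists_ex {g : L} (hg : IsPElt 2 g) (h1 : g * g ≠ 1) {c y : AddMonoid.End V} (hy : IsUnit y)
    (hc : Commute c y) {m : ℕ} (e : Nn V g * Nn V g = c ^ m * y) : ∃ j, Ex (c ^ (m * 2 ^ j)) := by
  obtain ⟨k, hk⟩ := hg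
  obtain ⟨j, rfl⟩ : ∃ j, k = j + 2 := by
    refine Nat.exists_eq_add_of_le' (not_lt.1 fun h2 => h1 ?_)
    rw [← sq, ← orderOf_dvd_iff_pow_eq_one, hk]
    exact pow_dvd_pow 2 (show k ≤ 1 by omega)
  have h2 := h.ex_Nn (t := g ^ 2 ^ (j + 1)) ⟨pow_ne_one_of_lt_orderOf (by positivity) (by
    rw [hk]; exact Nat.pow_lt_pow_right one_lt_two (by omega)), by
    rw [← sq, ← pow_mul, ← pow_succ, ← hk, pow_orderOf_eq_one]⟩
  rw [h.Nn_pow, pow_succ', pow_mul, sq, e, (hc.pow_left m).mul_pow, ← pow_mul] at h2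
  have h3 : Commute (c ^ (m * 2 ^ j)) (y ^ 2 ^ j) := hc.pow_pow _ _
  refine ⟨j, ?_, fun e => h2.ne (by rw [e, zero_mul]), fun v hv => ?_⟩
  · have := h2.sq
    rwa [h3.symm.mul_mul_mul_comm, ((hy.pow _).mul (hy.pow _)).mul_left_eq_zero] at this
  · obtain ⟨w, hw⟩ := h2.ex v (by rw [h3.eq, mul_app, hv, map_zero])
    exact ⟨_, hw⟩

/-- the key computation -/
theorem sq_zero {ρ ρ' : L} (hρ : orderOf ρ = 3) (hρ' : orderOf ρ' = 3) {E : Subgroup L} (hE : IsPGroup 2 E)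
    (hn : ρ ∈ 𝐍(E)) (ha : ρ⁻¹ * ρ' ∈ E) : (en V ρ + en V ρ') * (en V ρ + en V ρ') = 0 := by
  have h2 := h.add_self
  have hr := h.rho hρ
  have hr' := h.rho hρ'
  have ha' : ρ' * ρ⁻¹ ∈ E := by simpa [mul_assoc] using (mem_normalizer_iff.1 hn _).1 ha
  have e1 := rho_swap h2 hr hr'
  have e2 := rho_comm h2 hr hr'
  have e3 := rho_comm h2 hr' hr
  rw [add_comm (en V ρ')] at e3
  have i1 := h.rho_inv hρ
  have i2 := h.rho_inv hρ'
  obtain ⟨s, hs⟩ : ∃ s, s = en V ρ + en V ρ' := ⟨_, rfl⟩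
  rw [← hs] at e1 e2 e3 ⊢
  obtain ⟨c, hc⟩ : ∃ c, s * s = c := ⟨_, rfl⟩
  rw [hc] at e1 e2 e3 ⊢
  have c1 : Commute c (en V ρ) := e2.symm
  have c2 : Commute c (en V ρ') := e3.symm
  have c3 : Commute c (en V ρ⁻¹) := i1 ▸ c1.add_right (Commute.one_right c)
  have c4 : Commute c (en V ρ'⁻¹) := i2 ▸ c2.add_right (Commute.one_right c)
  have t1 : en V (ρ⁻¹ * ρ') + en V (ρ⁻¹ * ρ')⁻¹ = c := by
    simp only [mul_inv_rev, inv_inv, map_mul, i1, i2, add_mul, one_mul, e1]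
    abel_nf
    simp (disch := omega) only [zev h2, zero_add]
  have t1' : en V (ρ' * ρ⁻¹) + en V (ρ' * ρ⁻¹)⁻¹ = c := by
    simp only [mul_inv_rev, inv_inv, map_mul, i1, i2, mul_add, mul_one, e1]
    abel_nf
    simp (disch := omega) only [zev h2, zero_add]
  have t0 : en V (ρ⁻¹ * ρ') + en V (ρ' * ρ⁻¹) = s + c := by
    simp only [map_mul, i1, add_mul, mul_add, mul_one, one_mul, e1, hs]
    abel_nf
    simp (disch := omega) only [zev h2, zod h2, zero_add]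
  have c6 : Commute c (en V (ρ⁻¹ * ρ')) := by rw [map_mul]; exact c3.mul_right c2
  have c7 : Commute c (en V (ρ' * ρ⁻¹)) := by rw [map_mul]; exact c2.mul_right c3
  generalize ρ⁻¹ * ρ' = a at *
  generalize ρ' * ρ⁻¹ = a' at *
  have q1 := h.en_sq a
  have q2 := h.en_sq a'
  rw [t1] at q1
  rw [t1'] at q2
  have j1 : en V a⁻¹ = en V a + c := by rw [← t1, ← add_assoc, h2, zero_add]
  have j2 : en V a'⁻¹ = en V a' + c := by rw [← t1', ← add_assoc, h2, zero_add]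
  have cs : c * s = s * c := by rw [← hc, mul_assoc]
  obtain ⟨b, hb⟩ : ∃ b, b = a * a * a'⁻¹ * a'⁻¹ := ⟨_, rfl⟩
  have t2 : en V b + en V b⁻¹ = c ^ 3 * (1 + c) := by
    simp only [hb, mul_inv_rev, inv_inv, map_mul, j1, j2]
    refine fricke h2 q1 q2 c6.symm c7.symm ?_
    rw [t0, add_mul, mul_add, mul_add, hc, cs, add_assoc, ← add_assoc (s * c), h2, zero_add, add_comm]
  have t3 : Nn V b * (c * en V a' + 1) = c * (s * (1 + s)) := by
    rw [← q2, Nn, add_mul, ← map_mul, ← map_mul, show b * (a' * a') = a * a by rw [hb]; group, map_mul, map_mul, q1,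
      q2, one_mul, mul_add s, hc, mul_one, ← t0, mul_add, add_add_add_comm, h2, add_zero]
  have c5 : Commute c (en V b) := by
    have c8 : Commute c (en V a'⁻¹) := j2 ▸ c7.add_right (Commute.refl c)
    simp only [hb, map_mul]
    exact ((c6.mul_right c6).mul_right c8).mul_right c8
  by_contra h0
  have n1 := h.Nn_sq' a
  rw [t1] at n1
  obtain ⟨j, hj⟩ := h.exists_ex (m := 1) (isPElt_of_mem hE ha) (fun e => h0 (by
      rwa [← h.Nn_sq, e, h.Nn_eq_zero.2 rfl, eq_comm, (isUnit_en _).mul_left_eq_zero] at n1)) (isUnit_en a) c6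
    (by rw [n1, pow_one])
  have z1 : IsNilpotent c := ⟨_, (pow_add _ _ _).trans hj.sq⟩
  have z2 : IsNilpotent s := .of_pow (m := 2) (by rwa [sq, hc])
  have n2 := h.Nn_sq' b
  rw [t2, mul_assoc] at n2
  have u1 := z1.isUnit_one_add.mul (isUnit_en (V := V) b)
  have hbb : b * b = 1 := by
    by_contra hbb
    obtain ⟨i, hi⟩ := h.exists_ex (isPElt_of_mem hE (show b ∈ E from hb ▸ mul_mem (mul_mem (mul_mem ha ha) (inv_mem ha'))
      (inv_mem ha'))) hbb u1 (((Commute.one_right c).add_right (Commute.refl c)).mul_right c5) n2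
    have l1 := hi.le (by positivity) ((pow_add _ _ _).trans hj.sq)
    have l2 := hj.le (by positivity) ((pow_add _ _ _).trans hi.sq)
    have l3 : 3 ∣ 2 ^ j := ⟨2 ^ i, by omega⟩
    exact absurd (Nat.prime_three.dvd_of_dvd_pow l3) (by norm_num)
  rw [← h.Nn_sq, hbb, h.Nn_eq_zero.2 rfl, eq_comm, u1.mul_left_eq_zero] at n2
  have l1 := hj.le (by positivity) n2
  have l2 := Nat.one_le_two_pow (n := j)
  rw [show 1 * 2 ^ j = 1 by omega, pow_one] at hj
  have l3 : c * s = 0 := by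
    by_cases hb1 : b = 1
    · rwa [h.Nn_eq_zero.2 hb1, zero_mul, ← mul_assoc, eq_comm, z2.isUnit_one_add.mul_left_eq_zero] at t3
    have u2 : IsUnit (c * en V a' + 1) := (c7.isNilpotent_mul_right z1).isUnit_add_one
    have t4 : c * Nn V b = 0 := by
      rw [← u2.mul_left_eq_zero, mul_assoc, t3, ← mul_assoc, hj.sq, zero_mul]
    ext v
    obtain ⟨w, hw⟩ := (h.ex_Nn ⟨hb1, hbb⟩).ex ((c * en V a' + 1) (s v)) (by
      rw [← mul_app, ← mul_app, t3, mul_add s, hc, mul_add, add_mul, mul_assoc,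
        mul_one, hc, hj.sq, zero_mul, add_zero]; rfl)
    have h3 := congrArg c hw
    rw [← mul_app, ← mul_app, t4, mul_add, ← mul_assoc, hj.sq, zero_mul,
      zero_add, mul_one] at h3
    exact h3.symm
  refine h0 ?_
  rw [← hc, eq_zero_of_nil z2 (f := s) fun v => ?_, mul_zero]
  obtain ⟨w, hw⟩ := hj.ex (s v) (by rw [← mul_app, l3]; rfl)
  exact ⟨w, by rw [← hw, ← hc]; rfl⟩

omit h in
theorem three_of_mem {ρ x : L} (hρ : orderOf ρ = 3) {E : Subgroup L} (hE : IsPGroup 2 E) (hx : x ∈ E)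
    (h3 : (ρ * x) ^ 3 = 1) : orderOf (ρ * x) = 3 := by
  refine orderOf_eq_prime h3 fun e => ?_
  obtain ⟨k, hk⟩ := isPElt_of_mem hE hx
  rw [← orderOf_inv, ← eq_inv_of_mul_eq_one_left e, hρ] at hk
  exact absurd (Nat.prime_three.dvd_of_dvd_pow hk.dvd) (by norm_num)

section
variable {ρ : L} (hρ : orderOf ρ = 3)
include hρ

/-- `N_x` anti-linear implies `(ρ x)³ = 1` -/
theorem cube_of {x : L} (h1 : x * x = 1) (h3 : Nn V x * en V ρ = en V ρ * en V ρ * Nn V x) : (ρ * x) ^ 3 = 1 := by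
  have h2 := h.add_self
  have hr := h.rho hρ
  have h0 : Nn V x * Nn V x = 0 := by rw [← h.Nn_sq, h1, h.Nn_eq_zero]
  refine h.en_inj ?_
  simp only [map_mul, map_one, h.en_eq x, pow_succ, pow_zero, mul_add, add_mul, mul_assoc, mul_one, one_mul, hr, h3,
    h0, mul_of_eq hr, mul_of_eq h3, mul_of_eq h0, zero_mul, mul_zero]
  abel_nf
  simp (disch := omega) only [zev h2, zod h2, zero_add, add_zero]

theorem Nn_rho {x : L} (h3 : Nn V x * en V ρ = en V ρ * en V ρ * Nn V x) :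
    Nn V (ρ * x * ρ⁻¹) = en V ρ * en V ρ * Nn V x := by
  have h2 := h.add_self
  have hr := h.rho hρ
  rw [h.Nn_conj]
  simp only [h.rho_inv hρ, mul_add, add_mul, mul_assoc, mul_one, one_mul, h3, mul_of_eq hr]
  abel_nf
  simp (disch := omega) only [zev h2, zod h2, zero_add, add_zero]

variable {E : Subgroup L} (hE : IsPGroup 2 E) (hn : ρ ∈ 𝐍(E))
include hE hn

theorem pair {x : L} (hx : x ∈ E) (h3 : (ρ * x) ^ 3 = 1) :
    x * x = 1 ∧ Nn V x * en V ρ = en V ρ * en V ρ * Nn V x := by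
  have h2 := h.add_self
  have hr := h.rho hρ
  have h0 := h.sq_zero hρ (three_of_mem hρ hE hx h3) hE hn (by simpa using hx)
  have h1 := rho_swap h2 hr (h.rho (three_of_mem hρ hE hx h3))
  have h4 := h.rho (three_of_mem hρ hE hx h3)
  have h5 : Nn V x = (en V ρ + 1) * (en V ρ + en V (ρ * x)) := by
    rw [← h.rho_inv hρ, mul_add, ← map_mul, ← map_mul, inv_mul_cancel, inv_mul_cancel_left, map_one, Nn, add_comm]
  rw [h0, add_zero] at h1
  rw [← h.Nn_eq_zero, h.Nn_sq, h5]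
  generalize en V (ρ * x) = r' at *
  constructor <;>
    simp only [mul_add, add_mul, mul_assoc, mul_one, one_mul, hr, h1, h4, mul_of_eq hr, mul_of_eq h1, mul_of_eq h4] <;>
    abel_nf <;> simp (disch := omega) only [zev h2, zod h2, zero_add, add_zero]

theorem pair_comm {x y : L} (hx : x ∈ E) (hx3 : (ρ * x) ^ 3 = 1) (hy : y ∈ E) (hy3 : (ρ * y) ^ 3 = 1) :
    x * y = y * x := by
  have h1 := (h.pair hρ hE hn hx hx3).1
  have h2 := (h.pair hρ hE hn hy hy3).1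
  have h3 := (h.pair (three_of_mem hρ hE hx hx3) hE (mul_mem hn (le_normalizer hx)) (mul_mem (inv_mem hx) hy)
    (by rwa [mul_assoc, mul_inv_cancel_left])).1
  rw [inv_eq_of_mul_eq_one_right h1] at h3
  rw [eq_inv_of_mul_eq_one_left h3, mul_inv_rev, inv_eq_of_mul_eq_one_right h1, inv_eq_of_mul_eq_one_right h2]

theorem pair_Nn {x y : L} (hx : x ∈ E) (hx3 : (ρ * x) ^ 3 = 1) (hy : y ∈ E) (hy3 : (ρ * y) ^ 3 = 1) :
    Nn V x * Nn V y = 0 := by
  have c : ∀ {x y : L}, x * y = y * x → Nn V x * Nn V y = Nn V y * Nn V x := fun {x y} e =>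
    add_left_cancel (a := Nn V x + Nn V y) (by rw [← h.Nn_mul', e, h.Nn_mul', add_comm (Nn V x)])
  have h2 := h.add_self
  have hr := h.rho hρ
  have h1 := c (h.pair_comm hρ hE hn hx hx3 hy hy3)
  have h3 := c (h.pair_comm hρ hE hn ((mem_normalizer_iff.1 hn _).1 hx) (by
    rw [show ρ * (ρ * x * ρ⁻¹) = ρ * (ρ * x) * ρ⁻¹ by group, conj_pow, hx3]; group) hy hy3)
  have h4 := (h.pair hρ hE hn hy hy3).2
  rw [h.Nn_rho hρ (h.pair hρ hE hn hx hx3).2, eq_iff_add h2] at h3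
  rw [← h3]
  simp only [mul_add, add_mul, mul_assoc, one_mul, hr, mul_of_eq hr, mul_of_eq h4, ← h1]
  abel_nf
  simp (disch := omega) only [zev h2, zod h2, zero_add, add_zero]

/-- the elements `x ∈ E` with `(ρ x)³ = 1` form a subgroup -/
theorem exists_S : ∃ S : Subgroup L, ∀ x, x ∈ S ↔ x ∈ E ∧ (ρ * x) ^ 3 = 1 := by
  refine ⟨⟨⟨⟨{x | x ∈ E ∧ (ρ * x) ^ 3 = 1}, ?_⟩, one_mem _, by rw [mul_one, ← hρ, pow_orderOf_eq_one]⟩, ?_⟩,
    fun _ => Iff.rfl⟩
  · rintro x y ⟨hx, hx3⟩ ⟨hy, hy3⟩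
    obtain ⟨h1, h2⟩ := h.pair hρ hE hn hx hx3
    obtain ⟨h3, h4⟩ := h.pair hρ hE hn hy hy3
    refine ⟨mul_mem hx hy, h.cube_of hρ ?_ ?_⟩
    · rw [mul_assoc, ← mul_assoc y, ← h.pair_comm hρ hE hn hx hx3 hy hy3, mul_assoc, h3, mul_one, h1]
    · rw [h.Nn_mul', h.pair_Nn hρ hE hn hx hx3 hy hy3, add_zero, add_mul, mul_add, h2, h4]
  · rintro x ⟨hx, hx3⟩
    rw [inv_eq_of_mul_eq_one_right (h.pair hρ hE hn hx hx3).1]
    exact ⟨hx, hx3⟩

theorem mem_S {a : L} (ha : a ∈ ⁅E, zpowers ρ⁆) : a ∈ E ∧ (ρ * a) ^ 3 = 1 := by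
  obtain ⟨S, hS⟩ := h.exists_S hρ hE hn
  have h3 : ρ ^ 3 = 1 := hρ ▸ pow_orderOf_eq_one ρ
  refine (hS a).1 (commutator_le.2 (fun x hx r hr => ?_) ha)
  rw [commutatorElement_def]
  rcases mem_zpowers_three hρ hr with rfl | rfl | rfl
  · simp
  · refine (hS _).2 ⟨by simpa [mul_assoc] using mul_mem hx ((mem_normalizer_iff.1 hn _).1 (inv_mem hx)), ?_⟩
    rw [show r * (x * r * x⁻¹ * r⁻¹) = r * x * r * (r * x)⁻¹ by group, conj_pow, h3]; group
  · refine inv_mem_iff.1 ((hS _).2 ⟨?_, ?_⟩)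
    · simpa [mul_assoc] using mul_mem ((mem_normalizer_iff.1 (inv_mem hn) _).1 hx) (inv_mem hx)
    · rw [show ρ * (x * ρ⁻¹ * x⁻¹ * ρ⁻¹⁻¹)⁻¹ = x * ρ * x⁻¹ by group, conj_pow, h3]; group

end

/-- step 1 -/
theorem f1 {ρ : L} (hρ : orderOf ρ = 3) {E : Subgroup L} (hE : IsPGroup 2 E) (hn : ρ ∈ 𝐍(E))
    {a : L} (ha : a ∈ ⁅E, zpowers ρ⁆) (h1 : a ≠ 1) :
    Inv a ∧ ⁅E, zpowers ρ⁆ ≤ Qv V a ∧ Nn V a * en V ρ = en V ρ * en V ρ * Nn V a := by
  obtain ⟨h2, h3⟩ := h.mem_S hρ hE hn ha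
  obtain ⟨h4, h5⟩ := h.pair hρ hE hn h2 h3
  refine ⟨⟨h1, h4⟩, fun x hx => (h.mem_Qv_iff_Nn ⟨h1, h4⟩).2 ?_, h5⟩
  obtain ⟨h6, h7⟩ := h.mem_S hρ hE hn hx
  exact h.pair_Nn hρ hE hn h6 h7 h2 h3

end Wk

end Her
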