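import Cfsg.Agent.Lib.Her.Model
import Cfsg.Agent.Lib.Her.Fr
import Cfsg.Agent.Lib.Her.Defs

/-!
# Transitive groups in the class `𝓗` with a normal subgroup `SL(2, q)` in defining characteristic
-/

set_option autoImplicit false
set_option linter.unusedSectionVars false

namespace Her

open Cfsg GT FT GW Subgroup MulAction Matrix CT.SL2 LG
open scoped Pointwise commutatorElement

theorem pow_eq_of_count {p a b n : ℕ} (hp : 2 ≤ p) (hn : 1 ≤ n) (h : (p ^ a + 1) * (p ^ b - 1) = p ^ n - 1) :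
    p ^ n = p ^ a * p ^ a := by
  have h0 : ∀ k, 1 ≤ p ^ k := fun k => Nat.one_le_pow _ _ (by omega)
  have h1 : ∀ {i j}, i < j → 2 * p ^ i ≤ p ^ j := fun {i j} hij =>
    (Nat.mul_le_mul_right _ hp).trans (by rw [← pow_succ']; exact Nat.pow_le_pow_right (by omega) hij)
  have h2 : ∀ {i j}, p ^ i < p ^ j → 2 * p ^ i ≤ p ^ j := fun h => h1 ((Nat.pow_lt_pow_iff_right hp).1 h)
  have h3 : p ^ n + p ^ a = p ^ (a + b) + p ^ b := by
    have := h0 b
    have := h0 n
    zify [*] at h ⊢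
    rw [pow_add]
    linear_combination -h
  have hb : b ≠ 0 := by
    rintro rfl
    have := h1 (show 0 < n from hn)
    simp only [add_zero, pow_zero] at h3 this
    omega
  have h4 := h1 (show a < a + b by omega)
  have h5 : p ^ b ≤ p ^ (a + b) := Nat.pow_le_pow_right (by omega) (by omega)
  obtain h6 | rfl | h6 := lt_trichotomy a b
  · have := h1 h6
    have := h0 a
    have := h2 (show p ^ (a + b) < p ^ n by omega)
    omega
  · rw [← pow_add]; omega
  · have := h1 h6
    have := h0 b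
    have := h2 (show p ^ n < p ^ (a + b) by omega)
    omega

section
variable {F : Type*} [Field F] [Fintype F]

theorem mem_uRange {g : G2 F} : g ∈ (uHom F).range ↔ slm g 1 0 = 0 ∧ slm g 0 0 = 1 := by
  refine ⟨by rintro ⟨x, rfl⟩; exact ⟨rfl, rfl⟩, fun h => ⟨.ofAdd (slm g 0 1), ext_ent h.2.symm rfl h.1.symm ?_⟩⟩
  have := det_ent g
  rw [h.1, h.2, mul_zero, sub_zero, one_mul] at this
  exact this.symm

theorem card_uRange : Nat.card (uHom F).range = Fintype.card F := by
  rw [← Nat.card_eq_fintype_card]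
  exact (Nat.card_congr (MonoidHom.ofInjective (f := uHom F) fun x y h => congrArg (slm · 0 1) h).toEquiv).symm

theorem index_uRange : (uHom F).range.index = (Fintype.card F + 1) * (Fintype.card F - 1) := by
  have := (uHom F).range.index_mul_card
  rw [card_uRange, card_SL2, ← mul_assoc] at this
  exact Nat.eq_of_mul_eq_mul_right Fintype.card_pos this

theorem normalizer_uRange : 𝐍((uHom F).range) = borel F := by
  refine le_antisymm (fun g hg => ?_) fun g hg => mem_normalizer_fintype fun n hn => ?_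
  · have := (mem_uRange.1 ((mem_normalizer_iff.1 hg (uu 1)).1 ⟨Multiplicative.ofAdd 1, rfl⟩)).1
    simp only [mul_ent, uu_00, uu_01, uu_10, uu_11, inv_00, inv_10] at this
    exact mul_self_eq_zero.1 (by linear_combination -this)
  · obtain ⟨h1, h2⟩ := mem_uRange.1 hn
    have h3 := borel_det ⟨g, hg⟩
    replace hg := mem_borel.1 hg
    refine mem_uRange.2 ?_
    simp only [mul_ent, inv_00, inv_10, h1, h2, hg] at h3 ⊢
    exact ⟨by ring, by linear_combination h3⟩

variable {p : ℕ} [hp : Fact p.Prime]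

theorem exists_card_eq_pow (hF : p ∣ Fintype.card F) : ∃ a, Fintype.card F = p ^ a := by
  obtain ⟨l, _, n, hl, hn⟩ := FiniteField.card' F
  rw [hn] at hF
  exact ⟨n, hn.trans (by rw [(Nat.prime_dvd_prime_iff_eq hp.out hl).1 (hp.out.dvd_of_dvd_pow hF)])⟩

theorem sylow_uRange (hF : p ∣ Fintype.card F) : IsSylowIn p (uHom F).range ⊤ := by
  obtain ⟨a, ha⟩ := exists_card_eq_pow hF
  refine isSylowIn_top_iff'.2 ⟨IsPGroup.of_card (card_uRange.trans ha), fun h => hp.out.one_lt.ne' ?_⟩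
  rw [index_uRange] at h
  rcases (hp.out.dvd_mul).1 h with h | h
  · exact Nat.dvd_one.1 ((Nat.dvd_add_right hF).1 h)
  · exact Nat.dvd_one.1 ((Nat.dvd_add_right h).1 (by rwa [Nat.sub_add_cancel Fintype.card_pos]))

end

variable {p : ℕ} [hp : Fact p.Prime] {H V : Type*} [Group H] [Finite H] [AddCommGroup V] [Finite V]
  [DistribMulAction H V]

theorem card_ne_zero' {W : Type*} [Zero W] [Finite W] : Nat.card {w : W // w ≠ 0} = Nat.card W - 1 := by
  classical
  have := Fintype.ofFinite W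
  rw [Nat.card_eq_fintype_card, Fintype.card_subtype_compl, Fintype.card_subtype_eq, ← Nat.card_eq_fintype_card]

/-- The non-zero vectors are partitioned by their stabilizers. -/
theorem Hc.count (h : Hc p H V) {U : Subgroup H} (hU : IsSylowIn p U ⊤) :
    (𝐍(U)).index * (Nat.card (Fx V U) - 1) = Nat.card V - 1 := by
  have h1 : ∀ w : {w : Fx V U // w ≠ 0}, w.1.1 ≠ 0 := fun w e => w.2 (Subtype.ext e)
  have h2 : ∀ w : {w : Fx V U // w ≠ 0}, stabilizer H w.1.1 = U := fun w =>
    hU.eq_of_le (h.syl _ (h1 w)).isPGroup le_top w.1.2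
  rw [← card_ne_zero', ← card_ne_zero', index, ← Nat.card_prod]
  refine Nat.card_congr (Equiv.ofBijective (fun x => ⟨x.1.out • x.2.1.1, smul_ne_zero' _ (h1 _)⟩) ⟨?_, ?_⟩)
  · rintro ⟨c, w⟩ ⟨c', w'⟩ e
    replace e : c.out • w.1.1 = c'.out • w'.1.1 := congrArg Subtype.val e
    obtain rfl : c = c' := by
      rw [← c.out_eq', ← c'.out_eq', QuotientGroup.eq]
      refine mem_normalizer_fintype fun n hn => (h2 w).le ?_
      rw [mem_stabilizer_iff, mul_smul, mul_smul, _root_.mul_inv_rev, inv_inv, mul_smul _ c.out, e, inv_smul_smul,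
        w'.1.2 n hn, mul_smul, ← e, inv_smul_smul]
    rw [show w = w' from Subtype.ext (Subtype.ext (smul_left_cancel _ e))]
  · rintro ⟨v, hv⟩
    obtain ⟨g, -, hg⟩ := hU.exists_conj_eq (h.syl v hv)
    obtain ⟨b, hb⟩ := QuotientGroup.mk_out_eq_mul 𝐍(U) g
    refine ⟨⟨g, ⟨(g * b)⁻¹ • v, fun u hu => ?_⟩, fun e => smul_ne_zero' _ hv (congrArg Subtype.val e)⟩,
      Subtype.ext ?_⟩
    · have h3 : g * (b * u * (b : H)⁻¹) * g⁻¹ ∈ stabilizer H v :=
        hg ▸ smul_mem_pointwise_smul _ _ _ ((mem_normalizer_iff.1 b.2 u).1 hu)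
      rw [eq_inv_smul_iff, ← mul_smul, ← mul_smul]
      convert mem_stabilizer_iff.1 h3 using 2
      group
    · simp only [hb, smul_inv_smul]

/-- defining characteristic: the module is the natural one -/
theorem Hc.card_V_eq (h : Hc p H V) {F : Type*} [Field F] [Fintype F] (hF : p ∣ Fintype.card F)
    (e : H ≃* SpecialLinearGroup (Fin 2) F) : Nat.card V = Fintype.card F * Fintype.card F ∧ Tr H V := by
  have hU : IsSylowIn p ((uHom F).range.comap e.toMonoidHom) ⊤ := by
    simpa using (sylow_uRange hF).comap_of_isPGroup_ker e.surjective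
      (by rw [(MonoidHom.ker_eq_bot_iff _).2 e.injective]; exact IsPGroup.of_bot)
  obtain ⟨a, ha⟩ := exists_card_eq_pow hF
  obtain ⟨n, hn, hV⟩ := h.card_V
  have h1 := h.count hU
  obtain ⟨b, -, hb⟩ := (Nat.dvd_prime_pow hp.out).1
    (hV ▸ AddSubgroup.card_addSubgroup_dvd_card (Fx V ((uHom F).range.comap e.toMonoidHom)))
  rw [← comap_normalizer_eq_of_surjective _ e.surjective, normalizer_uRange, index_comap_of_surjective _ e.surjective,
    index_borel, ha, hb, hV] at h1
  have h2 : Nat.card V = Fintype.card F * Fintype.card F := by rw [hV, ha, pow_eq_of_count hp.out.two_le hn h1]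
  refine ⟨h2, fun v w hv hw => ?_⟩
  have h3 : (stabilizer H v).index = Nat.card V - 1 := by
    have h4 := (stabilizer H v).index_mul_card
    rw [(h.syl v hv).card_eq_card hU, ← ((uHom F).range.comap e.toMonoidHom).index_mul_card] at h4
    rw [Nat.eq_of_mul_eq_mul_right Nat.card_pos h4, index_comap_of_surjective _ e.surjective, index_uRange, h2,
      ← Nat.sq_sub_sq, sq, one_pow]
  rw [index_stabilizer] at h3
  have h5 : orbit H v = {0}ᶜ := Set.eq_of_subset_of_ncard_le (by rintro _ ⟨g, rfl⟩; exact smul_ne_zero' g hv)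
    (by rw [h3, Set.ncard_compl, Set.ncard_singleton])
  exact h5.ge hw

theorem Hc.defining (h : Hc p H V) (tr : Tr H V) {L : Subgroup H} [L.Normal] {F : Type} [Field F] [Fintype F]
    (hF : p ∣ Fintype.card F) (h3 : 3 < Fintype.card F) (e : L ≃* SpecialLinearGroup (Fin 2) F) :
    Def p H := by
  classical
  obtain ⟨h1, h2⟩ := (h.sub L).card_V_eq hF e
  obtain ⟨a, ha⟩ := h.card_trans tr
  obtain ⟨k, -, hk⟩ := (Nat.dvd_prime_pow hp.out).1 (show L.index ∣ p ^ a by
    rw [← L.index_mul_card, Nat.card_congr e.toEquiv, card_SL2, h1, ← sq, ← one_pow 2, Nat.sq_sub_sq, one_pow,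
      ← mul_assoc (_ + 1), mul_left_comm] at ha
    exact ⟨_, (Nat.eq_of_mul_eq_mul_left (Nat.mul_pos (by omega) (by omega)) ha).symm⟩)
  have h4 : ∀ x : H, ∀ m, m.Coprime p → x ^ m ∈ L → x ∈ L := fun x m hm hx =>
    (QuotientGroup.eq_one_iff x).1 ((pow_eq_one_iff_of_coprime (hm.pow_right k)).1
      ⟨(QuotientGroup.eq_one_iff (x ^ m)).2 hx, (QuotientGroup.eq_one_iff (x ^ p ^ k)).2 (hk ▸ L.pow_index_mem x)⟩)
  have hC : 𝐂(L) ≤ L := fun x hx => h4 x _ ((Nat.coprime_comm.1 (hp.out.coprime_iff_not_dvd.2 fun hd => by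
    have h5 := orderOf_pow_orderOf_div (orderOf_pos x).ne' hd
    have h6 := pow_mem hx (orderOf x / p)
    generalize x ^ (orderOf x / p) = y at h5 h6
    obtain ⟨w, hw, h7⟩ := h.exists_fix (P := zpowers y) (IsPGroup.of_card (n := 1) (by rw [Nat.card_zpowers, h5, pow_one]))
    rw [h.faith y fun v => ?_, orderOf_one] at h5
    · exact hp.out.one_lt.ne h5
    by_cases hv : v = 0
    · rw [hv, smul_zero]
    obtain ⟨l, rfl⟩ := h2 w v hw hv
    rw [Subgroup.smul_def, ← mul_smul, ← h6 l l.2, mul_smul, h7 (mem_zpowers y)]))) (by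
      rw [pow_orderOf_eq_one]; exact one_mem _)
  refine ⟨F, inferInstance, inferInstance, exists_card_eq_pow hF, by omega, L, inferInstance, ⟨e⟩, ⟨k, hk⟩, ?_,
    le_antisymm (fun x hx => ⟨⟨x, hC hx⟩, mem_center_iff.2 fun y => Subtype.ext (hx y y.2), rfl⟩) ?_⟩
  · obtain ⟨θ, h5, h6, h7⟩ := DL.exists_fa h3 e
    rw [sup_eq_left.2 hC] at h5 h6 h7
    have h8 : θ.ker ≤ L := by
      by_cases hp2 : p = 2
      · obtain ⟨a, ha⟩ := exists_card_eq_pow hF
        exact h7 (two_eq_zero_of_card (hp2 ▸ ha))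
      · exact fun x hx => by_contra fun hx' => hx' (h4 x 2
          ((Nat.coprime_primes Nat.prime_two hp.out).2 (Ne.symm hp2)) (sq x ▸ h6 x hx x hx hx' hx'))
    have := DL.isCyclic_ringAut (F := F)
    obtain ⟨⟨_, g, rfl⟩, hg⟩ := IsCyclic.exists_generator (α := θ.range)
    refine ⟨g, eq_top_iff.2 fun x _ => ?_⟩
    obtain ⟨i, hi⟩ := mem_zpowers_iff.1 (hg ⟨_, x, rfl⟩)
    rw [← mul_inv_cancel_right x (g ^ i)⁻¹, inv_inv]
    refine mul_mem_sup (h8 ?_) (zpow_mem (mem_zpowers g) i)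
    rw [MonoidHom.mem_ker, map_mul, map_inv, map_zpow, mul_inv_eq_one]
    exact (congrArg Subtype.val hi).symm
  · rintro _ ⟨x, hx, rfl⟩ y hy
    exact congrArg Subtype.val (mem_center_iff.1 hx ⟨y, hy⟩)

end Her
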