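import Cfsg.Agent.Lib.Her.Odd
import Cfsg.Agent.Lib.Her.DC2
import Cfsg.Agent.Lib.Her.S7
import Cfsg.Agent.Lib.GW.Main
import Cfsg.Agent.Lib.Char.Gagola

/-!
# Reduction from Gagola characters to the class `𝓗`, and the outer frame
-/

set_option autoImplicit false
set_option linter.unusedSectionVars false

namespace Her

open Cfsg GT FT GW Subgroup Matrix
open scoped Pointwise commutatorElement

universe u

theorem exists_hc {G : Type u} [Group G] [Finite G] {χ : IrrCharacter G} {N : Subgroup G} (h : CT.IsGagola χ N)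
    {p : ℕ} [Fact p.Prime] (hN : IsPGroup p N) :
    ∃ (V : Type u) (_ : AddCommGroup V) (_ : Finite V) (_ : DistribMulAction (G ⧸ pCore p G) V),
      Hc p (G ⧸ pCore p G) V ∧ Tr (G ⧸ pCore p G) V := by
  have := h.normal
  have := h.isMulCommutative
  have := (isPGroup_pCore p G).isNilpotent
  have hC : pCore p G = 𝐂(N) := le_antisymm (le_cent_comm.1 (h.isMinNormal.le_centralizer_of_isNilpotent _))
    (le_pCore (h.isPGroup_centralizer_self hN))
  open scoped IsMulCommutative in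
  let ψ : G ⧸ pCore p G →* MulAut N := QuotientGroup.lift _ MulAut.conjNormal fun g hg => MulEquiv.ext fun n =>
    Subtype.ext (mul_inv_eq_iff_eq_mul.2 ((hC ▸ hg) n n.2).symm)
  letI : DistribMulAction (G ⧸ pCore p G) (Additive N) :=
    { smul := fun g v => Additive.ofMul (ψ g v.toMul)
      one_smul := fun v => by change Additive.ofMul (ψ 1 v.toMul) = v; rw [map_one]; rfl
      mul_smul := fun g g' v => by change Additive.ofMul (ψ (g * g') v.toMul) = _; rw [map_mul]; rfl
      smul_zero := fun g => map_one (ψ g)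
      smul_add := fun g v w => map_mul (ψ g) v.toMul w.toMul }
  have key : ∀ (g : G) (v w : Additive N), (g : G ⧸ pCore p G) • v = w ↔ g * v.toMul * g⁻¹ = w.toMul :=
    fun g v w => Subtype.ext_iff
  have ne : ∀ {v : Additive N}, v ≠ 0 → (v.toMul : G) ≠ 1 := fun hv e => hv (Subtype.ext e)
  refine ⟨Additive N, inferInstance, inferInstance, this, ⟨fun g hg => ?_, fun v hv => ?_, fun v => ?_,
    h.isMinNormal.nontrivial⟩, fun v w hv hw => ?_⟩
  · obtain ⟨g, rfl⟩ := QuotientGroup.mk_surjective g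
    exact (QuotientGroup.eq_one_iff g).2 (hC ▸ fun n hn =>
      (mul_inv_eq_iff_eq_mul.1 ((key g _ _).1 (hg (Additive.ofMul ⟨n, hn⟩)))).symm)
  · convert (h.isSylowIn_centralizer hN v.toMul.2 (ne hv)).map_top_of_surjective
      (QuotientGroup.mk'_surjective (pCore p G))
    ext g
    obtain ⟨g, rfl⟩ := QuotientGroup.mk_surjective g
    refine ⟨fun e => ⟨g, mem_cent1.2 (mul_inv_eq_iff_eq_mul.1 ((key g _ _).1 e)), rfl⟩, ?_⟩
    rintro ⟨a, ha, e⟩
    exact e ▸ (key a _ _).2 (mul_inv_eq_iff_eq_mul.2 (mem_cent1.1 ha))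
  · exact Subtype.ext ((h.isMinNormal.isElementaryAbelian_of_isPGroup hN).2 _ v.toMul.2)
  · obtain ⟨g, hg⟩ := isConj_iff.1 (h.isConj _ v.toMul.2 _ w.toMul.2 (ne hv) (ne hw))
    exact ⟨g, (key g _ _).2 hg⟩

/-- The packages proved in other files. -/
structure Pk : Prop where
  two : ∀ n, IH2.{u} n
  cross : ∀ {p : ℕ} [Fact p.Prime] {H V : Type u} [Group H] [Finite H] [AddCommGroup V] [Finite V]
    [DistribMulAction H V], Hc p H V → Tr H V → p ≠ 2 → ∀ {Q : Type u} [Group Q] {f : H →* Q} {z : H}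
    {L : Subgroup H}, St f z L → ∀ {F : Type} [Field F] [Fintype F], ¬ p ∣ Fintype.card F →
    Odd (Fintype.card F) → 3 < Fintype.card F → (L ≃* SpecialLinearGroup (Fin 2) F) →
    (L.map f ≃* ProjectiveSpecialLinearGroup (Fin 2) F) → Exc p H
  not_a7 : ∀ {p : ℕ} [Fact p.Prime] {H V : Type u} [Group H] [Finite H] [AddCommGroup V] [Finite V]
    [DistribMulAction H V], Hc p H V → Tr H V → p ≠ 2 → ∀ {Q : Type u} [Group Q] {f : H →* Q} {z : H}
    {L : Subgroup H}, St f z L → (L.map f ≃* alternatingGroup (Fin 7)) → False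

theorem Pk.hering (P : Pk.{u}) {p : ℕ} [Fact p.Prime] {H V : Type u} [Group H] [Finite H] [AddCommGroup V] [Finite V]
    [DistribMulAction H V] (h : Hc p H V) (tr : Tr H V) (hns : ¬ Group.IsSolvable H) : Def p H ∨ Exc p H := by
  by_cases hp : p = 2
  · subst hp
    obtain ⟨L, _, _, h1⟩ := h.exists_simple hns
    obtain ⟨q, C⟩ := P.two _ L V h1 ((h.sub L).oc_simple h1) (h.sub L) (Nat.lt_succ_self _)
    obtain ⟨F, _, _, rfl, ⟨e⟩⟩ := C.iso
    obtain ⟨a, ha⟩ := C.pow
    have h4 := C.four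
    exact .inl (h.defining tr (ha ▸ dvd_pow_self 2 (by rintro rfl; omega)) h4 e)
  obtain ⟨z, _, L, S⟩ := h.exists_st hp hns
  have := S.normal
  rcases gorenstein_walter S.sd with ⟨⟨e⟩⟩ | ⟨F, _, _, ho, ⟨e⟩⟩
  · exact (P.not_a7 h tr hp S e).elim
  have := S.simple
  obtain ⟨e'⟩ := dcov_sl2 S.cov_sub (commutator_eq_top_of_simple S.ns_map) (S.dc.mono le_top).top ho e
  have h3 := three_lt_card (F := F) fun _ => S.ns (isSolvable_of_mulEquiv e'.symm)
  by_cases hF : p ∣ Fintype.card F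
  · exact .inl (h.defining tr hF h3 e')
  · exact .inr (P.cross h tr hp S hF ho h3 e' e)

theorem Pk.main (P : Pk.{u}) {G : Type u} [Group G] [Finite G] (hns : ¬ Group.IsSolvable G) (χ : IrrCharacter G)
    (hχ : Nat.card {C : ConjClasses G // ∃ g ∈ C.carrier, (χ : G → ℂ) g ≠ 0} = 2) :
    ∃ p : ℕ, p.Prime ∧ (∀ q : ℕ, q.Prime → (pCore q G ≠ ⊥ ↔ q = p)) ∧
      (Def p (G ⧸ pCore p G) ∨ Exc p (G ⧸ pCore p G)) := by
  obtain ⟨N, h⟩ := CT.exists_isGagola (by_contra fun e => hns (by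
    have h1 : 0 < Nat.card G := Nat.card_pos
    have := isCyclic_of_card_dvd_prime (α := G) (p := 2) (by
      rcases (show Nat.card G = 1 ∨ Nat.card G = 2 by omega) with e | e <;> simp [e])
    exact isSolvable_of_isMulCommutative)) χ hχ
  obtain ⟨p, hp, hN⟩ := h.exists_isPGroup
  have := Fact.mk hp
  have := h.normal
  refine ⟨p, hp, fun q hq => ⟨fun e => ?_, fun e e' => h.ne_bot (eq_bot_iff.2 (e' ▸ le_pCore (e ▸ hN)))⟩, ?_⟩
  · have := Fact.mk hq
    exact (eq_of_prime_dvd_card_of_isPGroup ((isPGroup_pCore q G).to_le (h.le_of_normal _ e)) hp (h.dvd_card hN)).symm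
  · obtain ⟨V, _, _, _, h1, h2⟩ := exists_hc h hN
    exact P.hering h1 h2 fun _ => hns (by
      have := IsPGroup.isSolvable' (isPGroup_pCore p G)
      exact Group.isSolvable_of_ker_le_range (pCore p G).subtype (QuotientGroup.mk' (pCore p G)) (by simp))

end Her
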