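import Cfsg.Agent.Lib.Her.St

/-!
# Pairs of subgroups of order three (vocabulary for steps 3, 4 of docs/S4841_detail.md)
-/

set_option autoImplicit false

namespace Her

open Cfsg GT FT GW Subgroup
open scoped Pointwise commutatorElement

variable {G : Type*} [Group G]

/-- generators of two different subgroups of order three -/
structure Pr (ρ ρ' : G) : Prop where
  l : orderOf ρ = 3
  r : orderOf ρ' = 3
  ne : zpowers ρ ≠ zpowers ρ'

/-- the group generated by two elements -/
abbrev Jg (ρ ρ' : G) : Subgroup G := closure {ρ, ρ'}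

/-- no involution centralizes two different subgroups of order three -/
def Star (G : Type*) [Group G] : Prop :=
  ∀ z ρ ρ' : G, Inv z → Pr ρ ρ' → ρ * z = z * ρ → ρ' * z = z * ρ' → False

variable {ρ ρ' : G}

theorem Pr.symm (h : Pr ρ ρ') : Pr ρ' ρ := ⟨h.r, h.l, h.ne.symm⟩

theorem left_mem_Jg (ρ ρ' : G) : ρ ∈ Jg ρ ρ' := subset_closure (Set.mem_insert _ _)
theorem right_mem_Jg (ρ ρ' : G) : ρ' ∈ Jg ρ ρ' := subset_closure (Set.mem_insert_of_mem _ rfl)

theorem Jg_le {X : Subgroup G} (h1 : ρ ∈ X) (h2 : ρ' ∈ X) : Jg ρ ρ' ≤ X := by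
  rw [closure_le]
  rintro x (rfl | rfl) <;> assumption

end Her
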