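import Cfsg.Agent.Lib.Her.SL0

/-!
# Rings of characteristic two: traces in the group generated by two quadratic elements, matrix units
-/

set_option autoImplicit false

namespace Her

open Subgroup

section Ring
variable {E : Type*} [Ring E]

theorem zs (h2 : (2 : E) = 0) (n : ℤ) (x : E) : n • x = if n % 2 = 0 then 0 else x := by
  have h : (2 : ℤ) • x = 0 := by rw [two_zsmul, ← two_mul, h2, zero_mul]
  conv_lhs => rw [← Int.mul_ediv_add_emod n 2, add_zsmul, mul_comm, mul_zsmul, h, zsmul_zero, zero_add]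
  rcases Int.emod_two_eq_zero_or_one n with e | e <;> simp [e]

theorem add_self' (h2 : (2 : E) = 0) (x : E) : x + x = 0 := by rw [← two_mul, h2, zero_mul]

theorem eq_of_add' (h2 : (2 : E) = 0) {x y : E} (h : x + y = 0) : x = y := by
  rw [← add_zero x, ← add_self' h2 y, ← add_assoc, h, zero_add]

theorem comm_of_mem_closure {c x r : E} (h : Commute c x) (hr : r ∈ Subring.closure {c}) : Commute r x := by
  have : Subring.closure {c} ≤ Subring.centralizer {x} := by
    rw [Subring.closure_le]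
    rintro _ rfl
    exact Subring.mem_centralizer_iff.2 fun g hg => by rw [hg]; exact h.eq.symm
  exact (Subring.mem_centralizer_iff.1 (this hr) x rfl).symm

theorem add_pow_two_pow (h2 : (2 : E) = 0) {x y : E} (h : Commute x y) (k : ℕ) :
    (x + y) ^ 2 ^ k = x ^ 2 ^ k + y ^ 2 ^ k := by
  induction k with
  | zero => simp
  | succ k ih =>
    rw [pow_succ, pow_mul, pow_mul, pow_mul, ih, pow_two, pow_two, pow_two]
    have := ((h.pow_pow (2 ^ k) (2 ^ k))).eq
    linear_combination (norm := (noncomm_ring; simp [zs h2])) this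

/-- if `c ^ 2 ^ k = c` the same holds in the subring generated by `c` -/
theorem frob_of_mem_closure (h2 : (2 : E) = 0) {c r : E} {k : ℕ} (h : c ^ 2 ^ k = c)
    (hr : r ∈ Subring.closure {c}) : r ^ 2 ^ k = r := by
  have hc : ∀ x ∈ Subring.closure {c}, ∀ y ∈ Subring.closure {c}, Commute x y := fun x hx y hy =>
    comm_of_mem_closure (comm_of_mem_closure (Commute.refl c) hy).symm hx
  induction hr using Subring.closure_induction with
  | mem x hx => rw [hx, h]
  | zero => exact zero_pow (by positivity)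
  | one => exact one_pow _
  | add x y hx hy ix iy => rw [add_pow_two_pow h2 (hc x hx y hy), ix, iy]
  | neg x hx ix => rwa [neg_eq_of_add_eq_zero_left (add_self' h2 x)]
  | mul x y hx hy ix iy => rw [(hc x hx y hy).mul_pow, ix, iy]

/-- two quadratic elements -/
structure Qd (a b : E) : Prop where
  two : (2 : E) = 0
  l : a * a = a + 1
  r : b * b = b + 1

/-- the traces of `g, ga, gb, gab` lie in `R` -/
def Tk (R : Subring E) (a b g g' : E) : Prop :=
  g + g' ∈ R ∧ g * a + (a + 1) * g' ∈ R ∧ g * b + (b + 1) * g' ∈ R ∧ g * a * b + (b + 1) * (a + 1) * g' ∈ R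

variable {a b g g' : E} {R : Subring E}

theorem Qd.symm (h : Qd a b) : Qd b a := ⟨h.two, h.r, h.l⟩

theorem Qd.cl (h : Qd a b) : Commute ((a + b) * (a + b)) a := by
  have h2 := h.two
  have h1 := h.l
  have h3 := h.r
  show _ = _
  linear_combination (norm := (noncomm_ring; simp [zs h2])) b * h1 + h3 * a - h1 * b - a * h3

theorem Qd.cr (h : Qd a b) : Commute ((a + b) * (a + b)) b := by
  rw [add_comm]; exact h.symm.cl

theorem Qd.one (h : Qd a b) (hc : (a + b) * (a + b) ∈ R) : Tk R a b 1 1 := by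
  have h2 := h.two
  have h1 := h.l
  have h3 := h.r
  refine ⟨?_, ?_, ?_, ?_⟩
  · exact R.add_mem R.one_mem R.one_mem
  · convert R.one_mem using 1
    noncomm_ring; simp [zs h2]
  · convert R.one_mem using 1
    noncomm_ring; simp [zs h2]
  · convert R.add_mem hc R.one_mem using 1
    linear_combination (norm := (noncomm_ring; simp [zs h2])) h1 + h3

theorem Qd.mul_l (h : Qd a b) (t : Tk R a b g g') : Tk R a b (g * a) ((a + 1) * g') := by
  have h2 := h.two
  have h1 := h.l
  obtain ⟨t1, t2, t3, t4⟩ := t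
  refine ⟨t2, ?_, ?_, ?_⟩
  · convert R.add_mem t1 t2 using 1
    linear_combination (norm := (noncomm_ring; simp [zs h2])) g * h1 + h1 * g'
  · convert t4 using 1
    noncomm_ring
  · convert R.add_mem t3 t4 using 1
    linear_combination (norm := (noncomm_ring; simp [zs h2])) g * h1 * b + (b + 1) * h1 * g'

theorem Qd.mul_r (h : Qd a b) (hc : (a + b) * (a + b) ∈ R) (hg : Commute ((a + b) * (a + b)) g)
    (t : Tk R a b g g') : Tk R a b (g * b) ((b + 1) * g') := by
  have h2 := h.two
  have h1 := h.l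
  have h3 := h.r
  have h4 := hg.eq
  obtain ⟨t1, t2, t3, t4⟩ := t
  refine ⟨t3, ?_, ?_, ?_⟩
  · convert R.add_mem (R.add_mem (R.add_mem t2 t3) t4) (R.mul_mem hc t1) using 1
    linear_combination (norm := (noncomm_ring; simp [zs h2])) h4 + g * h1 + g * h3 + h1 * g' + h3 * g'
  · convert R.add_mem t1 t3 using 1
    linear_combination (norm := (noncomm_ring; simp [zs h2])) g * h3 + h3 * g'
  · convert R.add_mem (R.add_mem (R.add_mem t1 t2) t3) (R.mul_mem hc t3) using 1
    linear_combination (norm := (noncomm_ring; simp [zs h2])) h4 * b + g * h1 * b + g * h3 * b + g * a * h3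
      + g * h3 + h1 * b * g' + h3 * b * g' + a * h3 * g' + h1 * g' + h3 * g'

variable {G : Type*} [Group G] (ψ : G →* E) {ρ ρ' : G}

theorem commute_inv {z : E} {g : G} (h : Commute z (ψ g)) : Commute z (ψ g⁻¹) := by
  have h1 : ψ g * ψ g⁻¹ = 1 := by rw [← map_mul, mul_inv_cancel, map_one]
  have h2 : ψ g⁻¹ * ψ g = 1 := by rw [← map_mul, inv_mul_cancel, map_one]
  show _ = _
  linear_combination (norm := noncomm_ring) ψ g⁻¹ * z * h1 - h2 * z * ψ g⁻¹ - ψ g⁻¹ * h.eq * ψ g⁻¹

theorem commute_of_mem_Jg {z : E} (h1 : Commute z (ψ ρ)) (h2 : Commute z (ψ ρ')) {g : G} (hg : g ∈ Jg ρ ρ') :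
    Commute z (ψ g) := by
  induction hg using closure_induction with
  | mem x hx => rcases hx with rfl | rfl <;> assumption
  | one => rw [map_one]; exact Commute.one_right z
  | mul x y _ _ ix iy => rw [map_mul]; exact ix.mul_right iy
  | inv x _ ix => exact commute_inv ψ ix

theorem map_inv_eq (h2 : (2 : E) = 0) (h : ψ ρ * ψ ρ = ψ ρ + 1) : ψ ρ⁻¹ = ψ ρ + 1 := by
  have h1 : ψ ρ⁻¹ * ψ ρ = 1 := by rw [← map_mul, inv_mul_cancel, map_one]
  linear_combination (norm := (noncomm_ring; simp [zs h2])) ψ ρ⁻¹ * h + h1 * ψ ρ + h1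

/-- all traces lie in the subring generated by `(a + b)²` -/
theorem Qd.tau (h : Qd (ψ ρ) (ψ ρ')) (h3 : ρ * ρ = ρ⁻¹) (h3' : ρ' * ρ' = ρ'⁻¹) {g : G} (hg : g ∈ Jg ρ ρ') :
    ψ g + ψ g⁻¹ ∈ Subring.closure {(ψ ρ + ψ ρ') * (ψ ρ + ψ ρ')} := by
  have hc : (ψ ρ + ψ ρ') * (ψ ρ + ψ ρ') ∈ Subring.closure {(ψ ρ + ψ ρ') * (ψ ρ + ψ ρ')} :=
    Subring.subset_closure rfl
  have key : ∀ x ∈ Jg ρ ρ', ∀ y ∈ ({ρ, ρ'} : Set G),
      Tk (Subring.closure {(ψ ρ + ψ ρ') * (ψ ρ + ψ ρ')}) (ψ ρ) (ψ ρ') (ψ x) (ψ x⁻¹) →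
      Tk (Subring.closure {(ψ ρ + ψ ρ') * (ψ ρ + ψ ρ')}) (ψ ρ) (ψ ρ') (ψ (x * y)) (ψ (x * y)⁻¹) := by
    rintro x hx y (rfl | rfl) t
    · rw [mul_inv_rev, map_mul, map_mul, map_inv_eq ψ h.two h.l]
      exact h.mul_l t
    · rw [mul_inv_rev, map_mul, map_mul, map_inv_eq ψ h.two h.r]
      exact h.mul_r hc (commute_of_mem_Jg ψ h.cl h.cr hx) t
  suffices Tk (Subring.closure {(ψ ρ + ψ ρ') * (ψ ρ + ψ ρ')}) (ψ ρ) (ψ ρ') (ψ g) (ψ g⁻¹) from this.1
  induction hg using closure_induction_right with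
  | one => rw [inv_one, map_one]; exact h.one hc
  | mul_right x hx y hy ih => exact key x hx y hy ih
  | mul_inv_cancel x hx y hy ih =>
    have e : y⁻¹ = y * y := by rcases hy with rfl | rfl <;> simp [*]
    rw [e, ← mul_assoc]
    exact key _ (mul_mem hx (subset_closure hy)) y hy (key x hx y hy ih)

/-- a coordinate system in which `r = [[0,1],[1,1]]`, `n = [[0,1],[0,0]]` -/
structure Fm (r n : E) (Θ : E →+* Matrix (Fin 2) (Fin 2) E) : Prop where
  inj : Function.Injective Θ
  rr : Θ r = !![0, 1; 1, 1]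
  nn : Θ n = !![0, 1; 0, 0]
  sc : ∀ z, Commute z r → Commute z n → Θ z = !![z, 0; 0, z]
  cr : ∀ a i j, Commute (Θ a i j) r
  cn : ∀ a i j, Commute (Θ a i j) n

theorem exists_units (e : Fin 2 → Fin 2 → E) (he : ∀ i j k l, e i j * e k l = if j = k then e i l else 0)
    (h1 : e 0 0 + e 1 1 = 1) : ∃ Θ : E →+* Matrix (Fin 2) (Fin 2) E, Function.Injective Θ ∧
      (∀ i j, Θ (e i j) = Matrix.single i j 1) ∧ (∀ z, (∀ i j, Commute z (e i j)) → Θ z = !![z, 0; 0, z]) ∧
      ∀ a i j k l, Commute (Θ a i j) (e k l) := by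
  have he' : ∀ i j k l x, e i j * (e k l * x) = if j = k then e i l * x else 0 := fun i j k l x => by
    rw [← mul_assoc, he]; split_ifs <;> simp
  let Θ : E →+* Matrix (Fin 2) (Fin 2) E :=
    { toFun := fun a => Matrix.of fun i j => e 0 i * a * e j 0 + e 1 i * a * e j 1
      map_one' := by
        ext i j
        fin_cases i <;> fin_cases j <;> simp [he, h1]
      map_mul' := fun a b => by
        ext i j
        have : a * b = a * (e 0 0 + e 1 1) * b := by rw [h1, mul_one]
        simp [Matrix.mul_apply, Fin.sum_univ_two, this, mul_add, add_mul, mul_assoc, he']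
        abel
      map_zero' := by ext i j; simp
      map_add' := fun a b => by
        ext i j
        simp [mul_add, add_mul]
        abel }
  have hΘ : ∀ a i j, Θ a i j = e 0 i * a * e j 0 + e 1 i * a * e j 1 := fun _ _ _ => rfl
  refine ⟨Θ, (injective_iff_map_eq_zero Θ).2 fun a ha => ?_, fun i j => ?_, fun z hz => ?_, fun a i j k l => ?_⟩
  · have h : ∀ i j, e i i * a * e j j = 0 := fun i j => by
      have := congrArg (fun x => e i 0 * x * e 0 j) ((hΘ a i j).symm.trans (congrFun (congrFun ha i) j))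
      simpa [mul_add, add_mul, mul_assoc, he, he'] using this
    calc a = (e 0 0 + e 1 1) * a * (e 0 0 + e 1 1) := by rw [h1, one_mul, mul_one]
      _ = 0 := by simp [mul_add, add_mul, h]
  · ext k l
    fin_cases i <;> fin_cases j <;> fin_cases k <;> fin_cases l <;> simp [hΘ, he, h1, mul_assoc]
  · ext i j
    rw [hΘ, ← (hz 0 i).eq, ← (hz 1 i).eq, mul_assoc, mul_assoc, ← mul_add]
    fin_cases i <;> fin_cases j <;> simp [he, h1]
  · show _ = _
    fin_cases k <;> fin_cases l <;> simp [hΘ, mul_add, add_mul, mul_assoc, he, he']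

theorem exists_Fm (h2 : (2 : E) = 0) {r n : E} (hr : r * r = r + 1) (hn : n * n = 0)
    (h : (n + 1) * r * (n + 1) = r + 1) : ∃ Θ, Fm r n Θ := by
  have h3 : n * r * n = n := by
    linear_combination (norm := (noncomm_ring; simp [zs h2])) n * h + hn * r * n + hn * r
  have h4 : r * n = n * r + n + 1 := by
    linear_combination (norm := (noncomm_ring; simp [zs h2])) h + h3
  have a1 : ∀ x, r * (r * x) = r * x + x := fun x => by rw [← mul_assoc, hr, add_mul, one_mul]
  have a2 : ∀ x, n * (n * x) = 0 := fun x => by rw [← mul_assoc, hn, zero_mul]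
  have a3 : ∀ x, r * (n * x) = n * (r * x) + n * x + x := fun x => by rw [← mul_assoc, h4]; noncomm_ring
  obtain ⟨Θ, i1, i2, i3, i4⟩ := exists_units ![![n * r + n, n], ![r + n * r + 1, n * r + n + 1]] (by
    intro i j k l
    fin_cases i <;> fin_cases j <;> fin_cases k <;> fin_cases l <;>
      simp [mul_add, add_mul, mul_assoc, a1, a2, a3, hr, hn, h4] <;> abel_nf <;> simp [zs h2])
    (by simp; abel_nf; simp [zs h2])
  have e : r = n + (r + n * r + 1) + (n * r + n + 1) := by abel_nf; simp [zs h2]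
  have c1 : ∀ a i j, Commute (Θ a i j) n := fun a i j => i4 a i j 0 1
  refine ⟨Θ, i1, ?_, ?_, fun z hr hn => i3 z fun i j => ?_, fun a i j => ?_, c1⟩
  · have := congrArg₂ (· + ·) (congrArg₂ (· + ·) (i2 0 1) (i2 1 0)) (i2 1 1)
    simp only [← map_add] at this
    rw [e]
    refine this.trans ?_
    ext i j
    fin_cases i <;> fin_cases j <;> simp
  · refine (i2 0 1).trans ?_
    ext i j
    fin_cases i <;> fin_cases j <;> simp
  · fin_cases i <;> fin_cases j
    · exact (hn.mul_right hr).add_right hn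
    · exact hn
    · exact (hr.add_right (hn.mul_right hr)).add_right (Commute.one_right z)
    · exact ((hn.mul_right hr).add_right hn).add_right (Commute.one_right z)
  · rw [e]
    exact ((c1 a i j).add_right (i4 a i j 1 0)).add_right (i4 a i j 1 1)

end Ring

end Her
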