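import Cfsg.Agent.Lib.Her.SLa

/-!
# Recognition of `SL₂(K)` inside `SL₂(R)`, `R` a reduced ring of characteristic two
-/

set_option autoImplicit false

namespace Her

open Cfsg GT FT GW Subgroup

variable {R : Type*} [CommRing R] {J : Type*} [Group J]

/-- the matrix lies in the image -/
def Im (φ : J →* Matrix (Fin 2) (Fin 2) R) (a b c d : R) : Prop := ∃ g, φ g = !![a, b; c, d]

theorem mat_eq {E : Type*} {a b c d a' b' c' d' : E} :
    !![a, b; c, d] = !![a', b'; c', d'] ↔ a = a' ∧ b = b' ∧ c = c' ∧ d = d' := by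
  simp [← Matrix.ext_iff, Fin.forall_fin_two, and_assoc]

structure SLh (φ : J →* Matrix (Fin 2) (Fin 2) R) (ρ ρ' t : J) : Prop where
  two : (2 : R) = 0
  red : ∀ x : R, x * x = 0 → x = 0
  inj : Function.Injective φ
  adj : ∀ g, φ g⁻¹ = !![φ g 1 1, φ g 0 1; φ g 1 0, φ g 0 0]
  rr : φ ρ = !![0, 1; 1, 1]
  tt : φ t = !![1, 1; 0, 1]
  cj : ∀ s : J, Inv s → ∃ h, h * t * h⁻¹ = s
  j3 : ∀ s : J, Inv s → s * t ≠ t * s → ∃ v, v * v = 1 ∧ v * t * v⁻¹ = s
  r3 : φ ρ' * φ ρ' = φ ρ' + 1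
  nc : ρ * ρ' ≠ ρ' * ρ
  no4 : NoA4 J

variable {φ : J →* Matrix (Fin 2) (Fin 2) R} {ρ ρ' t : J} {a b c d a' b' c' d' k : R}

theorem Im.mul (h : Im φ a b c d) (h' : Im φ a' b' c' d') :
    Im φ (a * a' + b * c') (a * b' + b * d') (c * a' + d * c') (c * b' + d * d') := by
  obtain ⟨g, hg⟩ := h
  obtain ⟨g', hg'⟩ := h'
  exact ⟨g * g', by rw [map_mul, hg, hg', Matrix.mul_fin_two]⟩

theorem Im.congr (h : Im φ a b c d) (h1 : a = a') (h2 : b = b') (h3 : c = c') (h4 : d = d') :
    Im φ a' b' c' d' := h1 ▸ h2 ▸ h3 ▸ h4 ▸ h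

theorem im_self (φ : J →* Matrix (Fin 2) (Fin 2) R) (g : J) : Im φ (φ g 0 0) (φ g 0 1) (φ g 1 0) (φ g 1 1) :=
  ⟨g, Matrix.eta_fin_two _⟩

namespace SLh
variable (h : SLh φ ρ ρ' t)
include h

theorem sq_inj (e : a * a = b * b) : a = b :=
  eq_of_add' h.two (h.red _ (by linear_combination e + (a * b + b * b) * h.two))

theorem adj' {g : J} (e : φ g = !![a, b; c, d]) : φ g⁻¹ = !![d, b; c, a] := by
  rw [h.adj, e]; simp

theorem inv (i : Im φ a b c d) : Im φ d b c a := let ⟨g, hg⟩ := i; ⟨g⁻¹, h.adj' hg⟩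

theorem det' {g : J} (e : φ g = !![a, b; c, d]) : a * d + b * c = 1 := by
  have := congrFun (congrFun (map_mul φ g g⁻¹) 0) 0
  rw [h.adj' e, e, mul_inv_cancel, map_one, Matrix.mul_fin_two] at this
  simpa using this.symm

theorem det (i : Im φ a b c d) : a * d + b * c = 1 := let ⟨_, hg⟩ := i; h.det' hg

theorem conj_t {g : J} (e : φ g = !![a, b; c, d]) : φ (g * t * g⁻¹) = !![1 + a * c, a * a; c * c, 1 + a * c] := by
  have := h.det' e
  rw [map_mul, map_mul, h.adj' e, e, h.tt, Matrix.mul_fin_two, Matrix.mul_fin_two, mat_eq]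
  refine ⟨?_, ?_, ?_, ?_⟩
  · linear_combination this
  · linear_combination (a * b) * h.two
  · linear_combination (c * d) * h.two
  · linear_combination this

theorem im_w : Im φ 0 1 1 0 :=
  (Im.mul ⟨ρ, h.rr⟩ ⟨t, h.tt⟩).congr (by ring) (by ring) (by ring) (by linear_combination h.two)

theorem inv_of {s : J} (e : φ s = !![1, k; 0, 1]) (h0 : k ≠ 0) : Inv s := by
  refine ⟨fun h1 => h0 ?_, h.inj ?_⟩
  · rw [h1, map_one, Matrix.one_fin_two, mat_eq] at e
    exact e.2.1.symm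
  · rw [map_mul, e, Matrix.mul_fin_two, map_one, Matrix.one_fin_two, mat_eq]
    exact ⟨by ring, by linear_combination k * h.two, by ring, by ring⟩

theorem inv_t [Nontrivial R] : Inv t := h.inv_of h.tt one_ne_zero

theorem exists_sq (i : Im φ 1 k 0 1) (h0 : k ≠ 0) : ∃ a b d, Im φ a b 0 d ∧ a * a = k := by
  obtain ⟨s, hs⟩ := i
  obtain ⟨g, rfl⟩ := h.cj s (h.inv_of hs h0)
  rw [h.conj_t (Matrix.eta_fin_two (φ g)), mat_eq] at hs
  exact ⟨_, _, _, (im_self φ g).congr rfl rfl (h.red _ hs.2.2.1) rfl, hs.2.1⟩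

theorem conj_u (i : Im φ a b 0 d) (j : Im φ 1 k 0 1) : Im φ 1 (a * a * k) 0 1 := by
  have := h.det i
  exact ((i.mul j).mul (h.inv i)).congr (by linear_combination this) (by linear_combination (a * b) * h.two)
    (by ring) (by linear_combination this)

/-- the field -/
def K : Subring R where
  carrier := {k | Im φ 1 k 0 1}
  zero_mem' := ⟨1, by rw [map_one, Matrix.one_fin_two]⟩
  one_mem' := ⟨t, h.tt⟩
  add_mem' i j := (Im.mul i j).congr (by ring) (by ring) (by ring) (by ring)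
  neg_mem' {x} i := Im.congr i rfl (by linear_combination x * h.two) rfl rfl
  mul_mem' {x y} i j := by
    by_cases h0 : x = 0
    · exact ⟨1, by rw [map_one, Matrix.one_fin_two, h0, zero_mul]⟩
    · obtain ⟨a, b, d, e, rfl⟩ := h.exists_sq i h0
      exact h.conj_u e j

theorem mem_K : k ∈ h.K ↔ Im φ 1 k 0 1 := Iff.rfl

theorem exists_inv (i : k ∈ h.K) (h0 : k ≠ 0) : ∃ k' ∈ h.K, k * k' = 1 := by
  obtain ⟨a, b, d, e, rfl⟩ := h.exists_sq i h0
  have := h.det e
  exact ⟨_, h.conj_u (h.inv e) h.K.one_mem, by linear_combination (a * d + 1) * this⟩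

theorem im_l (i : k ∈ h.K) : Im φ 1 0 k 1 :=
  ((h.im_w.mul i).mul h.im_w).congr (by ring) (by ring) (by ring) (by ring)

theorem im_d {k' : R} (i : k ∈ h.K) (j : k' ∈ h.K) (e : k * k' = 1) : Im φ k 0 0 k' :=
  (((Im.mul i (h.im_l j)).mul i).mul h.im_w).congr (by linear_combination k * e + k * h.two)
    (by linear_combination e + h.two) (by linear_combination e + h.two) (by ring)

theorem surj (ha : a ∈ h.K) (hb : b ∈ h.K) (hc : c ∈ h.K) (hd : d ∈ h.K) (e : a * d + b * c = 1) :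
    Im φ a b c d := by
  have key : ∀ {a b c d : R}, a ∈ h.K → c ∈ h.K → d ∈ h.K → a * d + b * c = 1 → c ≠ 0 → Im φ a b c d := by
    intro a b c d ha hc hd e h0
    obtain ⟨c', h1, h2⟩ := h.exists_inv hc h0
    exact (((Im.mul (h.K.mul_mem ha h1) (h.im_d h1 hc (by rw [mul_comm, h2]))).mul h.im_w).mul
      (h.K.mul_mem hd h1)).congr (by linear_combination a * h2)
      (by linear_combination (a * d * c' + b) * h2 + c' * e + (c' - b * c * c') * h.two) (by ring)
      (by linear_combination d * h2)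
  by_cases h0 : c = 0
  · by_cases h1 : d = 0
    · have h3 : ∀ x : R, x = 0 := fun x => by rw [h0, h1] at e; linear_combination -x * e
      exact h.im_w.congr (by rw [h3 a]) (by rw [h3 b, h3 1]) (by rw [h3 c, h3 1]) (by rw [h3 d])
    · exact ((key hb hd hc (by linear_combination e) h1 : Im φ b a d c).mul h.im_w).congr (by ring) (by ring)
        (by ring) (by ring)
  · exact key ha hc hd e h0

theorem trace [Nontrivial R] (i : Im φ a b c d) (h0 : c ≠ 0) : ∃ m ∈ h.K, a + d = c * m := by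
  obtain ⟨g, hg⟩ := i
  have h1 := h.conj_t hg
  obtain ⟨v, v2, hv⟩ := h.j3 (g * t * g⁻¹) ⟨by simpa using h.inv_t.ne, by
    rw [conj_mul, h.inv_t.sq, mul_one, mul_inv_cancel]⟩ fun e => h0 (h.red c (by
      have := congrArg φ e
      rw [map_mul _ _ t, map_mul _ t, h1, h.tt, Matrix.mul_fin_two, Matrix.mul_fin_two, mat_eq] at this
      linear_combination -this.1))
  · have e1 := Matrix.eta_fin_two (φ v)
    have e2 := h.adj' e1
    rw [inv_eq_of_mul_eq_one_right v2, e1, mat_eq] at e2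
    have e3 := h.conj_t e1
    rw [hv, h1, mat_eq] at e3
    have e4 := h.sq_inj e3.2.1
    have e5 := h.sq_inj e3.2.2.1
    have e6 := h.det' hg
    have e7 := h.det' e1
    have e8 : φ v 1 1 = φ v 0 0 := by simpa using e2.1.symm
    rw [e8, ← e4, ← e5] at e1 e7
    refine ⟨d * φ v 0 1 + b * a, ((h.inv ⟨g, hg⟩).mul ⟨v, e1⟩).congr (by linear_combination e6) rfl
      (by linear_combination (a * c) * h.two) (by linear_combination e7), ?_⟩
    linear_combination -d * e7 - a * e6 + (a * a * d) * h.two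

theorem exists_ne [Nontrivial R] : ∃ k ∈ h.K, k ≠ 0 ∧ k ≠ 1 := by
  by_contra hc
  have h1 : ∀ k ∈ h.K, k ≠ 0 → k = 1 := fun k i j => by_contra fun e => hc ⟨k, i, j, e⟩
  have key : ∀ {a b c d : R}, Im φ a b c d → a + d = 1 → c = 1 := by
    intro a b c d i e
    by_cases h0 : c = 0
    · subst h0
      have e1 := h.det i
      have e2 := h1 _ (h.conj_u i h.K.one_mem) fun e3 => by
        have e4 := h.red a (by linear_combination e3)
        exact zero_ne_one (by linear_combination e1 - d * e4 : (0 : R) = 1)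
      have e3 : a = 1 := h.sq_inj (by linear_combination e2)
      linear_combination e - e3 - e1 + d * e3 - h.two
    · obtain ⟨m, hm, e1⟩ := h.trace i h0
      have := h1 m hm fun e2 => zero_ne_one (by linear_combination e - e1 - c * e2 : (0 : R) = 1)
      linear_combination e - e1 - c * this
  have e1 := Matrix.eta_fin_two (φ ρ')
  have e2 := h.adj' e1
  rw [map_inv_eq φ (by ext i j; simp [Matrix.ofNat_apply, h.two]) h.r3, e1, Matrix.one_fin_two] at e2
  have e3 : φ ρ' 0 0 + 1 = φ ρ' 1 1 := by simpa using congrFun (congrFun e2 0) 0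
  have e4 : φ ρ' 0 0 + φ ρ' 1 1 = 1 := by linear_combination -e3 + φ ρ' 0 0 * h.two
  have e5 := key (im_self φ ρ') e4
  have e6 : φ ρ' 0 1 = 1 := key (((h.im_w.mul (im_self φ ρ')).mul h.im_w).congr (a' := φ ρ' 1 1) (b' := φ ρ' 1 0)
    (d' := φ ρ' 0 0) (by ring) (by ring) (by ring) (by ring)) (by linear_combination e4)
  refine h.nc (h.inj ?_)
  rw [map_mul, map_mul, h.rr, e1, e5, e6, ← e3, Matrix.mul_fin_two, Matrix.mul_fin_two, mat_eq]
  exact ⟨by ring, by ring, by ring, by ring⟩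

theorem no_three [Nontrivial R] [Finite J] (i : k ∈ h.K) : k * k + k + 1 ≠ 0 := fun e => by
  have h0 : k * (k + 1) = 1 := by linear_combination e - h.two
  obtain ⟨g, hg⟩ := h.im_d i (h.K.add_mem i h.K.one_mem) h0
  let U : Subgroup J :=
    { carrier := {s | ∃ m, φ s = !![1, m; 0, 1]}
      one_mem' := ⟨0, by rw [map_one, Matrix.one_fin_two]⟩
      mul_mem' := by
        rintro x y ⟨m, hm⟩ ⟨m', hm'⟩
        exact ⟨m' + m, by rw [map_mul, hm, hm', Matrix.mul_fin_two]; simp⟩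
      inv_mem' := by
        rintro x ⟨m, hm⟩
        exact ⟨m, h.adj' hm⟩ }
  have h3 : orderOf g = 3 := orderOf_eq_prime (h.inj ?_) fun e1 => ?_
  · have := h.no4 g h3 U (fun ⟨s, m, hm⟩ => ⟨1, Subtype.ext (h.inj ?_)⟩) (mem_normalizer_fintype ?_) t ⟨1, h.tt⟩
    · have := congrArg φ this
      rw [map_mul, map_mul, hg, h.tt, Matrix.mul_fin_two, Matrix.mul_fin_two, mat_eq] at this
      exact zero_ne_one (by linear_combination -this.2.1 : (0 : R) = 1)
    · show φ (s ^ 2 ^ 1) = φ 1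
      rw [pow_one, pow_two, map_mul, hm, Matrix.mul_fin_two, map_one, Matrix.one_fin_two, mat_eq]
      exact ⟨by ring, by linear_combination m * h.two, by ring, by ring⟩
    · rintro s ⟨m, hm⟩
      refine ⟨k * k * m, ?_⟩
      rw [map_mul, map_mul, h.adj' hg, hg, hm, Matrix.mul_fin_two, Matrix.mul_fin_two, mat_eq]
      exact ⟨by linear_combination h0, by ring, by ring, by linear_combination h0⟩
  · rw [pow_succ, pow_two, map_mul, map_mul, hg, Matrix.mul_fin_two, Matrix.mul_fin_two, map_one,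
      Matrix.one_fin_two, mat_eq]
    exact ⟨by linear_combination (k - 1) * e, by ring, by ring, by linear_combination (k + 2) * e - h.two⟩
  · rw [e1, map_one, Matrix.one_fin_two, mat_eq] at hg
    exact zero_ne_one (by linear_combination hg.2.2.2 - hg.1 : (0 : R) = 1)

theorem frob [Nontrivial R] [Finite J] [Finite R] :
    ∃ n, Odd n ∧ 8 ≤ Nat.card h.K ∧ ∀ k ∈ h.K, k ^ 2 ^ n = k := by
  have hF : IsField h.K := ⟨⟨0, 1, zero_ne_one⟩, mul_comm, fun {a} h0 => by
    obtain ⟨k', i, e⟩ := h.exists_inv a.2 fun e => h0 (Subtype.ext e)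
    exact ⟨⟨k', i⟩, Subtype.ext e⟩⟩
  let _ := hF.toField
  let _ := Fintype.ofFinite h.K
  have : CharP h.K 2 := CharTwo.of_one_ne_zero_of_two_eq_zero one_ne_zero (Subtype.ext h.two)
  obtain ⟨n, -, hn⟩ := FiniteField.card h.K 2
  have h1 : Odd (n : ℕ) := by
    rcases Nat.even_or_odd n with ⟨m, hm⟩ | h1
    · have : 3 ∣ Nat.card (h.K)ˣ := by
        rw [Nat.card_units, Nat.card_eq_fintype_card, hn, hm, ← two_mul, pow_mul]
        exact Nat.sub_one_dvd_pow_sub_one 4 m
      obtain ⟨x, hx⟩ := exists_prime_orderOf_dvd_card' 3 this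
      have e1 : (x : h.K) ^ 3 = 1 := by rw [← Units.val_pow_eq_pow_val, ← hx, pow_orderOf_eq_one, Units.val_one]
      have e2 : (x : h.K) - 1 ≠ 0 := fun e => by
        rw [Units.ext (sub_eq_zero.1 e : (x : h.K) = (1 : (h.K)ˣ)), orderOf_one] at hx
        omega
      have e3 : (x : h.K) * x + x + 1 = 0 := mul_left_cancel₀ e2 (by linear_combination e1)
      exact absurd (congrArg Subtype.val e3) (h.no_three (x : h.K).2)
    · exact h1
  have h2 : ∀ k ∈ h.K, k ^ 2 ^ (n : ℕ) = k := fun k i =>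
    congrArg Subtype.val (hn ▸ FiniteField.pow_card (⟨k, i⟩ : h.K))
  refine ⟨n, h1, ?_, h2⟩
  obtain ⟨m, hm⟩ := h1
  rw [Nat.card_eq_fintype_card, hn, hm]
  rcases m with _ | m
  · obtain ⟨k, i, h0, h1⟩ := h.exists_ne
    obtain ⟨k', -, e⟩ := h.exists_inv i h0
    have := h2 k i
    rw [hm] at this
    exact absurd (by linear_combination k' * this - (k - 1) * e) h1
  · exact Nat.pow_le_pow_right (n := 2) (i := 3) two_pos (by omega)

theorem exists_sqrt [Nontrivial R] [Finite J] [Finite R] (i : k ∈ h.K) : ∃ m ∈ h.K, m * m = k := by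
  obtain ⟨n, ⟨m, rfl⟩, -, e⟩ := h.frob
  exact ⟨k ^ 2 ^ (2 * m), h.K.pow_mem i _, by rw [← pow_two, ← pow_mul, ← pow_succ, e k i]⟩

theorem ent [Nontrivial R] [Finite J] [Finite R] (i : Im φ a b c d) : a ∈ h.K ∧ b ∈ h.K ∧ c ∈ h.K ∧ d ∈ h.K := by
  have key : ∀ {a b c d : R}, Im φ a b c d → c ≠ 0 → a ∈ h.K ∧ b ∈ h.K ∧ c ∈ h.K ∧ d ∈ h.K := by
    intro a b c d i h0
    obtain ⟨k, hk, k0, k1⟩ := h.exists_ne
    obtain ⟨k', hk', e⟩ := h.exists_inv hk k0
    obtain ⟨l, hl, e'⟩ := h.exists_inv (h.K.add_mem hk h.K.one_mem) fun e => k1 (eq_of_add' h.two e)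
    obtain ⟨m1, hm1, e1⟩ := h.trace i h0
    obtain ⟨m2, hm2, e2⟩ := h.trace (i.mul (h.im_d hk hk' e)) fun e => h0 (by
      linear_combination k' * e - c * ‹k * k' = 1›)
    obtain ⟨m, hm, e3⟩ : ∃ m ∈ h.K, a = c * m :=
      ⟨(m1 + k * k * m2) * l * l, h.K.mul_mem (h.K.mul_mem (h.K.add_mem hm1 (h.K.mul_mem (h.K.mul_mem hk hk) hm2)) hl) hl,
        by linear_combination l * l * e1 + l * l * k * e2 - l * l * d * e - a * ((k + 1) * l + 1) * e'
          + (a * k * l * l - d * l * l) * h.two⟩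
    have e4 : d = c * (m + m1) := by linear_combination e1 - e3 - c * m * h.two
    have hm' := h.K.add_mem hm hm1
    have e5 := h.det i
    have i2 : Im φ (b + m * d) 0 0 c := (((Im.mul hm i).mul hm').mul h.im_w).congr
      (by linear_combination (m + m1) * e3 + c * m * (m + m1) * h.two) (by linear_combination e3 + c * m * h.two)
      (by linear_combination e4 + c * (m + m1) * h.two) (by ring)
    obtain ⟨r, hr, e6⟩ := h.exists_sqrt (h.conj_u (h.inv i2) h.K.one_mem)
    have hc : c ∈ h.K := h.sq_inj (a := r) (b := c) (by linear_combination e6) ▸ hr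
    obtain ⟨c', hc', e7⟩ := h.exists_inv hc h0
    have ha : a ∈ h.K := e3 ▸ h.K.mul_mem hc hm
    have hd : d ∈ h.K := e4 ▸ h.K.mul_mem hc hm'
    refine ⟨ha, ?_, hc, hd⟩
    have : b = (1 - a * d) * c' := by linear_combination c' * e5 - b * e7
    exact this ▸ h.K.mul_mem (h.K.sub_mem h.K.one_mem (h.K.mul_mem ha hd)) hc'
  by_cases h0 : c = 0
  · have e := h.det i
    have := key ((i.mul h.im_w).congr (a' := b) (b' := a) (c' := d) (d' := c) (by ring) (by ring) (by ring) (by ring))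
      fun h1 => zero_ne_one (by linear_combination e - a * h1 - b * h0 : (0 : R) = 1)
    exact ⟨this.2.1, this.1, this.2.2.2, this.2.2.1⟩
  · exact key i h0

end SLh

end Her
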