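import Cfsg.Agent.Lib.Her.SLe
import Cfsg.Agent.Lib.Grp.CentCover
import Cfsg.Agent.Lib.Grp.CycIdx

/-!
# The group generated by two quadratic elements of order three, when there is no `A₄`
-/

set_option autoImplicit false
set_option linter.unusedSectionVars false

namespace Her

open Cfsg GT FT GW Subgroup
open scoped Pointwise commutatorElement

universe u

variable {L V : Type u} [Group L] [Finite L] [AddCommGroup V] [Finite V] [DistribMulAction L V] {ρ ρ' t s g x y : L}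

theorem NoA4.cent (hA : NoA4 L) (h : Pr ρ ρ') {X : Subgroup L} (hX : IsPGroup 2 X) (hn : Jg ρ ρ' ≤ 𝐍(X)) :
    X ≤ 𝐂(Jg ρ ρ') :=
  le_cent_comm.1 (Jg_le (hA ρ h.l X hX (hn (left_mem_Jg _ _))) (hA ρ' h.r X hX (hn (right_mem_Jg _ _))))

theorem le_norm_Cn' {N : Subgroup L} {W : AddSubgroup V} (hW : ∀ g ∈ N, ∀ v ∈ W, g • v ∈ W) : N ≤ 𝐍(Cn L W) :=
  fun g hg => mem_normalizer_fintype fun x hx v hv => by
    rw [mul_smul, mul_smul, hx _ (hW _ (inv_mem hg) v hv), smul_inv_smul]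

theorem mem_cent_Jg (h1 : ρ * x = x * ρ) (h2 : ρ' * x = x * ρ') : x ∈ 𝐂(Jg ρ ρ') :=
  le_cent1_iff.1 (Jg_le (mem_cent1.2 h1) (mem_cent1.2 h2))

theorem reg_three (h : orderOf ρ = 3) : IsPRegular 2 ρ := isPRegular_iff.2 (by rw [h]; decide)

theorem ne_inv_three (h : orderOf ρ = 3) : ρ ≠ ρ⁻¹ := fun e => by
  have := orderOf_dvd_of_pow_eq_one (n := 2) (x := ρ) (by rw [pow_two]; nth_rw 1 [e]; rw [inv_mul_cancel])
  rw [h] at this
  omega

theorem OC.eq_of_comm (oc : OC L) (h : orderOf ρ = 3) (h' : orderOf ρ' = 3) (e : ρ * ρ' = ρ' * ρ) :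
    zpowers ρ = zpowers ρ' :=
  oc.eq_of_card (by rw [Nat.card_zpowers, h]; decide) (by rw [Nat.card_zpowers, Nat.card_zpowers, h, h'])
    (zpowers_le_of_mem (cent_le_norm _ (le_cent1_iff.1 (zpowers_le_of_mem (mem_cent1.2 e.symm)))))

theorem exists_inv_of_even (h : 2 ∣ orderOf y) : ∃ z ∈ zpowers y, Inv z := by
  obtain ⟨z, hz, h1, h2⟩ := exists_mul_self_mem_zpowers (isPElt_pPart 2 y) (pPart_ne_one_iff.2 h)
  exact ⟨z, zpowers_le_of_mem (pPart_mem_zpowers 2 y) hz, h2, h1⟩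

namespace Wk
variable (w : Wk L V)
include w

theorem qd (h : orderOf ρ = 3) (h' : orderOf ρ' = 3) : Qd (en V ρ) (en V ρ') := ⟨w.two_eq, w.rho h, w.rho h'⟩

theorem c_eq_tau (h : orderOf ρ = 3) (h' : orderOf ρ' = 3) :
    (en V ρ + en V ρ') * (en V ρ + en V ρ') = en V (ρ⁻¹ * ρ') + en V (ρ⁻¹ * ρ')⁻¹ := by
  have h2 := w.two_eq
  rw [mul_inv_rev, inv_inv, map_mul, map_mul, w.rho_inv h, w.rho_inv h']
  linear_combination (norm := (noncomm_ring; simp [zs h2])) w.rho h + w.rho h'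

theorem tau_mem (h : Pr ρ ρ') (hg : g ∈ Jg ρ ρ') :
    en V g + en V g⁻¹ ∈ Subring.closure {(en V ρ + en V ρ') * (en V ρ + en V ρ')} :=
  (w.qd h.l h.r).tau (en V) (inv_eq_sq h.l) (inv_eq_sq h.r) hg

theorem comm_R (h : Pr ρ ρ') {r : AddMonoid.End V}
    (hr : r ∈ Subring.closure {(en V ρ + en V ρ') * (en V ρ + en V ρ')}) (hg : g ∈ Jg ρ ρ') : Commute r (en V g) :=
  comm_of_mem_closure (commute_of_mem_Jg (en V) (w.qd h.l h.r).cl (w.qd h.l h.r).cr hg) hr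

theorem tau_comm (h : Pr ρ ρ') (hx : x ∈ Jg ρ ρ') (hg : g ∈ Jg ρ ρ') : Commute (en V x + en V x⁻¹) (en V g) :=
  w.comm_R h (w.tau_mem h hx) hg

variable (hA : NoA4 L) (h : Pr ρ ρ')
include hA h

theorem Cn_le {W : AddSubgroup V} (h0 : W ≠ ⊥) (hW : ∀ g ∈ Jg ρ ρ', ∀ v ∈ W, g • v ∈ W) : Cn L W ≤ 𝐂(Jg ρ ρ') :=
  hA.cent h (w.isPGroup_Cn h0) (le_norm_Cn' hW)

theorem u1 (hx : x ∈ Jg ρ ρ') (h2 : IsPElt 2 x) : x * x ∈ 𝐂(Jg ρ ρ') := by
  refine w.Cn_le hA h (w.W_ne_bot (h2.mul_of_commute h2 (Commute.refl x))) (fun g hg v hv => ?_) fun v hv => hv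
  rw [w.mem_Wv_iff, w.Nn_sq, w.Nn_sq', (w.tau_comm h hx hx).eq, mul_app, en_apply, smul_eq_zero_iff_eq] at hv ⊢
  rw [← en_apply g v, ← mul_app, (w.tau_comm h hx hg).eq, mul_app, hv, map_zero]

theorem u2 (hx : x ∈ Jg ρ ρ') (h2 : IsPElt 2 x) (h1 : x * x ≠ 1) : x ∈ 𝐂(Jg ρ ρ') := by
  have hN : ∀ y ∈ Jg ρ ρ', Nn V (y * y) = en V y * (en V y + en V y⁻¹) := fun y hy => by
    rw [w.Nn_sq, w.Nn_sq', (w.tau_comm h hy hy).eq]
  let W : AddSubgroup V := AddMonoidHom.range (en V x + en V x⁻¹)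
  have hW : ∀ g ∈ Jg ρ ρ', ∀ v ∈ W, g • v ∈ W := by
    rintro g hg _ ⟨v, rfl⟩
    exact ⟨g • v, DFunLike.congr_fun (w.tau_comm h hx hg).eq v⟩
  have h0 : W ≠ ⊥ := fun e => h1 (w.Nn_eq_zero.1 (by
    rw [hN x hx, AddMonoidHom.range_eq_bot_iff.1 e]; exact mul_zero _))
  have key : ∀ g ∈ Jg ρ ρ', orderOf g = 3 → g * x = x * g := fun g hg h3 => by
    have hy : g * x * g⁻¹ ∈ Jg ρ ρ' := mul_mem (mul_mem hg hx) (inv_mem hg)
    have e1 : en V (g * x * g⁻¹) + en V (g * x * g⁻¹)⁻¹ = en V x + en V x⁻¹ := by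
      rw [conj_inv, map_mul, map_mul, map_mul, map_mul, ← add_mul, ← mul_add, ← (w.tau_comm h hx hg).eq, mul_assoc,
        ← map_mul, mul_inv_cancel, map_one, mul_one]
    have e2 := hN _ hy
    rw [conj_mul, w.u1 hA h hx h2 g hg, mul_inv_cancel_right, hN x hx, e1] at e2
    have e3 : g * x * g⁻¹ * x⁻¹ ∈ Cn L W := fun v hv => by
      obtain ⟨u, hu⟩ := hW _ (inv_mem hx) v hv
      rw [mul_smul, ← hu]
      refine (DFunLike.congr_fun e2 u).symm.trans ?_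
      exact (congrArg (x • ·) hu).trans (smul_inv_smul x v)
    have := eq_one_of_conj_eq_mul' (q := x) (isPElt_of_mem (w.isPGroup_Cn h0) e3) (reg_three h3)
      (by rw [w.Cn_le hA h h0 hW e3 g hg, mul_inv_cancel_right]) (by group)
    rwa [mul_inv_eq_one, mul_inv_eq_iff_eq_mul] at this
  exact mem_cent_Jg (key _ (left_mem_Jg _ _) h.l) (key _ (right_mem_Jg _ _) h.r)

omit hA in
theorem u3 (ht : t * t = 1) (htJ : t ∈ Jg ρ ρ') (hy : y ∈ Jg ρ ρ') (ho : IsPRegular 2 y) (h1 : y ≠ 1)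
    (hc : t * y = y * t) : t ∈ 𝐂(Jg ρ ρ') := fun g hg => by
  have hu := w.isUnit_Nn (Nat.odd_iff.2 (Nat.two_dvd_ne_zero.1 ho)) h1
  have hu' : IsUnit (en V y + en V y⁻¹) := by
    have := hu.mul hu
    rw [w.Nn_sq'] at this
    exact ((isUnit_en y).mul_right_iff).1 this
  have e : en V (t * y) + en V (t * y)⁻¹ = en V t * (en V y + en V y⁻¹) := by
    rw [mul_add, ← map_mul, ← map_mul, hc, mul_inv_rev, inv_eq_of_mul_eq_one_right ht]
  have e1 := (w.tau_comm h (mul_mem htJ hy) hg).eq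
  rw [e, mul_assoc, (w.tau_comm h hy hg).eq, ← mul_assoc, ← mul_assoc, hu'.mul_left_inj, ← map_mul, ← map_mul] at e1
  exact (w.en_inj e1).symm

theorem j4 : ∃ t ∈ Jg ρ ρ', Inv t ∧ t * ρ * t⁻¹ = ρ⁻¹ := by
  obtain ⟨g, hg, e⟩ : ∃ g ∈ Jg ρ ρ', g * ρ * g⁻¹ = ρ⁻¹ := by
    by_contra hc
    have h1 := w.oc.n3 h.l (left_mem_Jg ρ ρ') fun g hg e => hc ⟨g, hg, e⟩
    have h2 := h1 (commutator_mem_commutator (right_mem_Jg ρ ρ') (mem_zpowers ρ))
    have h3 := hA.cent h (isPGroup_Op 2 _) (le_norm_piCoreOf _ _) h2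
    have := eq_one_of_conj_eq_mul' (q := ρ) (isPElt_of_mem (isPGroup_Op 2 _) h2) (reg_three h.r)
      (by rw [h3 _ (right_mem_Jg _ _), mul_inv_cancel_right]) (by rw [commutatorElement_def]; group)
    exact h.ne (w.oc.eq_of_comm h.l h.r (commutatorElement_eq_one_iff_mul_comm.1 this).symm)
  obtain ⟨k, k0, hk⟩ := exists_forall_pRegPart_eq_pow L 2
  obtain ⟨k, rfl⟩ := Nat.exists_eq_succ_of_ne_zero k0.ne'
  have e1 : Commute (g ^ 2) ρ := by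
    have : g * (g * ρ * g⁻¹) * g⁻¹ = ρ := by rw [e, ← conj_inv, e, inv_inv]
    calc g ^ 2 * ρ = g * (g * ρ * g⁻¹) * g⁻¹ * g ^ 2 := by simp [pow_two, mul_assoc]
      _ = _ := by rw [this]
  have e2 : Commute (pRegPart 2 g)⁻¹ ρ := by
    rw [hk, pow_succ', pow_mul]
    exact (e1.pow_left _).inv_left
  have e3 : pPart 2 g * ρ * (pPart 2 g)⁻¹ = ρ⁻¹ := by
    rw [pPart_eq_mul_inv, mul_assoc g, e2.eq, ← e]
    group
  have e4 : pPart 2 g ∉ 𝐂(Jg ρ ρ') := fun e5 => ne_inv_three h.l (by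
    rw [← e3, ← e5 ρ (left_mem_Jg _ _), mul_inv_cancel_right])
  exact ⟨_, pPart_mem 2 hg, ⟨fun e5 => e4 (e5 ▸ one_mem _),
    by_contra fun e5 => e4 (w.u2 hA h (pPart_mem 2 hg) (isPElt_pPart 2 g) e5)⟩, e3⟩

theorem j1 {z : L} (hz : z ∈ Jg ρ ρ') (h2 : IsPElt 2 z) (h1 : ρ * z = z * ρ) (h1' : ρ' * z = z * ρ') : z = 1 := by
  have hc := mem_cent_Jg h1 h1'
  obtain ⟨t, htJ, ht, hi⟩ := w.j4 hA h
  have ht' : t ∉ 𝐂(Jg ρ ρ') := fun e5 => ne_inv_three h.l (by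
    rw [← hi, ← e5 ρ (left_mem_Jg _ _), mul_inv_cancel_right])
  obtain ⟨P, hP, htP⟩ := exists_isSylowIn_ge ht.isPElt.isPGroup_zpowers (zpowers_le_of_mem htJ)
  have k1 : ∀ g ∈ P, g ∉ 𝐂(Jg ρ ρ') → g * g = 1 := fun g hg e =>
    by_contra fun e' => e (w.u2 hA h (hP.le hg) (isPElt_of_mem hP.isPGroup hg) e')
  have k2 : ∀ g ∈ P, g * g = 1 := fun g hg => by
    by_cases e : g ∈ 𝐂(Jg ρ ρ')
    · have := k1 _ (mul_mem hg (htP (mem_zpowers t))) fun e' => ht' ((mul_mem_cancel_left e).1 e')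
      rwa [mul_assoc, ← mul_assoc t, e t htJ, mul_assoc, ht.sq, mul_one] at this
    · exact k1 g hg e
  have k3 : P ≤ 𝐂(P) := fun a ha b hb => by
    rw [← inv_eq_of_mul_eq_one_right (k2 _ (mul_mem hb ha)), mul_inv_rev, inv_eq_of_mul_eq_one_right (k2 a ha),
      inv_eq_of_mul_eq_one_right (k2 b hb)]
  have k4 : ∀ g (hg : g ∈ Jg ρ ρ'), Abelianization.of (⟨g, hg⟩ : Jg ρ ρ') ^ 3 = 1 := fun g hg => by
    induction hg using closure_induction with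
    | mem x hx =>
      rw [← map_pow]
      refine (congrArg _ (Subtype.ext ?_)).trans (map_one _)
      rcases hx with rfl | rfl
      · exact h.l ▸ pow_orderOf_eq_one _
      · exact h.r ▸ pow_orderOf_eq_one _
    | one => exact (congrArg (· ^ 3) (map_one _)).trans (one_pow 3)
    | mul x y hx hy ix iy =>
      exact (congrArg (· ^ 3) (map_mul Abelianization.of (⟨x, hx⟩ : Jg ρ ρ') ⟨y, hy⟩)).trans (by rw [mul_pow, ix, iy, mul_one])
    | inv x hx ix => exact (congrArg (· ^ 3) (map_inv Abelianization.of (⟨x, hx⟩ : Jg ρ ρ'))).trans (by rw [inv_pow, ix, inv_one])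
  have k5 := ((isSylowIn_subgroupOf_top_iff hP.le).2 hP).mem_commutator_of_mem_center (z := ⟨z, hz⟩)
    (mem_center_iff.2 fun y => Subtype.ext (hc y y.2))
    (hP.mem_of_mem_normalizer h2 hz (cent_le_norm _ (centralizer_le hP.le hc)))
    (by
      rw [← Abelianization.ker_of]
      exact (((isPElt_mk hz).2 h2).map _).eq_one_of_isPRegular (isPRegular_of_pow_eq_one (by decide) (k4 z hz)))
  rwa [← sgOf_commutator hP.le hP.le, commutator_eq_bot_of_le_cent k3] at k5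

theorem j1' {z : L} (hz : z ∈ Jg ρ ρ') (h2 : IsPElt 2 z) (hc : z ∈ 𝐂(Jg ρ ρ')) : z = 1 :=
  w.j1 hA h hz h2 (hc _ (left_mem_Jg _ _)) (hc _ (right_mem_Jg _ _))

theorem j2 (ht : Inv t) (htJ : t ∈ Jg ρ ρ') (hg : g ∈ Jg ρ ρ') (hc : g * t = t * g) : g * g = 1 := by
  have h2 : IsPElt 2 g := pRegPart_eq_one_iff.1 (by_contra fun e => ht.ne (w.j1' hA h htJ ht.isPElt
    (w.u3 h ht.sq htJ (pRegPart_mem 2 hg) (isPRegular_pRegPart 2 g) e (commute_pRegPart_left 2 hc).eq.symm)))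
  by_contra e
  exact e (by rw [w.j1' hA h hg h2 (w.u2 hA h hg h2 e), mul_one])

theorem sq_of_even (hy : y ∈ Jg ρ ρ') (e : 2 ∣ orderOf y) : y * y = 1 := by
  obtain ⟨z, hz, h1⟩ := exists_inv_of_even e
  exact w.j2 hA h h1 (zpowers_le_of_mem hy hz) hy (commute_of_mem_zpowers hz (Commute.refl y)).eq.symm

theorem j3 (ht : Inv t) (htJ : t ∈ Jg ρ ρ') (hs : Inv s) (hsJ : s ∈ Jg ρ ρ') (hc : s * t ≠ t * s) :
    ∃ v ∈ Jg ρ ρ', v * v = 1 ∧ v * t * v⁻¹ = s := by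
  obtain ⟨k, hk⟩ : Odd (orderOf (s * t)) := Nat.not_even_iff_odd.1 fun e => hc (by
    rw [← inv_eq_of_mul_eq_one_right (w.sq_of_even hA h (mul_mem hsJ htJ) e.two_dvd), mul_inv_rev, ht.inv_eq,
      hs.inv_eq])
  have e1 : t * (s * t) * t⁻¹ = (s * t)⁻¹ := by rw [mul_inv_rev, ht.inv_eq, hs.inv_eq, mul_assoc, mul_assoc, ht.sq, mul_one]
  have e2 : t * (s * t) ^ (k + 1) * t⁻¹ = ((s * t) ^ (k + 1))⁻¹ := by rw [← conj_pow, e1, inv_pow]
  have e3 : (s * t) ^ (k + 1) * (s * t) ^ (k + 1) = s * t := by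
    rw [← pow_add, show k + 1 + (k + 1) = 2 * k + 1 + 1 by ring, ← hk, pow_succ, pow_orderOf_eq_one, one_mul]
  generalize hy : (s * t) ^ (k + 1) = y at e2 e3
  refine ⟨y * t, mul_mem (hy ▸ pow_mem (mul_mem hsJ htJ) _) htJ, ?_, ?_⟩
  · calc y * t * (y * t) = y * (t * y * t⁻¹) * (t * t) := by group
      _ = 1 := by rw [e2, ht.sq, mul_one, mul_inv_cancel]
  · calc y * t * t * (y * t)⁻¹ = y * (t * y * t⁻¹)⁻¹ * t := by group
      _ = s := by rw [e2, inv_inv, e3, mul_assoc, ht.sq, mul_one]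

theorem cj (ht : Inv t) (htJ : t ∈ Jg ρ ρ') (hi : t * ρ * t⁻¹ = ρ⁻¹) (hs : Inv s) (hsJ : s ∈ Jg ρ ρ') :
    ∃ g ∈ Jg ρ ρ', g * t * g⁻¹ = s := by
  by_cases hc : s * t = t * s
  · have hρ := left_mem_Jg ρ ρ'
    have hv : Inv (ρ * t * ρ⁻¹) := ⟨by simpa using ht.ne, by rw [conj_mul, ht.sq, mul_one, mul_inv_cancel]⟩
    obtain ⟨v, hvJ, -, e⟩ := w.j3 hA h hv (mul_mem (mul_mem hρ htJ) (inv_mem hρ)) hs hsJ fun e => by
      have e1 : ρ * t * ρ⁻¹ * t = ρ⁻¹ := by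
        calc ρ * t * ρ⁻¹ * t = ρ * (t * ρ * t⁻¹)⁻¹ * (t * t) := by group
          _ = ρ⁻¹ := by rw [hi, ht.sq, inv_inv, mul_one, inv_eq_sq h.l]
      have e2 : Commute s ρ⁻¹ := e1 ▸ Commute.mul_right e hc
      have := w.j2 hA h hs hsJ (inv_mem hρ) e2.eq.symm
      exact ne_inv_three h.l (by rw [← inv_eq_of_mul_eq_one_right this, inv_inv])
    exact ⟨v * ρ, mul_mem hvJ hρ, by rw [← e]; group⟩
  · obtain ⟨v, hvJ, -, e⟩ := w.j3 hA h ht htJ hs hsJ hc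
    exact ⟨v, hvJ, e⟩

theorem red {r : AddMonoid.End V} (hr : r ∈ Subring.closure {(en V ρ + en V ρ') * (en V ρ + en V ρ')})
    (e : r * r = 0) : r = 0 := by
  obtain ⟨k, k0, hk⟩ := exists_forall_pRegPart_eq_pow L 2
  obtain ⟨k, rfl⟩ := Nat.exists_eq_succ_of_ne_zero k0.ne'
  rw [← frob_of_mem_closure w.two_eq (k := k.succ) ?_ hr, pow_succ', pow_mul, pow_two, e, zero_pow (by positivity)]
  rw [w.c_eq_tau h.l h.r]
  generalize hy : ρ⁻¹ * ρ' = y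
  by_cases e : 2 ∣ orderOf y
  · rw [inv_eq_of_mul_eq_one_right (w.sq_of_even hA h (hy ▸ mul_mem (inv_mem (left_mem_Jg _ _)) (right_mem_Jg _ _)) e),
      w.add_self, zero_pow (by positivity)]
  · rw [add_pow_two_pow w.two_eq ((Commute.refl y).inv_right.map _), ← map_pow, ← map_pow, ← hk, ← hk,
      (isPRegular_iff.2 e).pRegPart_eq, (isPRegular_iff.2 e).inv.pRegPart_eq]

end Wk

end Her
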