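import Cfsg.Agent.Lib.Her.SLb
import Cfsg.Agent.Lib.Her.Quad

/-!
# The coordinate system attached to an element of order three and an involution inverting it
-/

set_option autoImplicit false
set_option linter.unusedSectionVars false

namespace Her

open Cfsg GT FT GW Subgroup
open scoped Pointwise commutatorElement

universe u

variable {L V : Type u} [Group L] [Finite L] [AddCommGroup V] [Finite V] [DistribMulAction L V] {ρ ρ' t s : L}
  {Θ : AddMonoid.End V →+* Matrix (Fin 2) (Fin 2) (AddMonoid.End V)} {x : AddMonoid.End V}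

/-- `⟨ρ, ρ'⟩ = SL₂(K)` in the coordinate system `Θ` -/
structure SLd (Θ : AddMonoid.End V →+* Matrix (Fin 2) (Fin 2) (AddMonoid.End V)) (ρ ρ' : L)
    (K : Subring (AddMonoid.End V)) : Prop where
  comm : ∀ k ∈ K, ∀ z, Commute z (en V ρ) → Commute z (en V ρ') → Commute k z
  comm' : ∀ k ∈ K, ∀ z, Commute z (en V ρ + en V ρ') → Commute k z
  mul_comm : ∀ k ∈ K, ∀ k' ∈ K, k * k' = k' * k
  inv : ∀ k ∈ K, k ≠ 0 → ∃ k' ∈ K, k * k' = 1
  ent : ∀ g ∈ Jg ρ ρ', ∀ i j, Θ (en V g) i j ∈ K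
  tau : ∀ g ∈ Jg ρ ρ', en V g + en V g⁻¹ ∈ K
  sc : ∀ k ∈ K, Θ k = !![k, 0; 0, k]
  surj : ∀ a ∈ K, ∀ b ∈ K, ∀ c ∈ K, ∀ d ∈ K, a * d + b * c = 1 → ∃ g ∈ Jg ρ ρ', Θ (en V g) = !![a, b; c, d]
  frob : ∃ n, Odd n ∧ 8 ≤ Nat.card K ∧ ∀ k ∈ K, k ^ 2 ^ n = k
  sqrt : ∀ k ∈ K, ∃ m ∈ K, m * m = k
  no3 : ∀ k ∈ K, k * k + k + 1 ≠ 0
  ex : ∃ k ∈ K, k ≠ 0 ∧ k ≠ 1

omit [Finite L] [Finite V] in
theorem inv_eq_sq (h : orderOf ρ = 3) : ρ * ρ = ρ⁻¹ :=
  eq_inv_of_mul_eq_one_left (by rw [← pow_orderOf_eq_one ρ, h, pow_succ, pow_two])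

namespace Wk
variable (w : Wk L V)
include w

omit [Finite L] [Finite V] in
theorem nontrivial : Nontrivial (AddMonoid.End V) := by
  have := w.nt
  obtain ⟨v, hv⟩ := exists_ne (0 : V)
  exact ⟨1, 0, fun e => hv (DFunLike.congr_fun e v)⟩

theorem exists_Fm (hρ : orderOf ρ = 3) (ht : Inv t) (hi : t * ρ * t⁻¹ = ρ⁻¹) : ∃ Θ, Fm (en V ρ) (Nn V t) Θ := by
  refine Her.exists_Fm w.two_eq (w.rho hρ) (w.Nn_mul ht (self_mem_Qv t) (self_mem_Qv t)).1 ?_
  rw [← w.en_eq, ← map_mul, ← map_mul, ← w.rho hρ, ← map_mul, inv_eq_sq hρ, ← hi, ht.inv_eq]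

variable (f : Fm (en V ρ) (Nn V t) Θ)
include f

theorem inj_en {g g' : L} (e : Θ (en V g) = Θ (en V g')) : g = g' := w.en_inj (f.inj e)

theorem th_Nn (e : Θ (en V s) = !![1, x; 0, 1]) : Θ (Nn V s) = !![0, x; 0, 0] := by
  rw [Nn, map_add, map_one, e, Matrix.one_fin_two]
  ext i j
  fin_cases i <;> fin_cases j <;> simp [w.add_self]

theorem th_t : Θ (en V t) = !![1, 1; 0, 1] := by
  rw [w.en_eq, map_add, map_one, f.nn, Matrix.one_fin_two]
  ext i j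
  fin_cases i <;> fin_cases j <;> simp

theorem th_scal {z : L} (h1 : z * ρ = ρ * z) (h2 : z * t = t * z) : Θ (en V z) = !![en V z, 0; 0, en V z] :=
  f.sc _ (by rw [Commute, SemiconjBy, ← map_mul, h1, map_mul])
    (Commute.add_right (by rw [Commute, SemiconjBy, ← map_mul, h2, map_mul]) (Commute.one_right _))

/-- F1 -/
theorem mem_Qv_iff_u (ht : Inv t) : s ∈ Qv V t ↔ ∃ x, Θ (en V s) = !![1, x; 0, 1] := by
  constructor
  · intro hs
    have h1 := congrArg Θ (w.Nn_mul ht hs (self_mem_Qv t)).1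
    have h2 := congrArg Θ (w.Nn_mul ht (self_mem_Qv t) hs).1
    rw [map_mul, f.nn, map_zero, Matrix.eta_fin_two (Θ (Nn V s)), Matrix.mul_fin_two] at h1 h2
    have a1 : Θ (Nn V s) 0 0 = 0 := by simpa using congrFun (congrFun h1 0) 1
    have a2 : Θ (Nn V s) 1 0 = 0 := by simpa using congrFun (congrFun h1 1) 1
    have a3 : Θ (Nn V s) 1 1 = 0 := by simpa using congrFun (congrFun h2 0) 1
    refine ⟨Θ (Nn V s) 0 1, ?_⟩
    rw [w.en_eq, map_add, map_one]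
    ext i j
    fin_cases i <;> fin_cases j <;> simp [a1, a2, a3]
  · rintro ⟨x, e⟩
    refine (w.mem_Qv_iff_Nn ht).2 (f.inj ?_)
    rw [map_mul, w.th_Nn f e, f.nn, map_zero, Matrix.mul_fin_two]
    ext i j
    fin_cases i <;> fin_cases j <;> simp

omit w [Finite L] [Finite V] in
theorem th_x (e : Θ (en V s) = !![1, x; 0, 1]) : Θ x = !![x, 0; 0, x] ∧ Commute x (en V ρ) ∧ Commute x (Nn V t) := by
  have h1 := f.cr (en V s) 0 1
  have h2 := f.cn (en V s) 0 1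
  rw [e] at h1 h2
  exact ⟨f.sc _ h1 h2, h1, h2⟩

theorem Nn_eq (e : Θ (en V s) = !![1, x; 0, 1]) : Nn V s = x * Nn V t := by
  refine f.inj ?_
  rw [w.th_Nn f e, map_mul, (th_x f e).1, f.nn, Matrix.mul_fin_two]
  simp

theorem eq_one_iff (e : Θ (en V s) = !![1, x; 0, 1]) : s = 1 ↔ x = 0 := by
  constructor
  · rintro rfl
    rw [map_one, map_one, Matrix.one_fin_two, mat_eq] at e
    exact e.2.1.symm
  · rintro rfl
    exact w.inj_en f (by rw [e, map_one, map_one, Matrix.one_fin_two])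

theorem eq_t_iff (e : Θ (en V s) = !![1, x; 0, 1]) : s = t ↔ x = 1 := by
  constructor
  · rintro rfl
    rw [w.th_t f, mat_eq] at e
    exact e.2.1.symm
  · rintro rfl
    exact w.inj_en f (by rw [e, w.th_t f])

/-- F2 -/
theorem isUnit_x (ht : Inv t) (e : Θ (en V s) = !![1, x; 0, 1]) (h0 : x ≠ 0) : IsUnit x := by
  obtain ⟨-, h1, h2⟩ := th_x f e
  have hW := w.Wv_eq ht ((w.mem_Qv_iff_u f ht).2 ⟨x, e⟩) fun h => h0 ((w.eq_one_iff f e).1 h)
  have key : ∀ v, x v = 0 → Nn V t v = 0 := fun v hv => by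
    rw [← w.mem_Wv_iff, ← hW, w.mem_Wv_iff, w.Nn_eq f e, h2.eq, AddMonoid.End.coe_mul, Function.comp, hv, map_zero]
  have e1 : Nn V t * en V ρ + en V ρ * Nn V t + Nn V t = 1 := f.inj (by
    rw [map_add, map_add, map_mul, map_mul, f.rr, f.nn, map_one, Matrix.mul_fin_two, Matrix.mul_fin_two]
    ext i j
    fin_cases i <;> fin_cases j <;> simp [w.add_self])
  have hi : Function.Injective x := (injective_iff_map_eq_zero x).2 fun v hv => by
    have h3 : x (en V ρ v) = 0 := by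
      have := DFunLike.congr_fun h1.eq v
      rwa [AddMonoid.End.coe_mul, AddMonoid.End.coe_mul, Function.comp, Function.comp, hv, map_zero] at this
    have := DFunLike.congr_fun e1 v
    change Nn V t (en V ρ v) + en V ρ (Nn V t v) + Nn V t v = v at this
    rw [key _ h3, key _ hv, map_zero] at this
    simpa using this.symm
  let ε := AddEquiv.ofBijective x (Finite.injective_iff_bijective.1 hi)
  exact ⟨⟨x, ε.symm.toAddMonoidHom, AddMonoidHom.ext ε.apply_symm_apply, AddMonoidHom.ext ε.symm_apply_apply⟩, rfl⟩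

theorem th_conj (e : Θ (en V s) = !![1, x; 0, 1]) :
    Θ (en V s⁻¹) = !![1, x; 0, 1] ∧ Θ (en V (s * ρ * s⁻¹)) = !![x, x * x + x + 1; 1, x + 1] := by
  have h1 : s⁻¹ = s := inv_eq_of_mul_eq_one_right (w.inj_en f (by
    rw [map_mul, map_mul, e, Matrix.mul_fin_two, map_one, map_one, Matrix.one_fin_two]
    simp [w.add_self]))
  refine ⟨by rw [h1, e], ?_⟩
  rw [h1, map_mul, map_mul, map_mul, map_mul, e, f.rr, Matrix.mul_fin_two, Matrix.mul_fin_two, mat_eq]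
  exact ⟨by simp, by noncomm_ring, by simp, by simp⟩

/-- F4 -/
theorem pr_conj (hρ : orderOf ρ = 3) (e : Θ (en V s) = !![1, x; 0, 1]) (h0 : x ≠ 0) (h1 : x ≠ 1) :
    Pr ρ (s * ρ * s⁻¹) := by
  have h3 : orderOf (s * ρ * s⁻¹) = 3 := by rw [GT.orderOf_conj', hρ]
  refine ⟨hρ, h3, fun e1 => ?_⟩
  have h2 := (w.th_conj f e).2
  rcases mem_zpowers_three hρ (e1 ▸ mem_zpowers _ : s * ρ * s⁻¹ ∈ zpowers ρ) with e2 | e2 | e2
  · rw [e2, orderOf_one] at h3
    omega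
  · rw [e2, f.rr, mat_eq] at h2
    exact h0 h2.1.symm
  · rw [e2, ← inv_eq_sq hρ, map_mul, map_mul, f.rr, Matrix.mul_fin_two, mat_eq] at h2
    exact h1 (by simpa using h2.1.symm)

/-- F5 -/
theorem c_eq (e : Θ (en V s) = !![1, x; 0, 1]) :
    (en V ρ + en V (s * ρ * s⁻¹)) * (en V ρ + en V (s * ρ * s⁻¹)) = x * x := by
  have h2 := w.two_eq
  refine f.inj ?_
  rw [map_mul, map_add, (w.th_conj f e).2, f.rr, map_mul, (th_x f e).1, Matrix.mul_fin_two]
  ext i j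
  fin_cases i <;> fin_cases j <;> simp [Matrix.mul_apply, Fin.sum_univ_two] <;> noncomm_ring <;> simp [zs h2]

omit f in
/-- F3 -/
theorem eq_one_of_Qv (hρ : orderOf ρ = 3) (ht : Inv t) (hi : t * ρ * t⁻¹ = ρ⁻¹) {s : L}
    (hs : s ∈ Qv V t) (hc : s * ρ = ρ * s) : s = 1 := by
  obtain ⟨Θ, f⟩ := w.exists_Fm hρ ht hi
  obtain ⟨x, e⟩ := (w.mem_Qv_iff_u f ht).1 hs
  have := (w.th_conj f e).2
  rw [hc, mul_inv_cancel_right, f.rr, mat_eq] at this
  exact (w.eq_one_iff f e).2 this.1.symm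

end Wk

end Her
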