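import Cfsg.Agent.Lib.Her.SLc

/-!
# Lemma SL: two quadratic elements of order three generate `SL₂(K)`, when there is no `A₄`
-/

set_option autoImplicit false
set_option linter.unusedSectionVars false

namespace Her

open Cfsg GT FT GW Subgroup
open scoped Pointwise commutatorElement

universe u

variable {L V : Type u} [Group L] [Finite L] [AddCommGroup V] [Finite V] [DistribMulAction L V] {ρ ρ' t s g : L}
  {Θ : AddMonoid.End V →+* Matrix (Fin 2) (Fin 2) (AddMonoid.End V)}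

theorem NoA4.sub (hA : NoA4 L) (X : Subgroup L) : NoA4 X := fun ρ h3 E hE hn x hx =>
  Subtype.ext (hA ρ ((orderOf_coe ρ).trans h3) (E.map X.subtype) (hE.map _)
    (le_normalizer_map X.subtype ⟨ρ, hn, rfl⟩) x ⟨x, hx, rfl⟩)

theorem finite_End : Finite (AddMonoid.End V) := DFunLike.finite (V →+ V)

namespace Wk
variable (w : Wk L V) (f : Fm (en V ρ) (Nn V t) Θ)
include w f

theorem th_inv (hρ : orderOf ρ = 3) : Θ (en V ρ⁻¹) = !![1, 1; 1, 0] := by
  rw [w.rho_inv hρ, map_add, map_one, f.rr, Matrix.one_fin_two]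
  ext i j
  fin_cases i <;> fin_cases j <;> simp [w.add_self]

theorem inv_of_Fm (hρ : orderOf ρ = 3) : t * ρ * t⁻¹ = ρ⁻¹ :=
  w.inj_en f (by rw [(w.th_conj f (w.th_t f)).2, w.th_inv f hρ]; simp [w.add_self])

theorem th_w (hρ : orderOf ρ = 3) : Θ (en V (ρ * t)) = !![0, 1; 1, 0] ∧ Θ (en V (ρ * t)⁻¹) = !![0, 1; 1, 0] := by
  rw [mul_inv_rev, map_mul, map_mul, map_mul, map_mul, f.rr, w.th_t f, (w.th_conj f (w.th_t f)).1, w.th_inv f hρ]
  simp [w.add_self]

theorem sc_R (h : Pr ρ ρ') (htJ : t ∈ Jg ρ ρ') {r : AddMonoid.End V}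
    (hr : r ∈ Subring.closure {(en V ρ + en V ρ') * (en V ρ + en V ρ')}) : Θ r = !![r, 0; 0, r] :=
  f.sc _ (w.comm_R h hr (left_mem_Jg _ _)) ((w.comm_R h hr htJ).add_right (Commute.one_right _))

theorem ent_R (h : Pr ρ ρ') (htJ : t ∈ Jg ρ ρ') (hg : g ∈ Jg ρ ρ') :
    Θ (en V g⁻¹) = !![Θ (en V g) 1 1, Θ (en V g) 0 1; Θ (en V g) 1 0, Θ (en V g) 0 0] ∧
      ∀ i j, Θ (en V g) i j ∈ Subring.closure {(en V ρ + en V ρ') * (en V ρ + en V ρ')} := by
  have h2 := w.two_eq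
  have key : ∀ x ∈ Jg ρ ρ', ∃ r ∈ Subring.closure {(en V ρ + en V ρ') * (en V ρ + en V ρ')},
      Θ (en V g) * Θ (en V x) + Θ (en V x⁻¹) * Θ (en V g⁻¹) = !![r, 0; 0, r] := fun x hx =>
    ⟨_, w.tau_mem h (mul_mem hg hx), by
      rw [← w.sc_R f h htJ (w.tau_mem h (mul_mem hg hx)), mul_inv_rev, map_mul, map_mul, map_add, map_mul, map_mul]⟩
  have hρ := left_mem_Jg ρ ρ'
  obtain ⟨r0, m0, e0⟩ := key 1 (one_mem _)
  obtain ⟨r1, m1, e1⟩ := key t htJ
  obtain ⟨r2, m2, e2⟩ := key ρ hρ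
  obtain ⟨r3, m3, e3⟩ := key (ρ * t) (mul_mem hρ htJ)
  rw [inv_one, map_one, map_one, Matrix.one_fin_two] at e0
  rw [(w.th_conj f (w.th_t f)).1, w.th_t f] at e1
  rw [w.th_inv f h.l, f.rr] at e2
  rw [(w.th_w f h.l).1, (w.th_w f h.l).2] at e3
  generalize Subring.closure {(en V ρ + en V ρ') * (en V ρ + en V ρ')} = R at *
  generalize Θ (en V g) = A at *
  generalize Θ (en V g⁻¹) = B at *
  simp only [← Matrix.ext_iff, Fin.forall_fin_two, Matrix.add_apply, Matrix.mul_apply, Fin.sum_univ_two,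
    Matrix.of_apply, Matrix.cons_val', Matrix.cons_val_zero, Matrix.cons_val_one, Matrix.cons_val_fin_one,
    mul_one, one_mul, mul_zero, zero_mul, add_zero, zero_add] at *
  have a1 : B 0 1 = A 0 1 := by linear_combination (norm := (abel_nf; simp [zs h2])) e0.1.2
  have a2 : B 1 0 = A 1 0 := by linear_combination (norm := (abel_nf; simp [zs h2])) e0.2.1
  have a3 : B 1 1 = A 0 0 := by linear_combination (norm := (abel_nf; simp [zs h2])) e0.1.2 + e1.1.2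
  have a4 : B 0 0 = A 1 1 := by linear_combination (norm := (abel_nf; simp [zs h2])) e0.1.1 + e0.2.2 + a3
  have b1 : A 1 0 = r0 + r1 := by linear_combination (norm := (abel_nf; simp [zs h2])) e0.1.1 + e1.1.1 + a2
  have b2 : A 0 1 = r3 + (r0 + r1) := by
    linear_combination (norm := (abel_nf; simp [zs h2])) e3.1.1 + b1 + a2
  have b3 : A 1 1 = r2 + r3 := by
    linear_combination (norm := (abel_nf; simp [zs h2])) e2.1.1 + b1 + a2 + a4 + b2
  have b4 : A 0 0 = r0 + (r2 + r3) := by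
    linear_combination (norm := (abel_nf; simp [zs h2])) e0.1.1 + a4 + b3
  exact ⟨⟨⟨a4, a1⟩, a2, a3⟩, ⟨b4 ▸ add_mem m0 (add_mem m2 m3), b2 ▸ add_mem m3 (add_mem m0 m1)⟩,
    b1 ▸ add_mem m0 m1, b3 ▸ add_mem m2 m3⟩

theorem card_K_le (ht : Inv t) {K : Subring (AddMonoid.End V)} (s : SLd Θ ρ ρ' K) :
    Nat.card K ≤ Nat.card (Qv V t) := by
  choose g _ hg using fun k : K => s.surj 1 K.one_mem k k.2 0 K.zero_mem 1 K.one_mem (by simp)
  refine Nat.card_le_card_of_injective (fun k => ⟨g k, (w.mem_Qv_iff_u f ht).2 ⟨k, hg k⟩⟩) fun k k' e => ?_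
  have := hg k
  rw [show g k = g k' from congrArg Subtype.val e, hg k', mat_eq] at this
  exact Subtype.ext this.2.1.symm

omit f in
theorem sl (hA : NoA4 L) (h : Pr ρ ρ') (ht : Inv t) (htJ : t ∈ Jg ρ ρ') (f : Fm (en V ρ) (Nn V t) Θ) :
    ∃ K, SLd Θ ρ ρ' K := by
  let R := Subring.closure {(en V ρ + en V ρ') * (en V ρ + en V ρ')}
  have hR : ∀ x ∈ R, ∀ y ∈ R, Commute x y := fun x hx y hy =>
    comm_of_mem_closure (comm_of_mem_closure (Commute.refl _) hy).symm hx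
  let _ : CommRing R := { (inferInstance : Ring R) with mul_comm := fun a b => Subtype.ext (hR _ a.2 _ b.2) }
  have := w.nontrivial
  have : Finite (AddMonoid.End V) := finite_End
  let φ : Jg ρ ρ' →* Matrix (Fin 2) (Fin 2) R :=
    { toFun := fun g => Matrix.of fun i j => ⟨Θ (en V (g : L)) i j, (w.ent_R f h htJ g.2).2 i j⟩
      map_one' := by
        ext i j
        fin_cases i <;> fin_cases j <;> simp
      map_mul' := fun a b => by
        ext i j
        simp [Matrix.mul_apply] }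
  have hφ : ∀ g i j, (φ g i j : AddMonoid.End V) = Θ (en V (g : L)) i j := fun _ _ _ => rfl
  have hφ' : ∀ g (a b c d : R), φ g = !![a, b; c, d] ↔ Θ (en V (g : L)) = !![(a : AddMonoid.End V), b; c, d] := by
    intro g a b c d
    rw [Matrix.eta_fin_two (φ g), Matrix.eta_fin_two (Θ (en V (g : L))), mat_eq, mat_eq]
    simp only [Subtype.ext_iff, hφ]
  have hI : ∀ s : Jg ρ ρ', Inv s → Inv (s : L) := fun s i =>
    ⟨fun e => i.ne (Subtype.ext e), congrArg Subtype.val i.sq⟩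
  have S : SLh φ ⟨ρ, left_mem_Jg _ _⟩ ⟨ρ', right_mem_Jg _ _⟩ ⟨t, htJ⟩ :=
    { two := Subtype.ext w.two_eq
      red := fun x e => Subtype.ext (w.red hA h x.2 (congrArg Subtype.val e))
      inj := fun g g' e => Subtype.ext (w.inj_en f (Matrix.ext fun i j =>
        congrArg Subtype.val (congrFun (congrFun e i) j)))
      adj := fun g => (hφ' _ _ _ _ _).2 (w.ent_R f h htJ g.2).1
      rr := (hφ' _ _ _ _ _).2 f.rr
      tt := (hφ' _ _ _ _ _).2 (w.th_t f)
      cj := fun s i => let ⟨g, hg, e⟩ := w.cj hA h ht htJ (w.inv_of_Fm f h.l) (hI s i) s.2; ⟨⟨g, hg⟩, Subtype.ext e⟩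
      j3 := fun s i e => let ⟨v, hv, e1, e2⟩ := w.j3 hA h ht htJ (hI s i) s.2 fun e' => e (Subtype.ext e')
        ⟨⟨v, hv⟩, Subtype.ext e1, Subtype.ext e2⟩
      r3 := by
        rw [← map_mul]
        refine Matrix.ext fun i j => Subtype.ext ?_
        have := congrFun (congrFun (congrArg Θ (w.rho h.r)) i) j
        rw [← map_mul, map_add, map_one] at this
        refine this.trans ?_
        fin_cases i <;> fin_cases j <;> simp [hφ]
      nc := fun e => h.ne (w.oc.eq_of_comm h.l h.r (congrArg Subtype.val e))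
      no4 := hA.sub _ }
  have hK : ∀ k : R, k ∈ S.K → (k : AddMonoid.End V) ∈ S.K.map R.subtype := fun k hk => ⟨k, hk, rfl⟩
  have hE : ∀ g ∈ Jg ρ ρ', ∀ i j, Θ (en V g) i j ∈ S.K.map R.subtype := fun g hg i j => by
    obtain ⟨a, b, c, d⟩ := S.ent (im_self φ ⟨g, hg⟩)
    fin_cases i <;> fin_cases j
    exacts [hK _ a, hK _ b, hK _ c, hK _ d]
  refine ⟨S.K.map R.subtype, ?_, ?_, ?_, ?_, hE, fun g hg => ?_, ?_, ?_, ?_, ?_, ?_, ?_⟩
  · rintro _ ⟨k, -, rfl⟩ z h1 h2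
    exact comm_of_mem_closure ((h1.add_right h2).mul_right (h1.add_right h2)).symm k.2
  · rintro _ ⟨k, -, rfl⟩ z h1
    exact comm_of_mem_closure (h1.mul_right h1).symm k.2
  · rintro _ ⟨k, -, rfl⟩ _ ⟨k', -, rfl⟩
    exact hR _ k.2 _ k'.2
  · rintro _ ⟨k, hk, rfl⟩ h0
    obtain ⟨k', i, e⟩ := S.exists_inv hk fun e => h0 (congrArg Subtype.val e)
    exact ⟨k', hK _ i, congrArg Subtype.val e⟩
  · have := congrFun (congrFun (w.sc_R f h htJ (w.tau_mem h hg)) 0) 0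
    rw [map_add, Matrix.add_apply] at this
    exact (this.trans (by simp) : _ = en V g + en V g⁻¹) ▸ add_mem (hE g hg 0 0) (hE _ (inv_mem hg) 0 0)
  · rintro _ ⟨k, -, rfl⟩
    exact w.sc_R f h htJ k.2
  · rintro _ ⟨a, ha, rfl⟩ _ ⟨b, hb, rfl⟩ _ ⟨c, hc, rfl⟩ _ ⟨d, hd, rfl⟩ e
    obtain ⟨g, hg⟩ := S.surj ha hb hc hd (Subtype.ext e)
    exact ⟨g, g.2, (hφ' _ _ _ _ _).1 hg⟩
  · obtain ⟨n, h1, h2, h3⟩ := S.frob
    refine ⟨n, h1, h2.trans_eq (Nat.card_congr (S.K.equivMapOfInjective _ R.subtype_injective).toEquiv), ?_⟩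
    rintro _ ⟨k, hk, rfl⟩
    exact congrArg Subtype.val (h3 k hk)
  · rintro _ ⟨k, hk, rfl⟩
    obtain ⟨m, i, e⟩ := S.exists_sqrt hk
    exact ⟨m, hK _ i, congrArg Subtype.val e⟩
  · rintro _ ⟨k, hk, rfl⟩ e
    exact S.no_three hk (Subtype.ext e)
  · obtain ⟨k, hk, h0, h1⟩ := S.exists_ne
    exact ⟨k, hK _ hk, fun e => h0 (Subtype.ext e), fun e => h1 (Subtype.ext e)⟩

omit f in
theorem mem_Qv_of_comm (hA : NoA4 L) (h : Pr ρ ρ') (ht : Inv t) (htJ : t ∈ Jg ρ ρ')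
    (hi : t * ρ * t⁻¹ = ρ⁻¹) {s : L} (hs : s ∈ Jg ρ ρ') (hc : s * t = t * s) : s ∈ Qv V t := by
  have h2 := w.two_eq
  obtain ⟨Θ, f⟩ := w.exists_Fm h.l ht hi
  obtain ⟨h1, h3⟩ := w.ent_R f h htJ hs
  have e := congrArg (fun g => Θ (en V g)) hc
  have e' := congrArg (fun g => Θ (en V g)) (w.j2 hA h ht htJ hs hc)
  simp only [map_mul, map_one, w.th_t f] at e e'
  refine (w.mem_Qv_iff_u f ht).2 ⟨Θ (en V s) 0 1, ?_⟩
  have h4 := w.red hA h (add_mem (h3 0 0) (one_mem _))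
  generalize Θ (en V s) = A at *
  have a1 : A 1 0 = 0 := by simpa [Matrix.mul_apply] using congrFun (congrFun e 0) 0
  have a2 : A 0 0 = A 1 1 := by simpa [Matrix.mul_apply, add_comm (A 0 0)] using congrFun (congrFun e 0) 1
  have a3 : A 0 0 * A 0 0 = 1 := by simpa [Matrix.mul_apply, a1] using congrFun (congrFun e' 0) 0
  have a4 : A 0 0 = 1 := eq_of_add' h2 (h4 (by linear_combination (norm := (noncomm_ring; simp [zs h2])) a3))
  rw [Matrix.eta_fin_two A, a1, ← a2, a4]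
  simp

end Wk

end Her
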