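import Cfsg.Agent.Lib.Her.Am
import Cfsg.Agent.Lib.Her.Fin
import Cfsg.Agent.Lib.Her.A4
import Cfsg.Agent.Lib.Her.NoA4
import Cfsg.Agent.Lib.Her.Cross
import Cfsg.Agent.Lib.Her.A7
import Cfsg.Agent.Lib.Her.Red

/-!
# Assembly
-/

set_option autoImplicit false

namespace Her

open Cfsg GT FT GW Subgroup

universe u

theorem two_main (n : ℕ) : IH2.{u} n := by
  induction n with
  | zero => intro L V _ _ _ _ _ _ _ _ _ h; exact absurd h (Nat.not_lt_zero _)
  | succ n ih =>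
    intro L V _ _ _ _ _ _ ns oc h hn
    have w := h.wk oc
    have ih' : IH2.{u} (Nat.card V) := fun L' V' _ _ _ _ _ _ a b c d => ih L' V' a b c (by omega)
    by_cases hA : NoA4 L
    · obtain ⟨t, ht, h4, wc⟩ := Wk.noA4 h w ns (three_dvd h w ns) hA
      exact fin h w ns ih' ht h4 wc
    · obtain ⟨t, ht, h4, wc⟩ := w.a4 hA
      exact fin h w ns ih' ht h4 wc

theorem pk : Pk.{u} :=
  ⟨two_main, fun h tr hp _ _ _ _ _ T _ _ _ hF ho h3 e e' => h.cross tr hp T hF ho h3 e e',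
    fun h tr hp _ _ _ _ _ T e => h.not_a7 tr hp T e⟩

end Her
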